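import Cfsg.Prelude.Def_GeometricClasses

/-! Normalizers of matrix subfields of composite degree are not maximal. -/

set_option autoImplicit false
set_option linter.unusedSimpArgs false
set_option linter.unusedVariables false
set_option linter.unusedSectionVars false
set_option linter.style.haveILetI false
set_option maxRecDepth 100000

namespace CfsgLib.ClassMax.FieldNorm

open Matrix

variable {F : Type*} [Field F] [Fintype F] {n : ℕ}

abbrev MM (F : Type*) [Field F] (n : ℕ) := Matrix (Fin n) (Fin n) F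

/-- a field of matrices -/
structure FL (L : Subalgebra F (MM F n)) : Prop where
  comm : ∀ x ∈ L, ∀ y ∈ L, x * y = y * x
  inv : ∀ x ∈ L, x ≠ 0 → ∃ y ∈ L, x * y = 1

/-- The field structure of a field of matrices. -/
@[reducible] noncomputable def fld [NeZero n] (L : Subalgebra F (MM F n)) (h : FL L) : Field ↥L :=
  IsField.toField (R := ↥L)
    { exists_pair_ne := ⟨0, 1, by
        intro h0
        have : (0 : MM F n) = 1 := congrArg Subtype.val h0
        exact zero_ne_one this⟩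
      mul_comm := fun a b => Subtype.ext (h.comm a.1 a.2 b.1 b.2)
      mul_inv_cancel := by
        intro a ha
        obtain ⟨y, hy, hay⟩ := h.inv a.1 a.2 (fun h0 => ha (Subtype.ext h0))
        exact ⟨⟨y, hy⟩, Subtype.ext hay⟩ }

theorem FL.inv' {L : Subalgebra F (MM F n)} (h : FL L) (x : MM F n) (hx : x ∈ L) (hx0 : x ≠ 0) :
    ∃ y ∈ L, x * y = 1 ∧ y * x = 1 := by
  obtain ⟨y, hy, hxy⟩ := h.inv x hx hx0
  exact ⟨y, hy, hxy, by rw [h.comm y hy x hx, hxy]⟩

theorem key_abs [NeZero n] {K : Type*} [Field K] (ρ : K →+* MM F n) (hcF : ∀ c : F, ∃ e : K, ρ e = algebraMap F (MM F n) c)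
    (L' : Subalgebra F (MM F n)) (hL' : FL L') (hle : ∀ k, ρ k ∈ L')
    (u : MM F n) (hu : u ∈ L') (huL : ∀ k, u ≠ ρ k) (hcard : Nat.card L' < Nat.card (Fin n → F))
    {p : ℕ} [hp : Fact p.Prime] [CharP F p] :
    ∃ g : GL (Fin n) F, (∀ k, (g : MM F n) * ρ k = ρ k * g) ∧ g ∈ Cfsg.Geo.specialLinear (Fin n) F ∧
      g ∉ Cfsg.Geo.subalgebraNormalizer L' := by
  classical
  letI modL : Module K (Fin n → F) :=
    { smul := fun k v => ρ k *ᵥ v
      one_smul := fun v => by show ρ 1 *ᵥ v = v; rw [map_one, one_mulVec]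
      mul_smul := fun a b v => by
        show ρ (a * b) *ᵥ v = ρ a *ᵥ (ρ b *ᵥ v)
        rw [map_mul, mulVec_mulVec]
      smul_zero := fun a => mulVec_zero _
      smul_add := fun a v w => mulVec_add _ v w
      add_smul := fun a b v => by
        show ρ (a + b) *ᵥ v = ρ a *ᵥ v + ρ b *ᵥ v
        rw [map_add, add_mulVec]
      zero_smul := fun v => by show ρ 0 *ᵥ v = 0; rw [map_zero, zero_mulVec] }
  have hsm : ∀ (k : K) (v : Fin n → F), k • v = ρ k *ᵥ v := fun _ _ => rfl
  haveI : Nontrivial (Fin n → F) := by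
    apply Finite.one_lt_card_iff_nontrivial.mp
    exact lt_of_le_of_lt Nat.card_pos hcard
  obtain ⟨v₁, hv₁⟩ := exists_ne (0 : Fin n → F)
  obtain ⟨w, hw⟩ : ∃ w : Fin n → F, ∀ k ∈ L', k *ᵥ v₁ ≠ w := by
    by_contra hcon
    push Not at hcon
    have hs : Function.Surjective (fun k : L' => k.1 *ᵥ v₁) := by
      intro w
      obtain ⟨k, hk, hkw⟩ := hcon w
      exact ⟨⟨k, hk⟩, hkw⟩
    exact absurd (Nat.card_le_card_of_surjective _ hs) (not_le.mpr hcard)
  set x : Fin n → F := u *ᵥ v₁ with hxdef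
  have hx : x ∉ Submodule.span K {v₁, w} := by
    intro h
    obtain ⟨α, β, hab⟩ := Submodule.mem_span_pair.mp h
    rw [hsm, hsm] at hab
    by_cases hβ : β = 0
    · rw [hβ, map_zero, zero_mulVec, add_zero] at hab
      have hne : u - ρ α ≠ 0 := by
        intro he
        exact huL α (sub_eq_zero.mp he)
      obtain ⟨y, hy, _, hyx⟩ := hL'.inv' _ (L'.sub_mem hu (hle α)) hne
      apply hv₁
      have h1 : (u - ρ α) *ᵥ v₁ = 0 := by
        rw [sub_mulVec, hab, ← hxdef, sub_self]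
      have h2 := congrArg (fun t => y *ᵥ t) h1
      simp only [mulVec_mulVec, hyx, one_mulVec, mulVec_zero] at h2
      exact h2
    · have hββ : ρ β⁻¹ * ρ β = 1 := by
        rw [← map_mul, inv_mul_cancel₀ hβ, map_one]
      apply hw (ρ β⁻¹ * (u - ρ α)) (L'.mul_mem (hle _) (L'.sub_mem hu (hle α)))
      have h1 : (u - ρ α) *ᵥ v₁ = ρ β *ᵥ w := by
        rw [sub_mulVec, ← hxdef, ← hab, add_sub_cancel_left]
      rw [← mulVec_mulVec, h1, mulVec_mulVec, hββ, one_mulVec]
  obtain ⟨f, hfx, hfS⟩ := Submodule.exists_le_ker_of_notMem hx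
  let f' : (Fin n → F) →ₗ[K] K := (f x)⁻¹ • f
  have hf'x : f' x = 1 := by
    show (f x)⁻¹ • f x = 1
    rw [smul_eq_mul, inv_mul_cancel₀ hfx]
  have hf'0 : ∀ y ∈ Submodule.span K {v₁, w}, f' y = 0 := by
    intro y hy
    have : f y = 0 := hfS hy
    show (f x)⁻¹ • f y = 0
    rw [this, smul_zero]
  have hf'v : f' v₁ = 0 := hf'0 _ (Submodule.subset_span (by simp))
  have hf'w : f' w = 0 := hf'0 _ (Submodule.subset_span (by simp))
  have hf'k : ∀ (k : K) (y : Fin n → F), f' (ρ k *ᵥ y) = k * f' y := by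
    intro k y
    exact map_smul f' k y
  let ψ : (Fin n → F) →ₗ[F] (Fin n → F) :=
    { toFun := fun y => ρ (f' y) *ᵥ w
      map_add' := by
        intro a b
        rw [map_add, map_add]
        exact add_mulVec _ _ _
      map_smul' := by
        intro c y
        obtain ⟨e, he⟩ := hcF c
        have e1 : c • y = ρ e *ᵥ y := by
          rw [he, Algebra.algebraMap_eq_smul_one, smul_mulVec, one_mulVec]
        show ρ (f' (c • y)) *ᵥ w = c • (ρ (f' y) *ᵥ w)
        rw [e1, hf'k, map_mul, he, Algebra.algebraMap_eq_smul_one, Matrix.smul_mul, one_mul, smul_mulVec] }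
  let P : MM F n := LinearMap.toMatrix' ψ
  have hP : ∀ y, P *ᵥ y = ρ (f' y) *ᵥ w := fun y => LinearMap.toMatrix'_mulVec ψ y
  have hPk : ∀ k, P * ρ k = ρ k * P := by
    intro k
    rw [ext_iff_mulVec]
    intro y
    rw [← mulVec_mulVec, hP, hf'k k, map_mul, ← mulVec_mulVec, ← mulVec_mulVec, hP]
  have hPP : P * P = 0 := by
    rw [ext_iff_mulVec]
    intro y
    have h1 : ρ (f' y) *ᵥ w = (f' y) • w := rfl
    rw [← mulVec_mulVec, hP, hP, h1, map_smul, hf'w, smul_zero, map_zero, zero_mulVec]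
    exact (zero_mulVec y).symm
  have hinv1 : (1 + P) * (1 - P) = 1 := by
    have : (1 + P) * (1 - P) = 1 - P * P := by noncomm_ring
    rw [this, hPP, sub_zero]
  have hinv2 : (1 - P) * (1 + P) = 1 := by
    have : (1 - P) * (1 + P) = 1 - P * P := by noncomm_ring
    rw [this, hPP, sub_zero]
  let g : GL (Fin n) F := ⟨1 + P, 1 - P, hinv1, hinv2⟩
  have hgval : (g : MM F n) = 1 + P := rfl
  have hgivl : ((g⁻¹ : GL (Fin n) F) : MM F n) = 1 - P := rfl
  refine ⟨g, ?_, ?_, ?_⟩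
  · intro k
    rw [hgval, add_mul, mul_add, one_mul, mul_one, hPk k]
  · -- determinant
    have hpow : ∀ m : ℕ, (1 + P) ^ m = 1 + (m : F) • P := by
      intro m
      induction m with
      | zero => simp
      | succ m ih =>
        rw [pow_succ, ih]
        have : (1 + (m : F) • P) * (1 + P) = 1 + P + (m : F) • P + (m : F) • (P * P) := by
          rw [add_mul, mul_add, mul_add, one_mul, one_mul, mul_one, Matrix.smul_mul]
          abel
        rw [this, hPP, smul_zero, add_zero]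
        push_cast
        rw [add_smul, one_smul]
        abel
    have hp0 : ((p : ℕ) : F) = 0 := CharP.cast_eq_zero F p
    have hgp : (1 + P) ^ p = 1 := by
      rw [hpow, hp0, zero_smul, add_zero]
    have hdet : ((1 + P).det) ^ p = 1 := by
      rw [← Matrix.det_pow, hgp, Matrix.det_one]
    have hd1 : (1 + P).det = 1 := by
      have h1 : ((1 + P).det - 1) ^ p = 0 := by
        rw [sub_pow_char, hdet, one_pow, sub_self]
      have h2 := pow_eq_zero_iff (hp.out.ne_zero) |>.mp h1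
      exact sub_eq_zero.mp h2
    show Matrix.GeneralLinearGroup.det g = 1
    apply Units.ext
    exact hd1
  · intro hN
    have hu' : (g : MM F n) * u * ((g⁻¹ : GL (Fin n) F) : MM F n) ∈ L' := (hN u).mp hu
    apply hw _ (L'.sub_mem hu' hu)
    rw [sub_mulVec, ← mulVec_mulVec, ← mulVec_mulVec, hgval, hgivl, sub_mulVec, one_mulVec, hP, hf'v, map_zero,
      zero_mulVec, sub_zero, ← hxdef, add_mulVec, one_mulVec, hP, hf'x, map_one, one_mulVec, add_sub_cancel_left]

theorem key [NeZero n] (L L' : Subalgebra F (MM F n)) (hL : FL L) (hL' : FL L') (hle : L ≤ L')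
    (u : MM F n) (hu : u ∈ L') (huL : u ∉ L) (hcard : Nat.card L' < Nat.card (Fin n → F))
    {p : ℕ} [hp : Fact p.Prime] [CharP F p] :
    ∃ g : GL (Fin n) F, (∀ k ∈ L, (g : MM F n) * k = k * g) ∧ g ∈ Cfsg.Geo.specialLinear (Fin n) F ∧
      g ∉ Cfsg.Geo.subalgebraNormalizer L' := by
  letI : Field ↥L := fld L hL
  let ρ : ↥L →+* MM F n :=
    { toFun := Subtype.val
      map_one' := rfl
      map_mul' := fun _ _ => rfl
      map_zero' := rfl
      map_add' := fun _ _ => rfl }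
  obtain ⟨g, h1, h2, h3⟩ := key_abs (K := ↥L) ρ (fun c => ⟨⟨_, L.algebraMap_mem c⟩, rfl⟩) L' hL'
    (fun k => hle k.2) u hu (fun k h => huL (h ▸ k.2)) hcard
  exact ⟨g, fun k hk => h1 ⟨k, hk⟩, h2, h3⟩

theorem FL_bot [NeZero n] : FL (⊥ : Subalgebra F (MM F n)) where
  comm := by
    rintro x hx y hy
    obtain ⟨c, rfl⟩ := Algebra.mem_bot.mp hx
    exact (Algebra.commutes c y)
  inv := by
    rintro x hx hx0
    obtain ⟨c, rfl⟩ := Algebra.mem_bot.mp hx
    have hc : c ≠ 0 := by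
      rintro rfl
      exact hx0 (map_zero _)
    refine ⟨algebraMap F _ c⁻¹, Algebra.mem_bot.mpr ⟨_, rfl⟩, ?_⟩
    show algebraMap F (MM F n) c * algebraMap F (MM F n) c⁻¹ = 1
    rw [← map_mul, mul_inv_cancel₀ hc, map_one]

/-- The fixed subfield of the `Q`-power map. -/
def subS [NeZero n] (K : Subalgebra F (MM F n)) (hK : FL K) (p m : ℕ) [Fact p.Prime] [CharP F p]
    (hQ : ∀ c : F, c ^ (p ^ m) = c) : Subalgebra F (MM F n) where
  carrier := {x | x ∈ K ∧ x ^ (p ^ m) = x}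
  mul_mem' := by
    rintro a b ⟨ha, ha'⟩ ⟨hb, hb'⟩
    refine ⟨K.mul_mem ha hb, ?_⟩
    rw [(show Commute a b from hK.comm a ha b hb).mul_pow, ha', hb']
  add_mem' := by
    rintro a b ⟨ha, ha'⟩ ⟨hb, hb'⟩
    refine ⟨K.add_mem ha hb, ?_⟩
    rw [add_pow_char_pow_of_commute p m (show Commute a b from hK.comm a ha b hb), ha', hb']
  algebraMap_mem' := by
    intro c
    refine ⟨K.algebraMap_mem c, ?_⟩
    rw [← map_pow, hQ]

theorem mem_subS [NeZero n] (K : Subalgebra F (MM F n)) (hK : FL K) (p m : ℕ) [Fact p.Prime] [CharP F p]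
    (hQ : ∀ c : F, c ^ (p ^ m) = c) (x : MM F n) : x ∈ subS K hK p m hQ ↔ x ∈ K ∧ x ^ (p ^ m) = x := Iff.rfl

theorem FL_subS [NeZero n] (K : Subalgebra F (MM F n)) (hK : FL K) (p m : ℕ) [Fact p.Prime] [CharP F p]
    (hQ : ∀ c : F, c ^ (p ^ m) = c) : FL (subS K hK p m hQ) where
  comm := fun x hx y hy => hK.comm x hx.1 y hy.1
  inv := by
    rintro x ⟨hx, hx'⟩ hx0
    obtain ⟨y, hy, hxy, hyx⟩ := hK.inv' x hx hx0
    refine ⟨y, ⟨hy, ?_⟩, hxy⟩
    have h1 : x * y ^ (p ^ m) = 1 := by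
      nth_rw 1 [← hx']
      rw [← (show Commute x y from hK.comm x hx y hy).mul_pow, hxy, one_pow]
    calc y ^ (p ^ m) = (y * x) * y ^ (p ^ m) := by rw [hyx, one_mul]
      _ = y * (x * y ^ (p ^ m)) := mul_assoc _ _ _
      _ = y := by rw [h1, mul_one]

theorem exists_gen [NeZero n] (K : Subalgebra F (MM F n)) (hK : FL K) :
    ∃ z ∈ K, orderOf z = Nat.card K - 1 := by
  classical
  letI : Field ↥K := fld K hK
  haveI : Finite ↥K := inferInstance
  obtain ⟨ζ, hζ⟩ := IsCyclic.exists_generator (α := (↥K)ˣ)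
  have hord : orderOf ζ = Nat.card K - 1 := by
    rw [orderOf_eq_card_of_forall_mem_zpowers hζ, Nat.card_units]
  let ψ : (↥K)ˣ →* MM F n :=
    { toFun := fun a => ((a : ↥K) : MM F n)
      map_one' := rfl
      map_mul' := fun _ _ => rfl }
  have hψ : Function.Injective ψ := by
    intro a b h
    apply Units.ext
    apply Subtype.ext
    exact h
  refine ⟨ψ ζ, (ζ : ↥K).2, ?_⟩
  rw [orderOf_injective ψ hψ, hord]

/-- Cancellation of powers. -/
theorem pow_cancel {x y : MM F n} (hxy : x * y = 1) {a b : ℕ} (hab : b ≤ a) (h : x ^ a = x ^ b) : x ^ (a - b) = 1 := by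
  let u : (MM F n)ˣ := ⟨x, y, hxy, mul_eq_one_comm.mp hxy⟩
  have h1 : u ^ a = u ^ b := by
    apply Units.ext
    simpa [u] using h
  have h2 : u ^ (a - b) = 1 := by
    rw [pow_sub u hab, h1, mul_inv_cancel]
  have h3 := congrArg Units.val h2
  simpa [u] using h3

theorem norm_of_comm (L : Subalgebra F (MM F n)) (g : GL (Fin n) F) (hg : ∀ k ∈ L, (g : MM F n) * k = k * g) :
    g ∈ Cfsg.Geo.subalgebraNormalizer L := by
  intro k
  have h1 : (g : MM F n) * ((g⁻¹ : GL (Fin n) F) : MM F n) = 1 := by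
    rw [← Units.val_mul, mul_inv_cancel]; rfl
  have h2 : ((g⁻¹ : GL (Fin n) F) : MM F n) * (g : MM F n) = 1 := by
    rw [← Units.val_mul, inv_mul_cancel]; rfl
  constructor
  · intro hk
    rw [hg k hk, mul_assoc, h1, mul_one]
    exact hk
  · intro hk
    set k' := (g : MM F n) * k * ((g⁻¹ : GL (Fin n) F) : MM F n) with hk'
    have h3 : k = k' := by
      have h4 := hg k' hk
      have h5 : k = ((g⁻¹ : GL (Fin n) F) : MM F n) * k' * (g : MM F n) := by
        rw [hk']
        calc k = (((g⁻¹ : GL (Fin n) F) : MM F n) * (g : MM F n)) * k * (((g⁻¹ : GL (Fin n) F) : MM F n) * (g : MM F n)) := by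
              rw [h2, one_mul, mul_one]
          _ = _ := by simp only [mul_assoc]
      rw [h5, mul_assoc, ← h4, ← mul_assoc, h2, one_mul]
    rw [h3]
    exact hk

theorem main (n r : ℕ) (hr1 : 1 < r) (hrp : ¬ r.Prime) (hrn : r ∣ n) (hlt : r < n)
    (K : Subalgebra F (Matrix (Fin n) (Fin n) F)) (hK : Cfsg.Geo.IsFieldSubalgebra r K) :
    ¬ IsCoatom (Cfsg.Geo.subalgebraNormalizer K) ∧
      ¬ Cfsg.Geo.IsMaximalIn (Cfsg.Geo.specialLinear (Fin n) F)
        (Cfsg.Geo.subalgebraNormalizer K ⊓ Cfsg.Geo.specialLinear (Fin n) F) := by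
  classical
  haveI : NeZero n := ⟨by omega⟩
  obtain ⟨p, hpc⟩ := CharP.exists F
  haveI : Fact p.Prime := ⟨CharP.char_is_prime F p⟩
  have hp : p.Prime := Fact.out
  have hFL : FL K := ⟨hK.comm, hK.inv⟩
  obtain ⟨f, hfpos, hq⟩ := FiniteField.card F p
  set q := Fintype.card F with hqdef
  have hq2 : 2 ≤ q := Fintype.one_lt_card
  have hcardK : Nat.card K = q ^ r := by
    haveI : Fintype K := Fintype.ofFinite _
    rw [Nat.card_eq_fintype_card, Module.card_eq_pow_finrank (K := F) (V := ↥K), hK.finrank_eq]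
  have hcardV : Nat.card (Fin n → F) = q ^ n := by
    rw [Nat.card_eq_fintype_card, Fintype.card_fun, Fintype.card_fin]
  have hKV : Nat.card K < Nat.card (Fin n → F) := by
    rw [hcardK, hcardV]
    exact Nat.pow_lt_pow_right (by omega) hlt
  -- the prime divisor
  set s := r.minFac with hs
  have hsp : s.Prime := Nat.minFac_prime (by omega)
  have hsr : s ∣ r := Nat.minFac_dvd r
  have hsne : s ≠ r := fun h => hrp (h ▸ hsp)
  have hslt : s < r := lt_of_le_of_ne (Nat.le_of_dvd (by omega) hsr) hsne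
  have hs2 : 2 ≤ s := hsp.two_le
  have hQeq : q ^ s = p ^ (f * s) := by
    rw [hq, ← pow_mul]
  have hQF : ∀ c : F, c ^ (p ^ (f * s)) = c := by
    intro c
    rw [← hQeq]
    exact FiniteField.pow_card_pow s c
  let K₀ := subS K hFL p (f * s) hQF
  have hFL₀ : FL K₀ := FL_subS K hFL p (f * s) hQF
  have hmem₀ : ∀ x, x ∈ K₀ ↔ x ∈ K ∧ x ^ (q ^ s) = x := by
    intro x
    rw [hQeq]
    exact Iff.rfl
  have hK₀K : K₀ ≤ K := fun x hx => hx.1
  -- generator
  obtain ⟨z, hzK, hzord⟩ := exists_gen K hFL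
  rw [hcardK] at hzord
  have hQ1 : q ^ s < q ^ r := Nat.pow_lt_pow_right (by omega) hslt
  have hqs : q < q ^ s := by
    calc q = q ^ 1 := (pow_one q).symm
      _ < q ^ s := Nat.pow_lt_pow_right (by omega) (by omega)
  have hz0 : z ≠ 0 := by
    rintro rfl
    have hpos : 0 < q ^ r - 1 := by omega
    have h1 : (0 : MM F n) ^ (q ^ r - 1) = 1 := by
      rw [← hzord]
      exact pow_orderOf_eq_one _
    rw [zero_pow (by omega)] at h1
    exact zero_ne_one h1
  obtain ⟨y, hy, hzy, hyz⟩ := hFL.inv' z hzK hz0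
  have hzdvd : ∀ m : ℕ, z ^ m = 1 → (q ^ r - 1) ∣ m := by
    intro m hm
    rw [← hzord]
    exact orderOf_dvd_of_pow_eq_one hm
  have hu : z ∉ K₀ := by
    intro h
    have h1 := ((hmem₀ z).mp h).2
    have h2 : z ^ (q ^ s) = z ^ 1 := by rw [h1, pow_one]
    have h3 := pow_cancel hzy (by omega) h2
    have h4 := Nat.le_of_dvd (by omega) (hzdvd _ h3)
    omega
  obtain ⟨t, ht⟩ := hsr
  have hdvd : q ^ s - 1 ∣ q ^ r - 1 := by
    rw [ht, pow_mul]
    have := Nat.sub_dvd_pow_sub_pow (q ^ s) 1 t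
    simpa using this
  obtain ⟨A, hA⟩ := hdvd
  have hApos : 0 < A := by
    rcases Nat.eq_zero_or_pos A with h | h
    · rw [h, mul_zero] at hA
      omega
    · exact h
  set u₀ := z ^ A with hu₀
  have hu₀Q : u₀ ^ (q ^ s) = u₀ := by
    have h1 : u₀ ^ (q ^ s - 1) = 1 := by
      rw [hu₀, ← pow_mul, mul_comm, ← hA]
      rw [← hzord]
      exact pow_orderOf_eq_one _
    have h2 : q ^ s = (q ^ s - 1) + 1 := by omega
    rw [h2, pow_succ, h1, one_mul]
  have hu₀K : u₀ ∈ K := K.pow_mem hzK A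
  have hu₀₀ : u₀ ∈ K₀ := (hmem₀ _).mpr ⟨hu₀K, hu₀Q⟩
  have hu₀b : u₀ ∉ (⊥ : Subalgebra F (MM F n)) := by
    intro h
    obtain ⟨c, hc⟩ := Algebra.mem_bot.mp h
    have h1 : u₀ ^ q = u₀ := by
      rw [← hc, ← map_pow, FiniteField.pow_card]
    have h2 : z ^ (A * q) = z ^ A := by
      rw [pow_mul, ← hu₀, h1]
    have hle : A ≤ A * q := Nat.le_mul_of_pos_right _ (by omega)
    have h3 := pow_cancel hzy hle h2
    have h4 := hzdvd _ h3
    rw [hA, show A * q - A = A * (q - 1) by rw [Nat.mul_sub, mul_one]] at h4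
    rw [mul_comm (q ^ s - 1) A] at h4
    have h5 : q ^ s - 1 ∣ q - 1 := Nat.dvd_of_mul_dvd_mul_left hApos h4
    have h6 := Nat.le_of_dvd (by omega) h5
    omega
  -- the two elements
  obtain ⟨g₁, h1a, h1b, h1c⟩ := key K₀ K hFL₀ hFL hK₀K z hzK hu hKV (p := p)
  have hK₀V : Nat.card K₀ < Nat.card (Fin n → F) := by
    refine lt_of_le_of_lt ?_ hKV
    exact Nat.card_le_card_of_injective (fun x : K₀ => (⟨x.1, x.2.1⟩ : K))
      (fun a b h => Subtype.ext (congrArg (fun w : K => (w : MM F n)) h))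
  obtain ⟨g₂, -, h2b, h2c⟩ := key ⊥ K₀ FL_bot hFL₀ bot_le u₀ hu₀₀ hu₀b hK₀V (p := p)
  -- inclusion of normalizers
  have hNN : Cfsg.Geo.subalgebraNormalizer K ≤ Cfsg.Geo.subalgebraNormalizer K₀ := by
    intro g hg k
    have h1 : (g : MM F n) * ((g⁻¹ : GL (Fin n) F) : MM F n) = 1 := by
      rw [← Units.val_mul, mul_inv_cancel]; rfl
    have h2 : ((g⁻¹ : GL (Fin n) F) : MM F n) * (g : MM F n) = 1 := by
      rw [← Units.val_mul, inv_mul_cancel]; rfl
    have hpow : ((g : MM F n) * k * ((g⁻¹ : GL (Fin n) F) : MM F n)) ^ (q ^ (s)) =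
        (g : MM F n) * k ^ (q ^ s) * ((g⁻¹ : GL (Fin n) F) : MM F n) := by
      have : ∀ m : ℕ, ((g : MM F n) * k * ((g⁻¹ : GL (Fin n) F) : MM F n)) ^ m =
          (g : MM F n) * k ^ m * ((g⁻¹ : GL (Fin n) F) : MM F n) := by
        intro m
        induction m with
        | zero => simpa using h1.symm
        | succ m ih =>
          rw [pow_succ, ih, pow_succ]
          calc (g : MM F n) * k ^ m * ((g⁻¹ : GL (Fin n) F) : MM F n) * ((g : MM F n) * k * ((g⁻¹ : GL (Fin n) F) : MM F n))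
              = (g : MM F n) * k ^ m * (((g⁻¹ : GL (Fin n) F) : MM F n) * (g : MM F n)) * k * ((g⁻¹ : GL (Fin n) F) : MM F n) := by
                simp only [mul_assoc]
            _ = _ := by rw [h2, mul_one]; simp only [mul_assoc]
      exact this _
    rw [hmem₀, hmem₀, ← hg k, hpow]
    constructor
    · rintro ⟨hk, hkq⟩
      exact ⟨hk, by rw [hkq]⟩
    · rintro ⟨hk, hkq⟩
      refine ⟨hk, ?_⟩
      have e := congrArg (fun m => ((g⁻¹ : GL (Fin n) F) : MM F n) * m * (g : MM F n)) hkq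
      have simp1 : ∀ m : MM F n, ((g⁻¹ : GL (Fin n) F) : MM F n) * ((g : MM F n) * m * ((g⁻¹ : GL (Fin n) F) : MM F n)) * (g : MM F n) = m := by
        intro m
        calc _ = (((g⁻¹ : GL (Fin n) F) : MM F n) * (g : MM F n)) * m * (((g⁻¹ : GL (Fin n) F) : MM F n) * (g : MM F n)) := by
              simp only [mul_assoc]
          _ = m := by rw [h2, one_mul, mul_one]
      simp only [simp1] at e
      exact e
  have hg₁N : g₁ ∈ Cfsg.Geo.subalgebraNormalizer K₀ := norm_of_comm K₀ g₁ h1a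
  constructor
  · intro hco
    have hlt : Cfsg.Geo.subalgebraNormalizer K < Cfsg.Geo.subalgebraNormalizer K₀ :=
      lt_of_le_of_ne hNN (fun h => h1c (h ▸ hg₁N))
    have htop := hco.2 _ hlt
    apply h2c
    rw [htop]
    exact Subgroup.mem_top _
  · intro hmax
    rcases hmax.2 (Cfsg.Geo.subalgebraNormalizer K₀ ⊓ Cfsg.Geo.specialLinear (Fin n) F)
      (inf_le_inf_right _ hNN) inf_le_right with h | h
    · have : g₁ ∈ Cfsg.Geo.subalgebraNormalizer K ⊓ Cfsg.Geo.specialLinear (Fin n) F := by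
        rw [← h]
        exact ⟨hg₁N, h1b⟩
      exact h1c this.1
    · have : g₂ ∈ Cfsg.Geo.subalgebraNormalizer K₀ ⊓ Cfsg.Geo.specialLinear (Fin n) F := by
        rw [h]
        exact h2b
      exact h2c this.1

end CfsgLib.ClassMax.FieldNorm
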