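import Mathlib

/-! Subgroups of index `n` of the symmetric group of degree `n ≠ 6`. -/

set_option autoImplicit false
set_option linter.unusedSimpArgs false
set_option linter.unusedVariables false
set_option linter.unusedSectionVars false
set_option linter.style.haveILetI false

namespace CfsgLib.ClassMax.IndexN

open Equiv Equiv.Perm MulAction

section swaps

variable {Y : Type*} [Fintype Y] [DecidableEq Y]

theorem swap_conj' (σ : Perm Y) (a b : Y) : σ * swap a b * σ⁻¹ = swap (σ a) (σ b) := by
  rw [mul_swap_eq_swap_mul, mul_inv_cancel_right]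

theorem swap_mul_swap_order (a b c d : Y) (hab : a ≠ b) (hcd : c ≠ d) :
    swap a b * swap c d = 1 ∨ (swap a b * swap c d) ^ 2 = 1 ∨ (swap a b * swap c d) ^ 3 = 1 := by
  have three : ∀ p q r : Y, p ≠ q → p ≠ r → q ≠ r → (swap p q * swap p r) ^ 3 = 1 := by
    intro p q r h1 h2 h3
    have h4 := isThreeCycle_swap_mul_swap_same h1 h2 h3
    rw [← h4.orderOf]
    exact pow_orderOf_eq_one _
  by_cases hac : a = c
  · subst hac
    by_cases hbd : b = d
    · subst hbd
      left
      exact swap_mul_self a b
    · right; right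
      exact three a b d hab hcd hbd
  by_cases had : a = d
  · subst had
    by_cases hbc : b = c
    · subst hbc
      left
      rw [swap_comm b a]
      exact swap_mul_self a b
    · right; right
      rw [swap_comm c a]
      exact three a b c hab hac hbc
  by_cases hbc : b = c
  · subst hbc
    right; right
    rw [swap_comm a b]
    exact three b a d (Ne.symm hab) hcd had
  by_cases hbd : b = d
  · subst hbd
    right; right
    rw [swap_comm a b, swap_comm c b]
    exact three b a c (Ne.symm hab) (Ne.symm hcd) hac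
  right; left
  have hcomm : swap a b * swap c d = swap c d * swap a b := by
    ext x
    simp only [mul_apply, swap_apply_def]
    split_ifs <;> simp_all
  rw [pow_two]
  calc swap a b * swap c d * (swap a b * swap c d) = swap a b * swap c d * (swap c d * swap a b) := by rw [hcomm]
    _ = 1 := by
      rw [mul_assoc, ← mul_assoc (swap c d), swap_mul_self, one_mul, swap_mul_self]

/-- An involution all of whose conjugate products have small order is a transposition. -/
theorem isSwap_of_prop (h5 : 5 ≤ Fintype.card Y) (h6 : Fintype.card Y ≠ 6) (t : Perm Y) (ht2 : t ^ 2 = 1) (ht1 : t ≠ 1)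
    (hprop : ∀ σ : Perm Y, t * (σ * t * σ⁻¹) = 1 ∨ (t * (σ * t * σ⁻¹)) ^ 2 = 1 ∨ (t * (σ * t * σ⁻¹)) ^ 3 = 1) : IsSwap t := by
  classical
  have htt : ∀ x, t (t x) = x := by
    intro x
    have := congrArg (fun g : Perm Y => g x) ht2
    simpa [pow_two] using this
  obtain ⟨a, ha⟩ : ∃ a, t a ≠ a := by
    by_contra h
    push Not at h
    exact ht1 (Equiv.ext h)
  set b := t a with hb
  have htb : t b = a := htt a
  -- a second pair
  by_contra hns
  obtain ⟨c, hca, hcb, hc⟩ : ∃ c, c ≠ a ∧ c ≠ b ∧ t c ≠ c := by
    by_contra h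
    push Not at h
    apply hns
    refine ⟨a, b, Ne.symm ha, ?_⟩
    ext x
    by_cases hxa : x = a
    · subst hxa
      simp [hb]
    by_cases hxb : x = b
    · rw [hxb, htb, swap_apply_right]
    · rw [h x hxa hxb, swap_apply_of_ne_of_ne hxa hxb]
  set d := t c with hd
  have htd : t d = c := htt c
  have hda : d ≠ a := by
    intro e
    apply hcb
    rw [← htd, e]
  have hdb : d ≠ b := by
    intro e
    apply hca
    rw [← htd, e, htb]
  -- small order is violated if some power moves `a`
  have hviol : ∀ σ : Perm Y, ∀ p q r : Y, (t * (σ * t * σ⁻¹)) a = p → (t * (σ * t * σ⁻¹)) p = q → (t * (σ * t * σ⁻¹)) q = r → p ≠ a → q ≠ a → r ≠ a → False := by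
    intro σ p q r h1 h2 h3 hp hq hr
    rcases hprop σ with h | h | h
    · apply hp
      rw [← h1, h]
      rfl
    · apply hq
      have := congrArg (fun g : Perm Y => g a) h
      simp only [pow_two, mul_apply] at this
      rw [← h2, ← h1]
      simpa using this
    · apply hr
      have := congrArg (fun g : Perm Y => g a) h
      simp only [pow_succ, pow_zero, one_mul, mul_apply] at this
      rw [← h3, ← h2, ← h1]
      simpa using this
  by_cases hfix : ∃ e, t e = e
  · obtain ⟨e, he⟩ := hfix
    have hea : e ≠ a := by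
      rintro rfl
      exact ha he
    have heb : e ≠ b := by
      rintro rfl
      apply ha
      rw [← htb]
      simp [he, htb]
    have hec : e ≠ c := by
      rintro rfl
      exact hc he
    have hed : e ≠ d := by
      rintro rfl
      apply hc
      rw [← htd]
      simp [he, htd]
    have hab : a ≠ b := Ne.symm ha
    have hcd : c ≠ d := Ne.symm hc
    -- the five cycle
    let σ : Perm Y := swap a b * swap b c * swap c d * swap d e
    have s_e : σ e = a := by
      simp only [σ, mul_apply, swap_apply_def]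
      grind
    have s_a : σ a = b := by
      simp only [σ, mul_apply, swap_apply_def]
      grind
    have s_b : σ b = c := by
      simp only [σ, mul_apply, swap_apply_def]
      grind
    have s_c : σ c = d := by
      simp only [σ, mul_apply, swap_apply_def]
      grind
    have s_d : σ d = e := by
      simp only [σ, mul_apply, swap_apply_def]
      grind
    have i_a : σ⁻¹ a = e := by rw [Perm.inv_eq_iff_eq, s_e]
    have i_b : σ⁻¹ b = a := by rw [Perm.inv_eq_iff_eq, s_a]
    have i_d : σ⁻¹ d = c := by rw [Perm.inv_eq_iff_eq, s_c]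
    apply hviol σ b d e
    · simp only [mul_apply, i_a, he, s_e]
      exact hb.symm
    · simp only [mul_apply, i_b, ← hb, s_b, ← hd]
    · simp only [mul_apply, i_d, ← hd, s_d, he]
    · exact Ne.symm hab
    · exact hda
    · exact hea
  · push Not at hfix
    -- a third and fourth pair
    have hsub : ∀ s : Finset Y, s.card < Fintype.card Y → ∃ x, x ∉ s := by
      intro s hs
      by_contra h
      push Not at h
      have : s = Finset.univ := Finset.eq_univ_iff_forall.2 h
      rw [this, Finset.card_univ] at hs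
      omega
    obtain ⟨e, he⟩ := hsub {a, b, c, d} (by
      have := Finset.card_le_four (a := a) (b := b) (c := c) (d := d)
      omega)
    simp only [Finset.mem_insert, Finset.mem_singleton, not_or] at he
    obtain ⟨hea', heb', hec', hed'⟩ := he
    have hea : e ≠ a := hea'
    have heb : e ≠ b := heb'
    have hec : e ≠ c := hec'
    have hed : e ≠ d := hed'
    set f := t e with hf
    have htf : t f = e := htt e
    have hfe : f ≠ e := hfix e
    have hfa : f ≠ a := by
      intro h
      apply heb
      rw [← htf, h]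
    have hfb : f ≠ b := by
      intro h
      apply hea
      rw [← htf, h, htb]
    have hfc : f ≠ c := by
      intro h
      apply hed
      rw [← htf, h]
    have hfd : f ≠ d := by
      intro h
      apply hec
      rw [← htf, h, htd]
    have hab : a ≠ b := Ne.symm ha
    have hcd : c ≠ d := Ne.symm hc
    have h7 : 6 < Fintype.card Y := by
      by_contra h
      have h8 : Fintype.card Y = 5 := by omega
      have h9 : ({a, b, c, d, e, f} : Finset Y).card ≤ Fintype.card Y := Finset.card_le_univ _
      have h10 : ({a, b, c, d, e, f} : Finset Y).card = 6 := by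
        rw [Finset.card_insert_of_notMem, Finset.card_insert_of_notMem, Finset.card_insert_of_notMem, Finset.card_insert_of_notMem, Finset.card_insert_of_notMem, Finset.card_singleton]
        · simpa using hfe.symm
        · simp [hed.symm, hfd.symm]
        · simp [hcd, hec.symm, hfc.symm]
        · simp [hcb.symm, hdb.symm, heb.symm, hfb.symm]
        · simp [hab, hca.symm, hda.symm, hea.symm, hfa.symm]
      omega
    obtain ⟨g, hg⟩ := hsub {a, b, c, d, e, f} (by
      have h9 : ({a, b, c, d, e, f} : Finset Y).card ≤ 6 := by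
        refine (Finset.card_insert_le _ _).trans ?_
        have := Finset.card_insert_le b ({c, d, e, f} : Finset Y)
        have := Finset.card_le_four (a := c) (b := d) (c := e) (d := f)
        omega
      omega)
    simp only [Finset.mem_insert, Finset.mem_singleton, not_or] at hg
    obtain ⟨hga', hgb', hgc', hgd', hge', hgf'⟩ := hg
    have hga : g ≠ a := hga'
    have hgb : g ≠ b := hgb'
    have hgc : g ≠ c := hgc'
    have hgd : g ≠ d := hgd'
    have hge : g ≠ e := hge'
    have hgf : g ≠ f := hgf'
    set k := t g with hk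
    have htk : t k = g := htt g
    have hkg : k ≠ g := hfix g
    have hka : k ≠ a := by
      intro h
      apply hgb
      rw [← htk, h]
    have hkb : k ≠ b := by
      intro h
      apply hga
      rw [← htk, h, htb]
    have hkc : k ≠ c := by
      intro h
      apply hgd
      rw [← htk, h]
    have hkd : k ≠ d := by
      intro h
      apply hgc
      rw [← htk, h, htd]
    have hke : k ≠ e := by
      intro h
      apply hgf
      rw [← htk, h]
    have hkf : k ≠ f := by
      intro h
      apply hge
      rw [← htk, h, htf]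
    let σ : Perm Y := swap b c * swap d e * swap f g
    have s_a : σ a = a := by
      simp only [σ, mul_apply, swap_apply_def]
      grind
    have s_b : σ b = c := by
      simp only [σ, mul_apply, swap_apply_def]
      grind
    have s_e : σ e = d := by
      simp only [σ, mul_apply, swap_apply_def]
      grind
    have s_f : σ f = g := by
      simp only [σ, mul_apply, swap_apply_def]
      grind
    have s_g : σ g = f := by
      simp only [σ, mul_apply, swap_apply_def]
      grind
    have s_k : σ k = k := by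
      simp only [σ, mul_apply, swap_apply_def]
      grind
    have i_a : σ⁻¹ a = a := by rw [Perm.inv_eq_iff_eq, s_a]
    have i_d : σ⁻¹ d = e := by rw [Perm.inv_eq_iff_eq, s_e]
    have i_k : σ⁻¹ k = k := by rw [Perm.inv_eq_iff_eq, s_k]
    apply hviol σ d k e
    · simp only [mul_apply, i_a, ← hb, s_b, ← hd]
    · simp only [mul_apply, i_d, ← hf, s_f, ← hk]
    · simp only [mul_apply, i_k, htk, s_g, htf]
    · exact hda
    · exact hka
    · exact hea

end swaps


section main

variable {Ω : Type*} [Fintype Ω] [DecidableEq Ω]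

theorem index_stab (x : Ω) : (stabilizer (Perm Ω) x).index = Fintype.card Ω := by
  have h1 := index_stabilizer (Perm Ω) x
  have h2 : orbit (Perm Ω) x = Set.univ := by
    ext y
    simp only [Set.mem_univ, iff_true]
    refine ⟨swap x y, ?_⟩
    simp
  rw [h1, h2, Set.ncard_univ, Nat.card_eq_fintype_card]

theorem stab_eq_of_le (H : Subgroup (Perm Ω)) (x : Ω) (hH : H.index = Fintype.card Ω) (hle : H ≤ stabilizer (Perm Ω) x) :
    H = stabilizer (Perm Ω) x := by
  apply Subgroup.eq_of_le_of_card_ge hle
  have h1 := Subgroup.card_mul_index H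
  have h2 := Subgroup.card_mul_index (stabilizer (Perm Ω) x)
  rw [index_stab] at h2
  rw [hH] at h1
  have hpos : 0 < Fintype.card Ω := by
    by_contra h
    have h0 : Fintype.card Ω = 0 := by omega
    rw [h0] at hH
    exact H.index_ne_zero_of_finite hH
  have := h1.trans h2.symm
  exact (Nat.eq_of_mul_eq_mul_right hpos this).symm.le

theorem tri_swaps (a b c r t : Ω) (hab : a ≠ b) (hac : a ≠ c) (hbc : b ≠ c) (hrt : r ≠ t)
    (h1 : r = a ∨ r = b ∨ t = a ∨ t = b) (h2 : r = a ∨ r = c ∨ t = a ∨ t = c) (h3 : r = b ∨ r = c ∨ t = b ∨ t = c) :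
    swap r t = swap a b ∨ swap r t = swap a c ∨ swap r t = swap b c := by
  have key : (r = a ∧ t = b) ∨ (r = b ∧ t = a) ∨ (r = a ∧ t = c) ∨ (r = c ∧ t = a) ∨ (r = b ∧ t = c) ∨ (r = c ∧ t = b) := by
    grind
  rcases key with ⟨rfl, rfl⟩ | ⟨rfl, rfl⟩ | ⟨rfl, rfl⟩ | ⟨rfl, rfl⟩ | ⟨rfl, rfl⟩ | ⟨rfl, rfl⟩
  · left; rfl
  · left; exact swap_comm _ _
  · right; left; rfl
  · right; left; exact swap_comm _ _
  · right; right; rfl
  · right; right; exact swap_comm _ _

theorem meet_of_not_comm (p q r s : Ω) (h : swap p q * swap r s ≠ swap r s * swap p q) :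
    p = r ∨ p = s ∨ q = r ∨ q = s := by
  by_contra hc
  push Not at hc
  apply h
  obtain ⟨h1, h2, h3, h4⟩ := hc
  ext x
  simp only [mul_apply, swap_apply_def]
  split_ifs <;> simp_all

/-- The main case. -/
theorem main_large (h5 : 5 ≤ Fintype.card Ω) (h6 : Fintype.card Ω ≠ 6) (H : Subgroup (Perm Ω)) (hH : H.index = Fintype.card Ω) :
    ∃ x : Ω, H = stabilizer (Perm Ω) x := by
  classical
  let X := Perm Ω ⧸ H
  haveI : Fintype X := Fintype.ofFinite X
  have hcardX : Fintype.card X = Fintype.card Ω := by
    rw [← Nat.card_eq_fintype_card, ← hH]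
    rfl
  let φ : Perm Ω →* Perm X := MulAction.toPermHom (Perm Ω) X
  let x₀ : X := QuotientGroup.mk 1
  have hφ : ∀ g y, φ g y = g • y := fun g y => rfl
  have hmem : ∀ g : Perm Ω, φ g x₀ = x₀ ↔ g ∈ H := by
    intro g
    rw [hφ]
    show (QuotientGroup.mk (g * 1) : X) = QuotientGroup.mk 1 ↔ _
    rw [QuotientGroup.eq]
    simp
  have hinj : Function.Injective φ := by
    rw [injective_iff_map_eq_one]
    intro g hg
    by_contra hg1
    have hker : φ.ker ≤ H := by
      intro k hk
      rw [← hmem]
      have : φ k = 1 := hk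
      rw [this]
      rfl
    have hne : φ.ker ≠ ⊥ := by
      intro e
      apply hg1
      have : g ∈ φ.ker := hg
      rwa [e, Subgroup.mem_bot] at this
    haveI : Nontrivial φ.ker := (Subgroup.nontrivial_iff_ne_bot _).2 hne
    haveI : φ.ker.Normal := φ.normal_ker
    have hA := Equiv.Perm.alternatingGroup_le_of_normal (N := φ.ker) (by rw [Nat.card_eq_fintype_card]; omega) inferInstance
    have h2 : H.index ∣ (alternatingGroup Ω).index := Subgroup.index_dvd_of_le (hA.trans hker)
    haveI : Nontrivial Ω := Fintype.one_lt_card_iff_nontrivial.1 (by omega)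
    rw [alternatingGroup.index_eq_two, hH] at h2
    have := Nat.le_of_dvd (by norm_num) h2
    omega
  have hsurj : Function.Surjective φ := by
    have hb := Function.Injective.bijective_of_nat_card_le hinj (by
      rw [Nat.card_perm, Nat.card_perm, Nat.card_eq_fintype_card, Nat.card_eq_fintype_card, hcardX])
    exact hb.2
  have hswapne : ∀ {Z : Type _} [DecidableEq Z] (p q : Z), p ≠ q → swap p q ≠ 1 := by
    intro Z _ p q hpq e
    have := congrArg (fun g : Perm Z => g p) e
    simp at this
    exact hpq this.symm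
  have hto : ∀ a b : Ω, a ≠ b → IsSwap (φ (swap a b)) := by
    intro a b hab
    apply isSwap_of_prop (by rw [hcardX]; exact h5) (by rw [hcardX]; exact h6)
    · rw [← map_pow, pow_two, swap_mul_self, map_one]
    · intro e
      exact hswapne a b hab (hinj (e.trans (map_one φ).symm))
    · intro σ'
      obtain ⟨σ, rfl⟩ := hsurj σ'
      have key : φ (swap a b) * (φ σ * φ (swap a b) * (φ σ)⁻¹) = φ (swap a b * swap (σ a) (σ b)) := by
        rw [map_mul φ (swap a b), ← swap_conj', map_mul, map_mul, map_inv]
      rw [key]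
      rcases swap_mul_swap_order a b (σ a) (σ b) hab (σ.injective.ne hab) with h | h | h
      · left
        rw [h, map_one]
      · right; left
        rw [← map_pow, h, map_one]
      · right; right
        rw [← map_pow, h, map_one]
  have hfrom : ∀ τ : Perm Ω, IsSwap (φ τ) → IsSwap τ := by
    intro τ hτ
    obtain ⟨p, q, hpq, e⟩ := hτ
    apply isSwap_of_prop h5 h6
    · apply hinj
      rw [map_pow, map_one, e, pow_two, swap_mul_self]
    · rintro rfl
      rw [map_one] at e
      exact hswapne p q hpq e.symm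
    · intro σ
      have key : φ (τ * (σ * τ * σ⁻¹)) = swap p q * swap (φ σ p) (φ σ q) := by
        rw [map_mul, map_mul, map_mul, map_inv, e, swap_conj']
      rcases swap_mul_swap_order p q (φ σ p) (φ σ q) hpq ((φ σ).injective.ne hpq) with h | h | h
      · left
        apply hinj
        rw [key, h, map_one]
      · right; left
        apply hinj
        rw [map_pow, key, h, map_one]
      · right; right
        apply hinj
        rw [map_pow, key, h, map_one]
  let τ : X → Perm Ω := fun y => Function.surjInv hsurj (swap x₀ y)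
  have hτφ : ∀ y, φ (τ y) = swap x₀ y := fun y => Function.surjInv_eq hsurj _
  have hτs : ∀ y, y ≠ x₀ → IsSwap (τ y) := by
    intro y hy
    apply hfrom
    rw [hτφ]
    exact ⟨x₀, y, Ne.symm hy, rfl⟩
  have hτnotH : ∀ y, y ≠ x₀ → τ y ∉ H := by
    intro y hy hmemH
    have h1 := (hmem _).2 hmemH
    rw [hτφ, swap_apply_left] at h1
    exact hy h1
  have hτnc : ∀ y z, y ≠ x₀ → z ≠ x₀ → y ≠ z → τ y * τ z ≠ τ z * τ y := by
    intro y z hy hz hyz e
    have h1 := congrArg φ e
    rw [map_mul, map_mul, hτφ, hτφ] at h1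
    have h2 := congrArg (fun g : Perm X => g x₀) h1
    simp only [mul_apply, swap_apply_left] at h2
    rw [swap_apply_of_ne_of_ne hz (Ne.symm hyz), swap_apply_of_ne_of_ne hy hyz] at h2
    exact hyz h2.symm
  have hτinj : ∀ y z, y ≠ x₀ → z ≠ x₀ → y ≠ z → τ y ≠ τ z := by
    intro y z hy hz hyz e
    apply hτnc y z hy hz hyz
    rw [e]
  have hall : ∀ u : Perm Ω, IsSwap u → u ∉ H → ∃ y, y ≠ x₀ ∧ u = τ y := by
    intro u hu huH
    obtain ⟨a, b, hab, rfl⟩ := hu
    obtain ⟨p, q, hpq, e⟩ := hto a b hab
    have h1 : φ (swap a b) x₀ ≠ x₀ := fun h => huH ((hmem _).1 h)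
    rw [e] at h1
    have h2 : x₀ = p ∨ x₀ = q := by
      by_contra h
      push Not at h
      exact h1 (swap_apply_of_ne_of_ne h.1 h.2)
    rcases h2 with h2 | h2
    · refine ⟨q, ?_, ?_⟩
      · rw [h2]
        exact Ne.symm hpq
      · apply hinj
        rw [hτφ, e, h2]
    · refine ⟨p, ?_, ?_⟩
      · rw [h2]
        exact hpq
      · apply hinj
        rw [hτφ, e, h2, swap_comm]
  -- points of `X`
  have hsub : ∀ s : Finset X, s.card < Fintype.card X → ∃ x, x ∉ s := by
    intro s hs
    by_contra h
    push Not at h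
    have : s = Finset.univ := Finset.eq_univ_iff_forall.2 h
    rw [this, Finset.card_univ] at hs
    omega
  obtain ⟨y₁, hy₁⟩ := hsub {x₀} (by rw [Finset.card_singleton, hcardX]; omega)
  simp only [Finset.mem_singleton] at hy₁
  obtain ⟨y₂, hy₂⟩ := hsub {x₀, y₁} (by
    have := Finset.card_le_two (a := x₀) (b := y₁)
    rw [hcardX]
    omega)
  simp only [Finset.mem_insert, Finset.mem_singleton, not_or] at hy₂
  obtain ⟨hy₂0, hy₂1⟩ := hy₂
  -- the common point
  obtain ⟨a, b, c, hab, hac, hbc, hs₁, hs₂⟩ : ∃ a b c : Ω, a ≠ b ∧ a ≠ c ∧ b ≠ c ∧ τ y₁ = swap a b ∧ τ y₂ = swap a c := by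
    obtain ⟨p, q, hpq, e₁⟩ := hτs y₁ hy₁
    obtain ⟨r, t, hrt, e₂⟩ := hτs y₂ hy₂0
    have hnc := hτnc y₁ y₂ hy₁ hy₂0 (Ne.symm hy₂1)
    have hd := hτinj y₁ y₂ hy₁ hy₂0 (Ne.symm hy₂1)
    rw [e₁, e₂] at hnc hd
    rcases meet_of_not_comm p q r t hnc with h | h | h | h
    · subst h
      refine ⟨p, q, t, hpq, hrt, ?_, e₁, e₂⟩
      rintro rfl
      exact hd rfl
    · subst h
      refine ⟨p, q, r, hpq, Ne.symm hrt, ?_, e₁, by rw [e₂, swap_comm]⟩
      rintro rfl
      exact hd (swap_comm _ _)
    · subst h
      refine ⟨q, p, t, Ne.symm hpq, hrt, ?_, by rw [e₁, swap_comm], e₂⟩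
      rintro rfl
      exact hd (swap_comm _ _)
    · subst h
      refine ⟨q, p, r, Ne.symm hpq, Ne.symm hrt, ?_, by rw [e₁, swap_comm], by rw [e₂, swap_comm]⟩
      rintro rfl
      exact hd rfl
  have hstar : ∀ y, y ≠ x₀ → τ y a ≠ a := by
    intro y hy h
    have hy1 : y ≠ y₁ := by
      rintro rfl
      rw [hs₁, swap_apply_left] at h
      exact hab h.symm
    have hy2 : y ≠ y₂ := by
      rintro rfl
      rw [hs₂, swap_apply_left] at h
      exact hac h.symm
    obtain ⟨p, q, hpq, e⟩ := hτs y hy
    have hnc1 := hτnc y y₁ hy hy₁ hy1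
    have hnc2 := hτnc y y₂ hy hy₂0 hy2
    rw [e, hs₁] at hnc1
    rw [e, hs₂] at hnc2
    have m1 := meet_of_not_comm _ _ _ _ hnc1
    have m2 := meet_of_not_comm _ _ _ _ hnc2
    have hpa : p ≠ a := by
      rintro rfl
      rw [e, swap_apply_left] at h
      exact hpq h.symm
    have hqa : q ≠ a := by
      rintro rfl
      rw [e, swap_apply_right] at h
      exact hpq h
    have hτbc : τ y = swap b c := by
      have : (p = b ∧ q = c) ∨ (p = c ∧ q = b) := by grind
      rcases this with ⟨rfl, rfl⟩ | ⟨rfl, rfl⟩
      · exact e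
      · rw [e, swap_comm]
    obtain ⟨y', hy'⟩ := hsub {x₀, y₁, y₂, y} (by
      have := Finset.card_le_four (a := x₀) (b := y₁) (c := y₂) (d := y)
      rw [hcardX]
      omega)
    simp only [Finset.mem_insert, Finset.mem_singleton, not_or] at hy'
    obtain ⟨hy'0, hy'1, hy'2, hy'3⟩ := hy'
    obtain ⟨r, t, hrt, e'⟩ := hτs y' hy'0
    have n1 := hτnc y' y₁ hy'0 hy₁ hy'1
    have n2 := hτnc y' y₂ hy'0 hy₂0 hy'2
    have n3 := hτnc y' y hy'0 hy hy'3
    rw [e', hs₁] at n1
    rw [e', hs₂] at n2
    rw [e', hτbc] at n3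
    have k1 := meet_of_not_comm _ _ _ _ n1
    have k2 := meet_of_not_comm _ _ _ _ n2
    have k3 := meet_of_not_comm _ _ _ _ n3
    rcases tri_swaps a b c r t hab hac hbc hrt (by grind) (by grind) (by grind) with h1 | h1 | h1
    · exact hτinj y' y₁ hy'0 hy₁ hy'1 (by rw [e', h1, hs₁])
    · exact hτinj y' y₂ hy'0 hy₂0 hy'2 (by rw [e', h1, hs₂])
    · exact hτinj y' y hy'0 hy hy'3 (by rw [e', h1, hτbc])
  refine ⟨a, stab_eq_of_le H a hH ?_⟩
  intro h hh
  show h • a = a
  show h a = a
  by_contra hne
  have conj_case : ∀ (z : X) (d : Ω), z ≠ x₀ → τ z = swap a d → h d = a := by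
    intro z d hz hτz
    have h1 : h * τ z * h⁻¹ = swap (h a) (h d) := by rw [hτz, swap_conj']
    have hu : h * τ z * h⁻¹ ∉ H := by
      intro hmemH
      apply hτnotH z hz
      have : τ z = h⁻¹ * (h * τ z * h⁻¹) * h := by group
      rw [this]
      exact H.mul_mem (H.mul_mem (H.inv_mem hh) hmemH) hh
    obtain ⟨y, hy, hyu⟩ := hall _ (by
      rw [h1]
      refine ⟨h a, h d, ?_, rfl⟩
      intro e
      have had := h.injective e
      rw [← had, swap_self] at hτz
      exact hswapne _ _ (hτs z hz).choose_spec.choose_spec.1 ((hτs z hz).choose_spec.choose_spec.2.symm.trans hτz)) hu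
    have h2 := hstar y hy
    rw [← hyu, h1] at h2
    by_contra hd
    exact h2 (swap_apply_of_ne_of_ne (Ne.symm hne) (Ne.symm hd))
  have h1 := conj_case y₁ b hy₁ hs₁
  have h3 := conj_case y₂ c hy₂0 hs₂
  exact hbc (h.injective (h1.trans h3.symm))

/-- Small degrees. -/
theorem main_small (h5 : Fintype.card Ω < 5) (H : Subgroup (Perm Ω)) (hH : H.index = Fintype.card Ω) :
    ∃ x : Ω, H = stabilizer (Perm Ω) x := by
  classical
  have hn0 : Fintype.card Ω ≠ 0 := by
    intro h
    rw [h] at hH
    exact H.index_ne_zero_of_finite hH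
  have hcard := Subgroup.card_mul_index H
  have hfact : Nat.card (Perm Ω) = (Fintype.card Ω).factorial := by
    rw [Nat.card_perm, Nat.card_eq_fintype_card]
  rw [hH, hfact] at hcard
  have hne : Nonempty Ω := Fintype.card_pos_iff.1 (Nat.pos_of_ne_zero hn0)
  obtain ⟨x₀⟩ := hne
  -- a criterion
  suffices h : ∃ x : Ω, ∀ g ∈ H, g x = x by
    obtain ⟨x, hx⟩ := h
    exact ⟨x, stab_eq_of_le H x hH (fun g hg => hx g hg)⟩
  have h3 : Fintype.card Ω = 1 ∨ Fintype.card Ω = 2 ∨ Fintype.card Ω = 3 ∨ Fintype.card Ω = 4 := by omega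
  rcases h3 with h1 | h2 | h3 | h4
  · refine ⟨x₀, fun g _ => ?_⟩
    haveI : Subsingleton Ω := Fintype.card_le_one_iff_subsingleton.1 h1.le
    exact Subsingleton.elim _ _
  · rw [h2, show Nat.factorial 2 = 2 from rfl] at hcard
    have h1 : Nat.card H = 1 := by omega
    refine ⟨x₀, fun g hg => ?_⟩
    have h0 : (⟨g, hg⟩ : H) = 1 := by
      haveI : Subsingleton H := (Nat.card_eq_one_iff_unique.1 h1).1
      exact Subsingleton.elim _ _
    have h5 : g = 1 := congrArg Subtype.val h0
    rw [h5]
    rfl
  · rw [h3, show Nat.factorial 3 = 6 from rfl] at hcard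
    have h2 : Nat.card H = 2 := by omega
    obtain ⟨⟨t, ht⟩, ht1', huniq⟩ := (Nat.card_eq_two_iff' (1 : H)).1 h2
    have ht1 : t ≠ 1 := fun e => ht1' (Subtype.ext e)
    have ht2 : t ^ 2 = 1 := by
      have h5 := pow_card_eq_one' (x := (⟨t, ht⟩ : H))
      rw [h2] at h5
      exact congrArg Subtype.val h5
    have hdvd := Equiv.Perm.two_dvd_card_support ht2
    obtain ⟨x, hx⟩ : ∃ x, t x = x := by
      by_contra hc
      push Not at hc
      have h6 : t.support = Finset.univ := by
        ext y
        simp [hc y]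
      rw [h6, Finset.card_univ, h3] at hdvd
      omega
    refine ⟨x, fun g hg => ?_⟩
    by_cases hg1 : g = 1
    · rw [hg1]
      rfl
    · have h7 := huniq ⟨g, hg⟩ (fun e => hg1 (congrArg Subtype.val e))
      have h8 : g = t := congrArg Subtype.val h7
      rw [h8, hx]
  · rw [h4, show Nat.factorial 4 = 24 from rfl] at hcard
    have h6 : Nat.card H = 6 := by omega
    haveI : Fact (Nat.Prime 3) := ⟨by norm_num⟩
    obtain ⟨g, hg⟩ := exists_prime_orderOf_dvd_card' 3 (G := H) (by rw [h6]; norm_num)
    set γ : Perm Ω := g.1 with hγ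
    have hγ3 : γ ^ 3 = 1 := by
      have h7 : g ^ 3 = 1 := by rw [← hg]; exact pow_orderOf_eq_one g
      exact congrArg Subtype.val h7
    have hg1 : g ≠ 1 := by
      intro e
      rw [e, orderOf_one] at hg
      omega
    have hγ1 : γ ≠ 1 := fun e => hg1 (Subtype.ext e)
    have h3' : ∀ w, γ (γ (γ w)) = w := by
      intro w
      have := congrArg (fun k : Perm Ω => k w) hγ3
      simpa [pow_succ] using this
    obtain ⟨y, hy⟩ : ∃ y, γ y ≠ y := by
      by_contra hc
      push Not at hc
      exact hγ1 (Equiv.ext hc)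
    have hz12 : γ y ≠ y := hy
    have hz23 : γ (γ y) ≠ γ y := fun e => hy (γ.injective e)
    have hz13 : γ (γ y) ≠ y := by
      intro e
      apply hy
      have := h3' y
      rwa [e] at this
    obtain ⟨x, hx⟩ : ∃ x, x ∉ ({y, γ y, γ (γ y)} : Finset Ω) := by
      by_contra hc
      push Not at hc
      have h7 : ({y, γ y, γ (γ y)} : Finset Ω) = Finset.univ := Finset.eq_univ_iff_forall.2 hc
      have h8 := Finset.card_le_three (a := y) (b := γ y) (c := γ (γ y))
      rw [h7, Finset.card_univ] at h8
      omega
    simp only [Finset.mem_insert, Finset.mem_singleton, not_or] at hx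
    obtain ⟨hx1, hx2, hx3⟩ := hx
    have hall : ∀ w, w = y ∨ w = γ y ∨ w = γ (γ y) ∨ w = x := by
      have h7 : ({y, γ y, γ (γ y), x} : Finset Ω) = Finset.univ := by
        apply Finset.eq_univ_of_card
        rw [Finset.card_insert_of_notMem, Finset.card_insert_of_notMem, Finset.card_insert_of_notMem, Finset.card_singleton, h4]
        · simpa using Ne.symm hx3
        · simp [Ne.symm hz23, Ne.symm hx2]
        · simp [Ne.symm hz12, Ne.symm hz13, Ne.symm hx1]
      intro w
      have : w ∈ ({y, γ y, γ (γ y), x} : Finset Ω) := by rw [h7]; exact Finset.mem_univ _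
      simpa using this
    have huniq : ∀ w, γ w = w → w = x := by
      intro w hw
      rcases hall w with rfl | rfl | rfl | h
      · exact absurd hw hy
      · exact absurd hw hz23
      · exfalso
        apply hz13
        have := h3' y
        rw [hw] at this
        exact this
      · exact h
    have hfix : γ x = x := by
      rcases hall (γ x) with h | h | h | h
      · exfalso
        have h7 : γ x = γ (γ (γ y)) := by rw [h, h3']
        exact hx3 (γ.injective h7)
      · exact absurd (γ.injective h) hx1
      · exact absurd (γ.injective h) hx2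
      · exact h
    refine ⟨x, fun k hk => ?_⟩
    -- normality of the cyclic subgroup
    let K : Subgroup H := Subgroup.zpowers g
    have hK : Nat.card K = 3 := by rw [Nat.card_zpowers, hg]
    have hKi : K.index = 2 := by
      have := Subgroup.card_mul_index K
      rw [hK, h6] at this
      omega
    haveI hKn : K.Normal := Subgroup.normal_of_index_eq_two hKi
    have h7 : (⟨k, hk⟩ : H) * g * (⟨k, hk⟩ : H)⁻¹ ∈ K := hKn.conj_mem g (Subgroup.mem_zpowers g) _
    have h8 := mem_powers_iff_mem_zpowers.2 h7
    obtain ⟨j, hj⟩ := h8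
    have hj' : g ^ j = (⟨k, hk⟩ : H) * g * (⟨k, hk⟩ : H)⁻¹ := hj
    have hj2 : γ ^ j = k * γ * k⁻¹ := congrArg Subtype.val hj'
    have hw : (γ ^ j) (k x) = k x := by
      rw [hj2]
      simp [mul_apply, hfix]
    have hjm : γ ^ j = γ ^ (j % 3) := by
      conv_lhs => rw [← Nat.mod_add_div j 3, pow_add, pow_mul, hγ3, one_pow, mul_one]
    rw [hjm] at hw
    have hlt : j % 3 < 3 := Nat.mod_lt _ (by norm_num)
    have hne0 : j % 3 ≠ 0 := by
      intro h0
      rw [h0, pow_zero] at hjm
      rw [hjm] at hj2
      apply hγ1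
      have : γ = k⁻¹ * 1 * k := by
        rw [hj2]
        group
      rw [this]
      group
    have hcases : j % 3 = 1 ∨ j % 3 = 2 := by omega
    apply huniq
    rcases hcases with h9 | h9
    · rw [h9, pow_one] at hw
      exact hw
    · rw [h9, pow_two] at hw
      have h10 := h3' (k x)
      have h11 : γ (γ (k x)) = k x := hw
      rw [h11] at h10
      exact h10

/-- A subgroup of index `n` of the symmetric group of degree `n ≠ 6` is a point stabilizer. -/
theorem index_n (h6 : Fintype.card Ω ≠ 6) (H : Subgroup (Perm Ω)) (hH : H.index = Fintype.card Ω) :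
    ∃ x : Ω, H = stabilizer (Perm Ω) x := by
  by_cases h5 : Fintype.card Ω < 5
  · exact main_small h5 H hH
  · exact main_large (by omega) h6 H hH

end main

end CfsgLib.ClassMax.IndexN
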