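import Mathlib

/-! General counting tools for the order-type example: number of solutions of `x ^ n = 1`. -/

set_option autoImplicit false

namespace CfsgLib.OrderType

open scoped BigOperators

/-- Number of solutions of `x ^ n = 1`. -/
noncomputable def solCount (X : Type) [Group X] (n : ℕ) : ℕ := Nat.card {x : X // x ^ n = 1}

theorem solCount_eq_sum {G : Type} [Group G] [Finite G] (n : ℕ) (hn : n ≠ 0) :
    solCount G n = ∑ d ∈ n.divisors, Nat.card {g : G // orderOf g = d} := by
  classical
  haveI := Fintype.ofFinite G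
  have h := sum_card_orderOf_eq_card_pow_eq_one (G := G) (n := n) hn
  unfold solCount
  rw [Nat.card_eq_fintype_card, Fintype.card_subtype, ← h]
  refine Finset.sum_congr rfl fun d _ => ?_
  rw [Nat.card_eq_fintype_card, Fintype.card_subtype]

theorem order_count_eq {G H : Type} [Group G] [Group H] [Finite G] [Finite H]
    (h : ∀ n, n ≠ 0 → solCount G n = solCount H n) (n : ℕ) :
    Nat.card {g : G // orderOf g = n} = Nat.card {g : H // orderOf g = n} := by
  induction n using Nat.strong_induction_on with
  | _ n ih =>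
    rcases Nat.eq_zero_or_pos n with rfl | hn
    · have h1 : IsEmpty {g : G // orderOf g = 0} :=
        ⟨fun x => (orderOf_pos x.1).ne' x.2⟩
      have h2 : IsEmpty {g : H // orderOf g = 0} :=
        ⟨fun x => (orderOf_pos x.1).ne' x.2⟩
      rw [Nat.card_of_isEmpty, Nat.card_of_isEmpty]
    · have := h n hn.ne'
      rw [solCount_eq_sum n hn.ne', solCount_eq_sum n hn.ne',
        ← Nat.insert_self_properDivisors hn.ne',
        Finset.sum_insert Nat.self_notMem_properDivisors,
        Finset.sum_insert Nat.self_notMem_properDivisors] at this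
      have h3 : ∑ d ∈ n.properDivisors, Nat.card {g : G // orderOf g = d}
          = ∑ d ∈ n.properDivisors, Nat.card {g : H // orderOf g = d} :=
        Finset.sum_congr rfl fun d hd => ih d (Nat.mem_properDivisors.mp hd).2
      omega

theorem solCount_prod (X Y : Type) [Group X] [Group Y] (n : ℕ) :
    solCount (X × Y) n = solCount X n * solCount Y n := by
  unfold solCount
  rw [← Nat.card_prod]
  refine Nat.card_congr
    { toFun := fun z => ⟨⟨z.1.1, congrArg Prod.fst z.2⟩, ⟨z.1.2, congrArg Prod.snd z.2⟩⟩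
      invFun := fun z => ⟨(z.1.1, z.2.1), Prod.ext z.1.2 z.2.2⟩
      left_inv := fun _ => rfl
      right_inv := fun _ => rfl }

theorem solCount_gcd {X : Type} [Group X] (m : ℕ) (hm : ∀ x : X, x ^ m = 1) (n : ℕ) :
    solCount X n = solCount X (Nat.gcd n m) := by
  unfold solCount
  refine Nat.card_congr (Equiv.subtypeEquivRight fun x => ?_)
  constructor
  · intro h
    exact pow_gcd_eq_one.2 ⟨h, hm x⟩
  · intro h
    obtain ⟨k, hk⟩ := Nat.gcd_dvd_left n m
    rw [hk, pow_mul, h, one_pow]

theorem solCount_units {M : Type} [Monoid M] (d : ℕ) (hd : d ≠ 0) :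
    Nat.card {u : Mˣ // u ^ d = 1} = Nat.card {m : M // m ^ d = 1} := by
  obtain ⟨k, rfl⟩ := Nat.exists_eq_succ_of_ne_zero hd
  refine Nat.card_congr
    { toFun := fun u => ⟨u.1.1, by
        have := congrArg Units.val u.2
        simpa using this⟩
      invFun := fun m => ⟨⟨m.1, m.1 ^ k, by rw [← pow_succ']; exact m.2, by
        rw [← pow_succ]; exact m.2⟩, by
          ext
          simpa using m.2⟩
      left_inv := fun u => by
        ext
        rfl
      right_inv := fun m => rfl }

/-! ### Semidirect products -/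

section semi

variable {N P : Type} [Group N] [Group P] (φ : P →* MulAut N)

/-- The `N`-component of a power in a semidirect product. -/
def nrm (a : N) (g : P) : ℕ → N
  | 0 => 1
  | k + 1 => nrm a g k * φ (g ^ k) a

theorem semi_pow (a : N) (g : P) (n : ℕ) :
    ((⟨a, g⟩ : N ⋊[φ] P) ^ n) = ⟨nrm φ a g n, g ^ n⟩ := by
  induction n with
  | zero =>
    rw [pow_zero, pow_zero]
    rfl
  | succ k ih =>
    rw [pow_succ, ih, pow_succ]
    rfl

theorem solCount_semi [Fintype P] [Finite N] (n : ℕ) :
    solCount (N ⋊[φ] P) n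
      = ∑ g : P, Nat.card {a : N // (⟨a, g⟩ : N ⋊[φ] P) ^ n = 1} := by
  have e : {x : N ⋊[φ] P // x ^ n = 1} ≃ Σ g : P, {a : N // (⟨a, g⟩ : N ⋊[φ] P) ^ n = 1} :=
    { toFun := fun x => ⟨x.1.right, x.1.left, x.2⟩
      invFun := fun y => ⟨⟨y.2.1, y.1⟩, y.2.2⟩
      left_inv := fun _ => rfl
      right_inv := fun _ => rfl }
  unfold solCount
  rw [Nat.card_congr e, Nat.card_sigma]

theorem semi_fiber_of_pow (n : ℕ) (g : P) (hg : g ^ n = 1) :
    Nat.card {a : N // (⟨a, g⟩ : N ⋊[φ] P) ^ n = 1} = Nat.card {a : N // nrm φ a g n = 1} := by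
  refine Nat.card_congr (Equiv.subtypeEquivRight fun a => ?_)
  rw [semi_pow]
  constructor
  · intro h
    exact congrArg SemidirectProduct.left h
  · intro h
    exact SemidirectProduct.ext h hg

theorem semi_fiber_of_not_pow (n : ℕ) (g : P) (hg : g ^ n ≠ 1) :
    Nat.card {a : N // (⟨a, g⟩ : N ⋊[φ] P) ^ n = 1} = 0 := by
  have : IsEmpty {a : N // (⟨a, g⟩ : N ⋊[φ] P) ^ n = 1} := by
    refine ⟨fun a => hg ?_⟩
    have := a.2
    rw [semi_pow] at this
    exact congrArg SemidirectProduct.right this
  exact Nat.card_of_isEmpty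

theorem solCount_semi' [Fintype P] [Finite N] [DecidableEq P] (n : ℕ) :
    solCount (N ⋊[φ] P) n
      = ∑ g : P, if g ^ n = 1 then Nat.card {a : N // nrm φ a g n = 1} else 0 := by
  rw [solCount_semi]
  refine Finset.sum_congr rfl fun g _ => ?_
  split_ifs with h
  · exact semi_fiber_of_pow φ n g h
  · exact semi_fiber_of_not_pow φ n g h

theorem semi_solvable [Group.IsSolvable N] [Group.IsSolvable P] :
    Group.IsSolvable (N ⋊[φ] P) := by
  refine solvable_of_ker_le_range (SemidirectProduct.inl (φ := φ))
    (SemidirectProduct.rightHom (φ := φ)) ?_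
  intro x hx
  rw [MonoidHom.mem_ker] at hx
  refine ⟨x.left, ?_⟩
  refine SemidirectProduct.ext rfl ?_
  exact hx.symm

instance semi_finite [Finite N] [Finite P] : Finite (N ⋊[φ] P) :=
  Finite.of_equiv _ SemidirectProduct.equivProd.symm

end semi

/-! ### The family `K`: signed actions of the dihedral group of order 8. -/

/-- The dihedral group of order 8. -/
abbrev D4 := DihedralGroup 4

/-- parity sign. -/
def par (i : ZMod 4) : ℤˣ := if i.val % 2 = 0 then 1 else -1

/-- The three nontrivial sign characters of `D4`. -/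
def chiFun (c : Fin 3) (g : D4) : ℤˣ :=
  match g with
  | .r i => if c = 0 then 1 else par i
  | .sr i => if c = 0 then -1 else if c = 1 then par i else - par i

theorem chiFun_mul : ∀ (c : Fin 3) (g h : D4), chiFun c (g * h) = chiFun c g * chiFun c h := by
  decide

theorem chiFun_one : ∀ (c : Fin 3), chiFun c (1 : D4) = 1 := by
  decide

/-- The characters, as homomorphisms. -/
def chi (c : Fin 3) : D4 →* ℤˣ where
  toFun := chiFun c
  map_one' := chiFun_one c
  map_mul' := chiFun_mul c

section K

variable {J : Type} [Fintype J] (p : J → ℕ) (c : J → Fin 3)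

/-- The signed automorphism of the normal subgroup. -/
def actAut (u : J → ℤˣ) : MulAut (Multiplicative (∀ j, ZMod (p j))) where
  toFun a := Multiplicative.ofAdd (fun j => ((u j : ℤˣ) : ℤ) • (Multiplicative.toAdd a j))
  invFun a := Multiplicative.ofAdd (fun j => ((u j : ℤˣ) : ℤ) • (Multiplicative.toAdd a j))
  left_inv a := by
    refine Multiplicative.toAdd.injective (funext fun j => ?_)
    simp only [toAdd_ofAdd]
    rw [smul_smul, ← Units.val_mul, Int.units_mul_self, Units.val_one, one_smul]
  right_inv a := by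
    refine Multiplicative.toAdd.injective (funext fun j => ?_)
    simp only [toAdd_ofAdd]
    rw [smul_smul, ← Units.val_mul, Int.units_mul_self, Units.val_one, one_smul]
  map_mul' a b := by
    refine Multiplicative.toAdd.injective (funext fun j => ?_)
    simp only [toAdd_ofAdd, toAdd_mul, Pi.add_apply, smul_add]

/-- The action of `D4`. -/
def phi : D4 →* MulAut (Multiplicative (∀ j, ZMod (p j))) where
  toFun g := actAut p fun j => chi (c j) g
  map_one' := by
    refine MulEquiv.ext fun a => Multiplicative.toAdd.injective (funext fun j => ?_)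
    simp [actAut]
  map_mul' g h := by
    refine MulEquiv.ext fun a => Multiplicative.toAdd.injective (funext fun j => ?_)
    simp [actAut, mul_smul]

/-- The group `K`. -/
abbrev KG := Multiplicative (∀ j, ZMod (p j)) ⋊[phi p c] D4

/-- geometric sum of a sign. -/
def geo (u : ℤˣ) : ℕ → ℤ
  | 0 => 0
  | k + 1 => geo u k + ((u ^ k : ℤˣ) : ℤ)

theorem geo_one (n : ℕ) : geo 1 n = n := by
  induction n with
  | zero => rfl
  | succ k ih => simp [geo, ih]

theorem geo_neg_one (n : ℕ) (hn : Even n) : geo (-1) n = 0 := by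
  obtain ⟨k, rfl⟩ := hn
  induction k with
  | zero => rfl
  | succ k ih =>
    have : k + 1 + (k + 1) = (k + k) + 1 + 1 := by ring
    rw [this]
    simp only [geo]
    rw [ih]
    have h2 : ((k + k) : ℕ) = 2 * k := by ring
    rw [pow_succ, h2, pow_mul]
    simp

theorem nrm_apply (a : Multiplicative (∀ j, ZMod (p j))) (g : D4) (n : ℕ) (j : J) :
    Multiplicative.toAdd (nrm (phi p c) a g n) j
      = geo (chi (c j) g) n • (Multiplicative.toAdd a j) := by
  induction n with
  | zero => simp [nrm, geo]
  | succ k ih =>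
    simp only [nrm, toAdd_mul, Pi.add_apply, ih, geo, add_smul]
    congr 1
    show (((chi (c j) (g ^ k) : ℤˣ)) : ℤ) • (Multiplicative.toAdd a j) = _
    rw [map_pow]

theorem card_zmod_smul (q : ℕ) [Fact q.Prime] (e : ℤ) :
    Nat.card {b : ZMod q // e • b = 0} = if (q : ℤ) ∣ e then q else 1 := by
  classical
  split_ifs with h
  · have h0 : (e : ZMod q) = 0 := (ZMod.intCast_zmod_eq_zero_iff_dvd e q).mpr h
    have : ∀ b : ZMod q, e • b = 0 := fun b => by
      rw [zsmul_eq_mul, h0, zero_mul]
    rw [Nat.card_congr (Equiv.subtypeUnivEquiv this), Nat.card_zmod]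
  · have h0 : (e : ZMod q) ≠ 0 := fun h' => h ((ZMod.intCast_zmod_eq_zero_iff_dvd e q).mp h')
    have : ∀ b : ZMod q, e • b = 0 ↔ b = 0 := fun b => by
      rw [zsmul_eq_mul, mul_eq_zero]
      simp [h0]
    rw [Nat.card_congr (Equiv.subtypeEquivRight this), Nat.card_unique]

/-- Local factor of the count. -/
def fac (q : ℕ) (u : ℤˣ) (n : ℕ) : ℕ := if u = -1 ∨ q ∣ n then q else 1

variable [∀ j, Fact (p j).Prime]

theorem card_nrm (g : D4) (n : ℕ) (hg : g ^ n = 1) :
    Nat.card {a : Multiplicative (∀ j, ZMod (p j)) // nrm (phi p c) a g n = 1}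
      = ∏ j, fac (p j) (chi (c j) g) n := by
  classical
  have hcond : ∀ a : Multiplicative (∀ j, ZMod (p j)),
      nrm (phi p c) a g n = 1
        ↔ ∀ j, geo (chi (c j) g) n • (Multiplicative.toAdd a j) = 0 := by
    intro a
    constructor
    · intro h j
      rw [← nrm_apply, h]
      rfl
    · intro h
      refine Multiplicative.toAdd.injective (funext fun j => ?_)
      rw [nrm_apply, h]
      rfl
  rw [Nat.card_congr (Equiv.subtypeEquivRight hcond)]
  have e : {a : Multiplicative (∀ j, ZMod (p j)) //
      ∀ j, geo (chi (c j) g) n • (Multiplicative.toAdd a j) = 0}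
        ≃ ∀ j, {b : ZMod (p j) // geo (chi (c j) g) n • b = 0} :=
    { toFun := fun a j => ⟨Multiplicative.toAdd a.1 j, a.2 j⟩
      invFun := fun b => ⟨Multiplicative.ofAdd (fun j => (b j).1), fun j => (b j).2⟩
      left_inv := fun _ => rfl
      right_inv := fun _ => rfl }
  rw [Nat.card_congr e, Nat.card_pi]
  refine Finset.prod_congr rfl fun j _ => ?_
  rw [card_zmod_smul]
  unfold fac
  rcases Int.units_eq_one_or (chi (c j) g) with h | h
  · rw [h, geo_one]
    simp only [Int.natCast_dvd_natCast]
    have : ¬ ((1 : ℤˣ) = -1) := by decide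
    simp [this]
  · have heven : Even n := by
      have h1 : (chi (c j) g) ^ n = 1 := by
        rw [← map_pow, hg, map_one]
      rw [h] at h1
      by_contra hodd
      rw [Nat.not_even_iff_odd] at hodd
      rw [hodd.neg_one_pow] at h1
      exact absurd h1 (by decide)
    rw [h, geo_neg_one n heven]
    simp

theorem solCount_KG (n : ℕ) :
    solCount (KG p c) n
      = ∑ g : D4, if g ^ n = 1 then ∏ j, fac (p j) (chi (c j) g) n else 0 := by
  haveI : ∀ j, NeZero (p j) := fun j => ⟨(Fact.out : (p j).Prime).ne_zero⟩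
  haveI : Finite (Multiplicative (∀ j, ZMod (p j))) := inferInstance
  rw [solCount_semi']
  refine Finset.sum_congr rfl fun g _ => ?_
  split_ifs with h
  · exact card_nrm p c g n h
  · rfl

end K

/-! ### Bundled factors -/

/-- A finite solvable factor of exponent dividing 84, with its table of solution counts. -/
structure Bun where
  /-- carrier -/
  α : Type
  /-- group -/
  grp : Group α
  /-- finite -/
  fin : Finite α
  /-- solvable -/
  sol : Group.IsSolvable α
  /-- exponent -/
  exp : ∀ x : α, x ^ 84 = 1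
  /-- table -/
  val : ℕ → ℕ
  /-- correctness of the table -/
  hval : ∀ d, d ∣ 84 → solCount α d = val d

attribute [instance] Bun.grp Bun.fin Bun.sol

/-- The product of two factors. -/
def Bun.prod (a b : Bun) : Bun where
  α := a.α × b.α
  grp := inferInstance
  fin := inferInstance
  sol := inferInstance
  exp x := Prod.ext (a.exp x.1) (b.exp x.2)
  val d := a.val d * b.val d
  hval d hd := by
    rw [solCount_prod, a.hval d hd, b.hval d hd]

/-- The trivial factor. -/
def Bun.triv : Bun where
  α := PUnit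
  grp := inferInstance
  fin := inferInstance
  sol := inferInstance
  exp _ := rfl
  val _ := 1
  hval d _ := by
    unfold solCount
    exact Nat.card_unique

/-- The product of a list of factors. -/
def Big : List Bun → Bun
  | [] => Bun.triv
  | b :: l => Bun.prod b (Big l)

/-- The divisors of 84. -/
def Ds : List ℕ := [1, 2, 3, 4, 6, 7, 12, 14, 21, 28, 42, 84]

theorem mem_Ds (d : ℕ) (h : d ∣ 84) : d ∈ Ds := by
  have h1 : d ≤ 84 := Nat.le_of_dvd (by norm_num) h
  revert h
  interval_cases d <;> decide

/-- A factor from a fintype with table. -/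
def tabBun (X : Type) [Group X] [Fintype X] [DecidableEq X] [Group.IsSolvable X]
    (hexp : ∀ x : X, x ^ 84 = 1) (tbl : ℕ → ℕ)
    (h : ∀ d ∈ Ds, Fintype.card {x : X // x ^ d = 1} = tbl d) : Bun where
  α := X
  grp := inferInstance
  fin := inferInstance
  sol := inferInstance
  exp := hexp
  val := tbl
  hval d hd := by
    unfold solCount
    rw [Nat.card_eq_fintype_card, h d (mem_Ds d hd)]

/-- `C₂`. -/
def c2Bun : Bun :=
  tabBun (Multiplicative (ZMod 2)) (by decide +kernel) (fun d => if 2 ∣ d then 2 else 1) (by decide +kernel)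

/-- `C₃`. -/
def c3Bun : Bun :=
  tabBun (Multiplicative (ZMod 3)) (by decide +kernel) (fun d => if 3 ∣ d then 3 else 1) (by decide +kernel)

/-- Parameters of the family `K`. -/
def kl (a b c d e f : ℕ) : List (ℕ × Fin 3) :=
  List.replicate a (3, 0) ++ List.replicate b (3, 1) ++ List.replicate c (3, 2) ++
    List.replicate d (7, 0) ++ List.replicate e (7, 1) ++ List.replicate f (7, 2)

theorem kl_mem (a b c d e f : ℕ) (q : ℕ × Fin 3) (h : q ∈ kl a b c d e f) : q.1 = 3 ∨ q.1 = 7 := by
  unfold kl at h
  simp only [List.mem_append, List.mem_replicate] at h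
  rcases h with ((((h | h) | h) | h) | h) | h <;> rw [h.2] <;> simp

/-- Dihedral group is solvable. -/
instance D4_solvable : Group.IsSolvable D4 := by
  have h : IsPGroup 2 D4 := IsPGroup.of_card (n := 3) (by
    rw [DihedralGroup.nat_card]; norm_num)
  haveI : Fact (Nat.Prime 2) := ⟨Nat.prime_two⟩
  haveI := h.isNilpotent
  infer_instance

theorem D4_exp : ∀ g : D4, g ^ 84 = 1 := by decide +kernel

theorem KG_exp {J : Type} [Fintype J] (p : J → ℕ) (c : J → Fin 3) (hp : ∀ j, p j = 3 ∨ p j = 7)
    (x : KG p c) : x ^ 84 = 1 := by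
  obtain ⟨a, g⟩ := x
  rw [semi_pow, D4_exp]
  refine SemidirectProduct.ext ?_ rfl
  refine Multiplicative.toAdd.injective (funext fun j => ?_)
  rw [nrm_apply]
  show _ = (0 : ZMod (p j))
  have hdvd : ((p j : ℕ) : ℤ) ∣ 84 := by
    rcases hp j with h | h <;> rw [h] <;> norm_num
  have hgeo : ((p j : ℕ) : ℤ) ∣ geo (chi (c j) g) 84 := by
    rcases Int.units_eq_one_or (chi (c j) g) with h | h
    · rw [h, geo_one]
      exact_mod_cast hdvd
    · rw [h, geo_neg_one 84 (by decide)]
      exact dvd_zero _
  have h0 : ((geo (chi (c j) g) 84 : ℤ) : ZMod (p j)) = 0 :=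
    (ZMod.intCast_zmod_eq_zero_iff_dvd _ _).mpr hgeo
  rw [zsmul_eq_mul, h0, zero_mul]

/-- The bundled `K`. -/
def mkKl (l : List (ℕ × Fin 3)) (hl : ∀ q ∈ l, q.1 = 3 ∨ q.1 = 7) : Bun :=
  haveI hp : ∀ j : Fin l.length, (l.get j).1 = 3 ∨ (l.get j).1 = 7 :=
    fun j => hl _ (List.get_mem l j)
  haveI hF : ∀ j : Fin l.length, Fact ((l.get j).1).Prime := fun j =>
    ⟨by rcases hp j with h | h <;> rw [h] <;> norm_num⟩
  haveI hN : ∀ j : Fin l.length, NeZero ((l.get j).1) := fun j =>
    ⟨by rcases hp j with h | h <;> rw [h] <;> norm_num⟩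
  { α := KG (fun j : Fin l.length => (l.get j).1) (fun j => (l.get j).2)
    grp := inferInstance
    fin := inferInstance
    sol := semi_solvable _
    exp := KG_exp _ _ hp
    val := fun n => ∑ g : D4, if g ^ n = 1 then (l.map fun q => fac q.1 (chi q.2 g) n).prod else 0
    hval := fun d _ => by
      rw [solCount_KG]
      refine Finset.sum_congr rfl fun g _ => ?_
      congr 1
      exact Fin.prod_univ_fun_getElem l fun q => fac q.1 (chi q.2 g) d }

/-- The bundled `K`, from parameters. -/
def mkK (a b c d e f : ℕ) : Bun := mkKl (kl a b c d e f) (kl_mem a b c d e f)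

end CfsgLib.OrderType
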