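import Mathlib
import Cfsg.Agent.Lib.ClassMax.OrderType

/-! The affine semilinear group `2³:7:3` of order 168. -/

set_option autoImplicit false

namespace CfsgLib.OrderType

abbrev W3 := ZMod 2 × ZMod 2 × ZMod 2
abbrev V3 := Multiplicative W3
abbrev Z7 := Multiplicative (ZMod 7)
abbrev Z3 := Multiplicative (ZMod 3)

theorem psi_aux1 : ∀ (i : ZMod 3) (a : ZMod 7), (4 : ZMod 7) ^ i.val * ((2 : ZMod 7) ^ i.val * a) = a := by
  decide

theorem psi_aux2 : ∀ (i : ZMod 3) (a : ZMod 7), (2 : ZMod 7) ^ i.val * ((4 : ZMod 7) ^ i.val * a) = a := by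
  decide

/-- Multiplication by `2 ^ i` on `C₇`. -/
def psiAut (i : ZMod 3) : MulAut Z7 where
  toFun a := Multiplicative.ofAdd ((2 : ZMod 7) ^ i.val * Multiplicative.toAdd a)
  invFun a := Multiplicative.ofAdd ((4 : ZMod 7) ^ i.val * Multiplicative.toAdd a)
  left_inv a := psi_aux1 i (Multiplicative.toAdd a)
  right_inv a := psi_aux2 i (Multiplicative.toAdd a)
  map_mul' a b := by
    refine Multiplicative.toAdd.injective ?_
    exact mul_add _ _ _

theorem psi_aux3 : ∀ (a : ZMod 7), (2 : ZMod 7) ^ (0 : ZMod 3).val * a = a := by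
  decide

theorem psi_aux4 : ∀ (i j : ZMod 3) (a : ZMod 7),
    (2 : ZMod 7) ^ (i + j).val * a = (2 : ZMod 7) ^ i.val * ((2 : ZMod 7) ^ j.val * a) := by
  decide

/-- The action of `C₃` on `C₇`. -/
def psi : Z3 →* MulAut Z7 where
  toFun i := psiAut (Multiplicative.toAdd i)
  map_one' := MulEquiv.ext fun a => psi_aux3 (Multiplicative.toAdd a)
  map_mul' i j := MulEquiv.ext fun a =>
    psi_aux4 (Multiplicative.toAdd i) (Multiplicative.toAdd j) (Multiplicative.toAdd a)

/-- The Frobenius group of order 21. -/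
abbrev L21 := Z7 ⋊[psi] Z3

instance : Fintype L21 := Fintype.ofEquiv _ SemidirectProduct.equivProd.symm

/-- multiplication by a generator of `𝔽₈ˣ` -/
def omF (v : W3) : W3 := (v.2.2, v.1 + v.2.2, v.2.1)

/-- Frobenius of `𝔽₈` -/
def frF (v : W3) : W3 := (v.1, v.2.2, v.2.1 + v.2.2)

/-- The linear representation of `L21`. -/
def rhoF (g : L21) (v : W3) : W3 :=
  omF^[(Multiplicative.toAdd g.left).val] (frF^[(Multiplicative.toAdd g.right).val] v)

theorem rhoF_mul : ∀ (g h : L21) (v : W3), rhoF (g * h) v = rhoF g (rhoF h v) := by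
  decide +kernel

theorem rhoF_one : ∀ (v : W3), rhoF 1 v = v := by
  decide +kernel

theorem rhoF_add : ∀ (g : L21) (v w : W3), rhoF g (v + w) = rhoF g v + rhoF g w := by
  decide +kernel

/-- The linear action as automorphisms. -/
def rhoAut (g : L21) : MulAut V3 where
  toFun v := Multiplicative.ofAdd (rhoF g (Multiplicative.toAdd v))
  invFun v := Multiplicative.ofAdd (rhoF g⁻¹ (Multiplicative.toAdd v))
  left_inv v := by
    refine Multiplicative.toAdd.injective ?_
    simp only [toAdd_ofAdd, ← rhoF_mul, inv_mul_cancel, rhoF_one]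
  right_inv v := by
    refine Multiplicative.toAdd.injective ?_
    simp only [toAdd_ofAdd, ← rhoF_mul, mul_inv_cancel, rhoF_one]
  map_mul' v w := by
    refine Multiplicative.toAdd.injective ?_
    simp only [toAdd_ofAdd, toAdd_mul, rhoF_add]

/-- The action of `L21` on the vector space. -/
def rho : L21 →* MulAut V3 where
  toFun := rhoAut
  map_one' := by
    refine MulEquiv.ext fun v => Multiplicative.toAdd.injective ?_
    exact rhoF_one (Multiplicative.toAdd v)
  map_mul' g h := by
    refine MulEquiv.ext fun v => Multiplicative.toAdd.injective ?_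
    exact rhoF_mul g h (Multiplicative.toAdd v)

/-- The group `2³:7:3`. -/
abbrev S168 := V3 ⋊[rho] L21

instance : Fintype S168 := Fintype.ofEquiv _ SemidirectProduct.equivProd.symm

/-- A decision procedure for equality that does not need defeq of the components. -/
instance decS168 : DecidableEq S168 := fun x y =>
  decidable_of_iff (x.left = y.left ∧ x.right = y.right)
    ⟨fun h => SemidirectProduct.ext h.1 h.2, fun h => by rw [h]; exact ⟨rfl, rfl⟩⟩

theorem S168_exp : ∀ x : S168, x ^ 84 = 1 := by
  decide +kernel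

instance L21_solvable : Group.IsSolvable L21 := semi_solvable _

instance S168_solvable : Group.IsSolvable S168 := semi_solvable _

/-- table for `2³:7:3` -/
def tabS (d : ℕ) : ℕ :=
  ([(1, 1), (2, 8), (3, 57), (4, 8), (6, 120), (7, 49), (12, 120), (14, 56), (21, 105),
    (28, 56), (42, 168), (84, 168)].lookup d).getD 0

theorem tabS_all : ∀ d ∈ Ds, Fintype.card {x : S168 // x ^ d = 1} = tabS d := by
  decide +kernel

/-- The bundled `2³:7:3`. -/
def sBun : Bun := tabBun S168 S168_exp tabS tabS_all

end CfsgLib.OrderType
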