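import Mathlib
import Cfsg.Agent.Lib.ClassMax.OrderType

/-! The group `GL₃(𝔽₂)` of order 168. -/

set_option autoImplicit false

namespace CfsgLib.OrderType

abbrev M3 := Matrix (Fin 3) (Fin 3) (ZMod 2)
abbrev T168 := M3ˣ

/-- table for `GL₃(𝔽₂)` -/
def tabT (d : ℕ) : ℕ :=
  ([(1, 1), (2, 22), (3, 57), (4, 64), (6, 78), (7, 49), (12, 120), (14, 70), (21, 105),
    (28, 112), (42, 126), (84, 168)].lookup d).getD 0

/-- `𝔽₂³`. -/
abbrev Y3 := ZMod 2 × ZMod 2 × ZMod 2

/-- Matrices as triples of rows. -/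
abbrev E3 := Y3 × Y3 × Y3

/-- Encoding of matrices. -/
def enc (A : M3) : E3 :=
  ((A 0 0, A 0 1, A 0 2), (A 1 0, A 1 1, A 1 2), (A 2 0, A 2 1, A 2 2))

/-- Decoding of matrices. -/
def dec (e : E3) : M3 :=
  !![e.1.1, e.1.2.1, e.1.2.2; e.2.1.1, e.2.1.2.1, e.2.1.2.2; e.2.2.1, e.2.2.2.1, e.2.2.2.2]

theorem dec_enc (A : M3) : dec (enc A) = A := by
  ext i j
  fin_cases i <;> fin_cases j <;> rfl

theorem enc_dec (e : E3) : enc (dec e) = e := rfl

/-- Product of rows and a matrix. -/
def rowMul (r : Y3) (b : E3) : Y3 :=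
  (r.1 * b.1.1 + r.2.1 * b.2.1.1 + r.2.2 * b.2.2.1,
   r.1 * b.1.2.1 + r.2.1 * b.2.1.2.1 + r.2.2 * b.2.2.2.1,
   r.1 * b.1.2.2 + r.2.1 * b.2.1.2.2 + r.2.2 * b.2.2.2.2)

/-- Product of encodings. -/
def mulE (a b : E3) : E3 := (rowMul a.1 b, rowMul a.2.1 b, rowMul a.2.2 b)

theorem enc_mul (A B : M3) : enc (A * B) = mulE (enc A) (enc B) := by
  simp only [enc, mulE, rowMul, Matrix.mul_apply, Fin.sum_univ_three]

/-- The identity. -/
def oneE : E3 := ((1, 0, 0), (0, 1, 0), (0, 0, 1))

theorem enc_one : enc (1 : M3) = oneE := by decide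

/-- Powers of encodings. -/
def powE (a : E3) : ℕ → E3
  | 0 => oneE
  | k + 1 => mulE (powE a k) a

theorem enc_pow (A : M3) (d : ℕ) : enc (A ^ d) = powE (enc A) d := by
  induction d with
  | zero => rw [pow_zero, enc_one]; rfl
  | succ k ih => rw [pow_succ, enc_mul, ih]; rfl

theorem card_M3_eq (d : ℕ) :
    Nat.card {M : M3 // M ^ d = 1} = Fintype.card {e : E3 // powE e d = oneE} := by
  rw [← Nat.card_eq_fintype_card]
  refine Nat.card_congr
    { toFun := fun M => ⟨enc M.1, by rw [← enc_pow, M.2, enc_one]⟩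
      invFun := fun e => ⟨dec e.1, by
        have h1 : enc (dec e.1 ^ d) = enc 1 := by
          rw [enc_pow, enc_dec, e.2, enc_one]
        have h2 := congrArg dec h1
        rwa [dec_enc, dec_enc] at h2⟩
      left_inv := fun M => Subtype.ext (dec_enc _)
      right_inv := fun e => rfl }

theorem tabT_1 : Fintype.card {e : E3 // powE e 1 = oneE} = tabT 1 := by decide +kernel
theorem tabT_2 : Fintype.card {e : E3 // powE e 2 = oneE} = tabT 2 := by decide +kernel
theorem tabT_3 : Fintype.card {e : E3 // powE e 3 = oneE} = tabT 3 := by decide +kernel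
theorem tabT_4 : Fintype.card {e : E3 // powE e 4 = oneE} = tabT 4 := by decide +kernel
theorem tabT_6 : Fintype.card {e : E3 // powE e 6 = oneE} = tabT 6 := by decide +kernel
theorem tabT_7 : Fintype.card {e : E3 // powE e 7 = oneE} = tabT 7 := by decide +kernel
theorem tabT_12 : Fintype.card {e : E3 // powE e 12 = oneE} = tabT 12 := by decide +kernel
theorem tabT_14 : Fintype.card {e : E3 // powE e 14 = oneE} = tabT 14 := by decide +kernel
theorem tabT_21 : Fintype.card {e : E3 // powE e 21 = oneE} = tabT 21 := by decide +kernel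
theorem tabT_28 : Fintype.card {e : E3 // powE e 28 = oneE} = tabT 28 := by decide +kernel
theorem tabT_42 : Fintype.card {e : E3 // powE e 42 = oneE} = tabT 42 := by decide +kernel
theorem tabT_84 : Fintype.card {e : E3 // powE e 84 = oneE} = tabT 84 := by decide +kernel

theorem solCount_T (d : ℕ) (hd : d ∈ Ds) : solCount T168 d = tabT d := by
  have h0 : d ≠ 0 := by
    intro h
    rw [h] at hd
    exact absurd hd (by decide)
  unfold solCount
  rw [solCount_units d h0, card_M3_eq]
  simp only [Ds, List.mem_cons, List.not_mem_nil, or_false] at hd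
  rcases hd with rfl | rfl | rfl | rfl | rfl | rfl | rfl | rfl | rfl | rfl | rfl | rfl
  · exact tabT_1
  · exact tabT_2
  · exact tabT_3
  · exact tabT_4
  · exact tabT_6
  · exact tabT_7
  · exact tabT_12
  · exact tabT_14
  · exact tabT_21
  · exact tabT_28
  · exact tabT_42
  · exact tabT_84

end CfsgLib.OrderType
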