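import Mathlib
import Cfsg.Agent.Lib.ClassMax.OrderTypeT

/-! Exponent and non-solvability of `GL₃(𝔽₂)`. -/

set_option autoImplicit false

open scoped commutatorElement

namespace CfsgLib.OrderType

theorem card_T168 : Nat.card T168 = 168 := by
  have h := Matrix.card_GL_field (𝔽 := ZMod 2) (n := 3)
  have h2 : Nat.card (Matrix.GeneralLinearGroup (Fin 3) (ZMod 2)) = Nat.card T168 := rfl
  rw [← h2, h]
  simp [Fin.prod_univ_three, ZMod.card]

theorem T168_exp (x : T168) : x ^ 84 = 1 := by
  classical
  by_contra hx
  haveI := Fintype.ofFinite T168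
  have h := Fintype.card_subtype_lt (p := fun x : T168 => x ^ 84 = 1) hx
  have h1 := solCount_T 84 (by decide)
  unfold solCount at h1
  rw [← Nat.card_eq_fintype_card, ← Nat.card_eq_fintype_card, h1, card_T168] at h
  exact absurd h (by decide +kernel)

/-- Elementary matrices. -/
def elM (i j : Fin 3) : M3 := if i = j then 1 else 1 + Matrix.single i j 1

theorem elM_sq : ∀ i j : Fin 3, elM i j * elM i j = 1 := by decide +kernel

/-- Elementary matrices as units. -/
def elU (i j : Fin 3) : T168 := ⟨elM i j, elM i j, elM_sq i j, elM_sq i j⟩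

theorem elU_comm : ∀ i j k : Fin 3, i ≠ j → i ≠ k → k ≠ j → elU i j = ⁅elU i k, elU k j⁆ := by
  decide +kernel

theorem exists_third : ∀ i j : Fin 3, i ≠ j → ∃ k, i ≠ k ∧ k ≠ j := by decide

theorem elU_mem (n : ℕ) : ∀ i j : Fin 3, i ≠ j → elU i j ∈ derivedSeries T168 n := by
  induction n with
  | zero =>
    intro i j _
    exact Subgroup.mem_top _
  | succ n ih =>
    intro i j hij
    obtain ⟨k, h1, h2⟩ := exists_third i j hij
    rw [elU_comm i j k hij h1 h2, derivedSeries_succ]
    exact Subgroup.commutator_mem_commutator (ih i k h1) (ih k j h2)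

theorem T168_not_solvable : ¬ Group.IsSolvable T168 := by
  refine not_isSolvable_of_mem_derivedSeries (g := elU 0 1) ?_ (fun n => elU_mem n 0 1 (by decide))
  decide +kernel

end CfsgLib.OrderType
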