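import Cfsg.Agent.Lib.Char.Burnside

/-! Perfect groups with solvable maximal subgroups of large derived length. -/

set_option autoImplicit false
set_option linter.unusedSimpArgs false
set_option linter.unusedVariables false
set_option linter.unusedSectionVars false
set_option linter.style.haveILetI false
set_option maxRecDepth 100000

namespace CfsgLib.ClassMax.PerfSolv

open Matrix
open scoped commutatorElement

section uni

variable {n : ℕ}

abbrev MA (n : ℕ) := Matrix (Fin n) (Fin n) (ZMod 2)

def IsSU (N : MA n) : Prop := ∀ i j, j ≤ i → N i j = 0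

theorem isSU_mul {N M : MA n} (hN : IsSU N) (hM : IsSU M) : IsSU (N * M) := by
  intro i j hji
  rw [Matrix.mul_apply]
  apply Finset.sum_eq_zero
  intro k _
  by_cases h : k ≤ i
  · rw [hN i k h, zero_mul]
  · push Not at h
    have : j ≤ k := hji.trans h.le
    rw [hM k j this, mul_zero]

theorem isSU_add {N M : MA n} (hN : IsSU N) (hM : IsSU M) : IsSU (N + M) := by
  intro i j hji
  rw [Matrix.add_apply, hN i j hji, hM i j hji, add_zero]

theorem isSU_pow_apply {N : MA n} (hN : IsSU N) (k : ℕ) : ∀ i j : Fin n, j.val < i.val + k → (N ^ k) i j = 0 := by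
  induction k with
  | zero =>
    intro i j h
    rw [pow_zero, Matrix.one_apply_ne]
    intro he
    rw [he] at h
    omega
  | succ k ih =>
    intro i j h
    rw [pow_succ, Matrix.mul_apply]
    apply Finset.sum_eq_zero
    intro l _
    by_cases hl : j ≤ l
    · rw [hN l j hl, mul_zero]
    · push Not at hl
      have hl' : l.val < j.val := hl
      rw [ih i l (by omega), zero_mul]

theorem isSU_pow_n {N : MA n} (hN : IsSU N) : N ^ n = 0 := by
  ext i j
  rw [isSU_pow_apply hN n i j (by have := j.2; omega)]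
  rfl

theorem add_self_MA (A : MA n) : A + A = 0 := by
  ext i j
  exact CharTwo.add_self_eq_zero _

theorem one_add_pow_two_pow (A : MA n) (k : ℕ) : (1 + A) ^ (2 ^ k) = 1 + A ^ (2 ^ k) := by
  induction k with
  | zero => simp
  | succ k ih =>
    rw [pow_succ 2 k, pow_mul, ih, pow_two]
    have h : (1 + A ^ 2 ^ k) * (1 + A ^ 2 ^ k) = 1 + (A ^ 2 ^ k + A ^ 2 ^ k) + A ^ 2 ^ k * A ^ 2 ^ k := by
      noncomm_ring
    rw [h, add_self_MA, add_zero, ← pow_add]
    congr 2
    ring

/-- the unitriangular group -/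
def UU (n : ℕ) : Subgroup (MA n)ˣ where
  carrier := {g | IsSU ((g : MA n) - 1)}
  mul_mem' := by
    intro a b ha hb
    have h : (((a * b : (MA n)ˣ)) : MA n) - 1 = ((a : MA n) - 1) * ((b : MA n) - 1) + ((a : MA n) - 1) + ((b : MA n) - 1) := by
      rw [Units.val_mul]
      noncomm_ring
    show IsSU _
    rw [h]
    exact isSU_add (isSU_add (isSU_mul ha hb) ha) hb
  one_mem' := by
    intro i j _
    simp
  inv_mem' := by
    intro g hg
    have hpow : ∀ k : ℕ, IsSU (((g ^ k : (MA n)ˣ) : MA n) - 1) := by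
      intro k
      induction k with
      | zero =>
        intro i j _
        simp
      | succ k ih =>
        have h : (((g ^ (k + 1) : (MA n)ˣ)) : MA n) - 1 = (((g ^ k : (MA n)ˣ) : MA n) - 1) * ((g : MA n) - 1) + (((g ^ k : (MA n)ˣ) : MA n) - 1) + ((g : MA n) - 1) := by
          rw [pow_succ, Units.val_mul]
          noncomm_ring
        rw [h]
        exact isSU_add (isSU_add (isSU_mul ih hg) ih) hg
    have hinv : g⁻¹ ∈ Submonoid.powers g := mem_powers_iff_mem_zpowers.mpr (Subgroup.inv_mem _ (Subgroup.mem_zpowers g))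
    obtain ⟨k, hk⟩ := hinv
    show IsSU _
    rw [← hk]
    exact hpow k

instance : Finite (UU n) := inferInstance

theorem UU_exp (g : UU n) : g ^ (2 ^ n) = 1 := by
  apply Subtype.ext
  apply Units.ext
  have hg : IsSU (((g : (MA n)ˣ) : MA n) - 1) := g.2
  have h1 : (((g : (MA n)ˣ) : MA n)) = 1 + (((g : (MA n)ˣ) : MA n) - 1) := by
    noncomm_ring
  show (((g : (MA n)ˣ) ^ (2 ^ n) : (MA n)ˣ) : MA n) = 1
  rw [Units.val_pow_eq_pow_val, h1, one_add_pow_two_pow]
  have h2 : (((g : (MA n)ˣ) : MA n) - 1) ^ (2 ^ n) = 0 :=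
    pow_eq_zero_of_le (Nat.lt_two_pow_self).le (isSU_pow_n hg)
  rw [h2, add_zero]

/-- elementary matrices as units -/
def Eu (a b : Fin n) (h : a < b) : (MA n)ˣ where
  val := 1 + Matrix.single a b 1
  inv := 1 + Matrix.single a b 1
  val_inv := by
    have hx : (Matrix.single a b 1 : MA n) * Matrix.single a b 1 = 0 := by
      rw [Matrix.single_mul_single_of_ne]
      exact h.ne'
    have h' : (1 + (Matrix.single a b 1 : MA n)) * (1 + Matrix.single a b 1) =
        1 + (Matrix.single a b 1 + Matrix.single a b 1) + Matrix.single a b 1 * Matrix.single a b 1 := by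
      noncomm_ring
    rw [h', hx, add_self_MA]
    simp
  inv_val := by
    have hx : (Matrix.single a b 1 : MA n) * Matrix.single a b 1 = 0 := by
      rw [Matrix.single_mul_single_of_ne]
      exact h.ne'
    have h' : (1 + (Matrix.single a b 1 : MA n)) * (1 + Matrix.single a b 1) =
        1 + (Matrix.single a b 1 + Matrix.single a b 1) + Matrix.single a b 1 * Matrix.single a b 1 := by
      noncomm_ring
    rw [h', hx, add_self_MA]
    simp

theorem Eu_mem (a b : Fin n) (h : a < b) : Eu a b h ∈ UU n := by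
  show IsSU _
  intro i j hji
  show ((1 + Matrix.single a b 1 : MA n) - 1) i j = 0
  rw [add_sub_cancel_left, Matrix.single_apply]
  rw [if_neg]
  rintro ⟨rfl, rfl⟩
  exact absurd h (not_lt.mpr hji)

def EU (a b : Fin n) (h : a < b) : UU n := ⟨Eu a b h, Eu_mem a b h⟩

theorem EU_comm (a c b : Fin n) (h1 : a < c) (h2 : c < b) :
    ⁅EU a c h1, EU c b h2⁆ = EU a b (h1.trans h2) := by
  apply Subtype.ext
  apply Units.ext
  have hinv1 : (((EU a c h1 : UU n) : (MA n)ˣ)⁻¹ : (MA n)ˣ).val = 1 + Matrix.single a c 1 := rfl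
  have hinv2 : (((EU c b h2 : UU n) : (MA n)ˣ)⁻¹ : (MA n)ˣ).val = 1 + Matrix.single c b 1 := rfl
  show (((EU a c h1 : UU n) : (MA n)ˣ).val * ((EU c b h2 : UU n) : (MA n)ˣ).val *
    (((EU a c h1 : UU n) : (MA n)ˣ)⁻¹ : (MA n)ˣ).val * (((EU c b h2 : UU n) : (MA n)ˣ)⁻¹ : (MA n)ˣ).val) = 1 + Matrix.single a b 1
  rw [hinv1, hinv2]
  show (1 + Matrix.single a c 1) * (1 + Matrix.single c b 1) * (1 + Matrix.single a c 1) * (1 + Matrix.single c b 1) = (1 + Matrix.single a b 1 : MA n)
  set x : MA n := Matrix.single a c 1 with hx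
  set y : MA n := Matrix.single c b 1 with hy
  have hab : a ≠ b := (h1.trans h2).ne
  have hxx : x * x = 0 := Matrix.single_mul_single_of_ne _ _ _ _ h1.ne' _
  have hyy : y * y = 0 := Matrix.single_mul_single_of_ne _ _ _ _ h2.ne' _
  have hyx : y * x = 0 := Matrix.single_mul_single_of_ne _ _ _ _ hab.symm _
  have hxy : x * y = Matrix.single a b 1 := by
    rw [hx, hy, Matrix.single_mul_single_same, mul_one]
  set z : MA n := Matrix.single a b 1 with hz
  have hzx : z * x = 0 := Matrix.single_mul_single_of_ne _ _ _ _ hab.symm _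
  have hzy : z * y = 0 := Matrix.single_mul_single_of_ne _ _ _ _ h2.ne' _
  have h : (1 + x) * (1 + y) * (1 + x) * (1 + y) = 1 + z := by
    have e1 : (1 + x) * (1 + y) = 1 + x + y + z := by
      rw [← hxy]; noncomm_ring
    rw [mul_assoc ((1 + x) * (1 + y)), e1]
    have e2 : (1 + x + y + z) * (1 + x + y + z) = 1 + (x + x) + (y + y) + (z + z) + (x * x + x * y + x * z + y * x + y * y + y * z + z * x + z * y + z * z) := by
      noncomm_ring
    have hxz : x * z = 0 := by
      rw [← hxy, ← mul_assoc, hxx, zero_mul]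
    have hyz : y * z = 0 := by
      rw [← hxy, ← mul_assoc, hyx, zero_mul]
    have hzz : z * z = 0 := by
      rw [← hxy, mul_assoc, ← mul_assoc y, hyx, zero_mul, mul_zero]
    rw [e2, add_self_MA, add_self_MA, add_self_MA, hxx, hxy, hxz, hyx, hyy, hyz, hzx, hzy, hzz]
    simp
  exact h

theorem EU_mem_derived (k : ℕ) : ∀ (a b : Fin n) (h : a < b), a.val + 2 ^ k ≤ b.val →
    EU a b h ∈ derivedSeries (UU n) k := by
  induction k with
  | zero =>
    intro a b h _
    rw [derivedSeries_zero]
    exact Subgroup.mem_top _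
  | succ k ih =>
    intro a b h hle
    have hpos : 0 < 2 ^ k := by positivity
    rw [pow_succ] at hle
    let c : Fin n := ⟨a.val + 2 ^ k, by have := b.2; omega⟩
    have h1 : a < c := by
      show a.val < a.val + 2 ^ k
      omega
    have h2 : c < b := by
      show a.val + 2 ^ k < b.val
      omega
    rw [derivedSeries_succ, ← EU_comm a c b h1 h2]
    apply Subgroup.commutator_mem_commutator
    · exact ih a c h1 (le_refl _)
    · apply ih c b h2
      show a.val + 2 ^ k + 2 ^ k ≤ b.val
      omega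

theorem EU_ne_one (a b : Fin n) (h : a < b) : EU a b h ≠ 1 := by
  intro he
  have h1 := congrArg (fun g : UU n => ((g : (MA n)ˣ) : MA n) a b) he
  have h2 : ((EU a b h : UU n) : (MA n)ˣ).val a b = (1 + Matrix.single a b 1 : MA n) a b := rfl
  change ((EU a b h : UU n) : (MA n)ˣ).val a b = ((1 : UU n) : (MA n)ˣ).val a b at h1
  rw [h2, Matrix.add_apply, Matrix.one_apply_ne h.ne, Matrix.single_apply_same] at h1
  change (0 + 1 : ZMod 2) = (1 : MA n) a b at h1
  rw [Matrix.one_apply_ne h.ne] at h1
  exact absurd h1 (by decide)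

theorem derived_ne_bot (d : ℕ) : derivedSeries (UU (2 ^ d + 1)) d ≠ ⊥ := by
  intro h
  let a : Fin (2 ^ d + 1) := ⟨0, Nat.succ_pos _⟩
  let b : Fin (2 ^ d + 1) := ⟨2 ^ d, Nat.lt_succ_self _⟩
  have hab : a < b := by
    show 0 < 2 ^ d
    positivity
  have := EU_mem_derived d a b hab (by show 0 + 2 ^ d ≤ 2 ^ d; rw [zero_add])
  rw [h, Subgroup.mem_bot] at this
  exact EU_ne_one a b hab this

end uni

section wreath

abbrev X5 := Fin 5
abbrev A5 := alternatingGroup (Fin 5)

variable (S : Type) [Group S]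

def phi : A5 →* MulAut (X5 → S) where
  toFun σ :=
    { toFun := fun f i => f ((σ : Equiv.Perm X5)⁻¹ i)
      invFun := fun f i => f ((σ : Equiv.Perm X5) i)
      left_inv := fun f => by ext i; simp
      right_inv := fun f => by ext i; simp
      map_mul' := fun _ _ => rfl }
  map_one' := by ext; rfl
  map_mul' := by intros; ext; rfl

abbrev WW := (X5 → S) ⋊[phi S] A5

variable {S}

def dl (k l : X5) (s : S) : X5 → S := Pi.mulSingle k s * Pi.mulSingle l s⁻¹

theorem dl_apply (k l : X5) (s : S) (i : X5) : dl k l s i = (if i = k then s else 1) * (if i = l then s⁻¹ else 1) := by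
  simp only [dl, Pi.mul_apply, Pi.mulSingle_apply]

variable (S) in
def gens : Set (WW S) :=
  Set.range (SemidirectProduct.inr) ∪ {x | ∃ k l s, k ≠ l ∧ x = SemidirectProduct.inl (dl k l s)}

variable (S) in
def GG : Subgroup (WW S) := Subgroup.closure (gens S)

theorem inr_mem (σ : A5) : (SemidirectProduct.inr σ : WW S) ∈ GG S :=
  Subgroup.subset_closure (Or.inl ⟨σ, rfl⟩)

theorem dl_mem (k l : X5) (s : S) (h : k ≠ l) : (SemidirectProduct.inl (dl k l s) : WW S) ∈ GG S :=
  Subgroup.subset_closure (Or.inr ⟨k, l, s, h, rfl⟩)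

theorem exists_mn : ∀ k l : X5, k ≠ l → ∃ m n : X5, m ≠ k ∧ m ≠ l ∧ n ≠ k ∧ n ≠ l ∧ m ≠ n := by
  decide

theorem dl_key (k l m n i : X5) (s : S) (hkl : k ≠ l) (hmk : m ≠ k) (hml : m ≠ l) (hnk : n ≠ k) (hnl : n ≠ l) (hmn : m ≠ n) :
    dl m l s i * (dl m l s (Equiv.swap k n (Equiv.swap l k i)))⁻¹ = dl k l s i := by
  by_cases h1 : i = k
  · subst h1
    have e1 : Equiv.swap i n (Equiv.swap l i i) = l := by
      rw [Equiv.swap_apply_right, Equiv.swap_apply_of_ne_of_ne hkl.symm hnl.symm]
    rw [e1]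
    simp [dl_apply, hkl, hml, hmk, hmk.symm, hml.symm, hkl.symm]
  by_cases h2 : i = l
  · subst h2
    have e1 : Equiv.swap k n (Equiv.swap i k i) = n := by
      rw [Equiv.swap_apply_left, Equiv.swap_apply_left]
    rw [e1]
    simp [dl_apply, hkl, hml, hmk, hmk.symm, hml.symm, hkl.symm, hnl, hmn.symm, hnk]
  by_cases h3 : i = n
  · subst h3
    have e1 : Equiv.swap k i (Equiv.swap l k i) = k := by
      rw [Equiv.swap_apply_of_ne_of_ne hnl hnk, Equiv.swap_apply_right]
    rw [e1]
    simp [dl_apply, hkl, hml, hmk, hmk.symm, hml.symm, hkl.symm, hnl, hmn.symm, hnk]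
  · have e1 : Equiv.swap k n (Equiv.swap l k i) = i := by
      rw [Equiv.swap_apply_of_ne_of_ne h2 h1, Equiv.swap_apply_of_ne_of_ne h1 h3]
    rw [e1]
    by_cases h4 : i = m
    · subst h4
      simp [dl_apply, hkl, hml, hmk, hmk.symm, hml.symm, hkl.symm, hnl, hmn.symm, hnk, h1, h2]
    · simp [dl_apply, h1, h2, h4]

theorem dl_comm (k l : X5) (s : S) (hkl : k ≠ l) :
    ∃ (m : X5) (σ : A5), m ≠ l ∧
    (SemidirectProduct.inl (dl k l s) : WW S) = ⁅(SemidirectProduct.inl (dl m l s) : WW S), SemidirectProduct.inr σ⁆ := by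
  obtain ⟨m, n, hmk, hml, hnk, hnl, hmn⟩ := exists_mn k l hkl
  have hs : (Equiv.swap l k * Equiv.swap k n : Equiv.Perm X5) ∈ alternatingGroup X5 := by
    rw [Equiv.Perm.mem_alternatingGroup, map_mul, Equiv.Perm.sign_swap hkl.symm, Equiv.Perm.sign_swap hnk.symm]
    rfl
  refine ⟨m, ⟨_, hs⟩, hml, ?_⟩
  set σ : A5 := ⟨_, hs⟩ with hσ
  have h1 := SemidirectProduct.inl_aut (φ := phi S) σ (dl m l s)⁻¹
  have h2 : (SemidirectProduct.inl (dl k l s) : WW S) = SemidirectProduct.inl (dl m l s) * SemidirectProduct.inl ((phi S) σ (dl m l s)⁻¹) := by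
    rw [← map_mul]
    congr 1
    ext i
    have hinv : ((σ : Equiv.Perm X5)⁻¹ i) = Equiv.swap k n (Equiv.swap l k i) := by
      show ((Equiv.swap l k * Equiv.swap k n : Equiv.Perm X5)⁻¹) i = _
      rw [_root_.mul_inv_rev, Equiv.swap_inv, Equiv.swap_inv]
      rfl
    show dl k l s i = dl m l s i * (dl m l s)⁻¹ ((σ : Equiv.Perm X5)⁻¹ i)
    rw [hinv, Pi.inv_apply]
    exact (dl_key k l m n i s hkl hmk hml hnk hnl hmn).symm
  rw [h2, h1, commutatorElement_def, map_inv, map_inv]
  simp only [mul_assoc]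

theorem commutator_GG : commutator (GG S) = ⊤ := by
  have hcl : Subgroup.closure (((↑) : GG S → WW S) ⁻¹' gens S) = ⊤ := Subgroup.closure_closure_coe_preimage
  rw [eq_top_iff, ← hcl, Subgroup.closure_le]
  rintro x (⟨σ, hσ⟩ | ⟨k, l, s, hkl, hx⟩)
  · let j : A5 →* GG S := (SemidirectProduct.inr (φ := phi S)).codRestrict (GG S) inr_mem
    have hmap := map_derivedSeries_le_derivedSeries j 1
    have hcom : derivedSeries A5 1 = ⊤ := by
      rw [derivedSeries_succ, derivedSeries_zero]
      exact commutator_alternatingGroup_eq_top (by simp)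
    rw [hcom] at hmap
    have : x = j σ := Subtype.ext hσ.symm
    rw [this]
    apply hmap
    exact ⟨σ, Subgroup.mem_top _, rfl⟩
  · obtain ⟨m, σ, hml, he⟩ := dl_comm k l s hkl
    have : x = ⁅(⟨SemidirectProduct.inl (dl m l s), dl_mem m l s hml⟩ : GG S), ⟨SemidirectProduct.inr σ, inr_mem σ⟩⁆ := by
      apply Subtype.ext
      rw [hx, he]
      rfl
    show x ∈ (commutator (GG S) : Set (GG S))
    rw [this]
    exact Subgroup.commutator_mem_commutator (Subgroup.mem_top _) (Subgroup.mem_top _)

/-- A subgroup of prime index is a coatom. -/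
theorem isCoatom_of_prime_index {G : Type*} [Group G] (H : Subgroup G) (hp : H.index.Prime) : IsCoatom H := by
  constructor
  · intro h
    rw [h, Subgroup.index_top] at hp
    exact Nat.not_prime_one hp
  · intro K hlt
    have hle := hlt.le
    have h1 := Subgroup.relIndex_mul_index hle
    have hdvd : K.index ∣ H.index := ⟨_, by rw [← h1, mul_comm]⟩
    rcases (Nat.dvd_prime hp).mp hdvd with h | h
    · exact Subgroup.index_eq_one.mp h
    · exfalso
      rw [h] at h1
      have h2 : H.relIndex K = 1 := by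
        have hpos := hp.pos
        exact Nat.eq_of_mul_eq_mul_right hpos (by rw [h1, one_mul])
      exact hlt.not_ge (Subgroup.relIndex_eq_one.mp h2)

/-- Point stabilizer in `A₅`. -/
def M4 : Subgroup A5 := MulAction.stabilizer A5 (4 : Fin 5)

theorem A5_trans : ∀ x : Fin 5, ∃ σ : A5, σ • (4 : Fin 5) = x := by
  decide +kernel

theorem index_M4 : M4.index = 5 := by
  rw [M4, MulAction.index_stabilizer]
  have : MulAction.orbit A5 (4 : Fin 5) = Set.univ := by
    ext x
    simp only [Set.mem_univ, iff_true]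
    obtain ⟨σ, hσ⟩ := A5_trans x
    exact ⟨σ, hσ⟩
  rw [this, Set.ncard_univ]
  simp

theorem card_A5 : Nat.card A5 = 60 := by
  have h := Subgroup.card_mul_index (alternatingGroup (Fin 5))
  have h120 : Nat.card (Equiv.Perm (Fin 5)) = 120 := by
    rw [Nat.card_perm]
    simp [Nat.factorial]
  rw [alternatingGroup.index_eq_two, h120] at h
  show Nat.card (alternatingGroup (Fin 5)) = 60
  omega

theorem card_M4 : Nat.card M4 = 12 := by
  have h := Subgroup.card_mul_index M4
  rw [index_M4, card_A5] at h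
  omega

instance solv_M4 : Group.IsSolvable M4 :=
  CfsgLib.Char.solvable_of_card_eq Nat.prime_two Nat.prime_three _ M4 card_M4 ⟨2, 1, rfl⟩

/-- the projection to `A₅` -/
def proj : GG S →* A5 := (SemidirectProduct.rightHom (φ := phi S)).comp (GG S).subtype

theorem proj_surj : Function.Surjective (proj (S := S)) := by
  intro σ
  exact ⟨⟨_, inr_mem σ⟩, SemidirectProduct.rightHom_inr (φ := phi S) σ⟩

variable (S) in
/-- preimage of `A₄` -/
def HH : Subgroup (GG S) := M4.comap (proj (S := S))

theorem index_HH : (HH S).index = 5 := by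
  rw [HH, Subgroup.index_comap_of_surjective _ proj_surj, index_M4]

theorem coatom_HH : IsCoatom (HH S) :=
  isCoatom_of_prime_index _ (by rw [index_HH]; norm_num)

theorem solv_base [Finite S] (hexp : ∃ N : ℕ, ∀ s : S, s ^ 2 ^ N = 1) : Group.IsSolvable (X5 → S) := by
  haveI : Fact (Nat.Prime 2) := ⟨Nat.prime_two⟩
  obtain ⟨N, hN⟩ := hexp
  have hp : IsPGroup 2 (X5 → S) := by
    intro f
    refine ⟨N, ?_⟩
    ext i
    exact hN (f i)
  haveI := hp.isNilpotent
  infer_instance

theorem solv_HH [Finite S] (hexp : ∃ N : ℕ, ∀ s : S, s ^ 2 ^ N = 1) : Group.IsSolvable (HH S) := by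
  haveI := solv_base hexp
  let WM : Subgroup (WW S) := M4.comap (SemidirectProduct.rightHom (φ := phi S))
  let f : (X5 → S) →* WM := (SemidirectProduct.inl (φ := phi S)).codRestrict WM (by
    intro x
    show SemidirectProduct.rightHom (SemidirectProduct.inl x) ∈ M4
    rw [SemidirectProduct.rightHom_inl]
    exact M4.one_mem)
  let g : WM →* M4 := ((SemidirectProduct.rightHom (φ := phi S)).comp WM.subtype).codRestrict M4 (fun x => x.2)
  have hfg : g.ker ≤ f.range := by
    intro x hx
    have h1 : (x : WW S).right = 1 := by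
      have := congrArg Subtype.val (MonoidHom.mem_ker.mp hx)
      exact this
    refine ⟨(x : WW S).left, ?_⟩
    apply Subtype.ext
    show SemidirectProduct.inl (x : WW S).left = (x : WW S)
    have h2 := SemidirectProduct.inl_left_mul_inr_right (x : WW S)
    rw [h1, map_one, mul_one] at h2
    exact h2
  haveI : Group.IsSolvable WM := Group.isSolvable_of_ker_le_range f g hfg
  let ι : HH S →* WM := MonoidHom.codRestrict (((GG S).subtype).comp (HH S).subtype) WM (fun x => x.2)
  have hι : Function.Injective ι := by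
    intro a b h
    apply Subtype.ext
    apply Subtype.ext
    have h' := congrArg Subtype.val h
    exact h'
  exact Group.isSolvable_of_isSolvable_injective hι

/-- coordinate 0 embedding of the commutator subgroup -/
def at0 : S →* WW S := (SemidirectProduct.inl (φ := phi S)).comp (MonoidHom.mulSingle (fun _ : X5 => S) 0)

theorem comm_at0 (a b : S) : at0 ⁅a, b⁆ = ⁅(SemidirectProduct.inl (dl 0 1 a) : WW S), SemidirectProduct.inl (dl 0 2 b)⁆ := by
  rw [← map_commutatorElement]
  show SemidirectProduct.inl _ = _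
  congr 1
  ext i
  show (Pi.mulSingle (0 : X5) ⁅a, b⁆ : X5 → S) i = ⁅dl 0 1 a i, dl 0 2 b i⁆
  rw [dl_apply, dl_apply, Pi.mulSingle_apply]
  fin_cases i <;> simp [commutatorElement_def]

theorem at0_mem (u : S) (hu : u ∈ commutator S) : at0 u ∈ GG S := by
  have hle : commutator S ≤ (GG S).comap at0 := by
    rw [commutator_def, Subgroup.commutator_le]
    intro a _ b _
    show at0 ⁅a, b⁆ ∈ GG S
    rw [comm_at0]
    have h1 := dl_mem (S := S) 0 1 a (by decide)
    have h2 := dl_mem (S := S) 0 2 b (by decide)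
    rw [commutatorElement_def]
    exact (GG S).mul_mem ((GG S).mul_mem ((GG S).mul_mem h1 h2) ((GG S).inv_mem h1)) ((GG S).inv_mem h2)
  exact hle hu

theorem derived_comm (n : ℕ) :
    Subgroup.map (commutator S).subtype (derivedSeries ↥(commutator S) n) = derivedSeries S (n + 1) := by
  induction n with
  | zero =>
    rw [derivedSeries_zero, ← MonoidHom.range_eq_map, Subgroup.range_subtype, derivedSeries_succ, derivedSeries_zero]
    rfl
  | succ n ih =>
    rw [derivedSeries_succ, Subgroup.map_commutator, ih]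
    exact (derivedSeries_succ S (n + 1)).symm

theorem derived_HH (d : ℕ) (hd : derivedSeries S (d + 1) ≠ ⊥) : derivedSeries (HH S) d ≠ ⊥ := by
  let ι₁ : ↥(commutator S) →* ↥(GG S) := MonoidHom.codRestrict (at0.comp (commutator S).subtype) (GG S) (fun x => at0_mem _ x.2)
  let ι₂ : ↥(commutator S) →* ↥(HH S) := MonoidHom.codRestrict ι₁ (HH S) (fun x => by
    show proj (ι₁ x) ∈ M4
    have : proj (ι₁ x) = 1 := SemidirectProduct.rightHom_inl (φ := phi S) (Pi.mulSingle 0 (x : S))
    rw [this]
    exact M4.one_mem)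
  have hinj : Function.Injective ι₂ := by
    intro a b h
    have h1 : at0 (a : S) = at0 (b : S) := congrArg (fun x : HH S => ((x : GG S) : WW S)) h
    have h2 : Function.Injective (at0 (S := S)) := by
      intro x y hxy
      have := SemidirectProduct.inl_injective (φ := phi S) (show SemidirectProduct.inl _ = SemidirectProduct.inl _ from hxy)
      exact Pi.mulSingle_injective _ this
    exact Subtype.ext (h2 h1)
  intro hbot
  apply hd
  rw [← derived_comm, Subgroup.map_eq_bot_iff_of_injective _ (Subgroup.subtype_injective _)]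
  have hle := map_derivedSeries_le_derivedSeries ι₂ d
  rw [hbot, le_bot_iff, Subgroup.map_eq_bot_iff_of_injective _ hinj] at hle
  exact hle

end wreath

theorem main (d : ℕ) :
    ∃ (G : Type) (_ : Group G) (_ : Finite G) (H : Subgroup G), commutator G = ⊤ ∧ IsCoatom H ∧ Group.IsSolvable H ∧
      derivedSeries H d ≠ ⊥ := by
  let S := UU (2 ^ (d + 1) + 1)
  haveI : Finite S := inferInstance
  haveI : Finite (WW S) := Finite.of_equiv _ SemidirectProduct.equivProd.symm
  exact ⟨GG S, inferInstance, inferInstance, HH S, commutator_GG, coatom_HH,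
    solv_HH ⟨_, UU_exp⟩, derived_HH d (derived_ne_bot (d + 1))⟩

end CfsgLib.ClassMax.PerfSolv
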