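import Cfsg.Agent.Lib.ClassMax.S6Data

/-! Subgroups of index 6 of the symmetric group of degree 6. -/

set_option autoImplicit false
set_option linter.unusedSimpArgs false
set_option linter.unusedVariables false
set_option linter.unusedSectionVars false
set_option linter.style.haveILetI false
set_option maxRecDepth 100000

namespace CfsgLib.ClassMax.S6

open Equiv Equiv.Perm MulAction CfsgLib.ClassMax.IndexN

/-- Sylow part. -/
theorem f0_mem (K : Subgroup Sx) (hK : Nat.card K = 120) (hc : c0 ∈ K) : f0 ∈ K := by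
  classical
  haveI : Fact (Nat.Prime 5) := ⟨by norm_num⟩
  let c' : K := ⟨c0, hc⟩
  have hord : orderOf c' = 5 := by
    apply orderOf_eq_prime
    · ext1
      exact c0_pow
    · intro h
      have : c0 = 1 := congrArg Subtype.val h
      exact absurd this (by decide +kernel)
  let Q : Subgroup K := Subgroup.zpowers c'
  have hQ : Nat.card Q = 5 := by
    rw [Nat.card_zpowers, hord]
  have hfact : (Nat.card K).factorization 5 = 1 := by
    rw [hK, show (120 : ℕ) = 5 * 24 by norm_num, Nat.factorization_mul (by norm_num) (by norm_num),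
      Finsupp.add_apply, Nat.Prime.factorization_self (by norm_num),
      Nat.factorization_eq_zero_of_not_dvd (by norm_num)]
  let P : Sylow 5 K := Sylow.ofCard Q (by rw [hfact, hQ]; norm_num)
  have hP : (P : Subgroup K) = Q := rfl
  have hPcard : Nat.card (P : Subgroup K) = 5 := by rw [hP, hQ]
  have hPidx : (P : Subgroup K).index = 24 := by
    have := Subgroup.card_mul_index (P : Subgroup K)
    rw [hPcard, hK] at this
    omega
  have h1 := card_sylow_modEq_one 5 K
  have h2 := P.card_dvd_index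
  rw [hPidx] at h2
  have h3 := P.card_eq_index_normalizer
  set n := Nat.card (Sylow 5 K) with hn
  have hn6 : n ≤ 6 := by
    have hle := Nat.le_of_dvd (by norm_num) h2
    have hmem : n ∈ Nat.divisors 24 := Nat.mem_divisors.mpr ⟨h2, by norm_num⟩
    have hmod : n % 5 = 1 := h1
    have : n ≤ 24 := hle
    interval_cases n <;> revert hmod h2 <;> decide
  let N := Subgroup.normalizer ((P : Subgroup K) : Set K)
  have hN := Subgroup.card_mul_index N
  have hNi : N.index = n := h3.symm
  rw [hK, hNi] at hN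
  have hcardN : 20 ≤ Nat.card N := by
    by_contra hlt
    have : Nat.card N * n ≤ 19 * 6 := Nat.mul_le_mul (by omega) hn6
    omega
  -- map to the list
  let ι : N → Sx := fun x => ((x : K) : Sx)
  have hι : Function.Injective ι := fun a b h => Subtype.ext (Subtype.ext h)
  haveI : Fintype N := Fintype.ofFinite _
  have hsub : Finset.univ.image ι ⊆ FL.toFinset := by
    intro g hg
    obtain ⟨x, _, rfl⟩ := Finset.mem_image.mp hg
    rw [List.mem_toFinset]
    apply norm_FL
    apply mem_Z5
    have hx := (x : K)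
    have hmem : (x : K) * c' * (x : K)⁻¹ ∈ (P : Subgroup K) :=
      (Subgroup.mem_normalizer_iff.mp x.2 c').mp (Subgroup.mem_zpowers c')
    rw [hP] at hmem
    obtain ⟨k, hk⟩ := hmem
    refine ⟨k, ?_⟩
    have := congrArg (Subtype.val) hk
    simpa [c'] using this
  have heq : Finset.univ.image ι = FL.toFinset := by
    apply Finset.eq_of_subset_of_card_le hsub
    rw [FL_card, Finset.card_image_of_injective _ hι, Finset.card_univ, ← Nat.card_eq_fintype_card]
    exact hcardN
  have hf : f0 ∈ FL.toFinset := by decide +kernel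
  rw [← heq] at hf
  obtain ⟨x, _, hx⟩ := Finset.mem_image.mp hf
  rw [← hx]
  exact (x : K).2

theorem c0_pow_5 (i : ℕ) : (c0 ^ i) 5 = 5 := by
  induction i with
  | zero => simp
  | succ n ih =>
    rw [pow_succ, mul_apply]
    have : c0 5 = 5 := by decide
    rw [this, ih]

theorem c0_pow_mem_E (i : ℕ) : c0 ^ i ∈ E := E.pow_mem c0_mem_E i

theorem exists_swap_of_not_mem (K : Subgroup Sx) (hc : c0 ∈ K) (hf : f0 ∈ K) (t : Sx) (htK : t ∈ K) (ht : t ∉ E) :
    ∃ a b : Fin 6, a ≠ b ∧ swap a b ∈ K := by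
  have hnf : ∃ t' ∈ K, t' ∉ E ∧ (t' 5 = 5 ∧ t' 0 = 0 ∨ t' 5 = 0 ∧ t' 0 = 5) := by
    by_cases h5 : t 5 = 5
    · have h0 : t 0 ≠ 5 := by
        intro h
        have : t 0 = t 5 := h.trans h5.symm
        exact absurd (t.injective this) (by decide)
      obtain ⟨i, _, hi⟩ := c0_move _ h0
      refine ⟨c0 ^ i * t, K.mul_mem (K.pow_mem hc i) htK, ?_, Or.inl ⟨?_, hi⟩⟩
      · intro h
        exact ht ((Subgroup.mul_mem_cancel_left E (c0_pow_mem_E i)).mp h)
      · rw [mul_apply, h5, c0_pow_5]
    · obtain ⟨i, _, hi⟩ := c0_move _ h5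
      have hy : t⁻¹ 5 ≠ 5 := by
        intro h
        apply h5
        conv_lhs => rw [← h]
        simp
      obtain ⟨j, _, hj⟩ := c0_move' _ hy
      refine ⟨c0 ^ i * t * c0 ^ j, K.mul_mem (K.mul_mem (K.pow_mem hc i) htK) (K.pow_mem hc j), ?_, Or.inr ⟨?_, ?_⟩⟩
      · intro h
        have h' := (Subgroup.mul_mem_cancel_right E (c0_pow_mem_E j)).mp h
        exact ht ((Subgroup.mul_mem_cancel_left E (c0_pow_mem_E i)).mp h')
      · simp only [mul_apply, c0_pow_5, hi]
      · simp only [mul_apply, hj]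
        simp [c0_pow_5]
  obtain ⟨t', htK', htE', hn⟩ := hnf
  obtain ⟨a, ha, b, hb, h⟩ := word_cert0 t' hn htE'
  have haK := FL_mem K hc hf a (CL_FL a ha)
  have hbK := FL_mem K hc hf b (CL_FL b hb)
  rcases h with h | h
  · obtain ⟨x, y, hxy, he⟩ := mv2_isSwap _ h
    exact ⟨x, y, hxy, he ▸ K.mul_mem (K.mul_mem haK htK') hbK⟩
  · obtain ⟨x, y, hxy, he⟩ := mv2_isSwap _ h
    exact ⟨x, y, hxy, he ▸ K.mul_mem (K.mul_mem (K.mul_mem htK' haK) htK') hbK⟩

/-- 2-transitivity. -/
theorem top_of_swap (K : Subgroup Sx) (hc : c0 ∈ K) (hf : f0 ∈ K) (t₀ : Sx) (ht₀ : t₀ ∈ K) (ht5 : t₀ 5 ≠ 5)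
    (a b : Fin 6) (hab : a ≠ b) (hs : swap a b ∈ K) : K = ⊤ := by
  have trans1 : ∀ x : Fin 6, ∃ g ∈ K, g x = 5 := by
    intro x
    by_cases hx : x = 5
    · exact ⟨1, K.one_mem, by simp [hx]⟩
    · obtain ⟨k, hk, _, hkx⟩ := FL_trans x (t₀ 5) hx ht5
      refine ⟨t₀⁻¹ * k, K.mul_mem (K.inv_mem ht₀) (FL_mem K hc hf k hk), ?_⟩
      simp [hkx]
  rw [eq_top_iff, ← closure_isSwap, Subgroup.closure_le]
  rintro σ ⟨x, y, hxy, rfl⟩
  obtain ⟨g₁, hg₁, h1⟩ := trans1 a
  obtain ⟨g₂, hg₂, h2⟩ := trans1 x
  have hb : g₁ b ≠ 5 := by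
    intro h
    exact hab (g₁.injective (h1.trans h.symm))
  have hy : g₂ y ≠ 5 := by
    intro h
    exact hxy (g₂.injective (h2.trans h.symm))
  obtain ⟨k, hk, hk5, hkx⟩ := FL_trans _ _ hb hy
  let g := g₂⁻¹ * k * g₁
  have hg : g ∈ K := K.mul_mem (K.mul_mem (K.inv_mem hg₂) (FL_mem K hc hf k hk)) hg₁
  have hga : g a = x := by
    simp only [g, mul_apply, h1, hk5]
    rw [← h2]
    simp
  have hgb : g b = y := by
    simp only [g, mul_apply, hkx]
    simp
  have := K.mul_mem (K.mul_mem hg hs) (K.inv_mem hg)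
  rw [swap_conj', hga, hgb] at this
  exact this

theorem classify_c0 (K : Subgroup Sx) (hK : Nat.card K = 120) (hc : c0 ∈ K) :
    K = stabilizer Sx (5 : Fin 6) ∨ K = E := by
  classical
  have hf := f0_mem K hK hc
  have hidx : K.index = 6 := by
    have h := Subgroup.card_mul_index K
    rw [hK, card_S6] at h
    omega
  by_cases h1 : ∀ g ∈ K, g 5 = 5
  · left
    apply stab_eq_of_le K 5 (by simpa using hidx)
    intro g hg
    exact h1 g hg
  push Not at h1
  obtain ⟨t₀, ht₀, ht5⟩ := h1
  by_cases h2 : K ≤ E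
  · right
    apply Subgroup.eq_of_le_of_card_ge h2
    rw [card_E, hK]
  exfalso
  rw [SetLike.not_le_iff_exists] at h2
  obtain ⟨t, ht, htE⟩ := h2
  have hswap := exists_swap_of_not_mem K hc hf t ht htE
  obtain ⟨a, b, hab, hs⟩ := hswap
  have htop := top_of_swap K hc hf t₀ ht₀ ht5 a b hab hs
  rw [htop] at hK
  rw [Subgroup.card_top, card_S6] at hK
  omega

theorem cycleType_five (c : Sx) (h5 : c ^ 5 = 1) (h1 : c ≠ 1) : c.cycleType = {5} := by
  haveI : Fact (Nat.Prime 5) := ⟨by norm_num⟩
  have hord : orderOf c = 5 := orderOf_eq_prime h5 h1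
  obtain ⟨n, hn⟩ := cycleType_prime_order (σ := c) (by rw [hord]; norm_num)
  rw [hord] at hn
  have hsum := sum_cycleType c
  rw [hn] at hsum
  have hle : c.support.card ≤ 6 := by
    simpa using Finset.card_le_univ c.support
  simp only [Multiset.sum_replicate, smul_eq_mul] at hsum
  have : n = 0 := by omega
  subst this
  simpa using hn

theorem conj_c0 (c : Sx) (h5 : c ^ 5 = 1) (h1 : c ≠ 1) : ∃ g : Sx, g * c * g⁻¹ = c0 := by
  have hc0 : c0 ≠ 1 := by decide +kernel
  have h : IsConj c c0 := by
    rw [isConj_iff_cycleType_eq, cycleType_five c h5 h1, cycleType_five c0 c0_pow hc0]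
  obtain ⟨g, hg⟩ := isConj_iff.mp h
  exact ⟨g, hg⟩

theorem mem_conj (g x : Sx) (H : Subgroup Sx) :
    x ∈ Subgroup.map (MulAut.conj g).toMonoidHom H ↔ g⁻¹ * x * g ∈ H := by
  constructor
  · rintro ⟨y, hy, rfl⟩
    simpa [mul_assoc] using hy
  · intro h
    refine ⟨_, h, ?_⟩
    simp [mul_assoc]

theorem card_conj (g : Sx) (H : Subgroup Sx) :
    Nat.card (Subgroup.map (MulAut.conj g).toMonoidHom H) = Nat.card H :=
  Subgroup.card_map_of_injective (MulAut.conj g).injective

theorem conj_conj (g : Sx) (H K : Subgroup Sx) (h : Subgroup.map (MulAut.conj g).toMonoidHom H = K) :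
    Subgroup.map (MulAut.conj g⁻¹).toMonoidHom K = H := by
  ext x
  rw [mem_conj, ← h, mem_conj]
  simp [mul_assoc]

theorem classify (H : Subgroup Sx) (hH : H.index = 6) :
    ∃ g : Sx, Subgroup.map (MulAut.conj g).toMonoidHom (stabilizer Sx (5 : Fin 6)) = H ∨
      Subgroup.map (MulAut.conj g).toMonoidHom E = H := by
  classical
  haveI : Fact (Nat.Prime 5) := ⟨by norm_num⟩
  have hcard : Nat.card H = 120 := by
    have h := Subgroup.card_mul_index H
    rw [hH, card_S6] at h
    omega
  obtain ⟨c, hc⟩ := exists_prime_orderOf_dvd_card' (G := H) 5 (by rw [hcard]; norm_num)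
  have hc5 : ((c : H) : Sx) ^ 5 = 1 := by
    have := pow_orderOf_eq_one c
    rw [hc] at this
    exact congrArg Subtype.val this
  have hc1 : ((c : H) : Sx) ≠ 1 := by
    intro h
    have : c = 1 := Subtype.ext h
    rw [this, orderOf_one] at hc
    omega
  obtain ⟨g, hg⟩ := conj_c0 _ hc5 hc1
  let K := Subgroup.map (MulAut.conj g).toMonoidHom H
  have hK : Nat.card K = 120 := by rw [card_conj, hcard]
  have hcK : c0 ∈ K := by
    rw [← hg]
    exact ⟨c, c.2, rfl⟩
  refine ⟨g⁻¹, ?_⟩
  rcases classify_c0 K hK hcK with h | h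
  · left
    rw [← h]
    exact conj_conj g H K rfl
  · right
    rw [← h]
    exact conj_conj g H K rfl

section iso

/-- A point stabilizer is a symmetric group on the remaining points. -/
noncomputable def stabEquiv {X : Type*} [Fintype X] [DecidableEq X] (x : X) :
    Perm {y // y ≠ x} ≃* stabilizer (Perm X) x :=
  (MonoidHom.ofInjective (ofSubtype_injective (p := fun y => y ≠ x))).trans
    (MulEquiv.subgroupCongr (by
      ext g
      rw [mem_range_ofSubtype_iff, mem_stabilizer_iff]
      constructor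
      · intro h
        by_contra hne
        have hx : x ∈ g.support := by
          rw [mem_support]
          exact hne
        exact h hx rfl
      · intro h y hy hyx
        rw [Finset.mem_coe, mem_support] at hy
        subst hyx
        exact hy h))

theorem iso_of_index (H : Subgroup Sx) (hH : H.index = 6) : Nonempty (H ≃* Perm (Fin 5)) := by
  classical
  have hcardH : Nat.card H = 120 := by
    have h := Subgroup.card_mul_index H
    rw [hH, card_S6] at h
    omega
  haveI : Finite (Sx ⧸ H) := inferInstance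
  haveI : Fintype (Sx ⧸ H) := Fintype.ofFinite _
  have hQ : Fintype.card (Sx ⧸ H) = 6 := by
    rw [← Nat.card_eq_fintype_card]
    exact hH
  let φ : Sx →* Perm (Sx ⧸ H) := MulAction.toPermHom Sx (Sx ⧸ H)
  have hker : φ.ker = ⊥ := by
    rw [← Subgroup.normalCore_eq_ker]
    by_contra hne
    haveI : Nontrivial H.normalCore := (Subgroup.nontrivial_iff_ne_bot _).mpr hne
    have hA := alternatingGroup_le_of_normal (α := Fin 6) (by simp) (N := H.normalCore) inferInstance
    have hle : alternatingGroup (Fin 6) ≤ H := hA.trans (Subgroup.normalCore_le H)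
    have hdvd := Subgroup.card_dvd_of_le hle
    have hcardA : Nat.card (alternatingGroup (Fin 6)) = 360 := by
      have h := Subgroup.card_mul_index (alternatingGroup (Fin 6))
      rw [alternatingGroup.index_eq_two, card_S6] at h
      omega
    rw [hcardA, hcardH] at hdvd
    omega
  have hinj : Function.Injective φ := (MonoidHom.ker_eq_bot_iff φ).mp hker
  have hbij : Function.Bijective φ := by
    apply Function.Injective.bijective_of_nat_card_le hinj
    rw [Nat.card_perm, Nat.card_eq_fintype_card, hQ, card_S6]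
    simp [Nat.factorial]
  let Φ : Sx ≃* Perm (Sx ⧸ H) := MulEquiv.ofBijective φ hbij
  let x₀ : Sx ⧸ H := ((1 : Sx) : Sx ⧸ H)
  have hmap : Subgroup.map Φ.toMonoidHom H = stabilizer (Perm (Sx ⧸ H)) x₀ := by
    ext y
    constructor
    · rintro ⟨g, hg, rfl⟩
      rw [mem_stabilizer_iff]
      change g • x₀ = x₀
      rw [← mem_stabilizer_iff, stabilizer_quotient]
      exact hg
    · intro hy
      refine ⟨Φ.symm y, ?_, by simp⟩
      rw [mem_stabilizer_iff] at hy
      have h1 : Φ (Φ.symm y) x₀ = x₀ := by simpa using hy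
      have h2 : Φ.symm y ∈ stabilizer Sx x₀ := by
        rw [mem_stabilizer_iff]
        exact h1
      rwa [stabilizer_quotient] at h2
  have e1 : H ≃* stabilizer (Perm (Sx ⧸ H)) x₀ :=
    (Subgroup.equivMapOfInjective H Φ.toMonoidHom Φ.injective).trans (MulEquiv.subgroupCongr hmap)
  have hcard5 : Fintype.card {y // y ≠ x₀} = Fintype.card (Fin 5) := by
    rw [Fintype.card_subtype_compl, hQ]
    simp
  let e2 : {y // y ≠ x₀} ≃ Fin 5 := Fintype.equivOfCardEq hcard5
  exact ⟨e1.trans ((stabEquiv x₀).symm.trans (Equiv.permCongrHom e2))⟩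

end iso

section count

theorem E_coset (g : Sx) : ∃ i : Fin 6, swap i 5 * g ∈ E := by
  classical
  haveI : Fintype (Sx ⧸ E) := Fintype.ofFinite _
  let m : Fin 6 → Sx ⧸ E := fun i => ((swap i 5 : Sx) : Sx ⧸ E)
  have hinj : Function.Injective m := by
    intro i j hij
    by_contra hne
    have h := QuotientGroup.eq.mp hij
    rw [swap_inv] at h
    exact sigma_not_mem i j hne h
  have hcard : Fintype.card (Fin 6) = Fintype.card (Sx ⧸ E) := by
    rw [← Nat.card_eq_fintype_card (α := Sx ⧸ E), Fintype.card_fin]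
    exact index_E.symm
  have hsurj := (Fintype.bijective_iff_injective_and_card m).mpr ⟨hinj, hcard⟩
  obtain ⟨i, hi⟩ := hsurj.2 ((g : Sx) : Sx ⧸ E)
  refine ⟨i, ?_⟩
  have h := QuotientGroup.eq.mp hi
  rw [swap_inv] at h
  exact h

def Fmap : Fin 6 ⊕ Fin 6 → Subgroup Sx
  | Sum.inl i => stabilizer Sx i
  | Sum.inr i => Subgroup.map (MulAut.conj (swap i 5)).toMonoidHom E

theorem index_Fmap (x : Fin 6 ⊕ Fin 6) : (Fmap x).index = 6 := by
  cases x with
  | inl i =>
    show (stabilizer Sx i).index = 6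
    rw [index_stab]
    simp
  | inr i =>
    exact (Subgroup.index_map_equiv E (MulAut.conj (swap i 5))).trans index_E

theorem stab_not_conj (i : Fin 6) (g : Sx) : stabilizer Sx i ≠ Subgroup.map (MulAut.conj g).toMonoidHom E := by
  intro h
  obtain ⟨u, _, huE, hua⟩ := E_moves (g⁻¹ i)
  have hm : g * u * g⁻¹ ∈ stabilizer Sx i := by
    rw [h, mem_conj]
    simpa [mul_assoc] using huE
  rw [mem_stabilizer_iff] at hm
  apply hua
  simp only [Equiv.Perm.smul_def, mul_apply] at hm
  have := congrArg (fun x => g⁻¹ x) hm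
  simpa using this

theorem Fmap_inj (x y : Fin 6 ⊕ Fin 6) (h : Fmap x = Fmap y) : x = y := by
  rcases x with i | i <;> rcases y with j | j
  · by_contra hne
    have hij : i ≠ j := fun h => hne (by rw [h])
    obtain ⟨k, hki, hkj⟩ := stab_sep i j hij
    have h1 : swap j k ∈ stabilizer Sx i := by
      rw [mem_stabilizer_iff, Equiv.Perm.smul_def]
      exact swap_apply_of_ne_of_ne hij hki.symm
    have h2 : swap j k ∈ stabilizer Sx j := by
      have h3 : stabilizer Sx i = stabilizer Sx j := h
      rwa [h3] at h1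
    rw [mem_stabilizer_iff, Equiv.Perm.smul_def, swap_apply_left] at h2
    exact hkj h2
  · exact absurd h (stab_not_conj i _)
  · exact absurd h.symm (stab_not_conj j _)
  · by_contra hne
    have hij : i ≠ j := fun h => hne (by rw [h])
    have h3 : Subgroup.map (MulAut.conj (swap i 5)).toMonoidHom E = Subgroup.map (MulAut.conj (swap j 5)).toMonoidHom E := h
    have key : ∀ u ∈ E, (swap j 5 * swap i 5) * u * (swap j 5 * swap i 5)⁻¹ ∈ E := by
      intro u hu
      have h4 : swap i 5 * u * (swap i 5)⁻¹ ∈ Subgroup.map (MulAut.conj (swap i 5)).toMonoidHom E := by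
        rw [mem_conj]
        simpa [mul_assoc] using hu
      rw [h3, mem_conj] at h4
      have h5 : (swap j 5 : Sx)⁻¹ * (swap i 5 * u * (swap i 5)⁻¹) * swap j 5 =
          (swap j 5 * swap i 5) * u * (swap j 5 * swap i 5)⁻¹ := by
        simp only [swap_inv, mul_inv_rev, mul_assoc]
      rwa [h5] at h4
    rcases tau_sep i j hij with h6 | h6
    · exact h6 (key _ c0_mem_E)
    · exact h6 (key _ f0_mem_E)

theorem Fmap_bij : Function.Bijective
    (fun x : Fin 6 ⊕ Fin 6 => (⟨Fmap x, index_Fmap x⟩ : {H : Subgroup Sx // H.index = 6})) := by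
  constructor
  · intro x y h
    have h' : Fmap x = Fmap y := congrArg Subtype.val h
    exact Fmap_inj x y h'
  · rintro ⟨H, hH⟩
    obtain ⟨g, hg | hg⟩ := classify H hH
    · refine ⟨Sum.inl (g 5), Subtype.ext ?_⟩
      show stabilizer Sx (g 5) = H
      rw [← hg]
      ext x
      rw [mem_conj, mem_stabilizer_iff, mem_stabilizer_iff]
      simp only [Equiv.Perm.smul_def, mul_apply]
      constructor
      · intro h
        simp [h]
      · intro h
        have := congrArg g h
        simpa using this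
    · obtain ⟨i, hi⟩ := E_coset g
      refine ⟨Sum.inr i, Subtype.ext ?_⟩
      show Subgroup.map (MulAut.conj (swap i 5)).toMonoidHom E = H
      rw [← hg]
      ext x
      rw [mem_conj, mem_conj]
      set e := swap i 5 * g with he
      have hg' : g = swap i 5 * e := by
        rw [he, ← mul_assoc, swap_mul_self, one_mul]
      have hs : (swap i 5 : Sx)⁻¹ = swap i 5 := swap_inv _ _
      have key : g⁻¹ * x * g = e⁻¹ * ((swap i 5 : Sx)⁻¹ * x * swap i 5) * e := by
        rw [hg']
        group
      rw [key]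
      constructor
      · intro h
        exact E.mul_mem (E.mul_mem (E.inv_mem hi) h) hi
      · intro h
        have := E.mul_mem (E.mul_mem hi h) (E.inv_mem hi)
        have h2 : e * (e⁻¹ * ((swap i 5 : Sx)⁻¹ * x * swap i 5) * e) * e⁻¹ = (swap i 5 : Sx)⁻¹ * x * swap i 5 := by
          group
        rwa [h2] at this

theorem card_index_six : Nat.card {H : Subgroup Sx // H.index = 6} = 12 := by
  rw [← Nat.card_congr (Equiv.ofBijective _ Fmap_bij)]
  simp

theorem E_not_stab (a : Fin 6) : E ≠ stabilizer Sx a := by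
  intro h
  obtain ⟨g, _, hg, hga⟩ := E_moves a
  rw [h, mem_stabilizer_iff] at hg
  exact hga hg

theorem E_not_conj (g : Sx) : Subgroup.map (MulAut.conj g).toMonoidHom (stabilizer Sx (5 : Fin 6)) ≠ E := by
  intro h
  obtain ⟨u, _, hu, hua⟩ := E_moves (g 5)
  rw [← h, mem_conj, mem_stabilizer_iff] at hu
  apply hua
  simp only [Equiv.Perm.smul_def, mul_apply] at hu
  have := congrArg g hu
  simpa using this

end count

end CfsgLib.ClassMax.S6
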