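import Cfsg.Agent.Lib.ClassMax.IndexN

/-! Subgroups of index 6 of the symmetric group of degree 6. -/

set_option autoImplicit false
set_option linter.unusedSimpArgs false
set_option linter.unusedVariables false
set_option linter.unusedSectionVars false
set_option linter.style.haveILetI false
set_option maxRecDepth 100000

namespace CfsgLib.ClassMax.S6

open Equiv Equiv.Perm MulAction CfsgLib.ClassMax.IndexN

abbrev Sx := Perm (Fin 6)

def c0 : Sx := ⟨![1,2,3,4,0,5], ![4,0,1,2,3,5], by decide, by decide⟩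
def f0 : Sx := ⟨![0,2,4,1,3,5], ![0,3,1,4,2,5], by decide, by decide⟩

/-- the "total" -/
def T0 : List Sx :=
  [⟨![1,0,4,5,2,3], ![1,0,4,5,2,3], by decide, by decide⟩,
   ⟨![2,5,0,4,3,1], ![2,5,0,4,3,1], by decide, by decide⟩,
   ⟨![3,2,1,0,5,4], ![3,2,1,0,5,4], by decide, by decide⟩,
   ⟨![4,3,5,1,0,2], ![4,3,5,1,0,2], by decide, by decide⟩,
   ⟨![5,4,3,2,1,0], ![5,4,3,2,1,0], by decide, by decide⟩]

theorem PE_inv (g : Sx) (hg : ∀ s ∈ T0, g * s * g⁻¹ ∈ T0) : ∀ s ∈ T0, g⁻¹ * s * g⁻¹⁻¹ ∈ T0 := by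
  classical
  intro s hs
  have hsub : T0.toFinset.image (fun s => g * s * g⁻¹) ⊆ T0.toFinset := by
    intro x hx
    obtain ⟨y, hy, rfl⟩ := Finset.mem_image.mp hx
    exact List.mem_toFinset.mpr (hg y (List.mem_toFinset.mp hy))
  have hinj : Function.Injective (fun s : Sx => g * s * g⁻¹) := by
    intro a b h
    simpa using h
  have heq := Finset.eq_of_subset_of_card_le hsub (by rw [Finset.card_image_of_injective _ hinj])
  have hs' : s ∈ T0.toFinset := List.mem_toFinset.mpr hs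
  rw [← heq] at hs'
  obtain ⟨y, hy, rfl⟩ := Finset.mem_image.mp hs'
  have : g⁻¹ * (g * y * g⁻¹) * g⁻¹⁻¹ = y := by group
  rw [this]
  exact List.mem_toFinset.mp hy

def E : Subgroup Sx where
  carrier := {g | ∀ s ∈ T0, g * s * g⁻¹ ∈ T0}
  mul_mem' := by
    intro a b ha hb s hs
    have := ha _ (hb s hs)
    simpa [mul_assoc] using this
  one_mem' := by
    intro s hs
    simpa using hs
  inv_mem' := fun {g} hg => PE_inv g hg

theorem mem_E (g : Sx) : g ∈ E ↔ ∀ s ∈ T0, g * s * g⁻¹ ∈ T0 := Iff.rfl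

/-- fast pointwise form of membership -/
def PF (g : Sx) : Prop := ∀ s ∈ T0, ∃ s' ∈ T0,
  g (s 0) = s' (g 0) ∧ g (s 1) = s' (g 1) ∧ g (s 2) = s' (g 2) ∧
  g (s 3) = s' (g 3) ∧ g (s 4) = s' (g 4) ∧ g (s 5) = s' (g 5)

instance : DecidablePred PF := fun g => inferInstanceAs (Decidable (∀ s ∈ T0, ∃ s' ∈ T0,
  g (s 0) = s' (g 0) ∧ g (s 1) = s' (g 1) ∧ g (s 2) = s' (g 2) ∧
  g (s 3) = s' (g 3) ∧ g (s 4) = s' (g 4) ∧ g (s 5) = s' (g 5)))

theorem mem_E_PF (g : Sx) : g ∈ E ↔ PF g := by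
  have key : ∀ s s' : Sx, g * s * g⁻¹ = s' ↔
      (g (s 0) = s' (g 0) ∧ g (s 1) = s' (g 1) ∧ g (s 2) = s' (g 2) ∧
        g (s 3) = s' (g 3) ∧ g (s 4) = s' (g 4) ∧ g (s 5) = s' (g 5)) := by
    intro s s'
    constructor
    · rintro rfl
      simp
    · rintro ⟨h0, h1, h2, h3, h4, h5⟩
      have h : g * s = s' * g := by
        ext x
        fin_cases x
        · exact congrArg Fin.val h0
        · exact congrArg Fin.val h1
        · exact congrArg Fin.val h2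
        · exact congrArg Fin.val h3
        · exact congrArg Fin.val h4
        · exact congrArg Fin.val h5
      rw [h, mul_inv_cancel_right]
  rw [mem_E]
  constructor
  · intro h s hs
    exact ⟨_, h s hs, (key s _).mp rfl⟩
  · intro h s hs
    obtain ⟨s', hs', h'⟩ := h s hs
    rw [(key s s').mpr h']
    exact hs'

instance : DecidablePred (· ∈ E) := fun g => decidable_of_iff _ (mem_E_PF g).symm

set_option maxHeartbeats 0 in
theorem card_E_aux : (Finset.univ.filter (fun g : Sx => g ∈ E)).card = 120 := by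
  decide +kernel

theorem card_E : Nat.card E = 120 := by
  rw [Nat.card_eq_fintype_card, ← card_E_aux]
  exact Fintype.card_subtype _

theorem card_S6 : Nat.card Sx = 720 := by
  rw [Nat.card_perm]
  simp [Nat.factorial]

theorem index_E : E.index = 6 := by
  have h := Subgroup.card_mul_index E
  rw [card_E, card_S6] at h
  omega

def FL : List Sx :=
  [0,1,2,3,4].flatMap fun i : ℕ => [0,1,2,3].map fun j : ℕ => c0 ^ i * f0 ^ j

theorem FL_mem (K : Subgroup Sx) (hc : c0 ∈ K) (hf : f0 ∈ K) (a : Sx) (ha : a ∈ FL) : a ∈ K := by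
  simp only [FL, List.mem_flatMap, List.mem_map] at ha
  obtain ⟨i, _, j, _, rfl⟩ := ha
  exact K.mul_mem (K.pow_mem hc i) (K.pow_mem hf j)

theorem c0_mem_E : c0 ∈ E := by decide +kernel
theorem f0_mem_E : f0 ∈ E := by decide +kernel

def Z5 : List Sx := [1, c0, c0 ^ 2, c0 ^ 3, c0 ^ 4]

theorem c0_pow : c0 ^ 5 = 1 := by decide +kernel

theorem mem_Z5 (x : Sx) (hx : x ∈ Subgroup.zpowers c0) : x ∈ Z5 := by
  have h5 : IsOfFinOrder c0 := isOfFinOrder_iff_pow_eq_one.mpr ⟨5, by norm_num, c0_pow⟩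
  rw [← mem_powers_iff_mem_zpowers] at hx
  obtain ⟨n, rfl⟩ := hx
  have h : c0 ^ n = c0 ^ (n % 5) := by
    conv_lhs => rw [← Nat.div_add_mod n 5, pow_add, pow_mul, c0_pow, one_pow, one_mul]
  have hlt : n % 5 < 5 := Nat.mod_lt _ (by norm_num)
  simp only [h]
  generalize n % 5 = m at hlt
  interval_cases m <;> simp [Z5]

set_option maxHeartbeats 0 in
theorem norm_FL : ∀ g : Sx, g * c0 * g⁻¹ ∈ Z5 → g ∈ FL := by decide +kernel

theorem FL_card : FL.toFinset.card = 20 := by decide +kernel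

/-- moves exactly two points -/
def mv2 (u : Sx) : Prop := ((List.finRange 6).filter (fun i => u i ≠ i)).length = 2

instance : DecidablePred mv2 := fun u => by unfold mv2; infer_instance

theorem mv2_isSwap : ∀ u : Sx, mv2 u → ∃ a b : Fin 6, a ≠ b ∧ u = swap a b := by
  decide +kernel

def CL : List Sx := [1, f0, f0 ^ 2, f0 ^ 3]

theorem CL_FL : ∀ a ∈ CL, a ∈ FL := by decide +kernel

set_option maxHeartbeats 0 in
theorem word_cert0 : ∀ t : Sx, (t 5 = 5 ∧ t 0 = 0 ∨ t 5 = 0 ∧ t 0 = 5) → t ∉ E →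
    ∃ a ∈ CL, ∃ b ∈ CL, mv2 (a * t * b) ∨ mv2 (t * a * t * b) := by
  decide +kernel

theorem c0_move : ∀ x : Fin 6, x ≠ 5 → ∃ i ∈ [0,1,2,3,4], (c0 ^ i) x = 0 := by decide +kernel
theorem c0_move' : ∀ x : Fin 6, x ≠ 5 → ∃ i ∈ [0,1,2,3,4], (c0 ^ i) 0 = x := by decide +kernel

set_option maxHeartbeats 0 in
theorem FL_trans : ∀ x y : Fin 6, x ≠ 5 → y ≠ 5 → ∃ k ∈ FL, k 5 = 5 ∧ k x = y := by
  decide +kernel

def S1 : Sx := ⟨![0,1,3,4,5,2], ![0,1,5,2,3,4], by decide, by decide⟩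

theorem E_moves : ∀ i : Fin 6, ∃ g ∈ [c0, S1], g ∈ E ∧ g i ≠ i := by
  decide +kernel

theorem stab_sep : ∀ i j : Fin 6, i ≠ j → ∃ k : Fin 6, k ≠ i ∧ k ≠ j := by
  decide +kernel

set_option maxHeartbeats 0 in
theorem sigma_not_mem : ∀ i j : Fin 6, i ≠ j → swap i 5 * swap j 5 ∉ E := by
  decide +kernel

set_option maxHeartbeats 0 in
theorem tau_sep : ∀ i j : Fin 6, i ≠ j →
    ((swap j 5 * swap i 5) * c0 * (swap j 5 * swap i 5)⁻¹ ∉ E ∨
     (swap j 5 * swap i 5) * f0 * (swap j 5 * swap i 5)⁻¹ ∉ E) := by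
  decide +kernel

end CfsgLib.ClassMax.S6
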