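import Mathlib

/-! Second maximal subgroups from a maximal subgroup whose permutation image contains the
alternating group. -/

set_option autoImplicit false
set_option linter.unusedVariables false
set_option linter.unusedSectionVars false

namespace CfsgLib.ClassMax.SecondMax

open Equiv

theorem pinv1 {X : Type*} (f : Perm X) (x : X) : f⁻¹ (f x) = x := by simp

theorem pinv2 {X : Type*} (f : Perm X) (x : X) : f (f⁻¹ x) = x := by simp

theorem core_false {G X : Type*} [Group G] [Fintype X] [DecidableEq X] (φ : G →* Perm X) (a : X)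
    (M : Subgroup G) (hM : ∀ g, g ∈ M ↔ φ g a = a)
    (h3 : ∀ x y z : X, x ≠ y → y ≠ z → x ≠ z → ∃ g, φ g = swap x y * swap y z)
    (hodd : Odd (Fintype.card X)) (H K L : Subgroup G) (hHM : H ≤ M)
    (hcov : ∀ S : Subgroup G, H ≤ S → S ≤ M → S = H ∨ S = M) (hKM : K ⊓ M = H)
    (htrans : ∀ x, ∃ g, φ g a = x)
    (hHL : H ≤ L) (hLK : L ≤ K) (hLH : L ≠ H) (hLK' : L ≠ K) : False := by
  classical
  have hHK : H ≤ K := hHL.trans hLK
  have hfix : ∀ g ∈ K, φ g a = a → g ∈ H := fun g hg h => by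
    rw [← hKM]
    exact ⟨hg, (hM g).mpr h⟩
  have hblock : ∀ k ∈ K, ∀ l ∈ L, ∀ l' ∈ L, φ k (φ l a) = φ l' a → k ∈ L := by
    intro k hk l hl l' hl' h
    have h1 : l'⁻¹ * k * l ∈ H := by
      apply hfix _ (K.mul_mem (K.mul_mem (K.inv_mem (hLK hl')) hk) (hLK hl))
      rw [map_mul, map_mul, Perm.mul_apply, Perm.mul_apply, h, map_inv, pinv1]
    have h2 := hHL h1
    have h3 : k = l' * (l'⁻¹ * k * l) * l⁻¹ := by group
    rw [h3]
    exact L.mul_mem (L.mul_mem hl' h2) (L.inv_mem hl)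
  obtain ⟨l, hl, hlH⟩ : ∃ l ∈ L, l ∉ H := by
    by_contra hcon
    push Not at hcon
    exact hLH (le_antisymm hcon hHL)
  obtain ⟨k, hk, hkL⟩ : ∃ k ∈ K, k ∉ L := by
    by_contra hcon
    push Not at hcon
    exact hLK' (le_antisymm hLK hcon)
  obtain ⟨b, hbdef⟩ : ∃ b, b = φ l a := ⟨_, rfl⟩
  have hba : b ≠ a := by
    rw [hbdef]
    intro h
    exact hlH (hfix l (hLK hl) h)
  let Δ : Set X := {u | ∃ l' ∈ L, u = φ l' a}
  have haΔ : a ∈ Δ := ⟨1, L.one_mem, by simp⟩
  have hbΔ : b ∈ Δ := ⟨l, hl, hbdef⟩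
  obtain ⟨x, hxdef⟩ : ∃ x, x = φ k a := ⟨_, rfl⟩
  obtain ⟨x', hx'def⟩ : ∃ x', x' = φ k b := ⟨_, rfl⟩
  have hxx' : x ≠ x' := by
    rw [hxdef, hx'def]
    intro h
    exact hba ((φ k).injective h).symm
  have hxΔ : x ∉ Δ := by
    rintro ⟨l', hl', h⟩
    rw [hxdef] at h
    refine hkL (hblock k hk 1 L.one_mem l' hl' ?_)
    simpa using h
  have hx'Δ : x' ∉ Δ := by
    rintro ⟨l', hl', h⟩
    rw [hx'def, hbdef] at h
    exact hkL (hblock k hk l hl l' hl' h)
  let S : Subgroup G :=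
    { carrier := {g | φ g a = a ∧ ∀ u, φ g u ∈ Δ ↔ u ∈ Δ}
      one_mem' := by simp
      mul_mem' := by
        rintro g g' ⟨h1, h2⟩ ⟨h3, h4⟩
        refine ⟨by rw [map_mul, Perm.mul_apply, h3, h1], fun u => ?_⟩
        rw [map_mul, Perm.mul_apply, h2, h4]
      inv_mem' := by
        rintro g ⟨h1, h2⟩
        refine ⟨by rw [map_inv, Perm.inv_eq_iff_eq, h1], fun u => ?_⟩
        have := h2 ((φ g)⁻¹ u)
        rw [pinv2] at this
        rw [map_inv]
        exact this.symm }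
  have hHS : H ≤ S := by
    intro h hh
    refine ⟨(hM h).mp (hHM hh), fun u => ⟨?_, ?_⟩⟩
    · rintro ⟨l', hl', h1⟩
      refine ⟨h⁻¹ * l', L.mul_mem (L.inv_mem (hHL hh)) hl', ?_⟩
      rw [map_mul, Perm.mul_apply, ← h1, map_inv, pinv1]
    · rintro ⟨l', hl', rfl⟩
      exact ⟨h * l', L.mul_mem (hHL hh) hl', by rw [map_mul, Perm.mul_apply]⟩
  have hSM : S ≤ M := fun g hg => (hM g).mpr hg.1
  have hcycle : ∀ u v w : X, u ≠ v → v ≠ w → u ≠ w → ∃ g, φ g u = v ∧ φ g v = w ∧ φ g w = u ∧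
      ∀ t, t ≠ u → t ≠ v → t ≠ w → φ g t = t := by
    intro u v w huv hvw huw
    obtain ⟨g, hg⟩ := h3 u v w huv hvw huw
    refine ⟨g, ?_, ?_, ?_, ?_⟩
    · rw [hg, Perm.mul_apply, swap_apply_of_ne_of_ne huv huw, swap_apply_left]
    · rw [hg, Perm.mul_apply, swap_apply_left, swap_apply_of_ne_of_ne huw.symm hvw.symm]
    · rw [hg, Perm.mul_apply, swap_apply_right, swap_apply_right]
    · intro t h1 h2 h3
      rw [hg, Perm.mul_apply, swap_apply_of_ne_of_ne h2 h3, swap_apply_of_ne_of_ne h1 h2]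
  have hlift : (∃ y, y ∉ Δ ∧ y ≠ x) → ∀ u v w : X, u ∉ Δ → v ∉ Δ → w ∉ Δ → u ≠ v → v ≠ w → u ≠ w →
      ∃ g ∈ H, φ g u = v ∧ φ g v = w ∧ φ g w = u ∧ ∀ t, t ≠ u → t ≠ v → t ≠ w → φ g t = t := by
    rintro ⟨y, hyΔ, hyx⟩ u v w hu hv hw huv hvw huw
    have hSH : S = H := by
      refine (hcov S hHS hSM).resolve_right ?_
      intro hSeq
      have hbx : b ≠ x := fun h => hxΔ (h ▸ hbΔ)
      have hby : b ≠ y := fun h => hyΔ (h ▸ hbΔ)
      obtain ⟨g, h1, h2, h3, h4⟩ := hcycle b x y hbx hyx.symm hby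
      have hgM : g ∈ M := by
        rw [hM]
        refine h4 a hba.symm ?_ ?_
        · exact fun h => hxΔ (h ▸ haΔ)
        · exact fun h => hyΔ (h ▸ haΔ)
      rw [← hSeq] at hgM
      have := (hgM.2 b).mpr hbΔ
      rw [h1] at this
      exact hxΔ this
    obtain ⟨g, h1, h2, h3, h4⟩ := hcycle u v w huv hvw huw
    refine ⟨g, ?_, h1, h2, h3, h4⟩
    rw [← hSH]
    have hout : ∀ t, t ∈ Δ → t ≠ u ∧ t ≠ v ∧ t ≠ w := fun t ht =>
      ⟨fun h => hu (h ▸ ht), fun h => hv (h ▸ ht), fun h => hw (h ▸ ht)⟩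
    refine ⟨?_, fun t => ?_⟩
    · obtain ⟨h5, h6, h7⟩ := hout a haΔ
      exact h4 a h5 h6 h7
    · by_cases htu : t = u
      · rw [htu, h1]
        exact iff_of_false hv hu
      by_cases htv : t = v
      · rw [htv, h2]
        exact iff_of_false hw hv
      by_cases htw : t = w
      · rw [htw, h3]
        exact iff_of_false hu hw
      rw [h4 t htu htv htw]
  by_cases hO : ∃ y, ∀ k' ∈ K, φ k' a ≠ y
  · -- `K` is intransitive
    obtain ⟨y, hy⟩ := hO
    have hyΔ : y ∉ Δ := by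
      rintro ⟨l', hl', h⟩
      exact hy l' (hLK hl') h.symm
    have hyx : y ≠ x := fun h => hy k hk (by rw [h, hxdef])
    have hyx' : y ≠ x' := fun h => hy (k * l) (K.mul_mem hk (hLK hl)) (by
      rw [h, hx'def, hbdef, map_mul, Perm.mul_apply])
    obtain ⟨g, hg, h1, -, -, -⟩ := hlift ⟨y, hyΔ, hyx⟩ x y x' hxΔ hyΔ hx'Δ hyx.symm hyx' hxx'
    refine hy (g * k) (K.mul_mem (hHK hg) hk) ?_
    rw [map_mul, Perm.mul_apply, ← hxdef, h1]
  · -- `K` is transitive: use that the degree is odd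
    push Not at hO
    let kΔ : Set X := {u | ∃ u' ∈ Δ, u = φ k u'}
    have hexists : ∃ y, y ∉ Δ ∧ y ∉ kΔ := by
      by_contra hcon
      push Not at hcon
      let D : Finset X := Finset.univ.filter (· ∈ Δ)
      let E : Finset X := D.image (φ k)
      have hdisj : Disjoint D E := by
        rw [Finset.disjoint_left]
        intro u hu hu'
        obtain ⟨l', hl', rfl⟩ : u ∈ Δ := by simpa [D] using hu
        obtain ⟨v, hv, hvu⟩ := Finset.mem_image.mp hu'
        obtain ⟨l'', hl'', rfl⟩ : v ∈ Δ := by simpa [D] using hv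
        exact hkL (hblock k hk l'' hl'' l' hl' hvu)
      have hunion : D ∪ E = Finset.univ := by
        ext u
        simp only [Finset.mem_union, Finset.mem_univ, iff_true]
        by_cases hu : u ∈ Δ
        · left
          simpa [D] using hu
        · right
          obtain ⟨u', hu', rfl⟩ := hcon u hu
          exact Finset.mem_image_of_mem _ (by simpa [D] using hu')
      have hcard : Fintype.card X = D.card + E.card := by
        rw [← Finset.card_union_of_disjoint hdisj, hunion, Finset.card_univ]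
      have hE : E.card = D.card := Finset.card_image_of_injective _ (φ k).injective
      rw [hE] at hcard
      rw [Nat.odd_iff] at hodd
      omega
    obtain ⟨y, hyΔ, hykΔ⟩ := hexists
    obtain ⟨k₂, hk₂, hy⟩ : ∃ k₂ ∈ K, φ k₂ a = y := hO y
    obtain ⟨y', hy'def⟩ : ∃ y', y' = φ k₂ b := ⟨_, rfl⟩
    have hyy' : y ≠ y' := by
      rw [hy'def, ← hy]
      intro h
      exact hba ((φ k₂).injective h).symm
    have hk₂L : k₂ ∉ L := fun h => hyΔ ⟨k₂, h, hy.symm⟩
    have hy'Δ : y' ∉ Δ := by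
      rintro ⟨l', hl', h⟩
      rw [hy'def, hbdef] at h
      exact hk₂L (hblock k₂ hk₂ l hl l' hl' h)
    have hy'kΔ : y' ∉ kΔ := by
      rintro ⟨u', ⟨l', hl', rfl⟩, h⟩
      rw [hy'def, hbdef] at h
      have h1 : k⁻¹ * k₂ ∈ L := by
        refine hblock _ (K.mul_mem (K.inv_mem hk) hk₂) l hl l' hl' ?_
        rw [map_mul, Perm.mul_apply, h, map_inv, pinv1]
      apply hykΔ
      refine ⟨φ (k⁻¹ * k₂) a, ⟨_, h1, rfl⟩, ?_⟩
      rw [map_mul, Perm.mul_apply, map_inv, pinv2, hy]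
    have hxkΔ : x ∈ kΔ := ⟨a, haΔ, hxdef⟩
    have hx'kΔ : x' ∈ kΔ := ⟨b, hbΔ, hx'def⟩
    have h1 : x ≠ y := fun h => hykΔ (h ▸ hxkΔ)
    have h2 : x ≠ y' := fun h => hy'kΔ (h ▸ hxkΔ)
    have h3' : x' ≠ y := fun h => hykΔ (h ▸ hx'kΔ)
    have h4 : x' ≠ y' := fun h => hy'kΔ (h ▸ hx'kΔ)
    obtain ⟨g, hg, h5, -, -, h6⟩ := hlift ⟨y, hyΔ, h1.symm⟩ x y y' hxΔ hyΔ hy'Δ h1 hyy' h2
    have h7 : φ g x' = x' := h6 x' hxx'.symm h3' h4
    have h8 : k⁻¹ * g * k ∈ L := by
      refine hblock _ (K.mul_mem (K.mul_mem (K.inv_mem hk) (hHK hg)) hk) l hl l hl ?_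
      rw [← hbdef, map_mul, map_mul, Perm.mul_apply, Perm.mul_apply, ← hx'def, h7, hx'def, map_inv,
        pinv1]
    apply hykΔ
    refine ⟨φ (k⁻¹ * g * k) a, ⟨_, h8, rfl⟩, ?_⟩
    rw [map_mul, map_mul, Perm.mul_apply, Perm.mul_apply, ← hxdef, h5, map_inv, pinv2]

theorem second_max {G : Type*} [Group G] [Finite G] (n : ℕ) (hodd : Odd n)
    (hA : ∀ P : Subgroup (Perm (Fin n)), MulAction.IsPreprimitive P (Fin n) → alternatingGroup (Fin n) ≤ P)
    (M : Subgroup G) (hM : IsCoatom M) (hn : M.index = n) (H : Subgroup G) (hHM : H ≤ M)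
    (hmax : IsCoatom (H.subgroupOf M)) (K : Subgroup G) (hK : IsCoatom K) (hHK : H ≤ K) :
    IsCoatom (H.subgroupOf K) := by
  classical
  by_cases hKM : K = M
  · subst hKM
    exact hmax
  have hcov : ∀ S : Subgroup G, H ≤ S → S ≤ M → S = H ∨ S = M := by
    intro S h1 h2
    have h3 : H.subgroupOf M ≤ S.subgroupOf M := Subgroup.subgroupOf_mono M h1
    rcases hmax.le_iff.mp h3 with h4 | h4
    · exact Or.inr (le_antisymm h2 (Subgroup.subgroupOf_eq_top.mp h4))
    · left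
      have h5 := Subgroup.subgroupOf_inj.mp h4
      rwa [inf_eq_left.mpr h2, inf_eq_left.mpr hHM] at h5
  have hKMH : K ⊓ M = H := by
    rcases hcov (K ⊓ M) (le_inf hHK hHM) inf_le_right with h | h
    · exact h
    · exfalso
      have hMK : M ≤ K := by
        rw [← h]
        exact inf_le_left
      rcases hM.le_iff.mp hMK with h1 | h1
      · exact hK.1 h1
      · exact hKM h1
  -- the permutation representation on the cosets of `M`
  have hcardQ : Nat.card (G ⧸ M) = n := hn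
  have : Finite (G ⧸ M) := inferInstance
  have e : (G ⧸ M) ≃ Fin n := Finite.equivFinOfCardEq hcardQ
  let φ : G →* Perm (Fin n) := (Equiv.permCongrHom e).toMonoidHom.comp (MulAction.toPermHom G (G ⧸ M))
  have hφ : ∀ g (q : G ⧸ M), φ g (e q) = e (g • q) := by
    intro g q
    simp [φ, Equiv.permCongrHom, Equiv.permCongr]
  obtain ⟨a, ha⟩ : ∃ a, a = e ((1 : G) : G ⧸ M) := ⟨_, rfl⟩
  have hMφ : ∀ g, g ∈ M ↔ φ g a = a := by
    intro g
    rw [ha, hφ, e.injective.eq_iff, MulAction.Quotient.smul_mk, QuotientGroup.eq]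
    simp
  have htrans : ∀ x, ∃ g, φ g a = x := by
    intro x
    obtain ⟨q, rfl⟩ := e.surjective x
    obtain ⟨g, rfl⟩ := QuotientGroup.mk_surjective q
    refine ⟨g, ?_⟩
    rw [ha, hφ, MulAction.Quotient.smul_mk]
    simp
  have hnontriv : Nontrivial (G ⧸ M) := by
    refine ⟨(1 : G), ?_⟩
    have hne : M ≠ ⊤ := hM.1
    obtain ⟨g, hg⟩ : ∃ g, g ∉ M := by
      by_contra hcon
      push Not at hcon
      exact hne (Subgroup.eq_top_iff' M |>.mpr hcon)
    refine ⟨(g : G ⧸ M), ?_⟩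
    rw [Ne, QuotientGroup.eq]
    simpa using hg
  have hprimQ : MulAction.IsPreprimitive G (G ⧸ M) := by
    rw [← MulAction.isCoatom_stabilizer_iff_preprimitive (G := G) (X := G ⧸ M) ((1 : G) : G ⧸ M)]
    have : MulAction.stabilizer G ((1 : G) : G ⧸ M) = M := by
      rw [MulAction.stabilizer_quotient]
    rwa [this]
  let φ' : G → φ.range := fun g => ⟨φ g, g, rfl⟩
  have hφ's : Function.Surjective φ' := by
    rintro ⟨_, g, rfl⟩
    exact ⟨g, rfl⟩
  let f : (G ⧸ M) →ₑ[φ'] Fin n :=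
    { toFun := e
      map_smul' := by
        intro g q
        show e (g • q) = φ g (e q)
        rw [hφ] }
  have hprim : MulAction.IsPreprimitive φ.range (Fin n) :=
    MulAction.IsPreprimitive.of_surjective (f := f) e.surjective
  have hAle := hA _ hprim
  have h3 : ∀ x y z : Fin n, x ≠ y → y ≠ z → x ≠ z → ∃ g, φ g = swap x y * swap y z := by
    intro x y z hxy hyz hxz
    have hmem : swap x y * swap y z ∈ alternatingGroup (Fin n) := by
      rw [Equiv.Perm.mem_alternatingGroup, Equiv.Perm.sign_mul, Equiv.Perm.sign_swap hxy, Equiv.Perm.sign_swap hyz]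
      rfl
    obtain ⟨g, hg⟩ := hAle hmem
    exact ⟨g, hg⟩
  have hodd' : Odd (Fintype.card (Fin n)) := by simpa using hodd
  have hHne : H ≠ K := by
    intro h
    have hKle : K ≤ M := h ▸ hHM
    rcases hK.le_iff.mp hKle with h1 | h1
    · exact hM.1 h1
    · exact hKM h1.symm
  constructor
  · intro h
    exact hHne (le_antisymm hHK (Subgroup.subgroupOf_eq_top.mp h))
  · intro L' hL'
    by_contra hne
    let L : Subgroup G := L'.map K.subtype
    have hHL : H ≤ L := by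
      intro h hh
      refine ⟨⟨h, hHK hh⟩, hL'.le ?_, rfl⟩
      simpa [Subgroup.mem_subgroupOf] using hh
    have hLK : L ≤ K := Subgroup.map_subtype_le L'
    have hLH : L ≠ H := by
      intro h
      obtain ⟨t, ht, ht'⟩ := SetLike.exists_of_lt hL'
      apply ht'
      rw [Subgroup.mem_subgroupOf, ← h]
      exact ⟨t, ht, rfl⟩
    have hLK' : L ≠ K := by
      intro h
      apply hne
      rw [eq_top_iff]
      intro t _
      have : (t : G) ∈ L := by
        rw [h]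
        exact t.2
      obtain ⟨t', ht', ht''⟩ := this
      have : t' = t := Subtype.ext ht''
      rwa [← this]
    exact core_false φ a M hMφ h3 hodd' H K L hHM hcov hKMH htrans hHL hLK hLH hLK'

end CfsgLib.ClassMax.SecondMax
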