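import Mathlib
import Cfsg.Agent.Lib.ClassMax.Zsigmondy

/-! Abelian subgroups of order `qⁿ - 1` of `GL_F(K)` are conjugate to the Singer group. -/

set_option autoImplicit false
set_option linter.unusedVariables false
set_option linter.unusedSectionVars false
set_option linter.unusedSimpArgs false

namespace CfsgLib.ClassMax.SingerConj

open Module Polynomial

section numbers

theorem pow_add_one_two_pow {p f a : ℕ} (hp : p.Prime) (hf : 1 ≤ f) (h : p ^ f + 1 = 2 ^ a) : f = 1 := by
  have hp3 : p ≠ 2 := by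
    rintro rfl
    have ha : a ≠ 0 := by
      rintro rfl
      have : 0 < 2 ^ f := by positivity
      omega
    have h1 : 2 ∣ 2 ^ f := dvd_pow_self 2 (by omega)
    have h2 : 2 ∣ 2 ^ a := dvd_pow_self 2 ha
    omega
  have hodd : Odd p := hp.odd_of_ne_two hp3
  have hp2 := hp.two_le
  have hp3' : 3 ≤ p := by
    obtain ⟨k, hk⟩ := hodd
    omega
  by_contra hne
  have hf2 : 2 ≤ f := by omega
  have hbig : p ^ 2 ≤ p ^ f := Nat.pow_le_pow_right hp.pos hf2
  have hp9 : 9 ≤ p ^ 2 := by nlinarith
  have ha2 : 2 ≤ a := by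
    by_contra hc
    have : a = 0 ∨ a = 1 := by omega
    rcases this with rfl | rfl <;> simp at h <;> omega
  have h4 : 4 ∣ p ^ f + 1 := by
    rw [h]
    exact pow_dvd_pow 2 ha2
  rcases Nat.even_or_odd f with he | ho
  · obtain ⟨g, hg⟩ := he
    have hy : (p ^ g) % 2 = 1 := Nat.odd_iff.mp (hodd.pow)
    have e : p ^ f = p ^ g * p ^ g := by rw [hg, pow_add]
    rw [e] at h4
    have : (p ^ g * p ^ g + 1) % 4 = 2 := by
      have h5 : p ^ g % 4 = 1 ∨ p ^ g % 4 = 3 := by omega
      rw [Nat.add_mod, Nat.mul_mod]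
      rcases h5 with h6 | h6 <;> rw [h6]
    omega
  · -- odd exponent
    have hd : p + 1 ∣ p ^ f + 1 := by
      have := Odd.nat_add_dvd_pow_add_pow p 1 ho
      simpa using this
    rw [h] at hd
    obtain ⟨b, hb, hbe⟩ := (Nat.dvd_prime_pow Nat.prime_two).mp hd
    have hlt : p + 1 < p ^ f + 1 := by
      have : p < p ^ 2 := by nlinarith
      omega
    rw [h, hbe] at hlt
    have hba : b < a := (Nat.pow_lt_pow_iff_right (by norm_num)).mp hlt
    have hdvd1 : 2 * (p + 1) ∣ p ^ f + 1 := by
      rw [h, hbe, ← pow_succ']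
      exact pow_dvd_pow 2 hba
    obtain ⟨g, hg⟩ := ho
    have hdvd2 : 2 * (p + 1) ∣ p ^ f - p := by
      have e : p ^ f - p = p * ((p ^ 2) ^ g - 1) := by
        rw [hg, Nat.mul_sub, mul_one]
        congr 1
        rw [pow_succ, pow_mul]
        ring
      rw [e]
      apply Dvd.dvd.mul_left
      have h1 : p ^ 2 - 1 ∣ (p ^ 2) ^ g - 1 := by
        have := Nat.sub_dvd_pow_sub_pow (p ^ 2) 1 g
        simpa using this
      refine Dvd.dvd.trans ?_ h1
      obtain ⟨k, hk⟩ := hodd
      refine ⟨k, ?_⟩
      subst hk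
      have e2 : (2 * k + 1) ^ 2 = 2 * (2 * k + 1 + 1) * k + 1 := by ring
      omega
    have hle : p ≤ p ^ f := by nlinarith
    have h5 : 2 * (p + 1) ∣ (p ^ f + 1) - (p ^ f - p) := Nat.dvd_sub hdvd1 hdvd2
    have e5 : (p ^ f + 1) - (p ^ f - p) = p + 1 := by omega
    rw [e5] at h5
    have := Nat.le_of_dvd (by omega) h5
    omega

end numbers

variable {F K : Type*} [Field F] [Fintype F] [Field K] [Fintype K] [Algebra F K]

/-- An element of order a primitive prime has irreducible minimal polynomial of full degree. -/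
theorem irr_of_order {n : ℕ} (hdim : finrank F K = n) (x : (End F K)ˣ) {r : ℕ} (hr : r.Prime) (hx : orderOf x = r)
    (hr0 : (r : F) ≠ 0) (hrq : ∀ k, 0 < k → k < n → ¬ r ∣ (Fintype.card F) ^ k - 1) :
    Irreducible (minpoly F (x : End F K)) ∧ (minpoly F (x : End F K)).natDegree = n := by
  classical
  haveI : Fact r.Prime := ⟨hr⟩
  set q := Fintype.card F with hq
  set M : End F K := (x : End F K) with hM
  set m := minpoly F M with hm
  have hMr : M ^ r = 1 := by
    have h1 : x ^ r = 1 := by rw [← hx]; exact pow_orderOf_eq_one x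
    rw [hM, ← Units.val_pow_eq_pow_val, h1]
    rfl
  have hM1 : M ≠ 1 := by
    intro h
    have h1 : x = 1 := Units.ext h
    rw [h1, orderOf_one] at hx
    exact hr.one_lt.ne hx
  have hint : IsIntegral F M := Algebra.IsIntegral.isIntegral M
  have hmon : m.Monic := minpoly.monic hint
  have hdvd : m ∣ X ^ r - 1 := by
    apply minpoly.dvd
    simp [hMr]
  have hsep : (X ^ r - 1 : F[X]).Separable := by
    have := Polynomial.separable_X_pow_sub_C (n := r) (1 : F) hr0 one_ne_zero
    simpa using this
  have hsq : Squarefree m := (hsep.of_dvd hdvd).squarefree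
  have hX1mon : (X - 1 : F[X]).Monic := by
    simpa using monic_X_sub_C (1 : F)
  have hX1irr : Irreducible (X - 1 : F[X]) := by
    simpa using irreducible_X_sub_C (1 : F)
  have hm0 : m ≠ 0 := hmon.ne_zero
  -- an irreducible factor different from `X - 1`
  have hex : ∃ f : F[X], f.Monic ∧ Irreducible f ∧ f ∣ m ∧ f ≠ X - 1 := by
    by_contra hcon
    push Not at hcon
    have hnu : ¬ IsUnit m := minpoly.not_isUnit F M
    obtain ⟨f, hf1, hf2, hf3⟩ := Polynomial.exists_monic_irreducible_factor m hnu
    have hfeq := hcon f hf1 hf2 hf3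
    subst hfeq
    obtain ⟨g, hg⟩ := hf3
    have hgmon : g.Monic := by
      have : (X - 1 : F[X]) * g = m := hg.symm
      exact hX1mon.of_mul_monic_left (this ▸ hmon)
    have hg1 : g = 1 := by
      by_contra hne
      have hnug : ¬ IsUnit g := by
        intro hu
        exact hne (hgmon.eq_one_of_isUnit hu)
      obtain ⟨f, hf1, hf2, hf3⟩ := Polynomial.exists_monic_irreducible_factor g hnug
      have hfeq := hcon f hf1 hf2 (hf3.trans (Dvd.intro_left _ hg.symm))
      subst hfeq
      have h2 : (X - 1 : F[X]) * (X - 1) ∣ m := by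
        rw [hg]
        exact mul_dvd_mul_left _ hf3
      exact hX1irr.not_isUnit (hsq _ h2)
    rw [hg1, mul_one] at hg
    have h3 := minpoly.aeval F M
    rw [← hm, hg] at h3
    simp only [map_sub, aeval_X, map_one] at h3
    exact hM1 (sub_eq_zero.mp h3)
  obtain ⟨f, hfmon, hfirr, hfm, hfne⟩ := hex
  haveI : Fact (Irreducible f) := ⟨hfirr⟩
  let L := AdjoinRoot f
  have hf0 : f ≠ 0 := hfirr.ne_zero
  have hfrK : finrank F L = f.natDegree := by
    have := (AdjoinRoot.powerBasis hf0).finrank
    rwa [AdjoinRoot.powerBasis_dim] at this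
  have hdpos : 0 < f.natDegree := Polynomial.natDegree_pos_iff_degree_pos.2 (Polynomial.degree_pos_of_irreducible hfirr)
  haveI : FiniteDimensional F L := FiniteDimensional.of_finrank_pos (by omega)
  haveI : Finite L := Module.finite_of_finite F
  haveI : Fintype L := Fintype.ofFinite L
  have hcardK : Fintype.card L = q ^ f.natDegree := by
    rw [Module.card_eq_pow_finrank (K := F), hfrK]
  let ζ : L := AdjoinRoot.root f
  have hζr : ζ ^ r = 1 := by
    have h1 : f ∣ X ^ r - 1 := hfm.trans hdvd
    obtain ⟨g, hg⟩ := h1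
    have h2 := congrArg (aeval ζ) hg
    have h3 : aeval ζ f = 0 := AdjoinRoot.eval₂_root f
    simp only [map_sub, map_pow, aeval_X, map_one, map_mul, h3, zero_mul] at h2
    exact sub_eq_zero.mp h2
  have hζ1 : ζ ≠ 1 := by
    intro h
    have h3 : aeval ζ f = 0 := AdjoinRoot.eval₂_root f
    rw [h] at h3
    have h4 : aeval (algebraMap F L 1) f = algebraMap F L (eval 1 f) :=
      aeval_algebraMap_apply_eq_algebraMap_eval 1 f
    rw [map_one, h3] at h4
    have h5 : eval 1 f = 0 := by
      apply (algebraMap F L).injective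
      rw [← h4, map_zero]
    have h6 : (X - C 1 : F[X]) ∣ f := Polynomial.dvd_iff_isRoot.2 h5
    rw [C_1] at h6
    have h7 := (hX1irr.dvd_irreducible_iff_associated hfirr).1 h6
    exact hfne (Polynomial.eq_of_monic_of_associated hX1mon hfmon h7).symm
  have hζ0 : ζ ≠ 0 := by
    intro h
    rw [h, zero_pow hr.ne_zero] at hζr
    exact zero_ne_one hζr
  have hord : orderOf ζ = r := orderOf_eq_prime hζr hζ1
  have hdvdq : r ∣ q ^ f.natDegree - 1 := by
    rw [← hord, ← hcardK]
    exact orderOf_dvd_of_pow_eq_one (FiniteField.pow_card_sub_one_eq_one ζ hζ0)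
  have hnd : n ≤ f.natDegree := by
    by_contra hc
    exact hrq _ hdpos (by omega) hdvdq
  have hmdeg : m.natDegree ≤ n := by
    have h1 := LinearMap.minpoly_dvd_charpoly M
    have h2 := Polynomial.natDegree_le_of_dvd h1 (LinearMap.charpoly_monic M).ne_zero
    rwa [LinearMap.charpoly_natDegree, hdim] at h2
  have hfmdeg : f.natDegree ≤ m.natDegree := Polynomial.natDegree_le_of_dvd hfm hm0
  have hmf : m = f := Polynomial.eq_of_monic_of_dvd_of_natDegree_le hfmon hmon hfm (by omega)
  rw [hmf]
  exact ⟨hfirr, by omega⟩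

/-- An irreducible polynomial of degree `n` has a root in a field with `qⁿ` elements. -/
theorem exists_root_of_degree {n : ℕ} (hdim : finrank F K = n) {m : F[X]} [Fact (Irreducible m)] (hmon : m.Monic) (hdeg : m.natDegree = n) :
    ∃ ρ : K, m.eval₂ (algebraMap F K) ρ = 0 := by
  classical
  have hirr : Irreducible m := Fact.out
  have hm0 : m ≠ 0 := hirr.ne_zero
  have hdpos : 0 < m.natDegree := Polynomial.natDegree_pos_iff_degree_pos.2 (Polynomial.degree_pos_of_irreducible hirr)
  let L := AdjoinRoot m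
  have hfrL : finrank F L = n := by
    have := (AdjoinRoot.powerBasis hm0).finrank
    rwa [AdjoinRoot.powerBasis_dim, hdeg] at this
  haveI : FiniteDimensional F L := FiniteDimensional.of_finrank_pos (by omega)
  haveI : Finite L := Module.finite_of_finite F
  haveI : Fintype L := Fintype.ofFinite L
  have hcL : Fintype.card L = Fintype.card K := by
    rw [Module.card_eq_pow_finrank (K := F) (V := L), Module.card_eq_pow_finrank (K := F) (V := K), hfrL, hdim]
  have hd : m ∣ X ^ (Fintype.card K) - X := by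
    rw [← AdjoinRoot.mk_eq_zero]
    simp only [map_sub, map_pow, AdjoinRoot.mk_X]
    rw [← hcL]
    exact sub_eq_zero.mpr (FiniteField.pow_card _)
  have hd2 : m.map (algebraMap F K) ∣ (X ^ (Fintype.card K) - X : K[X]) := by
    have := Polynomial.map_dvd (algebraMap F K) hd
    simpa using this
  have hne := FiniteField.X_pow_card_sub_X_ne_zero K (Fintype.one_lt_card (α := K))
  have hsplit : (X ^ (Fintype.card K) - X : K[X]).Splits := by
    rw [Polynomial.splits_iff_card_roots, FiniteField.roots_X_pow_card_sub_X, FiniteField.X_pow_card_sub_X_natDegree_eq K Fintype.one_lt_card]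
    simp
  have hs2 := hsplit.of_dvd hne hd2
  have hdeg0 : (m.map (algebraMap F K)).degree ≠ 0 := by
    rw [Polynomial.degree_map]
    exact (Polynomial.degree_pos_of_irreducible hirr).ne'
  obtain ⟨ρ, hρ⟩ := hs2.exists_eval_eq_zero hdeg0
  exact ⟨ρ, by rwa [Polynomial.eval_map] at hρ⟩

/-- The centraliser of an irreducible element is conjugate into the Singer group. -/
theorem exists_conj {n : ℕ} (hdim : finrank F K = n) (x : (End F K)ˣ) (hirr : Irreducible (minpoly F (x : End F K)))
    (hdeg : (minpoly F (x : End F K)).natDegree = n) :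
    ∃ g : (End F K)ˣ, ∀ u : (End F K)ˣ, Commute (u : End F K) (x : End F K) →
      g * u * g⁻¹ ∈ (Units.map ((Algebra.lmul F K : K →ₐ[F] End F K) : K →* End F K)).range := by
  classical
  set M : End F K := (x : End F K) with hM
  set m := minpoly F M with hm
  haveI : Fact (Irreducible m) := ⟨hirr⟩
  have hint : IsIntegral F M := Algebra.IsIntegral.isIntegral M
  have hmon : m.Monic := minpoly.monic hint
  have hm0 : m ≠ 0 := hmon.ne_zero
  let E := AdjoinRoot m
  have hI : ∀ a : F[X], a ∈ Ideal.span {m} → aeval M a = 0 := by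
    intro a ha
    obtain ⟨c, rfl⟩ := Ideal.mem_span_singleton.mp ha
    rw [map_mul, minpoly.aeval, zero_mul]
  let ι : E →ₐ[F] End F K := Ideal.Quotient.liftₐ (Ideal.span {m}) (aeval M) hI
  have hιmk : ∀ p : F[X], ι (AdjoinRoot.mk m p) = aeval M p := fun p => rfl
  have hfrE : finrank F E = n := by
    have := (AdjoinRoot.powerBasis hm0).finrank
    rwa [AdjoinRoot.powerBasis_dim, hdeg] at this
  have hnpos : 0 < n := by
    rw [← hdeg]
    exact Polynomial.natDegree_pos_iff_degree_pos.2 (Polynomial.degree_pos_of_irreducible hirr)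
  haveI : FiniteDimensional F E := FiniteDimensional.of_finrank_pos (by omega)
  -- evaluation at `1`
  let β₀ : E →ₗ[F] K := (LinearMap.applyₗ (1 : K)) ∘ₗ ι.toLinearMap
  have hβ₀ : ∀ e, β₀ e = ι e 1 := fun e => rfl
  have hinj : Function.Injective β₀ := by
    rw [← LinearMap.ker_eq_bot, LinearMap.ker_eq_bot']
    intro e he
    by_contra hne
    have e1 : ι (e⁻¹ * e) = 1 := by
      rw [inv_mul_cancel₀ hne]
      exact map_one ι
    have h1 : ι (e⁻¹ * e) 1 = 1 := by
      rw [e1]
      rfl
    rw [map_mul] at h1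
    have h2 : (ι e⁻¹ * ι e) 1 = ι e⁻¹ (ι e 1) := rfl
    rw [h2, ← hβ₀, he, map_zero] at h1
    exact zero_ne_one h1
  have hsurj : Function.Surjective β₀ :=
    (LinearMap.injective_iff_surjective_of_finrank_eq_finrank (by rw [hfrE, hdim])).mp hinj
  let β : E ≃ₗ[F] K := LinearEquiv.ofBijective β₀ ⟨hinj, hsurj⟩
  have hβ : ∀ e, β e = ι e 1 := fun e => rfl
  -- the field isomorphism
  obtain ⟨ρ, hρ⟩ := exists_root_of_degree (F := F) (K := K) hdim (m := m) hmon hdeg
  let ψ₀ : E →ₐ[F] K := AdjoinRoot.liftAlgHom m (Algebra.ofId F K) ρ hρ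
  have hψinj : Function.Injective ψ₀.toLinearMap := ψ₀.toRingHom.injective
  have hψsurj : Function.Surjective ψ₀.toLinearMap :=
    (LinearMap.injective_iff_surjective_of_finrank_eq_finrank (by rw [hfrE, hdim])).mp hψinj
  let ψ : E ≃ₗ[F] K := LinearEquiv.ofBijective ψ₀.toLinearMap ⟨hψinj, hψsurj⟩
  have hψ : ∀ e, ψ e = ψ₀ e := fun e => rfl
  let g₀ : K ≃ₗ[F] K := β.symm.trans ψ
  let g : (End F K)ˣ :=
    { val := (g₀ : K →ₗ[F] K)
      inv := (g₀.symm : K →ₗ[F] K)
      val_inv := by
        ext y
        exact g₀.apply_symm_apply y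
      inv_val := by
        ext y
        exact g₀.symm_apply_apply y }
  refine ⟨g, fun u hu => ?_⟩
  -- commuting with the polynomials in `M`
  have hcomm : ∀ e : E, Commute (u : End F K) (ι e) := by
    intro e
    induction e using AdjoinRoot.induction_on with
    | ih p =>
      rw [hιmk]
      have h2 : M ∈ Subalgebra.centralizer F {(u : End F K)} := by
        rw [Subalgebra.mem_centralizer_iff]
        intro y hy
        rw [Set.mem_singleton_iff] at hy
        rw [hy]
        exact hu
      have h3 : aeval M p ∈ Subalgebra.centralizer F {(u : End F K)} := by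
        induction p using Polynomial.induction_on' with
        | add p q hp hq =>
          rw [map_add]
          exact Subalgebra.add_mem _ hp hq
        | monomial n a =>
          rw [aeval_monomial]
          exact Subalgebra.mul_mem _ (Subalgebra.algebraMap_mem _ a) (Subalgebra.pow_mem _ h2 n)
      rw [Subalgebra.mem_centralizer_iff] at h3
      exact (h3 _ rfl)
  -- the value
  let c : E := β.symm ((u : End F K) 1)
  have hβc : ι c 1 = (u : End F K) 1 := by
    rw [← hβ]
    exact β.apply_symm_apply _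
  have huι : ∀ e : E, (u : End F K) (ι e 1) = ι (c * e) 1 := by
    intro e
    have h1 : (u : End F K) (ι e 1) = ι e ((u : End F K) 1) := congrArg (fun f : End F K => f 1) (hcomm e).eq
    rw [h1, ← hβc, mul_comm, map_mul]
    rfl
  have hc0 : c ≠ 0 := by
    intro h0
    have h1 : (u : End F K) 1 = 0 := by
      rw [← hβc, h0, map_zero]
      rfl
    have h2 := congrArg (fun f : End F K => f 1) u.inv_mul
    have h3 : ((u⁻¹ : (End F K)ˣ) : End F K) ((u : End F K) 1) = 1 := h2
    rw [h1, map_zero] at h3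
    exact zero_ne_one h3
  have hψc : ψ₀ c ≠ 0 := fun h0 => hc0 (ψ₀.toRingHom.injective (by simpa using h0))
  refine ⟨Units.mk0 (ψ₀ c) hψc, ?_⟩
  apply Units.ext
  ext z
  show ψ₀ c * z = g₀ ((u : End F K) (g₀.symm z))
  obtain ⟨e, rfl⟩ : ∃ e, ψ e = z := ψ.surjective z
  have h1 : g₀.symm (ψ e) = ι e 1 := by
    show β (ψ.symm (ψ e)) = _
    rw [LinearEquiv.symm_apply_apply, hβ]
  rw [h1, huι]
  show _ = ψ (β.symm (ι (c * e) 1))
  rw [← hβ, LinearEquiv.symm_apply_apply, hψ, hψ, map_mul]

end CfsgLib.ClassMax.SingerConj
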