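import Mathlib

/-! Element orders in `GL_n(𝔽₂)`: arithmetic constraints and constructions. -/

set_option autoImplicit false

namespace CfsgLib.Spec2

open Polynomial

variable {F : Type*} [Field F] [Fintype F]

/-- An element of `GL_n(𝔽₂)` of odd prime power order `p^b` gives `p^b ∣ 2^τ - 1`, `1 ≤ τ ≤ n`. -/
theorem odd_order_arith (hF : Fintype.card F = 2) (n : ℕ) (M : Matrix (Fin n) (Fin n) F)
    (p b : ℕ) (hp : p.Prime) (hp2 : p ≠ 2) (h1 : M ^ (p ^ (b + 1)) = 1) (h2 : M ^ (p ^ b) ≠ 1) :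
    ∃ τ, 1 ≤ τ ∧ τ ≤ n ∧ p ^ (b + 1) ∣ 2 ^ τ - 1 := by
  classical
  haveI : Fact p.Prime := ⟨hp⟩
  have h20 : (2 : F) = 0 := by
    have := FiniteField.cast_card_eq_zero F
    rwa [hF] at this
  have hint : IsIntegral F M := Matrix.isIntegral M
  obtain ⟨μ, hμdef⟩ : ∃ μ, μ = minpoly F M := ⟨_, rfl⟩
  have hμ0 : μ ≠ 0 := hμdef ▸ minpoly.ne_zero hint
  have hμdeg : μ.natDegree ≤ n := by
    have hd : μ ∣ M.charpoly := hμdef ▸ minpoly.dvd F M (Matrix.aeval_self_charpoly M)
    have hc : M.charpoly.Monic := Matrix.charpoly_monic M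
    have := Polynomial.natDegree_le_of_dvd hd hc.ne_zero
    rwa [Matrix.charpoly_natDegree_eq_dim, Fintype.card_fin] at this
  have hodd : ((p ^ (b + 1) : ℕ) : F) ≠ 0 := by
    have hoddp : Odd (p ^ (b + 1)) := (hp.odd_of_ne_two hp2).pow
    obtain ⟨k, hk⟩ := hoddp
    rw [hk]
    push_cast
    rw [h20]
    simp
  obtain ⟨A, hAdef⟩ : ∃ A : F[X], A = X ^ (p ^ (b + 1)) - C 1 := ⟨_, rfl⟩
  obtain ⟨B, hBdef⟩ : ∃ B : F[X], B = X ^ (p ^ b) - C 1 := ⟨_, rfl⟩
  have hAsep : A.Separable := hAdef ▸ separable_X_pow_sub_C (1 : F) hodd one_ne_zero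
  have hμA : μ ∣ A := by
    rw [hμdef]
    refine minpoly.dvd F M ?_
    rw [hAdef]
    simp [h1]
  have hμB : ¬ μ ∣ B := by
    intro h
    have h3 : Polynomial.aeval M B = 0 := by
      obtain ⟨c, hc⟩ := h
      rw [hc, map_mul, hμdef, minpoly.aeval, zero_mul]
    rw [hBdef] at h3
    simp only [map_sub, map_pow, aeval_X, map_one] at h3
    exact h2 (sub_eq_zero.mp h3)
  have hμsf : Squarefree μ := (hAsep.of_dvd hμA).squarefree
  -- an irreducible factor of `μ` not dividing `B`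
  obtain ⟨q, hq, hqμ, hqB⟩ : ∃ q : F[X], Irreducible q ∧ q ∣ μ ∧ ¬ q ∣ B := by
    obtain ⟨c, hc⟩ : EuclideanDomain.gcd μ B ∣ μ := EuclideanDomain.gcd_dvd_left μ B
    have hg0 : EuclideanDomain.gcd μ B ≠ 0 := by
      intro h0
      rw [h0, zero_mul] at hc
      exact hμ0 hc
    have hc0 : c ≠ 0 := by
      rintro rfl
      rw [mul_zero] at hc
      exact hμ0 hc
    have hcu : ¬ IsUnit c := by
      intro hu
      apply hμB
      have h5 : EuclideanDomain.gcd μ B ∣ B := EuclideanDomain.gcd_dvd_right μ B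
      rw [hc]
      exact (IsUnit.mul_right_dvd hu).mpr h5
    obtain ⟨q, hq, hqc⟩ := WfDvdMonoid.exists_irreducible_factor hcu hc0
    refine ⟨q, hq, hc ▸ Dvd.dvd.mul_left hqc _, fun hqB => ?_⟩
    have hqμ : q ∣ μ := hc ▸ Dvd.dvd.mul_left hqc _
    have hqg : q ∣ EuclideanDomain.gcd μ B := EuclideanDomain.dvd_gcd hqμ hqB
    have hqq : q * q ∣ μ := by
      rw [hc]
      exact mul_dvd_mul hqg hqc
    exact hq.not_isUnit (hμsf q hqq)
  haveI : Fact (Irreducible q) := ⟨hq⟩
  have hqμdeg : q.natDegree ≤ n := (Polynomial.natDegree_le_of_dvd hqμ hμ0).trans hμdeg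
  -- the field
  obtain ⟨ζ, hζdef⟩ : ∃ ζ : AdjoinRoot q, ζ = AdjoinRoot.root q := ⟨_, rfl⟩
  have hz1 : ζ ^ (p ^ (b + 1)) = 1 := by
    have h3 : AdjoinRoot.mk q A = 0 := AdjoinRoot.mk_eq_zero.mpr (hqμ.trans hμA)
    rw [hAdef] at h3
    simp only [map_sub, map_pow, AdjoinRoot.mk_X, map_one, AdjoinRoot.mk_C] at h3
    rw [hζdef]
    exact sub_eq_zero.mp h3
  have hz2 : ¬ ζ ^ (p ^ b) = 1 := by
    intro h
    apply hqB
    rw [← AdjoinRoot.mk_eq_zero, hBdef]
    simp only [map_sub, map_pow, AdjoinRoot.mk_X, map_one, AdjoinRoot.mk_C]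
    rw [← hζdef, h, sub_self]
  have hord : orderOf ζ = p ^ (b + 1) := orderOf_eq_prime_pow hz2 hz1
  have hz0 : ζ ≠ 0 := by
    rintro rfl
    rw [zero_pow (pow_ne_zero _ hp.ne_zero)] at hz1
    exact zero_ne_one hz1
  let pb := AdjoinRoot.powerBasis hq.ne_zero
  haveI : Module.Finite F (AdjoinRoot q) := pb.finite
  haveI : Finite (AdjoinRoot q) := Module.finite_of_finite F
  haveI : Fintype (AdjoinRoot q) := Fintype.ofFinite _
  have hcard : Fintype.card (AdjoinRoot q) = 2 ^ q.natDegree := by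
    have h3 := Module.card_eq_pow_finrank (K := F) (V := AdjoinRoot q)
    rw [hF, pb.finrank, AdjoinRoot.powerBasis_dim] at h3
    exact h3
  have h5 : ζ ^ (Fintype.card (AdjoinRoot q) - 1) = 1 := FiniteField.pow_card_sub_one_eq_one ζ hz0
  refine ⟨q.natDegree, hq.natDegree_pos, hqμdeg, ?_⟩
  rw [← hord, ← hcard]
  exact orderOf_dvd_of_pow_eq_one h5

/-- Element orders in a commutative algebra of dimension `n` occur in `GL_n`. -/
theorem order_of_algebra {R : Type*} [CommRing R] [Algebra F R] [Module.Finite F R] (n : ℕ)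
    (hn : Module.finrank F R = n) (u : Rˣ) :
    ∃ g : (Matrix (Fin n) (Fin n) F)ˣ, orderOf g = orderOf u := by
  let b := Module.finBasisOfFinrankEq F R hn
  let φ : R →ₐ[F] Matrix (Fin n) (Fin n) F := Algebra.leftMulMatrix b
  have hφ : Function.Injective φ := Algebra.leftMulMatrix_injective b
  have hinj : Function.Injective (Units.map (φ : R →* Matrix (Fin n) (Fin n) F)) := by
    intro a c h
    ext
    exact hφ (congrArg Units.val h)
  exact ⟨Units.map (φ : R →* Matrix (Fin n) (Fin n) F) u, orderOf_injective _ hinj u⟩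

/-- Elements of any order dividing `|K| - 1` in the units of a finite field. -/
theorem exists_unit_order {K : Type*} [Field K] [Fintype K] (d : ℕ)
    (hd : d ∣ Fintype.card K - 1) : ∃ u : Kˣ, orderOf u = d := by
  classical
  obtain ⟨g, hg⟩ := IsCyclic.exists_generator (α := Kˣ)
  have hord : orderOf g = Fintype.card K - 1 := by
    rw [orderOf_eq_card_of_forall_mem_zpowers hg, Nat.card_eq_fintype_card, Fintype.card_units]
  obtain ⟨c, hc⟩ := hd
  have hpos : 0 < Fintype.card K - 1 := by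
    have := Fintype.one_lt_card (α := K)
    omega
  have hc0 : c ≠ 0 := by
    rintro rfl
    omega
  refine ⟨g ^ c, ?_⟩
  rw [orderOf_pow_of_dvd hc0 ⟨d, by rw [hord, hc, mul_comm]⟩, hord, hc]
  exact Nat.mul_div_cancel _ (Nat.pos_of_ne_zero hc0)

/-- Field extensions of `F` of any degree `t ≥ 1`. -/
theorem exists_extension (hF : Fintype.card F = 2) (t : ℕ) (ht : t ≠ 0) :
    ∃ (K : Type) (_ : Field K) (_ : Fintype K) (_ : Algebra F K),
      Module.finrank F K = t ∧ Fintype.card K = 2 ^ t := by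
  classical
  haveI : Fact (Nat.Prime 2) := ⟨Nat.prime_two⟩
  have h20 : (2 : F) = 0 := by
    have := FiniteField.cast_card_eq_zero F
    rwa [hF] at this
  haveI : CharP F 2 := CharTwo.of_one_ne_zero_of_two_eq_zero one_ne_zero h20
  have ht' : NeZero t := ⟨ht⟩
  let K := FiniteField.Extension F 2 t
  haveI : Finite K := inferInstance
  letI : Fintype K := Fintype.ofFinite K
  refine ⟨K, inferInstance, inferInstance, inferInstance, FiniteField.finrank_extension F 2 t, ?_⟩
  rw [← Nat.card_eq_fintype_card]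
  have h5 : Nat.card K = Nat.card F ^ t := FiniteField.natCard_extension F 2 t
  rw [h5, Nat.card_eq_fintype_card, hF]

/-- Orders dividing `2^n - 1` occur in `GL_n`. -/
theorem exists_order_single (hF : Fintype.card F = 2) (n : ℕ) (hn : n ≠ 0) (d : ℕ)
    (hd : d ∣ 2 ^ n - 1) : ∃ g : (Matrix (Fin n) (Fin n) F)ˣ, orderOf g = d := by
  obtain ⟨K, _, _, _, h1, h2⟩ := exists_extension hF n hn
  obtain ⟨u, hu⟩ := exists_unit_order (K := K) d (h2 ▸ hd)
  haveI : Module.Finite F K := Module.Finite.of_finite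
  obtain ⟨g, hg⟩ := order_of_algebra n h1 u
  exact ⟨g, hg.trans hu⟩

/-- Orders `lcm(d₁, d₂)` with `dᵢ ∣ 2^tᵢ - 1`, `t₁ + t₂ = n` occur in `GL_n`. -/
theorem exists_order_pair (hF : Fintype.card F = 2) (t₁ t₂ n : ℕ) (h : t₁ + t₂ = n)
    (h1 : t₁ ≠ 0) (h2 : t₂ ≠ 0) (d₁ d₂ : ℕ) (hd₁ : d₁ ∣ 2 ^ t₁ - 1) (hd₂ : d₂ ∣ 2 ^ t₂ - 1) :
    ∃ g : (Matrix (Fin n) (Fin n) F)ˣ, orderOf g = Nat.lcm d₁ d₂ := by
  obtain ⟨K₁, _, _, _, h11, h12⟩ := exists_extension hF t₁ h1
  obtain ⟨K₂, _, _, _, h21, h22⟩ := exists_extension hF t₂ h2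
  obtain ⟨u₁, hu₁⟩ := exists_unit_order (K := K₁) d₁ (h12 ▸ hd₁)
  obtain ⟨u₂, hu₂⟩ := exists_unit_order (K := K₂) d₂ (h22 ▸ hd₂)
  haveI : Module.Finite F K₁ := Module.Finite.of_finite
  haveI : Module.Finite F K₂ := Module.Finite.of_finite
  have hfr : Module.finrank F (K₁ × K₂) = n := by
    rw [Module.finrank_prod, h11, h21, h]
  obtain ⟨g, hg⟩ := order_of_algebra (R := K₁ × K₂) n hfr (MulEquiv.prodUnits.symm (u₁, u₂))
  refine ⟨g, hg.trans ?_⟩
  rw [MulEquiv.orderOf_eq, Prod.orderOf, hu₁, hu₂]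

theorem eq_one_of_ne_zero (hF : Fintype.card F = 2) (r : F) (hr : r ≠ 0) : r = 1 := by
  have := FiniteField.pow_card_sub_one_eq_one r hr
  rwa [hF, pow_one] at this

/-- The centre of `SL_n(𝔽₂)` is trivial. -/
theorem center_trivial (hF : Fintype.card F = 2) (n : ℕ) (hn : n ≠ 0) :
    Subgroup.center (Matrix.SpecialLinearGroup (Fin n) F) = ⊥ := by
  haveI : NeZero n := ⟨hn⟩
  refine (Subgroup.eq_bot_iff_forall _).mpr fun A hA => ?_
  obtain ⟨r, hr1, hr2⟩ := Matrix.SpecialLinearGroup.mem_center_iff.mp hA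
  have hr0 : r ≠ 0 := by
    rintro rfl
    rw [Fintype.card_fin, zero_pow hn] at hr1
    exact zero_ne_one hr1
  rw [eq_one_of_ne_zero hF r hr0] at hr2
  ext i j
  rw [← hr2]
  simp [Matrix.one_apply]

/-- The quotient map. -/
noncomputable abbrev piPSL (n : ℕ) (F : Type*) [Field F] [Fintype F] :
    Matrix.SpecialLinearGroup (Fin n) F →* Matrix.ProjectiveSpecialLinearGroup (Fin n) F :=
  QuotientGroup.mk' _

theorem piPSL_injective (hF : Fintype.card F = 2) (n : ℕ) (hn : n ≠ 0) :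
    Function.Injective (piPSL n F) := by
  rw [← MonoidHom.ker_eq_bot_iff, QuotientGroup.ker_mk', center_trivial hF n hn]

/-- Orders of `GL_n(𝔽₂)` occur in `PSL_n`. -/
theorem order_in_PSL (hF : Fintype.card F = 2) (n : ℕ) (hn : n ≠ 0)
    (u : (Matrix (Fin n) (Fin n) F)ˣ) :
    ∃ x : Matrix.ProjectiveSpecialLinearGroup (Fin n) F, orderOf x = orderOf u := by
  have hdet : (u : Matrix (Fin n) (Fin n) F).det = 1 := by
    refine eq_one_of_ne_zero hF _ ?_
    have := (Matrix.isUnit_iff_isUnit_det _).mp u.isUnit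
    exact this.ne_zero
  let g : Matrix.SpecialLinearGroup (Fin n) F := ⟨u, hdet⟩
  refine ⟨piPSL n F g, ?_⟩
  rw [orderOf_injective _ (piPSL_injective hF n hn) g, orderOf_eq_orderOf_iff]
  intro k
  constructor
  · intro h
    have h1 : (g ^ k : Matrix.SpecialLinearGroup (Fin n) F).1 = 1 := by rw [h]; rfl
    rw [Matrix.SpecialLinearGroup.coe_pow] at h1
    ext1
    rw [Units.val_pow_eq_pow_val]
    exact h1
  · intro h
    have h1 : ((u ^ k : (Matrix (Fin n) (Fin n) F)ˣ) : Matrix (Fin n) (Fin n) F) = 1 := by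
      rw [h]; rfl
    rw [Units.val_pow_eq_pow_val] at h1
    refine Subtype.ext ?_
    rw [Matrix.SpecialLinearGroup.coe_pow]
    exact h1

/-- Elements of `PSL_n` come from matrices. -/
theorem PSL_matrix (hF : Fintype.card F = 2) (n : ℕ) (hn : n ≠ 0)
    (x : Matrix.ProjectiveSpecialLinearGroup (Fin n) F) :
    ∃ M : Matrix (Fin n) (Fin n) F, ∀ k : ℕ, x ^ k = 1 ↔ M ^ k = 1 := by
  obtain ⟨g, rfl⟩ := QuotientGroup.mk'_surjective _ x
  refine ⟨g.1, fun k => ?_⟩
  have hinj := piPSL_injective hF n hn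
  constructor
  · intro h
    have h1 : piPSL n F (g ^ k) = piPSL n F 1 := by
      rw [map_pow, map_one]
      exact h
    have h2 := hinj h1
    have h3 : (g ^ k : Matrix.SpecialLinearGroup (Fin n) F).1 = 1 := by rw [h2]; rfl
    rwa [Matrix.SpecialLinearGroup.coe_pow] at h3
  · intro h
    have h1 : g ^ k = 1 := by
      refine Subtype.ext ?_
      rw [Matrix.SpecialLinearGroup.coe_pow]
      exact h
    have h2 : piPSL n F g ^ k = 1 := by
      rw [← map_pow, h1, map_one]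
    exact h2

/-- Prime powers dividing the order of a tuple divide the order of a component. -/
theorem prime_pow_component {ι G : Type*} [Fintype ι] [Group G] [Finite G] (x : ι → G)
    (p b : ℕ) (hp : p.Prime) (h : p ^ (b + 1) ∣ orderOf x) : ∃ i, p ^ (b + 1) ∣ orderOf (x i) := by
  by_contra hcon
  push Not at hcon
  have hm0 : orderOf x ≠ 0 := (orderOf_pos x).ne'
  obtain ⟨v, w, hw, hm⟩ := Nat.exists_eq_pow_mul_and_not_dvd hm0 p hp.ne_one
  have hcop : Nat.Coprime (p ^ (b + 1)) w := Nat.Coprime.pow_left _ ((Nat.Prime.coprime_iff_not_dvd hp).mpr hw)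
  have hbv : b + 1 ≤ v := by
    rw [hm] at h
    have := hcop.dvd_of_dvd_mul_right h
    exact (Nat.pow_dvd_pow_iff_le_right hp.one_lt).mp this
  have hall : x ^ (p ^ b * w) = 1 := by
    funext i
    rw [Pi.pow_apply]
    refine orderOf_dvd_iff_pow_eq_one.mp ?_
    have hi : orderOf (x i) ∣ p ^ v * w := by
      rw [← hm]
      refine orderOf_dvd_of_pow_eq_one ?_
      have := congrFun (pow_orderOf_eq_one x) i
      simpa using this
    obtain ⟨f, a', ha', hae⟩ := Nat.exists_eq_pow_mul_and_not_dvd (orderOf_pos (x i)).ne' p hp.ne_one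
    have hfb : f ≤ b := by
      by_contra hfb
      have h2 : p ^ (b + 1) ∣ orderOf (x i) := by
        rw [hae]
        exact Dvd.dvd.mul_right (pow_dvd_pow _ (by omega)) _
      exact hcon i h2
    rw [hae]
    refine mul_dvd_mul (pow_dvd_pow _ hfb) ?_
    have h3 : a' ∣ p ^ v * w := (Dvd.intro_left _ hae.symm).trans hi
    have hc2 : Nat.Coprime a' (p ^ v) :=
      Nat.Coprime.pow_right _ (Nat.Coprime.symm ((Nat.Prime.coprime_iff_not_dvd hp).mpr ha'))
    exact hc2.dvd_of_dvd_mul_left h3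
  have h4 := orderOf_dvd_of_pow_eq_one hall
  rw [hm] at h4
  have hw0 : 0 < w := Nat.pos_of_ne_zero (by
    rintro rfl
    exact hw (dvd_zero _))
  have h5 : p ^ v ∣ p ^ b := Nat.dvd_of_mul_dvd_mul_right hw0 h4
  have := (Nat.pow_dvd_pow_iff_le_right hp.one_lt).mp h5
  omega

/-- Odd prime powers dividing an element order in `PSL_n(𝔽₂)`. -/
theorem odd_pow_arith (hF : Fintype.card F = 2) (n : ℕ) (hn : n ≠ 0)
    (x : Matrix.ProjectiveSpecialLinearGroup (Fin n) F) (p b : ℕ) (hp : p.Prime) (hp2 : p ≠ 2)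
    (h : p ^ (b + 1) ∣ orderOf x) : ∃ τ, 1 ≤ τ ∧ τ ≤ n ∧ p ^ (b + 1) ∣ 2 ^ τ - 1 := by
  obtain ⟨c, hc⟩ := h
  have hpos : 0 < orderOf x := orderOf_pos x
  have hc0 : c ≠ 0 := by
    rintro rfl
    simp [hc] at hpos
  have hord : orderOf (x ^ c) = p ^ (b + 1) := by
    rw [orderOf_pow_of_dvd hc0 ⟨p ^ (b + 1), by rw [hc, mul_comm]⟩, hc]
    exact Nat.mul_div_cancel _ (Nat.pos_of_ne_zero hc0)
  obtain ⟨M, hM⟩ := PSL_matrix hF n hn (x ^ c)
  refine odd_order_arith hF n M p b hp hp2 ?_ ?_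
  · rw [← hM, ← hord, pow_orderOf_eq_one]
  · intro h1
    have h2 := (hM _).mpr h1
    have h3 := orderOf_dvd_of_pow_eq_one h2
    rw [hord] at h3
    have := (Nat.pow_dvd_pow_iff_le_right hp.one_lt).mp h3
    omega

/-- The main theorem of this file. -/
theorem main_subset (hF : Fintype.card F = 2) (n k : ℕ) (hn : 2 ≤ n)
    (x : Fin k → Matrix.ProjectiveSpecialLinearGroup (Fin n) F) :
    ∃ y : Fin ((n + 3) / 2) → Matrix.ProjectiveSpecialLinearGroup (Fin n) F,
      orderOf y = orderOf x := by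
  classical
  have hn0 : n ≠ 0 := by omega
  obtain ⟨m, hm⟩ : ∃ m, m = orderOf x := ⟨_, rfl⟩
  have hm0 : m ≠ 0 := hm ▸ (orderOf_pos x).ne'
  obtain ⟨a, had⟩ : ∃ a, a = m.factorization 2 := ⟨_, rfl⟩
  obtain ⟨m', hm'd⟩ : ∃ m', m' = ordCompl[2] m := ⟨_, rfl⟩
  have hmm : 2 ^ a * m' = m := by
    rw [had, hm'd]
    exact Nat.ordProj_mul_ordCompl_eq_self m 2
  let d : ℕ → ℕ := fun τ => Nat.gcd m' (2 ^ τ - 1)
  let s : Fin ((n + 3) / 2) → ℕ := fun j =>
    if j.1 = 0 then 2 ^ a else if j.1 = 1 then d n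
      else Nat.lcm (d (j.1 - 1)) (d (n - (j.1 - 1)))
  -- realizability of the slots
  have hex : ∀ j, ∃ y : Matrix.ProjectiveSpecialLinearGroup (Fin n) F, orderOf y = s j := by
    intro j
    by_cases hj0 : j.1 = 0
    · have hs : s j = 2 ^ a := by simp [s, hj0]
      rw [hs]
      rcases Nat.eq_zero_or_pos a with ha | ha
      · exact ⟨1, by simp [ha]⟩
      · obtain ⟨b, rfl⟩ : ∃ b, a = b + 1 := ⟨a - 1, by omega⟩
        have h1 : 2 ^ (b + 1) ∣ orderOf x := by
          rw [← hm, ← hmm]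
          exact Dvd.intro _ rfl
        obtain ⟨i, hi⟩ := prime_pow_component x 2 b Nat.prime_two h1
        obtain ⟨c, hc⟩ := hi
        have hpos : 0 < orderOf (x i) := orderOf_pos _
        have hc0 : c ≠ 0 := by
          rintro rfl
          simp [hc] at hpos
        refine ⟨x i ^ c, ?_⟩
        rw [orderOf_pow_of_dvd hc0 ⟨2 ^ (b + 1), by rw [hc, mul_comm]⟩, hc]
        exact Nat.mul_div_cancel _ (Nat.pos_of_ne_zero hc0)
    · by_cases hj1 : j.1 = 1
      · have hs : s j = d n := by simp [s, hj1]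
        rw [hs]
        obtain ⟨g, hg⟩ := exists_order_single (F := F) hF n hn0 (d n) (Nat.gcd_dvd_right _ _)
        obtain ⟨y, hy⟩ := order_in_PSL hF n hn0 g
        exact ⟨y, hy.trans hg⟩
      · have hs : s j = Nat.lcm (d (j.1 - 1)) (d (n - (j.1 - 1))) := by simp [s, hj0, hj1]
        rw [hs]
        have hjlt := j.2
        obtain ⟨g, hg⟩ := exists_order_pair (F := F) hF (j.1 - 1) (n - (j.1 - 1)) n (by omega)
          (by omega) (by omega) (d (j.1 - 1)) (d (n - (j.1 - 1))) (Nat.gcd_dvd_right _ _)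
          (Nat.gcd_dvd_right _ _)
        obtain ⟨y, hy⟩ := order_in_PSL hF n hn0 g
        exact ⟨y, hy.trans hg⟩
  choose y hy using hex
  refine ⟨y, ?_⟩
  have hdm : ∀ τ, d τ ∣ m := fun τ =>
    (Nat.gcd_dvd_left _ _).trans (hmm ▸ Dvd.intro_left _ rfl)
  have hsm : ∀ j, s j ∣ m := by
    intro j
    by_cases hj0 : j.1 = 0
    · have hs : s j = 2 ^ a := by simp [s, hj0]
      rw [hs, ← hmm]
      exact Dvd.intro _ rfl
    · by_cases hj1 : j.1 = 1
      · have hs : s j = d n := by simp [s, hj1]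
        rw [hs]
        exact hdm n
      · have hs : s j = Nat.lcm (d (j.1 - 1)) (d (n - (j.1 - 1))) := by simp [s, hj0, hj1]
        rw [hs]
        exact Nat.lcm_dvd (hdm _) (hdm _)
  have hyo : ∀ e : ℕ, y ^ e = 1 ↔ ∀ j, s j ∣ e := by
    intro e
    constructor
    · intro h j
      rw [← hy j]
      refine orderOf_dvd_of_pow_eq_one ?_
      have := congrFun h j
      simpa using this
    · intro h
      funext j
      rw [Pi.pow_apply, Pi.one_apply]
      refine orderOf_dvd_iff_pow_eq_one.mp ?_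
      rw [hy j]
      exact h j
  rw [← hm]
  refine Nat.dvd_antisymm ?_ ?_
  · exact orderOf_dvd_of_pow_eq_one ((hyo m).mpr hsm)
  · -- every prime power dividing `m` divides some slot
    have hall : ∀ j, s j ∣ orderOf y := (hyo _).mp (pow_orderOf_eq_one y)
    refine (Nat.dvd_iff_prime_pow_dvd_dvd _ _).mpr ?_
    intro p c hp hpc
    rcases Nat.eq_zero_or_pos c with rfl | hc
    · simp
    obtain ⟨b, rfl⟩ : ∃ b, c = b + 1 := ⟨c - 1, by omega⟩
    by_cases hp2 : p = 2
    · subst hp2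
      have hle : b + 1 ≤ a := by
        rw [had]
        exact (Nat.Prime.pow_dvd_iff_le_factorization Nat.prime_two hm0).mp hpc
      have hs0 : s ⟨0, by omega⟩ = 2 ^ a := by simp [s]
      have := hall ⟨0, by omega⟩
      rw [hs0] at this
      exact (pow_dvd_pow 2 hle).trans this
    · have h1 : p ^ (b + 1) ∣ orderOf x := hm ▸ hpc
      obtain ⟨i, hi⟩ := prime_pow_component x p b hp h1
      obtain ⟨τ, hτ1, hτn, hτ⟩ := odd_pow_arith hF n hn0 (x i) p b hp hp2 hi
      -- `p ^ (b+1) ∣ m'`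
      have hpm' : p ^ (b + 1) ∣ m' := by
        rw [← hmm] at hpc
        have hcop : Nat.Coprime (p ^ (b + 1)) (2 ^ a) :=
          Nat.Coprime.pow _ _ ((Nat.coprime_primes hp Nat.prime_two).mpr hp2)
        exact hcop.dvd_of_dvd_mul_left hpc
      have hpd : p ^ (b + 1) ∣ d τ := Nat.dvd_gcd hpm' hτ
      -- cover `τ` by a slot
      have hK : 2 ≤ (n + 3) / 2 := by omega
      by_cases hτn' : τ = n
      · have hs1 : s ⟨1, by omega⟩ = d n := by simp [s]
        have := hall ⟨1, by omega⟩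
        rw [hs1] at this
        rw [hτn'] at hpd
        exact hpd.trans this
      · by_cases hτ2 : 2 * τ = n
        · -- `2 ^ τ - 1 ∣ 2 ^ n - 1`
          have hs1 : s ⟨1, by omega⟩ = d n := by simp [s]
          have := hall ⟨1, by omega⟩
          rw [hs1] at this
          have hdvd : 2 ^ τ - 1 ∣ 2 ^ n - 1 := by
            rw [← hτ2, mul_comm, pow_mul]
            simpa using Nat.sub_dvd_pow_sub_pow (2 ^ τ) 1 2
          have h5 : p ^ (b + 1) ∣ d n := Nat.dvd_gcd hpm' (hτ.trans hdvd)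
          exact h5.trans this
        · by_cases hτ3 : 2 * τ < n
          · have hlt : τ + 1 < (n + 3) / 2 := by omega
            have hs : s ⟨τ + 1, hlt⟩ = Nat.lcm (d τ) (d (n - τ)) := by
              have h6 : τ + 1 ≠ 0 := by omega
              have h7 : τ + 1 ≠ 1 := by omega
              have h9 : τ ≠ 0 := by omega
              simp [s, h7, h9]
            have := hall ⟨τ + 1, hlt⟩
            rw [hs] at this
            exact (hpd.trans (Nat.dvd_lcm_left _ _)).trans this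
          · have hlt : n - τ + 1 < (n + 3) / 2 := by omega
            have hs : s ⟨n - τ + 1, hlt⟩ = Nat.lcm (d (n - τ)) (d τ) := by
              have h6 : n - τ + 1 ≠ 0 := by omega
              have h7 : n - τ + 1 ≠ 1 := by omega
              have h8 : n - (n - τ) = τ := by omega
              have h9 : n - τ ≠ 0 := by omega
              simp [s, h7, h8, h9]
            have := hall ⟨n - τ + 1, hlt⟩
            rw [hs] at this
            exact (hpd.trans (Nat.dvd_lcm_right _ _)).trans this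

end CfsgLib.Spec2
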