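import Mathlib

/-! Element orders in `PSL_n(q)`: semisimple elements with irreducible minimal polynomial, Singer
cycles and centralizing elements of prime order dividing `q - 1`. -/

set_option autoImplicit false

namespace CfsgLib.Spec3

open Polynomial

variable {F : Type*} [Field F] [Fintype F] {n₀ : ℕ}

/-- The geometric sum. -/
def SS (q m : ℕ) : ℕ := ∑ i ∈ Finset.range m, q ^ i

theorem SS_succ (q m : ℕ) : SS q (m + 1) = SS q m + q ^ m := by
  simp [SS, Finset.sum_range_succ]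

theorem SS_mul (q m : ℕ) (hq : 1 ≤ q) : (q - 1) * SS q m = q ^ m - 1 := by
  induction m with
  | zero => simp [SS]
  | succ m ih =>
    rw [SS_succ, mul_add, ih, pow_succ]
    have h1 : 1 ≤ q ^ m := Nat.one_le_pow _ _ hq
    obtain ⟨a, ha⟩ : ∃ a, q ^ m = a + 1 := ⟨q ^ m - 1, by omega⟩
    obtain ⟨b, rfl⟩ : ∃ b, q = b + 1 := ⟨q - 1, by omega⟩
    rw [ha]
    simp only [Nat.add_sub_cancel]
    ring_nf
    omega

theorem SS_modEq (q m : ℕ) (hq : 1 ≤ q) : SS q m ≡ m [MOD q - 1] := by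
  have h1 : q ≡ 1 [MOD q - 1] := ((Nat.modEq_iff_dvd' hq).mpr dvd_rfl).symm
  induction m with
  | zero => simp [SS]; rfl
  | succ m ih =>
    have h2 : q ^ m ≡ 1 [MOD q - 1] := by simpa using h1.pow m
    rw [SS_succ]
    exact ih.add h2

theorem SS_factor (q d e : ℕ) (hq : 2 ≤ q) : SS q (d * e) = SS q d * SS (q ^ d) e := by
  have h1 := SS_mul q (d * e) (by omega)
  have h2 := SS_mul q d (by omega)
  have h3 := SS_mul (q ^ d) e (Nat.one_le_pow _ _ (by omega))
  rw [← pow_mul] at h3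
  rw [← h3, ← h2] at h1
  have h4 : 0 < q - 1 := by omega
  refine Nat.eq_of_mul_eq_mul_left h4 ?_
  rw [h1, mul_assoc]

theorem pow_SS_of_pow (K : Type*) [Monoid K] (ν : K) (c : ℕ) (h : ν ^ c = ν) (e : ℕ) :
    ν ^ SS c e = ν ^ e := by
  induction e with
  | zero => simp [SS]
  | succ e ih =>
    have h2 : ∀ k : ℕ, ν ^ (c ^ k) = ν := by
      intro k
      induction k with
      | zero => simp
      | succ k ih2 => rw [pow_succ, pow_mul, ih2, h]
    rw [SS_succ, pow_add, ih, h2, pow_succ]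

/-- The order of the Singer element of `PSL_n(q)`. -/
def NN (q n : ℕ) : ℕ := SS q n / Nat.gcd n (q - 1)

theorem gcd_dvd_SS (q n : ℕ) (hq : 1 ≤ q) : Nat.gcd n (q - 1) ∣ SS q n := by
  have h1 := SS_modEq q n hq
  have h2 : Nat.gcd (SS q n) (q - 1) = Nat.gcd n (q - 1) := h1.gcd_eq
  rw [← h2]
  exact Nat.gcd_dvd_left _ _

theorem NN_mul (q n : ℕ) (hq : 1 ≤ q) : NN q n * Nat.gcd n (q - 1) = SS q n :=
  Nat.div_mul_cancel (gcd_dvd_SS q n hq)

/-- Elements of a finite extension with `z ^ q = z` lie in the base field. -/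
theorem mem_base {K : Type*} [Field K] [Finite K] [Algebra F K] (z : K)
    (hz : z ^ Fintype.card F = z) : ∃ c : F, algebraMap F K c = z := by
  classical
  by_contra hcon
  push Not at hcon
  have hq : 1 < Fintype.card F := Fintype.one_lt_card
  let P : K[X] := X ^ Fintype.card F - X
  have hP0 : P ≠ 0 := FiniteField.X_pow_card_sub_X_ne_zero K hq
  have hdeg : P.natDegree = Fintype.card F := FiniteField.X_pow_card_sub_X_natDegree_eq K hq
  let Z : Finset K := insert z (Finset.univ.image (algebraMap F K))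
  have hZcard : Z.card = Fintype.card F + 1 := by
    rw [Finset.card_insert_of_notMem, Finset.card_image_of_injective _ (algebraMap F K).injective,
      Finset.card_univ]
    intro h
    obtain ⟨c, _, hc⟩ := Finset.mem_image.mp h
    exact hcon c hc
  have hsub : Z.val ⊆ P.roots := by
    intro y hy
    have hy' : y ∈ Z := hy
    rw [Polynomial.mem_roots hP0, Polynomial.IsRoot.def]
    simp only [P, eval_sub, eval_pow, eval_X]
    rcases Finset.mem_insert.mp hy' with rfl | hy2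
    · rw [hz, sub_self]
    · obtain ⟨c, _, rfl⟩ := Finset.mem_image.mp hy2
      rw [← map_pow, FiniteField.pow_card, sub_self]
  have := Polynomial.card_le_degree_of_subset_roots hsub
  omega

/-- Semisimple elements with irreducible minimal polynomial and determinant one have a power
which is scalar. -/
theorem pow_scalar_of_irreducible (n : ℕ) (S : Matrix (Fin n) (Fin n) F) (hdet : S.det = 1)
    (hirr : Irreducible (minpoly F S)) :
    ∃ c : F, S ^ NN (Fintype.card F) n = c • (1 : Matrix (Fin n) (Fin n) F) := by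
  classical
  obtain ⟨f, hf⟩ : ∃ f, f = minpoly F S := ⟨_, rfl⟩
  rw [← hf] at hirr
  haveI : Fact (Irreducible f) := ⟨hirr⟩
  obtain ⟨q, hq⟩ : ∃ q, q = Fintype.card F := ⟨_, rfl⟩
  have hq2 : 2 ≤ q := hq ▸ Fintype.one_lt_card
  let K := AdjoinRoot f
  have hfS : aeval S f = 0 := hf ▸ minpoly.aeval F S
  let φ : K →ₐ[F] Matrix (Fin n) (Fin n) F :=
    Ideal.Quotient.liftₐ (Ideal.span {f}) (aeval S) (by
      intro a ha
      obtain ⟨c, rfl⟩ := Ideal.mem_span_singleton.mp ha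
      rw [map_mul, hfS, zero_mul])
  have hφroot : φ (AdjoinRoot.root f) = S := by
    show aeval S X = S
    rw [aeval_X]
  let φ₂ : K →ₐ[F] Module.End F (Fin n → F) :=
    (Matrix.toLinAlgEquiv' : Matrix (Fin n) (Fin n) F ≃ₐ[F] _).toAlgHom.comp φ
  letI : Module K (Fin n → F) := Module.compHom _ φ₂.toRingHom
  have hsmul : ∀ (c : K) (v : Fin n → F), c • v = φ₂ c v := fun _ _ => rfl
  haveI : IsScalarTower F K (Fin n → F) := ⟨fun a c v => by
    rw [hsmul, hsmul, map_smul]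
    rfl⟩
  haveI : Module.Finite F K := (AdjoinRoot.powerBasis hirr.ne_zero).finite
  haveI : Finite K := Module.finite_of_finite F
  haveI : Module.Finite K (Fin n → F) := Module.Finite.of_restrictScalars_finite F K _
  obtain ⟨d, hd⟩ : ∃ d, d = Module.finrank F K := ⟨_, rfl⟩
  obtain ⟨e, he⟩ : ∃ e, e = Module.finrank K (Fin n → F) := ⟨_, rfl⟩
  have hde : d * e = n := by
    rw [hd, he, Module.finrank_mul_finrank]
    simp
  have hcardK : Nat.card K = q ^ d := by
    rw [Module.natCard_eq_pow_finrank (K := F), Nat.card_eq_fintype_card, hq, hd]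
  obtain ⟨ζ, hζ⟩ : ∃ ζ : K, ζ = AdjoinRoot.root f := ⟨_, rfl⟩
  -- the determinant
  have hdetnorm : (Algebra.norm F ζ) ^ e = 1 := by
    let T : (Fin n → F) →ₗ[K] (Fin n → F) := ζ • LinearMap.id
    have h1 : T.restrictScalars F = Matrix.toLin' S := by
      refine LinearMap.ext fun v => ?_
      show ζ • v = _
      rw [hsmul, hζ]
      show Matrix.toLin' (φ (AdjoinRoot.root f)) v = _
      rw [hφroot]
    have h2 := LinearMap.det_restrictScalars (R := F) (S := K) (A := Fin n → F) (f := T)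
    rw [h1, LinearMap.det_toLin', hdet] at h2
    have h3 : LinearMap.det T = ζ ^ e := by
      rw [LinearMap.det_smul, LinearMap.det_id, mul_one, he]
    rw [h3, map_pow] at h2
    exact h2.symm
  obtain ⟨ν, hν⟩ : ∃ ν, ν = Algebra.norm F ζ := ⟨_, rfl⟩
  rw [← hν] at hdetnorm
  have hνq : ν ^ (q ^ d) = ν := by
    have h1 : ν ^ q = ν := hq ▸ FiniteField.pow_card ν
    have h2 : ∀ k : ℕ, ν ^ (q ^ k) = ν := by
      intro k
      induction k with
      | zero => simp
      | succ k ih => rw [pow_succ, pow_mul, ih, h1]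
    exact h2 d
  have hζnorm : ζ ^ SS q d = algebraMap F K ν := by
    rw [hν, FiniteField.algebraMap_norm_eq_pow, hcardK, Nat.card_eq_fintype_card, ← hq]
    congr 1
    have h1 := SS_mul q d (by omega)
    rw [← h1, Nat.mul_div_cancel_left _ (by omega)]
  have hζQ : ζ ^ SS q n = 1 := by
    rw [← hde, SS_factor q d e hq2, pow_mul, hζnorm, ← map_pow, pow_SS_of_pow F ν _ hνq, hdetnorm,
      map_one]
  -- the power lies in the base field
  have hz : (ζ ^ NN q n) ^ q = ζ ^ NN q n := by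
    have hNg := NN_mul q n (by omega)
    have hg : Nat.gcd n (q - 1) ∣ q - 1 := Nat.gcd_dvd_right _ _
    obtain ⟨g, hgdef⟩ : ∃ g, g = Nat.gcd n (q - 1) := ⟨_, rfl⟩
    rw [← hgdef] at hNg hg
    obtain ⟨w, hw⟩ := hg
    have h1 : (ζ ^ NN q n) ^ (q - 1) = 1 := by
      rw [hw, pow_mul, ← pow_mul ζ, hNg, hζQ, one_pow]
    have h2 : q = (q - 1) + 1 := by omega
    calc (ζ ^ NN q n) ^ q = (ζ ^ NN q n) ^ ((q - 1) + 1) := by rw [← h2]
      _ = ζ ^ NN q n := by rw [pow_succ, h1, one_mul]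
  obtain ⟨c, hc⟩ := mem_base (F := F) (ζ ^ NN q n) (hq ▸ hz)
  refine ⟨c, ?_⟩
  rw [← hq]
  have h1 : φ (ζ ^ NN q n) = S ^ NN q n := by
    rw [map_pow, hζ, hφroot]
  rw [← h1, ← hc, AlgHom.commutes]
  rw [Algebra.algebraMap_eq_smul_one]

/-- The quotient map. -/
noncomputable abbrev piP (n : ℕ) (F : Type*) [Field F] [Fintype F] :
    Matrix.SpecialLinearGroup (Fin n) F →* Matrix.ProjectiveSpecialLinearGroup (Fin n) F :=
  QuotientGroup.mk' _

theorem piP_eq_one_of_scalar (n : ℕ) [NeZero n] (A : Matrix.SpecialLinearGroup (Fin n) F) (c : F)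
    (h : A.1 = c • (1 : Matrix (Fin n) (Fin n) F)) : piP n F A = 1 := by
  refine (QuotientGroup.eq_one_iff A).mpr ?_
  refine Matrix.SpecialLinearGroup.mem_center_iff.mpr ⟨c, ?_, ?_⟩
  · have h1 := A.2
    rw [h, Matrix.det_smul, Matrix.det_one, mul_one] at h1
    exact h1
  · rw [h]
    ext i j
    simp [Matrix.scalar_apply, Matrix.diagonal_apply, Matrix.one_apply, Matrix.smul_apply]

theorem scalar_of_piP_eq_one (n : ℕ) [NeZero n] (A : Matrix.SpecialLinearGroup (Fin n) F)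
    (h : piP n F A = 1) : ∃ c : F, A.1 = c • (1 : Matrix (Fin n) (Fin n) F) := by
  have h1 : A ∈ Subgroup.center (Matrix.SpecialLinearGroup (Fin n) F) :=
    (QuotientGroup.eq_one_iff A).mp h
  obtain ⟨c, _, hc⟩ := Matrix.SpecialLinearGroup.mem_center_iff.mp h1
  refine ⟨c, ?_⟩
  rw [← hc]
  ext i j
  simp [Matrix.scalar_apply, Matrix.diagonal_apply, Matrix.one_apply, Matrix.smul_apply]

/-- Elements of any order dividing `|F| - 1`. -/
theorem exists_elt_order (d : ℕ) (hd : d ∣ Fintype.card F - 1) : ∃ u : Fˣ, orderOf u = d := by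
  classical
  obtain ⟨g, hg⟩ := IsCyclic.exists_generator (α := Fˣ)
  have hord : orderOf g = Fintype.card F - 1 := by
    rw [orderOf_eq_card_of_forall_mem_zpowers hg, Nat.card_eq_fintype_card, Fintype.card_units]
  obtain ⟨c, hc⟩ := hd
  have hpos : 0 < Fintype.card F - 1 := by
    have := Fintype.one_lt_card (α := F)
    omega
  have hc0 : c ≠ 0 := by
    rintro rfl
    omega
  refine ⟨g ^ c, ?_⟩
  rw [orderOf_pow_of_dvd hc0 ⟨d, by rw [hord, hc, mul_comm]⟩, hord, hc]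
  exact Nat.mul_div_cancel _ (Nat.pos_of_ne_zero hc0)

/-- Lemma A: a non-central element of order `r` commuting with `g` from a nontrivial idempotent. -/
theorem exists_order_mul (n : ℕ) [NeZero n] (r : ℕ) (hr : r.Prime) (hrq : r ∣ Fintype.card F - 1)
    (hrn : ¬ r ∣ n) (g : Matrix.SpecialLinearGroup (Fin n) F) (e : Matrix (Fin n) (Fin n) F)
    (he2 : e * e = e) (he0 : e ≠ 0) (he1 : e ≠ 1) (hcomm : e * g.1 = g.1 * e)
    (hro : ¬ r ∣ orderOf (piP n F g)) :
    ∃ y : Matrix.ProjectiveSpecialLinearGroup (Fin n) F, orderOf y = orderOf (piP n F g) * r := by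
  classical
  obtain ⟨lu, hlu⟩ := exists_elt_order (F := F) r hrq
  obtain ⟨l, hl⟩ : ∃ l : F, l = lu := ⟨_, rfl⟩
  have hl0 : l ≠ 0 := hl ▸ lu.ne_zero
  have hlr : l ^ r = 1 := by
    have h1 : lu ^ r = 1 := hlu ▸ pow_orderOf_eq_one lu
    rw [hl, ← Units.val_pow_eq_pow_val, h1, Units.val_one]
  have hl1 : l ≠ 1 := by
    intro h
    have h1 : lu = 1 := by
      ext
      rw [← hl, h, Units.val_one]
    rw [h1, orderOf_one] at hlu
    exact hr.one_lt.ne hlu
  obtain ⟨f', hf'⟩ : ∃ f' : Matrix (Fin n) (Fin n) F, f' = 1 - e := ⟨_, rfl⟩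
  have hef : e * f' = 0 := by rw [hf', mul_sub, mul_one, he2, sub_self]
  have hfe : f' * e = 0 := by rw [hf', sub_mul, one_mul, he2, sub_self]
  have hff : f' * f' = f' := by rw [hf', sub_mul, one_mul, mul_sub, mul_one, he2]; abel
  have hsum : e + f' = 1 := by rw [hf']; abel
  obtain ⟨t₀, ht₀⟩ : ∃ t₀ : Matrix (Fin n) (Fin n) F, t₀ = l • e + f' := ⟨_, rfl⟩
  have hpow : ∀ k : ℕ, t₀ ^ k = l ^ k • e + f' := by
    intro k
    induction k with
    | zero => rw [pow_zero, pow_zero, one_smul, hsum]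
    | succ k ih =>
      rw [pow_succ, ih, ht₀, add_mul, mul_add, mul_add, smul_mul_assoc, smul_mul_assoc, mul_smul_comm,
        mul_smul_comm, he2, hef, hfe, hff, smul_zero, smul_zero, add_zero, zero_add, smul_smul,
        pow_succ]
  have ht₀r : t₀ ^ r = 1 := by rw [hpow, hlr, one_smul, hsum]
  obtain ⟨δ, hδ⟩ : ∃ δ, δ = t₀.det := ⟨_, rfl⟩
  have hδr : δ ^ r = 1 := by rw [hδ, ← Matrix.det_pow, ht₀r, Matrix.det_one]
  have hδ0 : δ ≠ 0 := by
    rintro rfl
    rw [zero_pow hr.ne_zero] at hδr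
    exact zero_ne_one hδr
  have hcop : Nat.Coprime n r := ((Nat.Prime.coprime_iff_not_dvd hr).mpr hrn).symm
  obtain ⟨n', hn'⟩ := Nat.exists_mul_mod_eq_one_of_coprime hcop hr.one_lt
  obtain ⟨κ, hκ⟩ : ∃ κ, κ = δ⁻¹ ^ n' := ⟨_, rfl⟩
  have hδir : δ⁻¹ ^ r = 1 := by rw [inv_pow, hδr, inv_one]
  have hκr : κ ^ r = 1 := by rw [hκ, ← pow_mul, mul_comm, pow_mul, hδir, one_pow]
  have hκn : κ ^ n = δ⁻¹ := by
    rw [hκ, ← pow_mul, mul_comm n' n]
    conv_lhs => rw [← Nat.div_add_mod (n * n') r, hn'.2]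
    rw [pow_add, pow_mul, hδir, one_pow, one_mul, pow_one]
  have hκ0 : κ ≠ 0 := by
    rintro rfl
    rw [zero_pow hr.ne_zero] at hκr
    exact zero_ne_one hκr
  have hdet : (κ • t₀).det = 1 := by
    rw [Matrix.det_smul, Fintype.card_fin, hκn, ← hδ, inv_mul_cancel₀ hδ0]
  let τ : Matrix.SpecialLinearGroup (Fin n) F := ⟨κ • t₀, hdet⟩
  have hτg : Commute τ g := by
    refine Subtype.ext ?_
    show (κ • t₀) * g.1 = g.1 * (κ • t₀)
    have h1 : f' * g.1 = g.1 * f' := by rw [hf', sub_mul, mul_sub, one_mul, mul_one, hcomm]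
    rw [smul_mul_assoc, mul_smul_comm, ht₀, add_mul, mul_add, smul_mul_assoc, mul_smul_comm, hcomm, h1]
  have hτr : τ ^ r = 1 := by
    refine Subtype.ext ?_
    rw [Matrix.SpecialLinearGroup.coe_pow]
    show (κ • t₀) ^ r = 1
    rw [_root_.smul_pow, hκr, ht₀r, one_smul]
  have hτ1 : piP n F τ ≠ 1 := by
    intro h
    obtain ⟨c, hc⟩ := scalar_of_piP_eq_one n τ h
    have hc' : κ • t₀ = c • 1 := hc
    -- `e` would be scalar
    have h1 : (κ * (l - 1)) • e = (c - κ) • (1 : Matrix (Fin n) (Fin n) F) := by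
      have h2 : κ • (l • e + f') = c • (1 : Matrix (Fin n) (Fin n) F) := ht₀ ▸ hc'
      rw [hf'] at h2
      have h3 : (κ * (l - 1)) • e + κ • (1 : Matrix (Fin n) (Fin n) F)
          = c • (1 : Matrix (Fin n) (Fin n) F) := by
        rw [← h2]
        module
      rw [sub_smul, ← h3]
      abel
    have hne : κ * (l - 1) ≠ 0 := mul_ne_zero hκ0 (sub_ne_zero.mpr hl1)
    obtain ⟨c', hc'⟩ : ∃ c' : F, e = c' • (1 : Matrix (Fin n) (Fin n) F) := by
      refine ⟨(κ * (l - 1))⁻¹ * (c - κ), ?_⟩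
      rw [mul_smul, ← h1, smul_smul, inv_mul_cancel₀ hne, one_smul]
    have h5 : c' * c' = c' := by
      have h6 := congrFun (congrFun he2 0) 0
      rw [hc'] at h6
      simpa [Matrix.mul_apply, Matrix.one_apply, Matrix.smul_apply, Finset.sum_ite_eq] using h6
    have h7 : c' = 0 ∨ c' = 1 := by
      by_cases h8 : c' = 0
      · exact Or.inl h8
      · exact Or.inr (mul_left_cancel₀ h8 (by rw [h5, mul_one]))
    rcases h7 with h8 | h8
    · exact he0 (by rw [hc', h8, zero_smul])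
    · exact he1 (by rw [hc', h8, one_smul])
  have hord : orderOf (piP n F τ) = r := by
    haveI : Fact r.Prime := ⟨hr⟩
    refine orderOf_eq_prime ?_ hτ1
    rw [← map_pow, hτr, map_one]
  have hc2 : Commute (piP n F g) (piP n F τ) := (hτg.symm).map _
  refine ⟨piP n F g * piP n F τ, ?_⟩
  rw [hc2.orderOf_mul_eq_mul_orderOf_of_coprime, hord]
  rw [hord]
  exact ((Nat.Prime.coprime_iff_not_dvd hr).mpr hro).symm

/-- Elements of order `r`. -/
theorem exists_order_r (n : ℕ) (hn : 2 ≤ n) (r : ℕ) (hr : r.Prime) (hrq : r ∣ Fintype.card F - 1)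
    (hrn : ¬ r ∣ n) :
    ∃ y : Matrix.ProjectiveSpecialLinearGroup (Fin n) F, orderOf y = r := by
  classical
  haveI : NeZero n := ⟨by omega⟩
  let i0 : Fin n := ⟨0, by omega⟩
  let i1 : Fin n := ⟨1, by omega⟩
  obtain ⟨y, hy⟩ := exists_order_mul (F := F) n r hr hrq hrn 1 (Matrix.single i0 i0 1)
    (by simp) (by
      intro h
      have := congrFun (congrFun h i0) i0
      simp at this) (by
      intro h
      have := congrFun (congrFun h i1) i1
      have h2 : i0 ≠ i1 := by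
        intro h3
        have := congrArg Fin.val h3
        simp [i0, i1] at this
      simp [Matrix.single_apply, h2] at this) (by simp) (by
      rw [map_one, orderOf_one]
      exact fun h => hr.one_lt.ne' (Nat.dvd_one.mp h))
  refine ⟨y, ?_⟩
  rw [hy, map_one, orderOf_one, one_mul]

/-- Polynomials in a power of `g` commute with `g`. -/
theorem aeval_commute (S G : Matrix (Fin n₀) (Fin n₀) F) (h : Commute S G) (P : F[X]) :
    Commute (aeval S P) G := by
  induction P using Polynomial.induction_on' with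
  | add p q hp hq =>
    rw [map_add]
    exact hp.add_left hq
  | monomial k a =>
    rw [aeval_monomial]
    exact (Algebra.commute_algebraMap_left a G).mul_left (h.pow_left k)

/-- The dichotomy for elements of order prime to `r`. -/
theorem dichotomy (n : ℕ) [NeZero n] (p : ℕ) (hp : p.Prime) [CharP F p] (r : ℕ) (hr : r.Prime)
    (hrq : r ∣ Fintype.card F - 1) (hrn : ¬ r ∣ n)
    (x : Matrix.ProjectiveSpecialLinearGroup (Fin n) F) (hro : ¬ r ∣ orderOf x) :
    (∃ y : Matrix.ProjectiveSpecialLinearGroup (Fin n) F, orderOf y = orderOf x * r) ∨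
      ordCompl[p] (orderOf x) ∣ NN (Fintype.card F) n := by
  classical
  obtain ⟨g, rfl⟩ := QuotientGroup.mk'_surjective _ x
  obtain ⟨o, hodef⟩ : ∃ o, o = orderOf g := ⟨_, rfl⟩
  have ho0 : o ≠ 0 := hodef ▸ (orderOf_pos g).ne'
  obtain ⟨P, hP⟩ : ∃ P, P = ordProj[p] o := ⟨_, rfl⟩
  obtain ⟨β, hβ⟩ : ∃ β, β = ordCompl[p] o := ⟨_, rfl⟩
  have hoPβ : P * β = o := by rw [hP, hβ]; exact Nat.ordProj_mul_ordCompl_eq_self o p
  have hβp : ¬ p ∣ β := hβ ▸ Nat.not_dvd_ordCompl hp ho0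
  obtain ⟨s, hs⟩ : ∃ s, s = g ^ P := ⟨_, rfl⟩
  obtain ⟨S, hS⟩ : ∃ S, S = s.1 := ⟨_, rfl⟩
  have hSg : S = g.1 ^ P := by rw [hS, hs, Matrix.SpecialLinearGroup.coe_pow]
  have hSβ : S ^ β = 1 := by
    have h1 : s ^ β = 1 := by rw [hs, ← pow_mul, hoPβ, hodef, pow_orderOf_eq_one]
    have h2 : (s ^ β).1 = 1 := by rw [h1]; rfl
    rwa [Matrix.SpecialLinearGroup.coe_pow, ← hS] at h2
  have hdet : S.det = 1 := hS ▸ s.2
  have hβF : (β : F) ≠ 0 := fun h => hβp ((CharP.cast_eq_zero_iff F p β).mp h)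
  obtain ⟨f, hf⟩ : ∃ f, f = minpoly F S := ⟨_, rfl⟩
  have hAsep : (X ^ β - C (1 : F) : F[X]).Separable := separable_X_pow_sub_C (1 : F) hβF one_ne_zero
  have hfA : f ∣ (X ^ β - C (1 : F) : F[X]) := by
    rw [hf]
    refine minpoly.dvd F S ?_
    simp [hSβ]
  have hfsep : f.Separable := hAsep.of_dvd hfA
  have hgc : Commute S g.1 := by
    rw [hSg]
    exact (Commute.refl _).pow_left P
  by_cases hirr : Irreducible f
  · right
    obtain ⟨c, hc⟩ := pow_scalar_of_irreducible n S hdet (hf ▸ hirr)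
    obtain ⟨N, hN⟩ : ∃ N, N = NN (Fintype.card F) n := ⟨_, rfl⟩
    rw [← hN] at hc ⊢
    have h1 : piP n F (s ^ N) = 1 := by
      refine piP_eq_one_of_scalar n _ c ?_
      rw [Matrix.SpecialLinearGroup.coe_pow, ← hS, hc]
    have h2 : (QuotientGroup.mk' _ g : Matrix.ProjectiveSpecialLinearGroup (Fin n) F) ^ (P * N) = 1 := by
      rw [pow_mul, ← map_pow, ← map_pow, ← hs]
      exact h1
    have h3 := orderOf_dvd_of_pow_eq_one h2
    obtain ⟨o', ho'⟩ : ∃ o', o' = orderOf (QuotientGroup.mk' _ g :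
      Matrix.ProjectiveSpecialLinearGroup (Fin n) F) := ⟨_, rfl⟩
    rw [← ho'] at h3 ⊢
    have ho'0 : o' ≠ 0 := by
      rw [ho']
      exact (orderOf_pos _).ne'
    have h4 : ordCompl[p] o' ∣ P * N := (Nat.ordCompl_dvd o' p).trans h3
    have hcop : Nat.Coprime (ordCompl[p] o') P := by
      rw [hP]
      exact Nat.Coprime.pow_right _ (Nat.coprime_ordCompl hp ho'0).symm
    exact hcop.dvd_of_dvd_mul_left h4
  · left
    have hint : IsIntegral F S := Matrix.isIntegral S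
    have hfnu : ¬ IsUnit f := hf ▸ minpoly.not_isUnit F S
    rw [irreducible_iff] at hirr
    push Not at hirr
    obtain ⟨a, b, hab, ha, hb⟩ := hirr hfnu
    have hcopr : IsCoprime a b := by
      refine Polynomial.Separable.isCoprime ?_
      rw [← hab]
      exact hfsep
    obtain ⟨u, v, huv⟩ := hcopr
    have hf0 : f ≠ 0 := hf ▸ minpoly.ne_zero hint
    have ha0 : a ≠ 0 := by
      rintro rfl
      rw [zero_mul] at hab
      exact hf0 hab
    have hb0 : b ≠ 0 := by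
      rintro rfl
      rw [mul_zero] at hab
      exact hf0 hab
    have hfS : aeval S f = 0 := hf ▸ minpoly.aeval F S
    refine exists_order_mul n r hr hrq hrn g (aeval S (u * a)) ?_ ?_ ?_ ?_ hro
    · have h1 : (u * a) * (u * a) - u * a = -(u * v) * f := by
        rw [hab]
        linear_combination (u * a) * huv
      have h2 : aeval S ((u * a) * (u * a) - u * a) = 0 := by
        rw [h1, map_mul, hfS, mul_zero]
      rw [map_sub, map_mul] at h2
      exact sub_eq_zero.mp h2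
    · intro h
      have h1 : f ∣ u * a := hf ▸ minpoly.dvd F S h
      rw [hab] at h1
      obtain ⟨c, hc⟩ := h1
      have h2 : u = b * c := by
        have : a * u = a * (b * c) := by rw [mul_comm a u, hc, mul_assoc]
        exact mul_left_cancel₀ ha0 this
      apply hb
      refine isUnit_of_dvd_one ⟨c * a + v, ?_⟩
      rw [← huv, h2]
      ring
    · intro h
      have h0 : aeval S (v * b) = 0 := by
        have h1 : v * b = 1 - u * a := by rw [← huv]; ring
        rw [h1, map_sub, h, map_one, sub_self]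
      have h1 : f ∣ v * b := hf ▸ minpoly.dvd F S h0
      rw [hab] at h1
      obtain ⟨c, hc⟩ := h1
      have h2 : v = a * c := by
        have : b * v = b * (a * c) := by
          rw [mul_comm b v, hc]
          ring
        exact mul_left_cancel₀ hb0 this
      apply ha
      refine isUnit_of_dvd_one ⟨u + c * b, ?_⟩
      rw [← huv, h2]
      ring
    · exact aeval_commute S g.1 hgc _

/-- The Singer element of `PSL_n(q)`. -/
theorem exists_singer (n : ℕ) [NeZero n] (p : ℕ) [Fact p.Prime] [CharP F p] :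
    ∃ y : Matrix.ProjectiveSpecialLinearGroup (Fin n) F, orderOf y = NN (Fintype.card F) n := by
  classical
  obtain ⟨q, hq⟩ : ∃ q, q = Fintype.card F := ⟨_, rfl⟩
  have hq2 : 2 ≤ q := hq ▸ Fintype.one_lt_card
  rw [← hq]
  let K := FiniteField.Extension F p n
  haveI : Finite K := inferInstance
  letI : Fintype K := Fintype.ofFinite K
  have hfr : Module.finrank F K = n := FiniteField.finrank_extension F p n
  have hcard : Nat.card K = q ^ n := by
    have h5 : Nat.card K = Nat.card F ^ n := FiniteField.natCard_extension F p n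
    rw [h5, Nat.card_eq_fintype_card, hq]
  let b := Module.finBasisOfFinrankEq F K hfr
  let Mm : K →ₐ[F] Matrix (Fin n) (Fin n) F := Algebra.leftMulMatrix b
  have hMm : Function.Injective Mm := Algebra.leftMulMatrix_injective b
  obtain ⟨v, hv⟩ := IsCyclic.exists_generator (α := Kˣ)
  have hordv : orderOf v = q ^ n - 1 := by
    rw [orderOf_eq_card_of_forall_mem_zpowers hv, Nat.card_units, hcard]
  obtain ⟨w, hw⟩ : ∃ w : K, w = (v : K) ^ (q - 1) := ⟨_, rfl⟩
  have hQ : (q - 1) * SS q n = q ^ n - 1 := SS_mul q n (by omega)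
  have hvord : (v : K) ^ (q ^ n - 1) = 1 := by
    rw [← Units.val_pow_eq_pow_val, ← hordv, pow_orderOf_eq_one, Units.val_one]
  have hwQ : w ^ SS q n = 1 := by
    rw [hw, ← pow_mul, hQ, hvord]
  have hnorm : Algebra.norm F w = 1 := by
    refine (algebraMap F K).injective ?_
    rw [FiniteField.algebraMap_norm_eq_pow, hcard, Nat.card_eq_fintype_card, ← hq, map_one, ← hQ,
      Nat.mul_div_cancel_left _ (by omega), hwQ]
  have hdet : (Mm w).det = 1 := by
    rw [← hnorm, Algebra.norm_eq_matrix_det b]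
  let g : Matrix.SpecialLinearGroup (Fin n) F := ⟨Mm w, hdet⟩
  have hgpow : ∀ k, (g ^ k).1 = Mm (w ^ k) := by
    intro k
    rw [Matrix.SpecialLinearGroup.coe_pow, map_pow]
  have hNg := NN_mul q n (by omega)
  obtain ⟨g', hg'⟩ : ∃ g', g' = Nat.gcd n (q - 1) := ⟨_, rfl⟩
  rw [← hg'] at hNg
  obtain ⟨N, hN⟩ : ∃ N, N = NN q n := ⟨_, rfl⟩
  rw [← hN] at hNg ⊢
  have hgq : g' ∣ q - 1 := hg' ▸ Nat.gcd_dvd_right _ _
  obtain ⟨w', hw'⟩ := hgq
  have h1 : piP n F g ^ N = 1 := by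
    have hz : (w ^ N) ^ q = w ^ N := by
      have h2 : (w ^ N) ^ (q - 1) = 1 := by
        rw [hw', pow_mul, ← pow_mul w, hNg, hwQ, one_pow]
      have h3 : q = (q - 1) + 1 := by omega
      calc (w ^ N) ^ q = (w ^ N) ^ ((q - 1) + 1) := by rw [← h3]
        _ = w ^ N := by rw [pow_succ, h2, one_mul]
    obtain ⟨c, hc⟩ := mem_base (F := F) (w ^ N) (hq ▸ hz)
    rw [← map_pow]
    refine piP_eq_one_of_scalar n _ c ?_
    rw [hgpow, ← hc, AlgHom.commutes, Algebra.algebraMap_eq_smul_one]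
  have h2 : ∀ k, piP n F g ^ k = 1 → N ∣ k := by
    intro k hk
    rw [← map_pow] at hk
    obtain ⟨c, hc⟩ := scalar_of_piP_eq_one n _ hk
    rw [hgpow] at hc
    have hc2 : w ^ k = algebraMap F K c := by
      refine hMm ?_
      rw [hc, AlgHom.commutes, Algebra.algebraMap_eq_smul_one]
    have hw0 : w ≠ 0 := by
      rw [hw]
      exact pow_ne_zero _ v.ne_zero
    have hc0 : c ≠ 0 := by
      rintro rfl
      rw [map_zero] at hc2
      exact pow_ne_zero _ hw0 hc2
    have hc3 : c ^ (q - 1) = 1 := hq ▸ FiniteField.pow_card_sub_one_eq_one c hc0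
    have h3 : (v : K) ^ ((q - 1) * k * (q - 1)) = 1 := by
      rw [pow_mul, pow_mul, ← hw, hc2, ← map_pow, hc3, map_one]
    have h4 : v ^ ((q - 1) * k * (q - 1)) = 1 := by
      ext
      rw [Units.val_pow_eq_pow_val, h3, Units.val_one]
    have h5 := orderOf_dvd_of_pow_eq_one h4
    rw [hordv, ← hQ] at h5
    have hq0 : 0 < q - 1 := by omega
    have h6 : SS q n ∣ k * (q - 1) := by
      have h7 : (q - 1) * k * (q - 1) = (q - 1) * (k * (q - 1)) := by ring
      rw [h7] at h5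
      exact Nat.dvd_of_mul_dvd_mul_left hq0 h5
    rw [← hNg] at h6
    have hg0 : 0 < g' := Nat.pos_of_ne_zero (by
      rintro rfl
      omega)
    have h7 : N ∣ k * w' := by
      have h8 : k * (q - 1) = g' * (k * w') := by rw [hw']; ring
      rw [h8, mul_comm N] at h6
      exact Nat.dvd_of_mul_dvd_mul_left hg0 h6
    have hgcd : Nat.gcd (SS q n) (q - 1) = g' := by
      rw [hg']
      exact (SS_modEq q n (by omega)).gcd_eq
    have hcop : Nat.Coprime N w' := by
      have h8 : Nat.gcd (g' * N) (g' * w') = g' := by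
        rw [← hw', mul_comm g' N, hNg]
        exact hgcd
      rw [Nat.gcd_mul_left] at h8
      have h9 : g' * Nat.gcd N w' = g' * 1 := by rw [h8, mul_one]
      exact Nat.eq_of_mul_eq_mul_left hg0 h9
    exact hcop.dvd_of_dvd_mul_right h7
  exact ⟨piP n F g, Nat.dvd_antisymm (orderOf_dvd_of_pow_eq_one h1) (h2 _ (pow_orderOf_eq_one _))⟩

/-- Bound for `p`-power orders in `PSL_n`. -/
theorem ppow_lt (n : ℕ) [NeZero n] (p : ℕ) (hp : p.Prime) [CharP F p] (b : ℕ)
    (x : Matrix.ProjectiveSpecialLinearGroup (Fin n) F) (h : orderOf x = p ^ (b + 1)) : p ^ b < n := by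
  classical
  haveI : Fact p.Prime := ⟨hp⟩
  haveI : ExpChar (Matrix (Fin n) (Fin n) F) p := ExpChar.prime hp
  by_contra hle
  push Not at hle
  obtain ⟨g, rfl⟩ := QuotientGroup.mk'_surjective _ x
  obtain ⟨o, hodef⟩ : ∃ o, o = orderOf g := ⟨_, rfl⟩
  have ho0 : o ≠ 0 := hodef ▸ (orderOf_pos g).ne'
  obtain ⟨α, hα⟩ : ∃ α, α = o.factorization p := ⟨_, rfl⟩
  obtain ⟨β, hβ⟩ : ∃ β, β = ordCompl[p] o := ⟨_, rfl⟩
  have hoPβ : p ^ α * β = o := by rw [hα, hβ]; exact Nat.ordProj_mul_ordCompl_eq_self o p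
  have hβp : ¬ p ∣ β := hβ ▸ Nat.not_dvd_ordCompl hp ho0
  obtain ⟨U, hU⟩ : ∃ U, U = (g ^ β).1 := ⟨_, rfl⟩
  have hUα : U ^ (p ^ α) = 1 := by
    have h1 : (g ^ β) ^ (p ^ α) = 1 := by
      rw [← pow_mul, mul_comm, hoPβ, hodef, pow_orderOf_eq_one]
    have h2 : ((g ^ β) ^ (p ^ α)).1 = 1 := by rw [h1]; rfl
    rwa [Matrix.SpecialLinearGroup.coe_pow, ← hU] at h2
  have hnil : IsNilpotent (U - 1) := by
    refine ⟨p ^ α, ?_⟩
    rw [sub_pow_expChar_pow_of_commute p α (Commute.one_right U), hUα, one_pow, sub_self]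
  have hpown : (U - 1) ^ n = 0 := by
    have h1 := Matrix.isNilpotent_charpoly_sub_pow_of_isNilpotent hnil
    have h2 : (U - 1).charpoly - X ^ Fintype.card (Fin n) = 0 := h1.eq_zero
    have h3 := sub_eq_zero.mp h2
    have h4 := Matrix.aeval_self_charpoly (U - 1)
    rw [h3] at h4
    simpa using h4
  have h5 : (U - 1) ^ (p ^ b) = 0 := pow_eq_zero_of_le hle hpown
  rw [sub_pow_expChar_pow_of_commute p b (Commute.one_right U), one_pow] at h5
  have hUb : U ^ (p ^ b) = 1 := sub_eq_zero.mp h5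
  have h6 : g ^ (β * p ^ b) = 1 := by
    refine Subtype.ext ?_
    rw [pow_mul, Matrix.SpecialLinearGroup.coe_pow, ← hU, hUb]
    rfl
  have h7 : (QuotientGroup.mk' _ g : Matrix.ProjectiveSpecialLinearGroup (Fin n) F) ^ (β * p ^ b) = 1 := by
    rw [← map_pow, h6, map_one]
  have h8 := orderOf_dvd_of_pow_eq_one h7
  rw [h, pow_succ, mul_comm (p ^ b) p, mul_comm β] at h8
  have h9 : p ∣ β := by
    have h10 : p ^ b * p ∣ p ^ b * β := by rwa [mul_comm (p ^ b) p] 
    exact Nat.dvd_of_mul_dvd_mul_left (pow_pos hp.pos b) h10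
  exact hβp h9

/-- Powers of the Jordan block. -/
theorem jordan_pow (n k : ℕ) (Nm : Matrix (Fin n) (Fin n) F)
    (hN : ∀ i j, Nm i j = if i.1 + 1 = j.1 ∧ j.1 < k then 1 else 0) (m : ℕ) :
    ∀ i j, (Nm ^ (m + 1)) i j = if i.1 + (m + 1) = j.1 ∧ j.1 < k then 1 else 0 := by
  classical
  induction m with
  | zero =>
    intro i j
    rw [zero_add, pow_one, hN]
  | succ m ih =>
    intro i j
    rw [pow_succ, Matrix.mul_apply]
    by_cases h : i.1 + (m + 1 + 1) = j.1 ∧ j.1 < k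
    · have hlt : i.1 + (m + 1) < n := by
        have := j.2
        omega
      rw [Finset.sum_eq_single (⟨i.1 + (m + 1), hlt⟩ : Fin n)]
      · rw [ih, hN, if_pos h]
        have h1 : i.1 + (m + 1) = (⟨i.1 + (m + 1), hlt⟩ : Fin n).1 ∧ (⟨i.1 + (m + 1), hlt⟩ : Fin n).1 < k :=
          ⟨rfl, by show i.1 + (m + 1) < k; omega⟩
        have h2 : (⟨i.1 + (m + 1), hlt⟩ : Fin n).1 + 1 = j.1 ∧ j.1 < k :=
          ⟨by show i.1 + (m + 1) + 1 = j.1; omega, h.2⟩
        rw [if_pos h1, if_pos h2, one_mul]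
      · intro l _ hl
        rw [ih]
        rw [if_neg, zero_mul]
        rintro ⟨h3, _⟩
        exact hl (Fin.ext h3.symm)
      · intro h3
        exact absurd (Finset.mem_univ _) h3
    · rw [if_neg h]
      refine Finset.sum_eq_zero fun l _ => ?_
      rw [ih, hN]
      by_cases h1 : i.1 + (m + 1) = l.1 ∧ l.1 < k
      · by_cases h2 : l.1 + 1 = j.1 ∧ j.1 < k
        · exact absurd ⟨by omega, h2.2⟩ h
        · rw [if_neg h2, mul_zero]
      · rw [if_neg h1, zero_mul]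

/-- Orders `p ^ (b + 1) * r` from Jordan blocks of size `p ^ b + 1 < n`. -/
theorem exists_ppow_r (n : ℕ) [NeZero n] (p : ℕ) (hp : p.Prime) [CharP F p] (r : ℕ) (hr : r.Prime)
    (hrq : r ∣ Fintype.card F - 1) (hrn : ¬ r ∣ n) (hrp : r ≠ p) (b : ℕ) (hb : p ^ b + 1 < n) :
    ∃ y : Matrix.ProjectiveSpecialLinearGroup (Fin n) F, orderOf y = p ^ (b + 1) * r := by
  classical
  haveI : Fact p.Prime := ⟨hp⟩
  haveI : ExpChar (Matrix (Fin n) (Fin n) F) p := ExpChar.prime hp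
  obtain ⟨k, hk⟩ : ∃ k, k = p ^ b + 1 := ⟨_, rfl⟩
  let Nm : Matrix (Fin n) (Fin n) F := fun i j => if i.1 + 1 = j.1 ∧ j.1 < k then 1 else 0
  have hN : ∀ i j, Nm i j = if i.1 + 1 = j.1 ∧ j.1 < k then 1 else 0 := fun _ _ => rfl
  have hdet : (1 + Nm).det = 1 := by
    rw [Matrix.det_of_upperTriangular]
    · refine Finset.prod_eq_one fun i _ => ?_
      rw [Matrix.add_apply, Matrix.one_apply_eq, hN, if_neg (by omega), add_zero]
    · intro i j hij
      have hij' : j < i := hij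
      have hne : i ≠ j := ne_of_gt hij'
      have hij2 : j.1 < i.1 := hij'
      rw [Matrix.add_apply, Matrix.one_apply_ne hne, hN, if_neg (by omega), add_zero]
  let g₀ : Matrix.SpecialLinearGroup (Fin n) F := ⟨1 + Nm, hdet⟩
  have hpowm : ∀ m, (g₀ ^ (p ^ m)).1 = 1 + Nm ^ (p ^ m) := by
    intro m
    rw [Matrix.SpecialLinearGroup.coe_pow]
    show (1 + Nm) ^ (p ^ m) = _
    rw [add_pow_expChar_pow_of_commute p m (Commute.one_left Nm), one_pow]
  have hpb : 1 ≤ p ^ b := Nat.one_le_pow _ _ hp.pos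
  have hp2 : 2 ≤ p := hp.two_le
  have hkle : k ≤ p ^ (b + 1) := by
    rw [pow_succ, hk]
    nlinarith
  have h1 : piP n F g₀ ^ (p ^ (b + 1)) = 1 := by
    rw [← map_pow]
    refine piP_eq_one_of_scalar n _ 1 ?_
    rw [hpowm, one_smul]
    have hzero : Nm ^ (p ^ (b + 1)) = 0 := by
      obtain ⟨m, hm⟩ : ∃ m, p ^ (b + 1) = m + 1 := ⟨p ^ (b + 1) - 1, by
        have := Nat.one_le_pow (b + 1) p hp.pos
        omega⟩
      rw [hm]
      ext i j
      rw [jordan_pow n k Nm hN m, if_neg]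
      · rfl
      · rintro ⟨h3, h4⟩
        omega
    rw [hzero, add_zero]
  have h2 : ¬ piP n F g₀ ^ (p ^ b) = 1 := by
    intro h
    rw [← map_pow] at h
    obtain ⟨c, hc⟩ := scalar_of_piP_eq_one n _ h
    rw [hpowm] at hc
    obtain ⟨m, hm⟩ : ∃ m, p ^ b = m + 1 := ⟨p ^ b - 1, by omega⟩
    have hi : 0 < n := by omega
    have hj : p ^ b < n := by omega
    have h3 := congrFun (congrFun hc ⟨0, hi⟩) ⟨p ^ b, hj⟩
    have hne : (⟨0, hi⟩ : Fin n) ≠ ⟨p ^ b, hj⟩ := by
      intro h4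
      have := congrArg Fin.val h4
      simp at this
      omega
    have h4 : ∀ i j, (Nm ^ (p ^ b)) i j = if i.1 + p ^ b = j.1 ∧ j.1 < k then 1 else 0 := by
      rw [hm]
      exact jordan_pow n k Nm hN m
    rw [Matrix.add_apply, Matrix.one_apply_ne hne, zero_add, Matrix.smul_apply, Matrix.one_apply_ne hne,
      smul_zero, h4, if_pos] at h3
    · exact one_ne_zero h3
    · refine ⟨?_, ?_⟩
      · show 0 + p ^ b = p ^ b
        omega
      · show p ^ b < k
        omega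
  have hord : orderOf (piP n F g₀) = p ^ (b + 1) := orderOf_eq_prime_pow h2 h1
  have hrdvd : ¬ r ∣ orderOf (piP n F g₀) := by
    rw [hord]
    intro h
    have := hr.dvd_of_dvd_pow h
    exact hrp ((Nat.prime_dvd_prime_iff_eq hr hp).mp this)
  let e : Matrix (Fin n) (Fin n) F := Matrix.diagonal fun i => if i.1 < k then 1 else 0
  have hediag : ∀ i, e i i = if i.1 < k then 1 else 0 := fun i => Matrix.diagonal_apply_eq _ i
  have hhe2 : e * e = e := by
    rw [Matrix.diagonal_mul_diagonal]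
    congr 1
    funext i
    split_ifs <;> simp
  have hhe0 : e ≠ 0 := by
    intro h
    have hi : 0 < n := by omega
    have h3 := congrFun (congrFun h ⟨0, hi⟩) ⟨0, hi⟩
    rw [hediag, if_pos (by show 0 < k; omega)] at h3
    exact one_ne_zero h3
  have hhe1 : e ≠ 1 := by
    intro h
    have hkn : k < n := by omega
    have h3 := congrFun (congrFun h ⟨k, hkn⟩) ⟨k, hkn⟩
    rw [hediag, if_neg (by show ¬ k < k; omega), Matrix.one_apply_eq] at h3
    exact zero_ne_one h3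
  have hcomm : e * g₀.1 = g₀.1 * e := by
    show e * (1 + Nm) = (1 + Nm) * e
    rw [mul_add, add_mul, mul_one, one_mul]
    congr 1
    ext i j
    rw [Matrix.diagonal_mul, Matrix.mul_diagonal, hN]
    by_cases h : i.1 + 1 = j.1 ∧ j.1 < k
    · rw [if_pos h, if_pos h.2, if_pos (by omega)]
    · rw [if_neg h, mul_zero, zero_mul]
  obtain ⟨y, hy⟩ := exists_order_mul n r hr hrq hrn g₀ e hhe2 hhe0 hhe1 hcomm hrdvd
  exact ⟨y, by rw [hy, hord]⟩

theorem eq_of_dvd_iff {x y : ℕ} (h : ∀ e, x ∣ e ↔ y ∣ e) : x = y :=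
  Nat.dvd_antisymm ((h _).2 dvd_rfl) ((h _).1 dvd_rfl)

theorem split_dvd (p : ℕ) (hp : p.Prime) (a e : ℕ) (ha : a ≠ 0) :
    a ∣ e ↔ ordProj[p] a ∣ e ∧ ordCompl[p] a ∣ e := by
  constructor
  · intro h
    exact ⟨(Nat.ordProj_dvd a p).trans h, (Nat.ordCompl_dvd a p).trans h⟩
  · rintro ⟨h1, h2⟩
    have hcop : Nat.Coprime (ordProj[p] a) (ordCompl[p] a) :=
      Nat.Coprime.pow_left _ (Nat.coprime_ordCompl hp ha)
    have := hcop.mul_dvd_of_dvd_of_dvd h1 h2
    rwa [Nat.ordProj_mul_ordCompl_eq_self] at this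

theorem pmax2 (p s t : ℕ) : ∃ u, (u = s ∨ u = t) ∧ ∀ e, p ^ u ∣ e ↔ (p ^ s ∣ e ∧ p ^ t ∣ e) := by
  rcases le_total s t with h | h
  · exact ⟨t, Or.inr rfl, fun e => ⟨fun h1 => ⟨(pow_dvd_pow p h).trans h1, h1⟩, fun h1 => h1.2⟩⟩
  · exact ⟨s, Or.inl rfl, fun e => ⟨fun h1 => ⟨h1, (pow_dvd_pow p h).trans h1⟩, fun h1 => h1.1⟩⟩

section arith

variable (ω : ℕ → Prop) (p r N : ℕ)

theorem arith_P (hr : r.Prime) (hdich : ∀ a, ω a → ¬ r ∣ a → ω (a * r) ∨ ordCompl[p] a ∣ N)
    (a : ℕ) (ha : ω a) :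
    (∃ a', ω a' ∧ ∀ e, a' ∣ e ↔ (a ∣ e ∧ r ∣ e)) ∨ ordCompl[p] a ∣ N := by
  by_cases h : r ∣ a
  · exact Or.inl ⟨a, ha, fun e => ⟨fun h1 => ⟨h1, h.trans h1⟩, fun h1 => h1.1⟩⟩
  · rcases hdich a ha h with h1 | h1
    · refine Or.inl ⟨a * r, h1, fun e => ⟨fun h2 => ⟨(Dvd.intro _ rfl).trans h2, (Dvd.intro_left _ rfl).trans h2⟩,
        fun h2 => ?_⟩⟩
      have hcop : Nat.Coprime a r := ((Nat.Prime.coprime_iff_not_dvd hr).mpr h).symm
      exact hcop.mul_dvd_of_dvd_of_dvd h2.1 h2.2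
    · exact Or.inr h1

/-- The three-slot statement. -/
theorem arith_three (hp : p.Prime) (hr : r.Prime) (hdiv : ∀ a d, ω a → d ∣ a → ω d)
    (hpos : ∀ a, ω a → a ≠ 0) (hrω : ω r) (hN : ∀ d, d ∣ N → ω d)
    (hdich : ∀ a, ω a → ¬ r ∣ a → ω (a * r) ∨ ordCompl[p] a ∣ N)
    (a b c : ℕ) (ha : ω a) (hb : ω b) (hc : ω c) :
    ∃ a' b' c', ω a' ∧ ω b' ∧ ω c' ∧
      ∀ e, (a' ∣ e ∧ b' ∣ e ∧ c' ∣ e) ↔ (a ∣ e ∧ b ∣ e ∧ c ∣ e ∧ r ∣ e) := by
  rcases arith_P ω p r N hr hdich a ha with ⟨a', h1, h2⟩ | ha'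
  · refine ⟨a', b, c, h1, hb, hc, fun e => ?_⟩
    rw [h2]
    tauto
  rcases arith_P ω p r N hr hdich b hb with ⟨b', h1, h2⟩ | hb'
  · refine ⟨a, b', c, ha, h1, hc, fun e => ?_⟩
    rw [h2]
    tauto
  rcases arith_P ω p r N hr hdich c hc with ⟨c', h1, h2⟩ | hc'
  · refine ⟨a, b, c', ha, hb, h1, fun e => ?_⟩
    rw [h2]
  obtain ⟨u, hu, hue⟩ := pmax2 p (a.factorization p) (b.factorization p)
  obtain ⟨v, hv, hve⟩ := pmax2 p u (c.factorization p)
  have hvω : ω (p ^ v) := by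
    rcases hv with rfl | rfl
    · rcases hu with rfl | rfl
      · exact hdiv _ _ ha (Nat.ordProj_dvd a p)
      · exact hdiv _ _ hb (Nat.ordProj_dvd b p)
    · exact hdiv _ _ hc (Nat.ordProj_dvd c p)
  refine ⟨Nat.lcm (ordCompl[p] a) (Nat.lcm (ordCompl[p] b) (ordCompl[p] c)), p ^ v, r,
    hN _ (Nat.lcm_dvd ha' (Nat.lcm_dvd hb' hc')), hvω, hrω, fun e => ?_⟩
  rw [split_dvd p hp a e (hpos a ha), split_dvd p hp b e (hpos b hb), split_dvd p hp c e (hpos c hc),
    hve, hue, Nat.lcm_dvd_iff, Nat.lcm_dvd_iff]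
  tauto

/-- The two-slot statement. -/
theorem arith_two (hp : p.Prime) (hr : r.Prime) (hrp : r ≠ p) (hdiv : ∀ a d, ω a → d ∣ a → ω d)
    (hpos : ∀ a, ω a → a ≠ 0) (hN : ∀ d, d ∣ N → ω d)
    (hdich : ∀ a, ω a → ¬ r ∣ a → ω (a * r) ∨ ordCompl[p] a ∣ N)
    (hf4 : ∀ c, ω (p ^ c) → ω (p ^ c * r))
    (a b : ℕ) (ha : ω a) (hb : ω b) :
    ∃ a' b', ω a' ∧ ω b' ∧ ∀ e, (a' ∣ e ∧ b' ∣ e) ↔ (a ∣ e ∧ b ∣ e ∧ r ∣ e) := by
  rcases arith_P ω p r N hr hdich a ha with ⟨a', h1, h2⟩ | ha'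
  · refine ⟨a', b, h1, hb, fun e => ?_⟩
    rw [h2]
    tauto
  rcases arith_P ω p r N hr hdich b hb with ⟨b', h1, h2⟩ | hb'
  · refine ⟨a, b', ha, h1, fun e => ?_⟩
    rw [h2]
  obtain ⟨u, hu, hue⟩ := pmax2 p (a.factorization p) (b.factorization p)
  have huω : ω (p ^ u) := by
    rcases hu with rfl | rfl
    · exact hdiv _ _ ha (Nat.ordProj_dvd a p)
    · exact hdiv _ _ hb (Nat.ordProj_dvd b p)
  refine ⟨Nat.lcm (ordCompl[p] a) (ordCompl[p] b), p ^ u * r,
    hN _ (Nat.lcm_dvd ha' hb'), hf4 u huω, fun e => ?_⟩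
  have hcop : Nat.Coprime (p ^ u) r :=
    Nat.Coprime.pow_left _ ((Nat.coprime_primes hp hr).mpr (Ne.symm hrp))
  have h3 : p ^ u * r ∣ e ↔ (p ^ u ∣ e ∧ r ∣ e) :=
    ⟨fun h => ⟨(Dvd.intro _ rfl).trans h, (Dvd.intro_left _ rfl).trans h⟩,
      fun h => hcop.mul_dvd_of_dvd_of_dvd h.1 h.2⟩
  rw [split_dvd p hp a e (hpos a ha), split_dvd p hp b e (hpos b hb), h3, hue, Nat.lcm_dvd_iff]
  tauto

end arith

end CfsgLib.Spec3
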