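import Mathlib
import Cfsg.Agent.Lib.ClassMax.Spec3
import Cfsg.Agent.Lib.ClassGeo.UCenter
import Cfsg.Agent.Lib.ClassGeo.UFrames

/-! Element orders in `PSU_n(q)`: conjugate transpose, commuting elements of order `r`, and
transfer from general Hermitian spaces. -/

set_option autoImplicit false

namespace CfsgLib.SpecU

open Polynomial Cfsg CfsgLib.ClassGeo CfsgLib.Spec3

variable {F : Type*} [Field F] [Fintype F] {q : ℕ} (hF : Fintype.card F = q ^ 2) {n : ℕ}

/-- Conjugate transpose. -/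
noncomputable def dag (M : Matrix (Fin n) (Fin n) F) : Matrix (Fin n) (Fin n) F :=
  (M.map (qFrob hF)).transpose

theorem dag_apply (M : Matrix (Fin n) (Fin n) F) (i j : Fin n) : dag hF M i j = qFrob hF (M j i) := rfl

theorem dag_one : dag hF (1 : Matrix (Fin n) (Fin n) F) = 1 := by
  ext i j
  rw [dag_apply, Matrix.one_apply, Matrix.one_apply]
  by_cases h : i = j
  · rw [if_pos h, if_pos h.symm, map_one]
  · rw [if_neg h, if_neg (fun h2 => h h2.symm), map_zero]

theorem dag_zero : dag hF (0 : Matrix (Fin n) (Fin n) F) = 0 := by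
  ext i j
  rw [dag_apply]
  simp

theorem dag_add (A B : Matrix (Fin n) (Fin n) F) : dag hF (A + B) = dag hF A + dag hF B := by
  ext i j
  simp [dag_apply]

theorem dag_sub (A B : Matrix (Fin n) (Fin n) F) : dag hF (A - B) = dag hF A - dag hF B := by
  ext i j
  simp [dag_apply]

theorem dag_mul (A B : Matrix (Fin n) (Fin n) F) : dag hF (A * B) = dag hF B * dag hF A := by
  ext i j
  simp only [dag_apply, Matrix.mul_apply, map_sum, map_mul]
  refine Finset.sum_congr rfl fun k _ => ?_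
  ring

theorem dag_smul (c : F) (A : Matrix (Fin n) (Fin n) F) : dag hF (c • A) = qFrob hF c • dag hF A := by
  ext i j
  simp [dag_apply]

theorem dag_dag (A : Matrix (Fin n) (Fin n) F) : dag hF (dag hF A) = A := by
  ext i j
  rw [dag_apply, dag_apply, qFrob_qFrob]

theorem dag_pow (A : Matrix (Fin n) (Fin n) F) (k : ℕ) : dag hF (A ^ k) = dag hF A ^ k := by
  induction k with
  | zero => rw [pow_zero, pow_zero, dag_one]
  | succ k ih =>
    rw [pow_succ, dag_mul, ih, pow_succ']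

theorem det_dag (A : Matrix (Fin n) (Fin n) F) : (dag hF A).det = qFrob hF A.det := by
  unfold dag
  rw [Matrix.det_transpose, RingHom.map_det]
  rfl

theorem herm_mulVec (M : Matrix (Fin n) (Fin n) F) (u v : Fin n → F) :
    hermForm n F q (M.mulVec u) v = hermForm n F q u ((dag hF M).mulVec v) := by
  simp only [hermForm, Matrix.mulVec, dotProduct, ← qFrob_apply hF, map_sum, map_mul, dag_apply,
    qFrob_qFrob, Finset.sum_mul, Finset.mul_sum]
  rw [Finset.sum_comm]
  refine Finset.sum_congr rfl fun i _ => Finset.sum_congr rfl fun j _ => ?_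
  ring

include hF in
theorem herm_right_inj (w v : Fin n → F) (h : ∀ u, hermForm n F q u w = hermForm n F q u v) : w = v := by
  funext i
  have h1 := h (Pi.single i 1)
  simp only [hermForm, Pi.single_apply, ite_mul, one_mul, zero_mul, Finset.sum_ite_eq', Finset.mem_univ,
    if_true, ← qFrob_apply hF] at h1
  have h2 := congrArg (qFrob hF) h1
  rwa [qFrob_qFrob, qFrob_qFrob] at h2

theorem SU_dag (g : SU n F q) :
    dag hF (g.1 : Matrix (Fin n) (Fin n) F) * (g.1 : Matrix (Fin n) (Fin n) F) = 1 := by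
  apply mat_eq_of_mulVec
  intro x
  rw [Matrix.one_mulVec]
  apply herm_right_inj hF
  intro u
  have h1 := g.2 u x
  rw [← Matrix.mulVec_mulVec, ← herm_mulVec]
  exact h1

theorem mem_SU_of_dag (A : Matrix.SpecialLinearGroup (Fin n) F)
    (h : dag hF (A : Matrix (Fin n) (Fin n) F) * (A : Matrix (Fin n) (Fin n) F) = 1) : A ∈ SU n F q := by
  intro u v
  change hermForm n F q ((A : Matrix (Fin n) (Fin n) F).mulVec u) ((A : Matrix (Fin n) (Fin n) F).mulVec v) = _
  rw [herm_mulVec hF, Matrix.mulVec_mulVec, h, Matrix.one_mulVec]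

/-- The quotient map. -/
noncomputable abbrev piU (n : ℕ) (F : Type*) [Field F] [Fintype F] (q : ℕ) : SU n F q →* PSU n F q :=
  QuotientGroup.mk' _

theorem piU_eq_one_of_scalar (g : SU n F q) (c : F)
    (h : (g.1 : Matrix (Fin n) (Fin n) F) = c • (1 : Matrix (Fin n) (Fin n) F)) : piU n F q g = 1 := by
  refine (QuotientGroup.eq_one_iff g).mpr ?_
  rw [Subgroup.mem_center_iff]
  intro g'
  apply Subtype.ext
  apply Matrix.SpecialLinearGroup.ext
  intro i j
  change ((g'.1 : Matrix (Fin n) (Fin n) F) * (g.1 : Matrix (Fin n) (Fin n) F)) i j =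
    ((g.1 : Matrix (Fin n) (Fin n) F) * (g'.1 : Matrix (Fin n) (Fin n) F)) i j
  rw [h]
  simp

include hF in
theorem scalar_of_piU_eq_one (hn : 2 ≤ n) (g : SU n F q) (h : piU n F q g = 1) :
    ∃ c : F, (g.1 : Matrix (Fin n) (Fin n) F) = c • (1 : Matrix (Fin n) (Fin n) F) := by
  have h1 : g ∈ Subgroup.center (SU n F q) := (QuotientGroup.eq_one_iff g).mp h
  obtain ⟨c, h2, h3, h4⟩ := center_SU_scalar hF n hn g h1
  refine ⟨c, ?_⟩
  rw [h4, suScalar_coe]

theorem coe_pow_SU (g : SU n F q) (k : ℕ) :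
    ((g ^ k).1 : Matrix (Fin n) (Fin n) F) = (g.1 : Matrix (Fin n) (Fin n) F) ^ k := by
  rw [Subgroup.coe_pow, Matrix.SpecialLinearGroup.coe_pow]

include hF in
theorem scalar_norm (hn : 1 ≤ n) (g : SU n F q) (c : F)
    (h : (g.1 : Matrix (Fin n) (Fin n) F) = c • (1 : Matrix (Fin n) (Fin n) F)) : c ^ (q + 1) = 1 := by
  have h1 := SU_dag hF g
  rw [h, dag_smul, dag_one, smul_mul_assoc, mul_smul_comm, one_mul, smul_smul] at h1
  have i0 : Fin n := ⟨0, by omega⟩
  have h2 := congrFun (congrFun h1 i0) i0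
  rw [Matrix.smul_apply, Matrix.one_apply_eq, smul_eq_mul, mul_one, qFrob_apply] at h2
  rw [pow_succ]
  exact h2

include hF in
/-- Lemma A: a non-central element of order `r` commuting with `g` from a nontrivial self-adjoint
idempotent. -/
theorem exists_order_mul (hn : 2 ≤ n) (r : ℕ) (hr : r.Prime) (hrq : r ∣ q + 1) (hrn : ¬ r ∣ n)
    (g : SU n F q) (e : Matrix (Fin n) (Fin n) F) (he2 : e * e = e) (he0 : e ≠ 0) (he1 : e ≠ 1)
    (hcomm : e * (g.1 : Matrix (Fin n) (Fin n) F) = (g.1 : Matrix (Fin n) (Fin n) F) * e)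
    (hdag : dag hF e = e) (hro : ¬ r ∣ orderOf (piU n F q g)) :
    ∃ y : PSU n F q, orderOf y = orderOf (piU n F q g) * r := by
  classical
  haveI : NeZero n := ⟨by omega⟩
  have hq2 : 2 ≤ q := qfrob_two_le hF
  have hrF : r ∣ Fintype.card F - 1 := by
    rw [hF]
    have h1 : q ^ 2 - 1 = (q + 1) * (q - 1) := by
      obtain ⟨k, rfl⟩ : ∃ k, q = k + 1 := ⟨q - 1, by omega⟩
      simp only [Nat.add_sub_cancel]
      have : (k + 1) ^ 2 = (k + 1 + 1) * k + 1 := by ring
      omega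
    rw [h1]
    exact hrq.trans (Dvd.intro _ rfl)
  obtain ⟨lu, hlu⟩ := exists_elt_order (F := F) r hrF
  obtain ⟨l, hl⟩ : ∃ l : F, l = lu := ⟨_, rfl⟩
  have hl0 : l ≠ 0 := hl ▸ lu.ne_zero
  have hlr : l ^ r = 1 := by
    have h1 : lu ^ r = 1 := hlu ▸ pow_orderOf_eq_one lu
    rw [hl, ← Units.val_pow_eq_pow_val, h1, Units.val_one]
  have hl1 : l ≠ 1 := by
    intro h
    have h1 : lu = 1 := by
      ext
      rw [← hl, h, Units.val_one]
    rw [h1, orderOf_one] at hlu
    exact hr.one_lt.ne hlu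
  have hpq : ∀ x : F, x ^ r = 1 → qFrob hF x * x = 1 := by
    intro x hx
    obtain ⟨w, hw⟩ := hrq
    rw [qFrob_apply, ← pow_succ, hw, pow_mul, hx, one_pow]
  obtain ⟨f', hf'⟩ : ∃ f' : Matrix (Fin n) (Fin n) F, f' = 1 - e := ⟨_, rfl⟩
  have hef : e * f' = 0 := by rw [hf', mul_sub, mul_one, he2, sub_self]
  have hfe : f' * e = 0 := by rw [hf', sub_mul, one_mul, he2, sub_self]
  have hff : f' * f' = f' := by rw [hf', sub_mul, one_mul, mul_sub, mul_one, he2]; abel
  have hsum : e + f' = 1 := by rw [hf']; abel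
  have hdf : dag hF f' = f' := by rw [hf', dag_sub, dag_one, hdag]
  obtain ⟨t₀, ht₀⟩ : ∃ t₀ : Matrix (Fin n) (Fin n) F, t₀ = l • e + f' := ⟨_, rfl⟩
  have hpow : ∀ k : ℕ, t₀ ^ k = l ^ k • e + f' := by
    intro k
    induction k with
    | zero => rw [pow_zero, pow_zero, one_smul, hsum]
    | succ k ih =>
      rw [pow_succ, ih, ht₀, add_mul, mul_add, mul_add, smul_mul_assoc, smul_mul_assoc, mul_smul_comm,
        mul_smul_comm, he2, hef, hfe, hff, smul_zero, smul_zero, add_zero, zero_add, smul_smul,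
        pow_succ]
  have ht₀r : t₀ ^ r = 1 := by rw [hpow, hlr, one_smul, hsum]
  obtain ⟨δ, hδ⟩ : ∃ δ, δ = t₀.det := ⟨_, rfl⟩
  have hδr : δ ^ r = 1 := by rw [hδ, ← Matrix.det_pow, ht₀r, Matrix.det_one]
  have hδ0 : δ ≠ 0 := by
    rintro rfl
    rw [zero_pow hr.ne_zero] at hδr
    exact zero_ne_one hδr
  have hcop : Nat.Coprime n r := ((Nat.Prime.coprime_iff_not_dvd hr).mpr hrn).symm
  obtain ⟨n', hn'⟩ := Nat.exists_mul_mod_eq_one_of_coprime hcop hr.one_lt
  obtain ⟨κ, hκ⟩ : ∃ κ, κ = δ⁻¹ ^ n' := ⟨_, rfl⟩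
  have hδir : δ⁻¹ ^ r = 1 := by rw [inv_pow, hδr, inv_one]
  have hκr : κ ^ r = 1 := by rw [hκ, ← pow_mul, mul_comm, pow_mul, hδir, one_pow]
  have hκn : κ ^ n = δ⁻¹ := by
    rw [hκ, ← pow_mul, mul_comm n' n]
    conv_lhs => rw [← Nat.div_add_mod (n * n') r, hn'.2]
    rw [pow_add, pow_mul, hδir, one_pow, one_mul, pow_one]
  have hκ0 : κ ≠ 0 := by
    rintro rfl
    rw [zero_pow hr.ne_zero] at hκr
    exact zero_ne_one hκr
  have hdet : (κ • t₀).det = 1 := by
    rw [Matrix.det_smul, Fintype.card_fin, hκn, ← hδ, inv_mul_cancel₀ hδ0]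
  let τ₀ : Matrix.SpecialLinearGroup (Fin n) F := ⟨κ • t₀, hdet⟩
  have hτmem : τ₀ ∈ SU n F q := by
    refine mem_SU_of_dag hF τ₀ ?_
    show dag hF (κ • t₀) * (κ • t₀) = 1
    have e1 : dag hF t₀ = qFrob hF l • e + f' := by
      rw [ht₀, dag_add, dag_smul, hdag, hdf]
    rw [dag_smul, smul_mul_assoc, mul_smul_comm, smul_smul, hpq κ hκr, one_smul, e1, ht₀, add_mul,
      mul_add, mul_add, smul_mul_assoc, smul_mul_assoc, mul_smul_comm, mul_smul_comm, he2, hef, hfe,
      hff, smul_zero, smul_zero, add_zero, zero_add, smul_smul, hpq l hlr, one_smul, hsum]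
  let τ : SU n F q := ⟨τ₀, hτmem⟩
  have hτc : (τ.1 : Matrix (Fin n) (Fin n) F) = κ • t₀ := rfl
  have hτg : Commute τ g := by
    apply Subtype.ext
    apply Subtype.ext
    show (κ • t₀) * (g.1 : Matrix (Fin n) (Fin n) F) = (g.1 : Matrix (Fin n) (Fin n) F) * (κ • t₀)
    have h1 : f' * (g.1 : Matrix (Fin n) (Fin n) F) = (g.1 : Matrix (Fin n) (Fin n) F) * f' := by
      rw [hf', sub_mul, mul_sub, one_mul, mul_one, hcomm]
    rw [smul_mul_assoc, mul_smul_comm, ht₀, add_mul, mul_add, smul_mul_assoc, mul_smul_comm, hcomm, h1]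
  have hτr : τ ^ r = 1 := by
    apply Subtype.ext
    apply Subtype.ext
    rw [coe_pow_SU]
    show (κ • t₀) ^ r = 1
    rw [_root_.smul_pow, hκr, ht₀r, one_smul]
  have hτ1 : piU n F q τ ≠ 1 := by
    intro h
    obtain ⟨c, hc⟩ := scalar_of_piU_eq_one hF hn τ h
    have hc' : κ • t₀ = c • 1 := hc
    -- `e` would be scalar
    have h1 : (κ * (l - 1)) • e = (c - κ) • (1 : Matrix (Fin n) (Fin n) F) := by
      have h2 : κ • (l • e + f') = c • (1 : Matrix (Fin n) (Fin n) F) := ht₀ ▸ hc'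
      rw [hf'] at h2
      have h3 : (κ * (l - 1)) • e + κ • (1 : Matrix (Fin n) (Fin n) F)
          = c • (1 : Matrix (Fin n) (Fin n) F) := by
        rw [← h2]
        module
      rw [sub_smul, ← h3]
      abel
    have hne : κ * (l - 1) ≠ 0 := mul_ne_zero hκ0 (sub_ne_zero.mpr hl1)
    obtain ⟨c', hc'⟩ : ∃ c' : F, e = c' • (1 : Matrix (Fin n) (Fin n) F) := by
      refine ⟨(κ * (l - 1))⁻¹ * (c - κ), ?_⟩
      rw [mul_smul, ← h1, smul_smul, inv_mul_cancel₀ hne, one_smul]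
    have h5 : c' * c' = c' := by
      have h6 := congrFun (congrFun he2 0) 0
      rw [hc'] at h6
      simpa [Matrix.mul_apply, Matrix.one_apply, Matrix.smul_apply, Finset.sum_ite_eq] using h6
    have h7 : c' = 0 ∨ c' = 1 := by
      by_cases h8 : c' = 0
      · exact Or.inl h8
      · exact Or.inr (mul_left_cancel₀ h8 (by rw [h5, mul_one]))
    rcases h7 with h8 | h8
    · exact he0 (by rw [hc', h8, zero_smul])
    · exact he1 (by rw [hc', h8, one_smul])
  have hord : orderOf (piU n F q τ) = r := by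
    haveI : Fact r.Prime := ⟨hr⟩
    refine orderOf_eq_prime ?_ hτ1
    rw [← map_pow, hτr, map_one]
  have hc2 : Commute (piU n F q g) (piU n F q τ) := (hτg.symm).map _
  refine ⟨piU n F q g * piU n F q τ, ?_⟩
  rw [hc2.orderOf_mul_eq_mul_orderOf_of_coprime, hord]
  rw [hord]
  exact ((Nat.Prime.coprime_iff_not_dvd hr).mpr hro).symm

include hF in
/-- Elements of order `r`. -/
theorem exists_order_r (hn : 2 ≤ n) (r : ℕ) (hr : r.Prime) (hrq : r ∣ q + 1) (hrn : ¬ r ∣ n) :
    ∃ y : PSU n F q, orderOf y = r := by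
  classical
  let i0 : Fin n := ⟨0, by omega⟩
  let i1 : Fin n := ⟨1, by omega⟩
  obtain ⟨y, hy⟩ := exists_order_mul hF hn r hr hrq hrn 1 (Matrix.single i0 i0 1)
    (by simp) (by
      intro h
      have := congrFun (congrFun h i0) i0
      simp at this) (by
      intro h
      have := congrFun (congrFun h i1) i1
      have h2 : i0 ≠ i1 := by
        intro h3
        have := congrArg Fin.val h3
        simp [i0, i1] at this
      simp [Matrix.single_apply, h2] at this) (by simp) (by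
      ext i j
      rw [dag_apply]
      by_cases h : i = i0 ∧ j = i0
      · obtain ⟨rfl, rfl⟩ := h
        simp
      · have h2 : ¬ (j = i0 ∧ i = i0) := fun h3 => h ⟨h3.2, h3.1⟩
        have h3 : ¬ (i0 = j ∧ i0 = i) := fun h4 => h2 ⟨h4.1.symm, h4.2.symm⟩
        have h4 : ¬ (i0 = i ∧ i0 = j) := fun h5 => h2 ⟨h5.2.symm, h5.1.symm⟩
        rw [Matrix.single_apply, Matrix.single_apply, if_neg h3, if_neg h4, map_zero]) (by
      rw [map_one, orderOf_one]
      exact fun h => hr.one_lt.ne' (Nat.dvd_one.mp h))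
  refine ⟨y, ?_⟩
  rw [hy, map_one, orderOf_one, one_mul]

/-- Transfer from an arbitrary Hermitian space. -/
theorem transfer {V : Type*} [AddCommGroup V] [Module F V] [FiniteDimensional F V]
    (B : V →ₛₗ[qFrob hF] V →ₗ[F] F) (hS : ∀ x y, qFrob hF (B x y) = B y x)
    (hsep : ∀ u, (∀ v, B u v = 0) → u = 0) (hfr : Module.finrank F V = n) (T : V →ₗ[F] V)
    (hT : ∀ x y, B (T x) (T y) = B x y) (hdet : LinearMap.det T = 1) :
    ∃ (g : SU n F q) (Φ : (Fin n → F) ≃ₗ[F] V),
      (∀ x, Φ ((g.1 : Matrix (Fin n) (Fin n) F).mulVec x) = T (Φ x)) ∧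
      ∀ c d, B (Φ c) (Φ d) = stdH n hF c d := by
  classical
  obtain ⟨φ, hinj, hrange, hform⟩ := exists_std_iso hF (B := B) hS (⊤ : Submodule F V)
    (fun u _ hu => hsep u (fun v => hu v trivial)) n (by rw [finrank_top, hfr])
  let Φ : (Fin n → F) ≃ₗ[F] V := LinearEquiv.ofBijective φ ⟨hinj, LinearMap.range_eq_top.mp hrange⟩
  have hΦ : ∀ x, Φ x = φ x := fun _ => rfl
  have hTinj : Function.Injective T := by
    rw [← LinearMap.ker_eq_bot, LinearMap.ker_eq_bot']
    intro x hx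
    apply hsep
    intro v
    rw [← hT, hx]
    simp
  have hTsurj : Function.Surjective T := LinearMap.surjective_of_injective hTinj
  let p : (Fin n → F) ≃ₗ[F] (Fin n → F) :=
    Φ.trans ((LinearEquiv.ofBijective T ⟨hTinj, hTsurj⟩).trans Φ.symm)
  have hp : ∀ x, Φ (p x) = T (Φ x) := by
    intro x
    show Φ (Φ.symm (T (Φ x))) = _
    rw [LinearEquiv.apply_symm_apply]
  have hpdet : LinearMap.det (p : (Fin n → F) →ₗ[F] (Fin n → F)) = 1 := by
    rw [← hdet]
    have h1 := LinearMap.det_conj T Φ.symm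
    rw [← h1]
    congr 1
  obtain ⟨A, hA⟩ := exists_sl_of_det n p hpdet
  have hmem : A ∈ SU n F q := by
    rw [mem_SU_iff n hF, hA]
    intro x y
    rw [← hform, ← hform, ← hΦ, ← hΦ, hp, hp, hT, hΦ, hΦ]
  refine ⟨⟨A, hmem⟩, Φ, ?_, hform⟩
  intro x
  rw [← hp, ← hA]
  rfl

/-- Powers in the transfer. -/
theorem transfer_pow {V : Type*} [AddCommGroup V] [Module F V] (g : SU n F q)
    (Φ : (Fin n → F) ≃ₗ[F] V) (T : V →ₗ[F] V)
    (h : ∀ x, Φ ((g.1 : Matrix (Fin n) (Fin n) F).mulVec x) = T (Φ x)) (k : ℕ) (x : Fin n → F) :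
    Φ (((g ^ k).1 : Matrix (Fin n) (Fin n) F).mulVec x) = (T ^ k) (Φ x) := by
  induction k generalizing x with
  | zero =>
    rw [pow_zero, pow_zero]
    simp
  | succ k ih =>
    rw [coe_pow_SU, pow_succ, ← Matrix.mulVec_mulVec, ← coe_pow_SU, ih, h, pow_succ]
    rfl

theorem transfer_scalar {V : Type*} [AddCommGroup V] [Module F V] (g : SU n F q)
    (Φ : (Fin n → F) ≃ₗ[F] V) (T : V →ₗ[F] V)
    (h : ∀ x, Φ ((g.1 : Matrix (Fin n) (Fin n) F).mulVec x) = T (Φ x)) (k : ℕ) (c : F) :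
    ((g ^ k).1 : Matrix (Fin n) (Fin n) F) = c • (1 : Matrix (Fin n) (Fin n) F) ↔
      ∀ v, (T ^ k) v = c • v := by
  constructor
  · intro h1 v
    obtain ⟨x, rfl⟩ := Φ.surjective v
    rw [← transfer_pow g Φ T h, h1, Matrix.smul_mulVec, Matrix.one_mulVec, map_smul]
  · intro h1
    apply mat_eq_of_mulVec
    intro x
    apply Φ.injective
    rw [transfer_pow g Φ T h, h1, Matrix.smul_mulVec, Matrix.one_mulVec, map_smul]

end CfsgLib.SpecU
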