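import Mathlib
import Cfsg.Agent.Lib.ClassMax.SpecU1

/-! Arithmetic for element orders in `PSU_n(q)`. -/

set_option autoImplicit false

namespace CfsgLib.SpecU

open Polynomial Cfsg CfsgLib.ClassGeo CfsgLib.Spec3

/-- The alternating sum. -/
def alt (x : ℤ) (n : ℕ) : ℤ := ∑ i ∈ Finset.range n, x ^ i * (-1) ^ (n - 1 - i)

theorem alt_mul (x : ℤ) (n : ℕ) : alt x n * (x + 1) = x ^ n - (-1) ^ n := by
  have := geom_sum₂_mul x (-1 : ℤ) n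
  rw [sub_neg_eq_add] at this
  exact this

theorem alt_mod (x : ℤ) (n : ℕ) (m : ℤ) (hm : m ∣ x + 1) : m ∣ alt x n - (-1) ^ (n - 1) * n := by
  have h1 : alt x n - (-1) ^ (n - 1) * n =
      ∑ i ∈ Finset.range n, (-1) ^ (n - 1 - i) * (x ^ i - (-1) ^ i) := by
    unfold alt
    have h2 : ((-1 : ℤ) ^ (n - 1) * n) = ∑ i ∈ Finset.range n, (-1 : ℤ) ^ (n - 1 - i) * (-1) ^ i := by
      have h3 : ∀ i ∈ Finset.range n, (-1 : ℤ) ^ (n - 1 - i) * (-1) ^ i = (-1) ^ (n - 1) := by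
        intro i hi
        have hi' := Finset.mem_range.mp hi
        rw [← pow_add]
        congr 1
        omega
      rw [Finset.sum_congr rfl h3, Finset.sum_const, Finset.card_range, nsmul_eq_mul, mul_comm]
    rw [h2, ← Finset.sum_sub_distrib]
    refine Finset.sum_congr rfl fun i _ => ?_
    ring
  rw [h1]
  refine Finset.dvd_sum fun i _ => ?_
  refine Dvd.dvd.mul_left ?_ _
  refine hm.trans ?_
  have := sub_dvd_pow_sub_pow x (-1 : ℤ) i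
  rwa [sub_neg_eq_add] at this

theorem alt_dvd_iff (x : ℤ) (n : ℕ) (m : ℤ) (hm : m ∣ x + 1) : m ∣ alt x n ↔ m ∣ (n : ℤ) := by
  have h1 := alt_mod x n m hm
  have hu : IsUnit ((-1 : ℤ) ^ (n - 1)) := (isUnit_one.neg).pow _
  constructor
  · intro h
    have h2 : m ∣ (-1) ^ (n - 1) * (n : ℤ) := (dvd_sub_right h).mp h1
    exact (hu.dvd_mul_left).mp h2
  · intro h
    have h2 : m ∣ (-1) ^ (n - 1) * (n : ℤ) := Dvd.dvd.mul_left h _
    exact (dvd_sub_left h2).mp h1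

theorem alt_nonneg (q n : ℕ) (hq : 1 ≤ q) : 0 ≤ alt (q : ℤ) n := by
  have h1 := alt_mul (q : ℤ) n
  have h2 : (1 : ℤ) ≤ (q : ℤ) ^ n := one_le_pow₀ (by exact_mod_cast hq)
  have h3 : (-1 : ℤ) ^ n ≤ 1 := by
    rcases neg_one_pow_eq_or ℤ n with h | h <;> rw [h] <;> norm_num
  have h4 : (0 : ℤ) < (q : ℤ) + 1 := by positivity
  by_contra h5
  push Not at h5
  have h6 : alt (q : ℤ) n * ((q : ℤ) + 1) < 0 := mul_neg_of_neg_of_pos h5 h4
  rw [h1] at h6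
  linarith

/-- The order of the main torus, `(q ^ n - (-1) ^ n) / (q + 1)`. -/
def QU (q n : ℕ) : ℕ := (alt (q : ℤ) n).toNat

theorem QU_cast (q n : ℕ) (hq : 1 ≤ q) : (QU q n : ℤ) = alt (q : ℤ) n :=
  Int.toNat_of_nonneg (alt_nonneg q n hq)

theorem QU_mul (q n : ℕ) (hq : 1 ≤ q) : (QU q n : ℤ) * ((q : ℤ) + 1) = (q : ℤ) ^ n - (-1) ^ n := by
  rw [QU_cast q n hq, alt_mul]

theorem QU_even (q n : ℕ) (hq : 1 ≤ q) (hn : Even n) : QU q n * (q + 1) = q ^ n - 1 := by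
  have h1 := QU_mul q n hq
  rw [hn.neg_one_pow] at h1
  have h2 : 1 ≤ q ^ n := Nat.one_le_pow _ _ hq
  zify [h2]
  exact h1

theorem QU_odd (q n : ℕ) (hq : 1 ≤ q) (hn : Odd n) : QU q n * (q + 1) = q ^ n + 1 := by
  have h1 := QU_mul q n hq
  rw [hn.neg_one_pow] at h1
  zify
  rw [h1]
  ring

theorem QU_dvd_iff (q n m : ℕ) (hq : 1 ≤ q) (hm : m ∣ q + 1) : m ∣ QU q n ↔ m ∣ n := by
  have h1 := alt_dvd_iff (q : ℤ) n (m : ℤ) (by exact_mod_cast hm)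
  rw [← QU_cast q n hq] at h1
  exact_mod_cast h1

theorem gcd_QU (q n : ℕ) (hq : 1 ≤ q) : Nat.gcd (QU q n) (q + 1) = Nat.gcd n (q + 1) := by
  apply Nat.dvd_antisymm
  · refine Nat.dvd_gcd ?_ (Nat.gcd_dvd_right _ _)
    exact (QU_dvd_iff q n _ hq (Nat.gcd_dvd_right _ _)).mp (Nat.gcd_dvd_left _ _)
  · refine Nat.dvd_gcd ?_ (Nat.gcd_dvd_right _ _)
    exact (QU_dvd_iff q n _ hq (Nat.gcd_dvd_right _ _)).mpr (Nat.gcd_dvd_left _ _)

/-- The order of the image of the main torus in `PSU_n(q)`. -/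
def NU (q n : ℕ) : ℕ := QU q n / Nat.gcd n (q + 1)

theorem NU_mul (q n : ℕ) (hq : 1 ≤ q) : NU q n * Nat.gcd n (q + 1) = QU q n :=
  Nat.div_mul_cancel ((QU_dvd_iff q n _ hq (Nat.gcd_dvd_right _ _)).mpr (Nat.gcd_dvd_left _ _))

theorem NU_coprime (q n : ℕ) (hq : 1 ≤ q) : Nat.Coprime (NU q n) ((q + 1) / Nat.gcd n (q + 1)) := by
  have h := Nat.coprime_div_gcd_div_gcd (m := QU q n) (n := q + 1) (by
    exact Nat.gcd_pos_of_pos_right _ (by omega))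
  rwa [gcd_QU q n hq] at h

theorem NU_dvd_of (q n k : ℕ) (hq : 1 ≤ q) (h : QU q n ∣ k * (q + 1)) : NU q n ∣ k := by
  obtain ⟨g, hg⟩ : ∃ g, g = Nat.gcd n (q + 1) := ⟨_, rfl⟩
  have h1 := NU_mul q n hq
  have h2 := NU_coprime q n hq
  rw [← hg] at h1 h2
  have hgq : g ∣ q + 1 := hg ▸ Nat.gcd_dvd_right _ _
  obtain ⟨g', hg'⟩ := hgq
  have hg0 : 0 < g := by
    rw [hg]
    exact Nat.gcd_pos_of_pos_right _ (by omega)
  rw [hg', Nat.mul_div_cancel_left _ hg0] at h2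
  rw [← h1, hg'] at h
  have h3 : NU q n * g ∣ (k * g') * g := by
    have e : k * (g * g') = (k * g') * g := by ring
    rwa [e] at h
  have h4 : NU q n ∣ k * g' := Nat.dvd_of_mul_dvd_mul_right hg0 h3
  exact h2.dvd_of_dvd_mul_right h4

theorem QU_dvd_of (q n k : ℕ) (hq : 1 ≤ q) (h : NU q n ∣ k) : QU q n ∣ k * (q + 1) := by
  rw [← NU_mul q n hq]
  exact mul_dvd_mul h (Nat.gcd_dvd_right _ _)

/-- Arithmetic of the irreducible case. -/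
theorem arith_irr (q d e A : ℕ) (hq : 1 ≤ q) (hd : Odd d) (hA : A * (q + 1) = q ^ d + 1) :
    A * Nat.gcd e (q + 1) ∣ QU q (d * e) := by
  have h0 : ((q : ℤ) + 1) ≠ 0 := by positivity
  have hA' : (A : ℤ) * ((q : ℤ) + 1) = (q : ℤ) ^ d + 1 := by exact_mod_cast hA
  have h1 : (QU q (d * e) : ℤ) = (A : ℤ) * alt ((q : ℤ) ^ d) e := by
    apply mul_right_cancel₀ h0
    rw [QU_mul q _ hq, pow_mul, pow_mul, hd.neg_one_pow]
    have h2 := alt_mul ((q : ℤ) ^ d) e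
    have e1 : (A : ℤ) * alt ((q : ℤ) ^ d) e * ((q : ℤ) + 1) =
        alt ((q : ℤ) ^ d) e * ((q : ℤ) ^ d + 1) := by
      rw [← hA']
      ring
    rw [e1, h2]
  have h2 : ((Nat.gcd e (q + 1) : ℕ) : ℤ) ∣ alt ((q : ℤ) ^ d) e := by
    rw [alt_dvd_iff]
    · exact_mod_cast Nat.gcd_dvd_left _ _
    · refine Dvd.dvd.trans ?_ (⟨(A : ℤ), by rw [← hA']; ring⟩ : (q : ℤ) + 1 ∣ (q : ℤ) ^ d + 1)
      exact_mod_cast Nat.gcd_dvd_right _ _
  have h3 : ((A * Nat.gcd e (q + 1) : ℕ) : ℤ) ∣ (QU q (d * e) : ℤ) := by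
    rw [h1]
    push_cast
    exact mul_dvd_mul_left _ h2
  exact_mod_cast h3

/-- Arithmetic of the split case. -/
theorem arith_split (q d e E₀ : ℕ) (hq : 2 ≤ q) (hE : E₀ * (q + 1) = q ^ (2 * d) - 1) :
    E₀ * Nat.gcd e (q + 1) ∣ NU q (2 * d * e) * (q + 1) := by
  have hq1 : 1 ≤ q := by omega
  obtain ⟨x, hx⟩ : ∃ x, x = q ^ (2 * d) := ⟨_, rfl⟩
  have hx1 : 1 ≤ x := hx ▸ Nat.one_le_pow _ _ hq1
  have h1 := QU_even q (2 * d * e) hq1 (by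
    rw [mul_assoc]
    exact even_two_mul _)
  rw [pow_mul q (2 * d) e, ← hx] at h1
  have h2 := SS_mul x e hx1
  rw [← hx] at hE
  rw [← hE, ← h1] at h2
  have h3 : QU q (2 * d * e) = E₀ * SS x e := by
    apply Nat.eq_of_mul_eq_mul_right (show 0 < q + 1 by omega)
    rw [← h2]
    ring
  have h4 : Nat.gcd e (q + 1) ∣ SS x e := by
    have h5 := SS_modEq x e hx1
    have h6 : q + 1 ∣ x - 1 := ⟨E₀, by rw [← hE]; ring⟩
    have h7 : Nat.gcd e (q + 1) ∣ x - 1 := (Nat.gcd_dvd_right _ _).trans h6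
    have h8 := (h5.of_dvd h7)
    exact (h8.dvd_iff dvd_rfl).mpr (Nat.gcd_dvd_left _ _)
  obtain ⟨g, hg⟩ : ∃ g, g = Nat.gcd (2 * d * e) (q + 1) := ⟨_, rfl⟩
  have h9 := NU_mul q (2 * d * e) hq1
  rw [← hg] at h9
  have hgq : g ∣ q + 1 := hg ▸ Nat.gcd_dvd_right _ _
  obtain ⟨g', hg'⟩ := hgq
  have e2 : NU q (2 * d * e) * (q + 1) = E₀ * (SS x e * g') := by
    rw [hg', ← mul_assoc, h9, h3]
    ring
  rw [e2]
  exact mul_dvd_mul_left _ (h4.trans (Dvd.intro _ rfl))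

end CfsgLib.SpecU
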