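import Mathlib
import Cfsg.Agent.Lib.ClassMax.SpecU2

/-! Semisimple elements of `SU_n(q)` with few self-adjoint idempotents. -/

set_option autoImplicit false

namespace CfsgLib.SpecU

open Polynomial Cfsg CfsgLib.ClassGeo CfsgLib.Spec3

variable {F : Type*} [Field F] [Fintype F] {q : ℕ} (hF : Fintype.card F = q ^ 2) {n : ℕ}

theorem dag_aeval (S : Matrix (Fin n) (Fin n) F) (P : F[X]) :
    dag hF (aeval S P) = aeval (dag hF S) (P.map (qFrob hF)) := by
  induction P using Polynomial.induction_on' with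
  | add p₁ p₂ hp₁ hp₂ => rw [map_add, dag_add, hp₁, hp₂, Polynomial.map_add, map_add]
  | monomial k a =>
    rw [aeval_monomial, Polynomial.map_monomial, aeval_monomial, dag_mul, dag_pow,
      Algebra.algebraMap_eq_smul_one, Algebra.algebraMap_eq_smul_one, dag_smul, dag_one]
    simp

theorem irr_data {V : Type*} [AddCommGroup V] [Module F V] [FiniteDimensional F V]
    (T : V →ₗ[F] V) (a : F[X]) (ha : Irreducible a) (hT : aeval T a = 0) :
    ∃ (e : ℕ) (φ : AdjoinRoot a →ₐ[F] Module.End F V),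
      Module.finrank F V = Module.finrank F (AdjoinRoot a) * e ∧
      LinearMap.det T = (Algebra.norm F (AdjoinRoot.root a)) ^ e ∧ φ (AdjoinRoot.root a) = T := by
  classical
  haveI : Fact (Irreducible a) := ⟨ha⟩
  let K := AdjoinRoot a
  let φ : K →ₐ[F] Module.End F V :=
    Ideal.Quotient.liftₐ (Ideal.span {a}) (aeval T) (by
      intro c hc
      obtain ⟨d, rfl⟩ := Ideal.mem_span_singleton.mp hc
      rw [map_mul, hT, zero_mul])
  have hφroot : φ (AdjoinRoot.root a) = T := by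
    show aeval T X = T
    rw [aeval_X]
  letI : Module K V := Module.compHom _ φ.toRingHom
  have hsmul : ∀ (c : K) (v : V), c • v = φ c v := fun _ _ => rfl
  haveI : IsScalarTower F K V := ⟨fun a c v => by
    rw [hsmul, hsmul, map_smul]
    rfl⟩
  haveI : Module.Finite F K := (AdjoinRoot.powerBasis ha.ne_zero).finite
  haveI : Finite K := Module.finite_of_finite F
  haveI : Module.Finite K V := Module.Finite.of_restrictScalars_finite F K _
  refine ⟨Module.finrank K V, φ, (Module.finrank_mul_finrank F K V).symm, ?_, hφroot⟩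
  let T' : V →ₗ[K] V := (AdjoinRoot.root a : K) • LinearMap.id
  have h1 : T'.restrictScalars F = T := by
    refine LinearMap.ext fun v => ?_
    show (AdjoinRoot.root a : K) • v = _
    rw [hsmul, hφroot]
  have h2 := LinearMap.det_restrictScalars (R := F) (S := K) (A := V) (f := T')
  rw [h1] at h2
  have h3 : LinearMap.det T' = (AdjoinRoot.root a : K) ^ Module.finrank K V := by
    rw [LinearMap.det_smul, LinearMap.det_id, mul_one]
  rw [h3, map_pow] at h2
  exact h2

include hF in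
theorem z_mem {K : Type*} [Field K] [Finite K] [Algebra F K] (z : K) (hz : z ^ (q + 1) = 1) :
    ∃ c : F, algebraMap F K c = z ∧ c ^ (q + 1) = 1 := by
  have hq2 : 2 ≤ q := qfrob_two_le hF
  have e1 : q ^ 2 = (q + 1) * (q - 1) + 1 := by
    obtain ⟨k, rfl⟩ : ∃ k, q = k + 1 := ⟨q - 1, by omega⟩
    simp only [Nat.add_sub_cancel]
    ring
  have h1 : z ^ Fintype.card F = z := by
    rw [hF, e1, pow_add, pow_mul, hz, one_pow, one_mul, pow_one]
  obtain ⟨c, hc⟩ := mem_base (F := F) z h1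
  refine ⟨c, hc, ?_⟩
  apply (algebraMap F K).injective
  rw [map_pow, hc, hz, map_one]

include hF in
theorem norm_SS {K : Type*} [Field K] [Finite K] [Algebra F K] (x : K) :
    algebraMap F K (Algebra.norm F x) = x ^ SS (q ^ 2) (Module.finrank F K) := by
  haveI : Module.Finite F K := Module.Finite.of_finite
  have hq2 : 2 ≤ q := qfrob_two_le hF
  have hq3 : 1 ≤ q ^ 2 := Nat.one_le_pow _ _ (by omega)
  have hq4 : 0 < q ^ 2 - 1 := by
    have : 2 ^ 2 ≤ q ^ 2 := Nat.pow_le_pow_left hq2 2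
    omega
  rw [FiniteField.algebraMap_norm_eq_pow, Module.natCard_eq_pow_finrank (K := F),
    Nat.card_eq_fintype_card, hF, ← SS_mul _ _ hq3, Nat.mul_div_cancel_left _ hq4]

theorem pow_pow_fix {K : Type*} [Monoid K] (x : K) (c : ℕ) (h : x ^ c = x) (k : ℕ) :
    x ^ (c ^ k) = x := by
  induction k with
  | zero => simp
  | succ k ih => rw [pow_succ, pow_mul, ih, h]

theorem SS_odd (q d : ℕ) (hd : Odd d) : ∃ w, SS q d = 1 + (q + 1) * w := by
  obtain ⟨k, rfl⟩ := hd
  induction k with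
  | zero => exact ⟨0, by simp [SS]⟩
  | succ k ih =>
    obtain ⟨w, hw⟩ := ih
    refine ⟨w + q ^ (2 * k + 1), ?_⟩
    have e : 2 * (k + 1) + 1 = (2 * k + 1) + 1 + 1 := by ring
    rw [e, SS_succ, SS_succ, hw]
    ring

theorem A_mul_B (q d A : ℕ) (hq : 1 ≤ q) (hA : A * (q + 1) = q ^ d + 1) :
    A * SS q d = SS (q ^ 2) d := by
  obtain ⟨k, rfl⟩ : ∃ k, q = k + 1 := ⟨q - 1, by omega⟩
  have h1 := SS_mul (k + 1) d hq
  have h2 := SS_mul ((k + 1) ^ 2) d (Nat.one_le_pow _ _ hq)
  simp only [Nat.add_sub_cancel] at h1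
  rcases Nat.eq_zero_or_pos k with rfl | hk
  · -- `q = 1`
    have hA' : A = 1 := by
      simp only [zero_add, one_pow] at hA
      omega
    subst hA'
    simp [SS]
  · have h3 : ((k + 1) ^ 2 - 1) = (k + 2) * k := by
      have : (k + 1) ^ 2 = (k + 2) * k + 1 := by ring
      omega
    rw [h3] at h2
    have h4 : 1 ≤ (k + 1) ^ d := Nat.one_le_pow _ _ hq
    obtain ⟨y, hy⟩ : ∃ y, (k + 1) ^ d = y + 1 := ⟨(k + 1) ^ d - 1, by omega⟩
    rw [hy] at h1 hA
    simp only [Nat.add_sub_cancel] at h1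
    have h5 : ((k + 1) ^ 2) ^ d = (y + 1) ^ 2 := by
      rw [← pow_mul, mul_comm, pow_mul, hy]
    rw [h5] at h2
    have h6 : (y + 1) ^ 2 - 1 = (y + 2) * y := by
      have : (y + 1) ^ 2 = (y + 2) * y + 1 := by ring
      omega
    rw [h6] at h2
    apply Nat.eq_of_mul_eq_mul_left (show 0 < (k + 2) * k by positivity)
    rw [h2]
    calc (k + 2) * k * (A * SS (k + 1) d) = (A * (k + 1 + 1)) * (k * SS (k + 1) d) := by ring
      _ = (y + 2) * y := by rw [hA, h1]

include hF in
theorem scalar_of_pow {K V : Type*} [Field K] [Finite K] [Algebra F K] [AddCommGroup V] [Module F V]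
    (φ : K →ₐ[F] Module.End F V) (ζ : K) (N : ℕ) (h : ζ ^ (N * (q + 1)) = 1) :
    ∃ c : F, c ^ (q + 1) = 1 ∧ (φ ζ) ^ N = c • (1 : Module.End F V) := by
  rw [pow_mul] at h
  obtain ⟨c, hc, hc2⟩ := z_mem hF (ζ ^ N) h
  refine ⟨c, hc2, ?_⟩
  rw [← map_pow, ← hc, AlgHom.commutes, Algebra.algebraMap_eq_smul_one]

/-- The irreducible case. -/
theorem irr_case (hn : 1 ≤ n) (p a : ℕ) (hp : p.Prime) (hq : q = p ^ a) [CharP F p]
    (S : Matrix (Fin n) (Fin n) F) (β : ℕ) (hβ : S ^ (β + 1) = 1) (hS : dag hF S * S = 1)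
    (hdet : S.det = 1) (hirr : Irreducible (minpoly F S)) :
    ∃ c : F, S ^ NU q n = c • (1 : Matrix (Fin n) (Fin n) F) := by
  classical
  have hq2 : 2 ≤ q := qfrob_two_le hF
  have hq1 : 1 ≤ q := by omega
  haveI : Fact p.Prime := ⟨hp⟩
  obtain ⟨f, hf⟩ : ∃ f, f = minpoly F S := ⟨_, rfl⟩
  rw [← hf] at hirr
  haveI : Fact (Irreducible f) := ⟨hirr⟩
  have hfS : aeval S f = 0 := hf ▸ minpoly.aeval F S
  have hdvd : ∀ P : F[X], aeval S P = 0 → f ∣ P := fun P hP => hf ▸ minpoly.dvd F S hP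
  obtain ⟨T, hT⟩ : ∃ T, T = Matrix.toLinAlgEquiv' S := ⟨_, rfl⟩
  have hTa : ∀ P : F[X], aeval T P = Matrix.toLinAlgEquiv' (aeval S P) := by
    intro P
    rw [hT, aeval_algEquiv]
    rfl
  obtain ⟨e, φ, hde, hnorm, hφ⟩ := irr_data T f hirr (by rw [hTa, hfS, map_zero])
  let K := AdjoinRoot f
  obtain ⟨ζ, hζ⟩ : ∃ ζ : K, ζ = AdjoinRoot.root f := ⟨_, rfl⟩
  rw [← hζ] at hnorm hφ
  haveI : Module.Finite F K := (AdjoinRoot.powerBasis hirr.ne_zero).finite
  haveI : Finite K := Module.finite_of_finite F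
  haveI : CharP K p := charP_of_injective_algebraMap (algebraMap F K).injective p
  obtain ⟨d, hd⟩ : ∃ d, d = Module.finrank F K := ⟨_, rfl⟩
  rw [← hd] at hde
  have hde' : n = d * e := by
    rw [← hde]
    simp
  have hroot : ∀ P : F[X], aeval S P = 0 → aeval ζ P = 0 := by
    intro P hP
    rw [hζ, AdjoinRoot.aeval_eq, AdjoinRoot.mk_eq_zero]
    exact hdvd P hP
  have hζβ : ζ ^ (β + 1) = 1 := by
    have h1 := hroot (X ^ (β + 1) - 1) (by simp [hβ])
    simpa [sub_eq_zero] using h1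
  obtain ⟨y, hy⟩ : ∃ y, y = ζ ^ β := ⟨_, rfl⟩
  have hyζ : y * ζ = 1 := by rw [hy, ← pow_succ, hζβ]
  have hdS : dag hF S = S ^ β := by
    have h1 : S ^ β * S = 1 := by rw [← pow_succ, hβ]
    calc dag hF S = dag hF S * (S * S ^ β) := by
          rw [mul_eq_one_comm.mp h1, mul_one]
      _ = S ^ β := by rw [← mul_assoc, hS, one_mul]
  have h0 : aeval y (f.map (qFrob hF)) = 0 := by
    have h1 := hroot ((f.map (qFrob hF)).comp (X ^ β)) (by
      rw [aeval_comp]
      simp only [map_pow, aeval_X]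
      rw [← hdS, ← dag_aeval, hfS, dag_zero])
    rw [aeval_comp] at h1
    simpa [hy] using h1
  let ψ : K →+* K := iterateFrobenius K p a
  have hψ : ∀ x, ψ x = x ^ q := fun x => by
    show (iterateFrobenius K p a) x = _
    rw [iterateFrobenius_def, hq]
  have hh : f.eval₂ (algebraMap F K) (y ^ q) = 0 := by
    have h1 : (f.map (qFrob hF)).eval₂ (algebraMap F K) y = 0 := h0
    have h2 := congrArg ψ h1
    rw [map_zero, hom_eval₂, eval₂_map, hψ] at h2
    have h3 : (ψ.comp (algebraMap F K)).comp (qFrob hF) = algebraMap F K := by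
      ext c
      simp only [RingHom.comp_apply]
      rw [hψ, qFrob_apply, ← map_pow, ← pow_mul, ← sq, ← hF, FiniteField.pow_card]
    rwa [h3] at h2
  let θ : K →ₐ[F] K := AdjoinRoot.liftAlgHom f (Algebra.ofId F K) (y ^ q) hh
  have hθ : θ ζ = y ^ q := by
    rw [hζ]
    exact AdjoinRoot.liftAlgHom_root _ _ _ _
  let θ' : K ≃ₐ[F] K := AlgEquiv.ofBijective θ
    ⟨θ.toRingHom.injective, Finite.surjective_of_injective θ.toRingHom.injective⟩
  obtain ⟨i, hi⟩ := FiniteField.exists_forall_apply_eq_pow F p K θ'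
  have h1 : y ^ q = ζ ^ ((q ^ 2) ^ i) := by
    rw [← hθ]
    have := hi ζ
    rw [Nat.card_eq_fintype_card, hF] at this
    exact this
  have h2 : ζ ^ ((q ^ 2) ^ i + q) = 1 := by
    rw [pow_add, ← h1, ← mul_pow, hyζ, one_pow]
  obtain ⟨t, ht, htζ⟩ : ∃ t, Odd t ∧ ζ ^ (q ^ t + 1) = 1 := by
    rcases i with _ | i'
    · refine ⟨1, odd_one, ?_⟩
      rw [pow_zero, add_comm] at h2
      rwa [pow_one]
    · refine ⟨2 * i' + 1, ⟨i', rfl⟩, ?_⟩
      have e1 : (q ^ 2) ^ (i' + 1) + q = (q ^ (2 * i' + 1) + 1) * q := by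
        rw [← pow_mul, add_mul, ← pow_succ, one_mul]
        congr 2
      rw [e1, pow_mul, ← hψ] at h2
      apply ψ.injective
      rw [h2, map_one]
  -- all of `K` is fixed
  let ψ₂ : K →+* K := iterateFrobenius K p (a * (2 * t))
  have hψ₂ : ∀ x, ψ₂ x = x ^ (q ^ (2 * t)) := fun x => by
    show (iterateFrobenius K p (a * (2 * t))) x = _
    rw [iterateFrobenius_def, hq, pow_mul]
  have hfix : ∀ x : K, x ^ (q ^ (2 * t)) = x := by
    intro x
    obtain ⟨P, rfl⟩ := AdjoinRoot.mk_surjective x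
    rw [← hψ₂, ← AdjoinRoot.aeval_eq, ← hζ]
    show ψ₂ (P.eval₂ (algebraMap F K) ζ) = P.eval₂ (algebraMap F K) ζ
    rw [hom_eval₂]
    have h3 : ψ₂.comp (algebraMap F K) = algebraMap F K := by
      ext c
      simp only [RingHom.comp_apply]
      rw [hψ₂, ← map_pow, pow_mul, ← hF, FiniteField.pow_card_pow]
    have h4 : ψ₂ ζ = ζ := by
      rw [hψ₂, two_mul, pow_add, pow_mul]
      obtain ⟨z₁, hz₁⟩ : ∃ z₁, z₁ = ζ ^ (q ^ t) := ⟨_, rfl⟩
      rw [← hz₁]
      have h5 : z₁ * ζ = 1 := by rw [hz₁, ← pow_succ, htζ]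
      have h6 : z₁ ^ (q ^ t) * z₁ = 1 := by
        rw [hz₁, ← pow_succ, ← pow_mul, mul_comm, pow_mul, htζ, one_pow]
      have h7 : z₁ ≠ 0 := left_ne_zero_of_mul_eq_one h5
      exact mul_right_cancel₀ h7 (by rw [h6, mul_comm, h5])
    rw [h3, h4]
  have hcardK : Nat.card K = q ^ (2 * d) := by
    rw [Module.natCard_eq_pow_finrank (K := F), Nat.card_eq_fintype_card, hF, ← hd, pow_mul]
  have hdt : d ∣ t := by
    obtain ⟨v, hv⟩ := IsCyclic.exists_generator (α := Kˣ)
    have hordv : orderOf v = q ^ (2 * d) - 1 := by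
      rw [orderOf_eq_card_of_forall_mem_zpowers hv, Nat.card_units, hcardK]
    have h3 : v ^ (q ^ (2 * t) - 1) = 1 := by
      ext
      have h4 := hfix (v : K)
      have h5 : 1 ≤ q ^ (2 * t) := Nat.one_le_pow _ _ hq1
      have h6 : (v : K) ≠ 0 := v.ne_zero
      apply mul_right_cancel₀ h6
      rw [Units.val_one, one_mul, Units.val_pow_eq_pow_val, ← pow_succ]
      rwa [show q ^ (2 * t) - 1 + 1 = q ^ (2 * t) by omega]
    have h4 := orderOf_dvd_of_pow_eq_one h3
    rw [hordv] at h4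
    have h5 := Nat.pow_sub_one_gcd_pow_sub_one q (2 * d) (2 * t)
    rw [Nat.gcd_eq_left h4] at h5
    have h6 : 1 ≤ q ^ (2 * d) := Nat.one_le_pow _ _ hq1
    have h7 : 1 ≤ q ^ Nat.gcd (2 * d) (2 * t) := Nat.one_le_pow _ _ hq1
    have h8 : q ^ (2 * d) = q ^ Nat.gcd (2 * d) (2 * t) := by omega
    have h9 := Nat.pow_right_injective hq2 h8
    have h10 : 2 * d ∣ 2 * t := by
      rw [h9]
      exact Nat.gcd_dvd_right _ _
    exact Nat.dvd_of_mul_dvd_mul_left (by norm_num) h10
  have hdodd : Odd d := Odd.of_dvd_nat ht hdt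
  obtain ⟨c₀, hc₀⟩ := hdt
  have hc₀odd : Odd c₀ := by
    rw [hc₀] at ht
    exact (Nat.odd_mul.mp ht).2
  have hζq : ζ ^ (q ^ (2 * d)) = ζ := by
    letI : Fintype K := Fintype.ofFinite K
    rw [← hcardK, Nat.card_eq_fintype_card]
    exact FiniteField.pow_card ζ
  have hζd : ζ ^ (q ^ d + 1) = 1 := by
    obtain ⟨c', hc'⟩ := hc₀odd
    have e1 : q ^ t = (q ^ (2 * d)) ^ c' * q ^ d := by
      rw [hc₀, hc', ← pow_mul, ← pow_add]
      congr 1
      ring
    have h3 : ζ ^ (q ^ t) = ζ ^ (q ^ d) := by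
      rw [e1, pow_mul, pow_pow_fix ζ _ hζq c']
    rw [pow_succ, ← h3, ← pow_succ, htζ]
  obtain ⟨A, hA⟩ : ∃ A, A = QU q d := ⟨_, rfl⟩
  have hAq : A * (q + 1) = q ^ d + 1 := hA ▸ QU_odd q d hq1 hdodd
  obtain ⟨w, hw⟩ := SS_odd q d hdodd
  have hAB := A_mul_B q d A hq1 hAq
  have hν : algebraMap F K (Algebra.norm F ζ) = ζ ^ A := by
    rw [norm_SS hF ζ, ← hd, ← hAB, pow_mul, hw, pow_add, pow_one, pow_mul, ← pow_mul ζ A, hAq, hζd,
      one_pow, mul_one]
  have hdetT : LinearMap.det T = 1 := by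
    rw [hT, ← hdet]
    exact LinearMap.det_toLin' S
  have hνe : ζ ^ (A * e) = 1 := by
    rw [pow_mul, ← hν, ← map_pow, ← hnorm, hdetT, map_one]
  have h3 : (ζ ^ A) ^ (Nat.gcd e (q + 1)) = 1 :=
    pow_gcd_eq_one.mpr ⟨by rw [← pow_mul, hνe], by rw [← pow_mul, hAq, hζd]⟩
  have h5 : ζ ^ QU q n = 1 := by
    obtain ⟨w', hw'⟩ := arith_irr q d e A hq1 hdodd hAq
    rw [hde', hw', pow_mul, pow_mul, h3, one_pow]
  have h6 : ζ ^ (NU q n * (q + 1)) = 1 := by
    obtain ⟨g', hg'⟩ : Nat.gcd n (q + 1) ∣ q + 1 := Nat.gcd_dvd_right _ _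
    rw [hg', ← mul_assoc, NU_mul q n hq1, pow_mul, h5, one_pow]
  obtain ⟨c, -, hc⟩ := scalar_of_pow hF φ ζ _ h6
  refine ⟨c, ?_⟩
  rw [hφ] at hc
  apply (Matrix.toLinAlgEquiv' (R := F) (n := Fin n)).injective
  rw [map_pow, map_smul, map_one, ← hT, hc]

theorem rank_dag (M : Matrix (Fin n) (Fin n) F) : (dag hF M).rank = M.rank := by
  classical
  unfold dag
  rw [Matrix.rank_transpose]
  let e' : (Fin n → F) ≃ (Fin n → F) :=
    { toFun := fun v i => qFrob hF (v i)
      invFun := fun v i => qFrob hF (v i)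
      left_inv := fun v => by
        funext i
        exact qFrob_qFrob hF (v i)
      right_inv := fun v => by
        funext i
        exact qFrob_qFrob hF (v i) }
  have hmv : ∀ u, e' (M.mulVec u) = (M.map (qFrob hF)).mulVec (e' u) := by
    intro u
    funext i
    show qFrob hF (M.mulVec u i) = _
    simp [Matrix.mulVec, dotProduct, map_sum, map_mul, e']
  have hcard : Nat.card (LinearMap.range (M.map (qFrob hF)).mulVecLin) =
      Nat.card (LinearMap.range M.mulVecLin) := by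
    refine Nat.card_congr (Equiv.subtypeEquiv e'.symm ?_).symm.symm
    intro w
    constructor
    · rintro ⟨u, rfl⟩
      refine ⟨e'.symm u, ?_⟩
      apply e'.injective
      show e' (M.mulVec (e'.symm u)) = e' (e'.symm _)
      rw [hmv, Equiv.apply_symm_apply, Equiv.apply_symm_apply]
      rfl
    · rintro ⟨u, hu⟩
      refine ⟨e' u, ?_⟩
      apply e'.symm.injective
      have hu2 : M.mulVec u = e'.symm w := hu
      rw [← hu2]
      show e'.symm ((M.map (qFrob hF)).mulVec (e' u)) = _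
      rw [← hmv, Equiv.symm_apply_apply]
  have h1 := Module.natCard_eq_pow_finrank (K := F) (V := LinearMap.range (M.map (qFrob hF)).mulVecLin)
  have h2 := Module.natCard_eq_pow_finrank (K := F) (V := LinearMap.range M.mulVecLin)
  rw [h1, h2] at hcard
  exact Nat.pow_right_injective (show 2 ≤ Nat.card F by
    rw [Nat.card_eq_fintype_card]
    exact Fintype.one_lt_card) hcard

theorem rank_idem (E : Matrix (Fin n) (Fin n) F) (he2 : E * E = E) : E.rank + (1 - E).rank = n := by
  have h1 := LinearMap.finrank_range_add_finrank_ker E.mulVecLin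
  have h2 : LinearMap.ker E.mulVecLin = LinearMap.range (1 - E).mulVecLin := by
    ext v
    constructor
    · intro hv
      have hv' : E.mulVec v = 0 := hv
      refine ⟨v, ?_⟩
      show (1 - E).mulVec v = v
      rw [Matrix.sub_mulVec, Matrix.one_mulVec, hv', sub_zero]
    · rintro ⟨u, rfl⟩
      show E.mulVec ((1 - E).mulVec u) = 0
      rw [Matrix.mulVec_mulVec, mul_sub, mul_one, he2, sub_self, Matrix.zero_mulVec]
  rw [h2] at h1
  simpa [Matrix.rank] using h1

theorem aeval_restrict {V : Type*} [AddCommGroup V] [Module F V] (T : V →ₗ[F] V) (W : Submodule F V)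
    (h : W ≤ W.comap T) (P : F[X]) (w : W) :
    ((aeval (T.restrict h) P w : W) : V) = aeval T P (w : V) := by
  induction P using Polynomial.induction_on' with
  | add p₁ p₂ hp₁ hp₂ =>
    rw [map_add, map_add, LinearMap.add_apply, LinearMap.add_apply, Submodule.coe_add, hp₁, hp₂]
  | monomial k a =>
    rw [aeval_monomial, aeval_monomial, Module.End.mul_apply, Module.End.mul_apply,
      Algebra.algebraMap_eq_smul_one, Algebra.algebraMap_eq_smul_one]
    have h1 : ∀ (m : ℕ) (w : W), (((T.restrict h) ^ m) w : V) = (T ^ m) (w : V) := by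
      intro m
      induction m with
      | zero => intro w; simp
      | succ m ih =>
        intro w
        rw [pow_succ, pow_succ, Module.End.mul_apply, Module.End.mul_apply, ih]
        rfl
    simp [h1]

/-- The split case. -/
theorem split_case (hn : 1 ≤ n) (S E : Matrix (Fin n) (Fin n) F) (hS : dag hF S * S = 1)
    (hdet : S.det = 1) (he2 : E * E = E) (hcomm : E * S = S * E) (hdagE : dag hF E = 1 - E)
    (a : F[X]) (ha : Irreducible a) (hE : aeval S a * E = 0) :
    ∃ c : F, S ^ NU q n = c • (1 : Matrix (Fin n) (Fin n) F) := by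
  classical
  have hq2 : 2 ≤ q := qfrob_two_le hF
  have hq1 : 1 ≤ q := by omega
  haveI : Fact (Irreducible a) := ⟨ha⟩
  have hrank : n = 2 * E.rank := by
    have h1 := rank_idem E he2
    have h2 := rank_dag hF E
    rw [hdagE] at h2
    omega
  obtain ⟨W, hW⟩ : ∃ W, W = LinearMap.range E.mulVecLin := ⟨_, rfl⟩
  have hWfr : Module.finrank F W = E.rank := by
    rw [hW]
    rfl
  have hWE : ∀ w ∈ W, E.mulVec w = w := by
    intro w hw
    rw [hW] at hw
    obtain ⟨u, rfl⟩ := hw
    show E.mulVec (E.mulVec u) = E.mulVec u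
    rw [Matrix.mulVec_mulVec, he2]
  have hEW : ∀ u, E.mulVec u ∈ W := by
    intro u
    rw [hW]
    exact ⟨u, rfl⟩
  have hWS : W ≤ W.comap S.mulVecLin := by
    intro w hw
    show S.mulVec w ∈ W
    rw [← hWE w hw, Matrix.mulVec_mulVec, ← hcomm, ← Matrix.mulVec_mulVec]
    exact hEW _
  obtain ⟨T₀, hT₀⟩ : ∃ T₀, T₀ = S.mulVecLin.restrict hWS := ⟨_, rfl⟩
  have hTa : ∀ P : F[X], aeval S.mulVecLin P = (aeval S P).mulVecLin := by
    intro P
    have h1 : S.mulVecLin = Matrix.toLinAlgEquiv' S := rfl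
    rw [h1, aeval_algEquiv]
    rfl
  have hT₀a : aeval T₀ a = 0 := by
    refine LinearMap.ext fun w => ?_
    apply Subtype.ext
    rw [hT₀, aeval_restrict, hTa]
    show (aeval S a).mulVec (w : Fin n → F) = 0
    rw [← hWE w w.2, Matrix.mulVec_mulVec, hE, Matrix.zero_mulVec]
  have hT₀pow : ∀ (m : ℕ) (w : W), (((T₀ ^ m) w : W) : Fin n → F) = (S ^ m).mulVec (w : Fin n → F) := by
    intro m
    induction m with
    | zero =>
      intro w
      simp
    | succ m ih =>
      intro w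
      rw [pow_succ, Module.End.mul_apply, ih, pow_succ, ← Matrix.mulVec_mulVec, hT₀]
      rfl
  obtain ⟨f', hf'⟩ : ∃ f' : Matrix (Fin n) (Fin n) F, f' = 1 - E := ⟨_, rfl⟩
  have hef : E * f' = 0 := by rw [hf', mul_sub, mul_one, he2, sub_self]
  have hfe : f' * E = 0 := by rw [hf', sub_mul, one_mul, he2, sub_self]
  have hff : f' * f' = f' := by rw [hf', sub_mul, one_mul, mul_sub, mul_one, he2]; abel
  have hsum : E + f' = 1 := by rw [hf']; abel
  have hfS : f' * S = S * f' := by rw [hf', sub_mul, mul_sub, one_mul, mul_one, hcomm]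
  obtain ⟨X, hXd⟩ : ∃ X, X = S * E + f' := ⟨_, rfl⟩
  obtain ⟨Y, hYd⟩ : ∃ Y, Y = S * f' + E := ⟨_, rfl⟩
  have hXY : X * Y = S := by
    rw [hXd, hYd]
    calc (S * E + f') * (S * f' + E) = S * (E * S) * f' + S * (E * E) + f' * S * f' + f' * E := by
          noncomm_ring
      _ = S * (S * E) * f' + S * E + S * f' * f' + 0 := by rw [hcomm, he2, hfS, hfe]
      _ = S * S * (E * f') + S * E + S * (f' * f') := by noncomm_ring
      _ = S * (E + f') := by rw [hef, hff]; noncomm_ring
      _ = S := by rw [hsum, mul_one]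
  have hSd : S * dag hF S = 1 := mul_eq_one_comm.mp hS
  have hdSE : dag hF S * E = E * dag hF S := by
    calc dag hF S * E = dag hF S * E * (S * dag hF S) := by rw [hSd, mul_one]
      _ = dag hF S * (E * S) * dag hF S := by noncomm_ring
      _ = (dag hF S * S) * E * dag hF S := by rw [hcomm]; noncomm_ring
      _ = E * dag hF S := by rw [hS, one_mul]
  have hdSf : dag hF S * f' = f' * dag hF S := by
    rw [hf', mul_sub, sub_mul, mul_one, one_mul, hdSE]
  have hdf : dag hF f' = E := by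
    rw [hf', dag_sub, dag_one, hdagE]
    abel
  have hdE : dag hF E = f' := by rw [hdagE, hf']
  have hdX : dag hF X = f' * dag hF S + E := by
    rw [hXd, dag_add, dag_mul, hdE, hdf]
  have hYX : Y * dag hF X = 1 := by
    rw [hYd, hdX]
    calc (S * f' + E) * (f' * dag hF S + E) = S * (f' * f') * dag hF S + S * (f' * E) +
          (E * f') * dag hF S + E * E := by noncomm_ring
      _ = S * f' * dag hF S + E := by rw [hff, hfe, hef, he2]; noncomm_ring
      _ = S * (dag hF S * f') + E := by rw [hdSf]; noncomm_ring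
      _ = (S * dag hF S) * f' + E := by noncomm_ring
      _ = 1 := by rw [hSd, one_mul, add_comm, hsum]
  have hd1 : X.det * Y.det = 1 := by rw [← Matrix.det_mul, hXY, hdet]
  have hd2 : Y.det * qFrob hF X.det = 1 := by
    rw [← det_dag, ← Matrix.det_mul, hYX, Matrix.det_one]
  obtain ⟨δ, hδ⟩ : ∃ δ, δ = X.det := ⟨_, rfl⟩
  rw [← hδ] at hd1 hd2
  have hδ0 : δ ≠ 0 := left_ne_zero_of_mul_eq_one hd1
  have hY0 : Y.det ≠ 0 := right_ne_zero_of_mul_eq_one hd1
  have hδq : δ ^ q = δ := by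
    rw [← qFrob_apply hF]
    exact mul_left_cancel₀ hY0 (by rw [hd2, mul_comm, hd1])
  have hδq1 : δ ^ (q - 1) = 1 := by
    have e1 : q = (q - 1) + 1 := by omega
    apply mul_right_cancel₀ hδ0
    rw [one_mul, ← pow_succ, ← e1, hδq]
  -- the determinant of `X`
  have hXW : W ≤ W.comap X.mulVecLin := by
    intro w hw
    show X.mulVec w ∈ W
    have h1 : X.mulVec w = S.mulVec w := by
      rw [hXd, Matrix.add_mulVec, ← Matrix.mulVec_mulVec, hWE w hw, hf', Matrix.sub_mulVec,
        Matrix.one_mulVec, hWE w hw, sub_self, add_zero]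
    rw [h1]
    exact hWS hw
  have hdetX : X.det = LinearMap.det T₀ := by
    have h1 := LinearMap.det_eq_det_mul_det W X.mulVecLin hXW
    have h2 : X.mulVecLin.restrict hXW = T₀ := by
      refine LinearMap.ext fun w => ?_
      apply Subtype.ext
      show X.mulVec (w : Fin n → F) = _
      rw [hT₀]
      show _ = S.mulVec (w : Fin n → F)
      rw [hXd, Matrix.add_mulVec, ← Matrix.mulVec_mulVec, hWE w w.2, hf', Matrix.sub_mulVec,
        Matrix.one_mulVec, hWE w w.2, sub_self, add_zero]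
    have h3 : W.mapQ W X.mulVecLin hXW = LinearMap.id := by
      apply Submodule.linearMap_qext
      refine LinearMap.ext fun v => ?_
      show W.mkQ (X.mulVec v) = W.mkQ v
      rw [Submodule.mkQ_apply, Submodule.mkQ_apply, Submodule.Quotient.eq]
      have h4 : X.mulVec v - v = E.mulVec ((S - 1).mulVec v) := by
        rw [Matrix.mulVec_mulVec, hXd, hf', Matrix.add_mulVec, Matrix.sub_mulVec, Matrix.one_mulVec,
          mul_sub, mul_one, hcomm, Matrix.sub_mulVec]
        abel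
      rw [h4]
      exact hEW _
    rw [h2, h3, LinearMap.det_id, mul_one] at h1
    rw [← h1]
    exact (LinearMap.det_toLin' X).symm
  obtain ⟨e₁, φ, hde, hnorm, hφ⟩ := irr_data T₀ a ha hT₀a
  let K := AdjoinRoot a
  obtain ⟨ζ, hζ⟩ : ∃ ζ : K, ζ = AdjoinRoot.root a := ⟨_, rfl⟩
  rw [← hζ] at hnorm hφ
  haveI : Module.Finite F K := (AdjoinRoot.powerBasis ha.ne_zero).finite
  haveI : Finite K := Module.finite_of_finite F
  letI : Fintype K := Fintype.ofFinite K
  obtain ⟨d, hd⟩ : ∃ d, d = Module.finrank F K := ⟨_, rfl⟩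
  rw [← hd] at hde
  have hd0 : 0 < d := hd ▸ Module.finrank_pos
  have hn2 : n = 2 * d * e₁ := by
    rw [hrank, ← hWfr, hde]
    ring
  have he₁0 : e₁ ≠ 0 := by
    rintro rfl
    rw [mul_zero] at hn2
    omega
  have hν : algebraMap F K (Algebra.norm F ζ) = ζ ^ SS (q ^ 2) d := by
    rw [norm_SS hF ζ, ← hd]
  have hSS0 : 0 < SS (q ^ 2) d := by
    obtain ⟨d', rfl⟩ : ∃ d', d = d' + 1 := ⟨d - 1, by omega⟩
    rw [SS_succ]
    have : 0 < (q ^ 2) ^ d' := by positivity
    omega
  have hδν : δ = (Algebra.norm F ζ) ^ e₁ := by rw [hδ, hdetX, hnorm]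
  have hζ0 : ζ ≠ 0 := by
    intro h0
    have h1 : algebraMap F K (Algebra.norm F ζ) = 0 := by rw [hν, h0, zero_pow hSS0.ne']
    have h2 : Algebra.norm F ζ = 0 := (map_eq_zero _).mp h1
    rw [h2, zero_pow he₁0] at hδν
    exact hδ0 hδν
  obtain ⟨E₀, hE₀d⟩ : ∃ E₀, E₀ = SS (q ^ 2) d * (q - 1) := ⟨_, rfl⟩
  have hE₀ : E₀ * (q + 1) = q ^ (2 * d) - 1 := by
    have h1 := SS_mul (q ^ 2) d (Nat.one_le_pow _ _ hq1)
    have h3 : q ^ 2 - 1 = (q + 1) * (q - 1) := by
      obtain ⟨k, rfl⟩ : ∃ k, q = k + 1 := ⟨q - 1, by omega⟩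
      simp only [Nat.add_sub_cancel]
      have : (k + 1) ^ 2 = (k + 1 + 1) * k + 1 := by ring
      omega
    rw [pow_mul, ← h1, h3, hE₀d]
    ring
  have hcardK : Fintype.card K = q ^ (2 * d) := by
    rw [← Nat.card_eq_fintype_card, Module.natCard_eq_pow_finrank (K := F),
      Nat.card_eq_fintype_card, hF, ← hd, pow_mul]
  have h1 : ζ ^ (E₀ * e₁) = 1 := by
    have e1 : E₀ * e₁ = SS (q ^ 2) d * (e₁ * (q - 1)) := by
      rw [hE₀d]
      ring
    rw [e1, pow_mul, ← hν, ← map_pow, pow_mul, ← hδν, hδq1, map_one]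
  have h2 : ζ ^ (E₀ * (q + 1)) = 1 := by
    rw [hE₀, ← hcardK]
    exact FiniteField.pow_card_sub_one_eq_one ζ hζ0
  have h3 : (ζ ^ E₀) ^ (Nat.gcd e₁ (q + 1)) = 1 :=
    pow_gcd_eq_one.mpr ⟨by rw [← pow_mul, h1], by rw [← pow_mul, h2]⟩
  have h4 : ζ ^ (NU q n * (q + 1)) = 1 := by
    obtain ⟨w', hw'⟩ := arith_split q d e₁ E₀ hq2 hE₀
    rw [hn2, hw', pow_mul, pow_mul, h3, one_pow]
  obtain ⟨c, hc2, hc⟩ := scalar_of_pow hF φ ζ _ h4
  rw [hφ] at hc
  obtain ⟨N, hN⟩ : ∃ N, N = NU q n := ⟨_, rfl⟩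
  rw [← hN] at hc ⊢
  have h5 : S ^ N * E = c • E := by
    apply mat_eq_of_mulVec
    intro x
    rw [← Matrix.mulVec_mulVec, Matrix.smul_mulVec]
    have h6 := congrArg (fun T : Module.End F W => ((T ⟨E.mulVec x, hEW x⟩ : W) : Fin n → F)) hc
    simp only [hT₀pow] at h6
    rw [h6]
    rfl
  have h6 : f' * dag hF S ^ N = qFrob hF c • f' := by
    have h7 := congrArg (dag hF) h5
    rwa [dag_mul, dag_pow, dag_smul, hdE] at h7
  have h7 : dag hF S ^ N * S ^ N = 1 := by
    have hc3 : Commute (dag hF S) S := by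
      show dag hF S * S = S * dag hF S
      rw [hS, hSd]
    rw [← hc3.mul_pow, hS, one_pow]
  have h8 : f' = qFrob hF c • (f' * S ^ N) := by
    calc f' = f' * (dag hF S ^ N * S ^ N) := by rw [h7, mul_one]
      _ = (f' * dag hF S ^ N) * S ^ N := by rw [mul_assoc]
      _ = _ := by rw [h6, smul_mul_assoc]
  have h9 : f' * S ^ N = c • f' := by
    have hcc : c * qFrob hF c = 1 := by
      rw [qFrob_apply, ← pow_succ', hc2]
    conv_rhs => rw [h8]
    rw [smul_smul, hcc, one_smul]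
  have h10 : S ^ N * f' = f' * S ^ N := by
    have hc3 : Commute S f' := hfS.symm
    exact (hc3.pow_left N)
  refine ⟨c, ?_⟩
  calc S ^ N = S ^ N * (E + f') := by rw [hsum, mul_one]
    _ = c • (E + f') := by rw [mul_add, h5, h10, h9, smul_add]
    _ = _ := by rw [hsum]

theorem exists_of_not_irr {f : F[X]} (hf0 : f ≠ 0) (hfnu : ¬ IsUnit f) (hsep : f.Separable)
    (hirr : ¬ Irreducible f) :
    ∃ a b u v : F[X], Irreducible a ∧ f = a * b ∧ ¬ IsUnit b ∧ u * a + v * b = 1 := by
  obtain ⟨a, ha, b, hab⟩ := WfDvdMonoid.exists_irreducible_factor hfnu hf0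
  have hb : ¬ IsUnit b := by
    intro hb
    apply hirr
    rw [hab]
    exact (irreducible_mul_isUnit hb).mpr ha
  have hcopr : IsCoprime a b := by
    refine Polynomial.Separable.isCoprime ?_
    rw [← hab]
    exact hsep
  obtain ⟨u, v, huv⟩ := hcopr
  exact ⟨a, b, u, v, ha, hab, hb, huv⟩

include hF in
/-- The dichotomy for elements of order prime to `r`. -/
theorem dichotomy (hn : 2 ≤ n) (p a : ℕ) (hp : p.Prime) (hq : q = p ^ a) [CharP F p] (r : ℕ)
    (hr : r.Prime) (hrq : r ∣ q + 1) (hrn : ¬ r ∣ n) (x : PSU n F q) (hro : ¬ r ∣ orderOf x) :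
    (∃ y : PSU n F q, orderOf y = orderOf x * r) ∨ ordCompl[p] (orderOf x) ∣ NU q n := by
  classical
  obtain ⟨g, rfl⟩ := QuotientGroup.mk'_surjective _ x
  obtain ⟨o, hodef⟩ : ∃ o, o = orderOf g := ⟨_, rfl⟩
  have ho0 : o ≠ 0 := hodef ▸ (orderOf_pos g).ne'
  obtain ⟨P, hP⟩ : ∃ P, P = ordProj[p] o := ⟨_, rfl⟩
  obtain ⟨β, hβ⟩ : ∃ β, β = ordCompl[p] o := ⟨_, rfl⟩
  have hoPβ : P * β = o := by rw [hP, hβ]; exact Nat.ordProj_mul_ordCompl_eq_self o p
  have hβp : ¬ p ∣ β := hβ ▸ Nat.not_dvd_ordCompl hp ho0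
  have hβ0 : β ≠ 0 := by
    rintro rfl
    exact hβp (dvd_zero _)
  obtain ⟨s, hs⟩ : ∃ s, s = g ^ P := ⟨_, rfl⟩
  obtain ⟨S, hSd⟩ : ∃ S : Matrix (Fin n) (Fin n) F, S = (s.1 : Matrix (Fin n) (Fin n) F) := ⟨_, rfl⟩
  have hSg : S = (g.1 : Matrix (Fin n) (Fin n) F) ^ P := by rw [hSd, hs, coe_pow_SU]
  have hSβ : S ^ β = 1 := by
    have h1 : s ^ β = 1 := by rw [hs, ← pow_mul, hoPβ, hodef, pow_orderOf_eq_one]
    have h2 := coe_pow_SU s β
    rw [h1, ← hSd] at h2
    exact h2.symm
  have hdet : S.det = 1 := hSd ▸ s.1.2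
  have hS : dag hF S * S = 1 := hSd ▸ SU_dag hF s
  have hβF : (β : F) ≠ 0 := fun h => hβp ((CharP.cast_eq_zero_iff F p β).mp h)
  obtain ⟨f, hf⟩ : ∃ f, f = minpoly F S := ⟨_, rfl⟩
  have hAsep : (X ^ β - C (1 : F) : F[X]).Separable := separable_X_pow_sub_C (1 : F) hβF one_ne_zero
  have hfA : f ∣ (X ^ β - C (1 : F) : F[X]) := by
    rw [hf]
    refine minpoly.dvd F S ?_
    simp [hSβ]
  have hfsep : f.Separable := hAsep.of_dvd hfA
  have hgc : Commute S (g.1 : Matrix (Fin n) (Fin n) F) := by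
    rw [hSg]
    exact (Commute.refl _).pow_left P
  by_cases hidem : ∃ E : Matrix (Fin n) (Fin n) F, (∃ P' : F[X], E = aeval S P') ∧ E * E = E ∧ E ≠ 0 ∧
      E ≠ 1 ∧ dag hF E = E
  · left
    obtain ⟨E, ⟨P', rfl⟩, he2, he0, he1, hd⟩ := hidem
    exact exists_order_mul hF hn r hr hrq hrn g _ he2 he0 he1 (aeval_commute S _ hgc P') hd hro
  · right
    push Not at hidem
    suffices hsc : ∃ c : F, S ^ NU q n = c • (1 : Matrix (Fin n) (Fin n) F) by
      obtain ⟨c, hc⟩ := hsc
      obtain ⟨N, hN⟩ : ∃ N, N = NU q n := ⟨_, rfl⟩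
      rw [← hN] at hc ⊢
      have h1 : piU n F q (s ^ N) = 1 := by
        refine piU_eq_one_of_scalar _ c ?_
        rw [coe_pow_SU, ← hSd, hc]
      have h2 : (QuotientGroup.mk' _ g : PSU n F q) ^ (P * N) = 1 := by
        rw [pow_mul, ← map_pow, ← map_pow, ← hs]
        exact h1
      have h3 := orderOf_dvd_of_pow_eq_one h2
      obtain ⟨o', ho'⟩ : ∃ o', o' = orderOf (QuotientGroup.mk' _ g : PSU n F q) := ⟨_, rfl⟩
      rw [← ho'] at h3 ⊢
      have ho'0 : o' ≠ 0 := by
        rw [ho']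
        exact (orderOf_pos _).ne'
      have h4 : ordCompl[p] o' ∣ P * N := (Nat.ordCompl_dvd o' p).trans h3
      have hcop : Nat.Coprime (ordCompl[p] o') P := by
        rw [hP]
        exact Nat.Coprime.pow_right _ (Nat.coprime_ordCompl hp ho'0).symm
      exact hcop.dvd_of_dvd_mul_left h4
    obtain ⟨β', hβ'⟩ : ∃ β', β = β' + 1 := ⟨β - 1, by omega⟩
    rw [hβ'] at hSβ
    by_cases hirr : Irreducible f
    · exact irr_case hF (by omega) p a hp hq S β' hSβ hS hdet (hf ▸ hirr)
    · have hint : IsIntegral F S := Matrix.isIntegral S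
      haveI : Nonempty (Fin n) := ⟨⟨0, by omega⟩⟩
      have hfnu : ¬ IsUnit f := hf ▸ minpoly.not_isUnit F S
      have hf0 : f ≠ 0 := hf ▸ minpoly.ne_zero hint
      have hfS : aeval S f = 0 := hf ▸ minpoly.aeval F S
      obtain ⟨a', b, u, v, ha', hab, hb, huv⟩ := exists_of_not_irr hf0 hfnu hfsep hirr
      have ha0 : a' ≠ 0 := ha'.ne_zero
      have hb0 : b ≠ 0 := by
        rintro rfl
        rw [mul_zero] at hab
        exact hf0 hab
      obtain ⟨E, hEd⟩ : ∃ E, E = aeval S (v * b) := ⟨_, rfl⟩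
      have hdagpoly : ∀ P' : F[X], ∃ P'' : F[X], dag hF (aeval S P') = aeval S P'' := by
        intro P'
        have hdS : dag hF S = S ^ β' := by
          have h1 : S ^ β' * S = 1 := by rw [← pow_succ, hSβ]
          calc dag hF S = dag hF S * (S * S ^ β') := by
                rw [mul_eq_one_comm.mp h1, mul_one]
            _ = S ^ β' := by rw [← mul_assoc, hS, one_mul]
        refine ⟨(P'.map (qFrob hF)).comp (X ^ β'), ?_⟩
        rw [dag_aeval, aeval_comp, hdS]
        simp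
      obtain ⟨Q, hQ⟩ := hdagpoly (v * b)
      obtain ⟨D, hDd⟩ : ∃ D, D = dag hF E := ⟨_, rfl⟩
      have hDQ : D = aeval S Q := by rw [hDd, hEd, hQ]
      have he2 : E * E = E := by
        have h1 : (v * b) * (v * b) - v * b = -(u * v) * f := by
          rw [hab]
          linear_combination (v * b) * huv
        have h2 : aeval S ((v * b) * (v * b) - v * b) = 0 := by
          rw [h1, map_mul, hfS, mul_zero]
        rw [map_sub, map_mul] at h2
        rw [hEd]
        exact sub_eq_zero.mp h2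
      have he0 : E ≠ 0 := by
        intro h
        rw [hEd] at h
        have h1 : f ∣ v * b := hf ▸ minpoly.dvd F S h
        rw [hab] at h1
        obtain ⟨c, hc⟩ := h1
        have h2 : v = a' * c := by
          have : b * v = b * (a' * c) := by
            rw [mul_comm b v, hc]
            ring
          exact mul_left_cancel₀ hb0 this
        apply ha'.not_isUnit
        refine isUnit_of_dvd_one ⟨u + c * b, ?_⟩
        rw [← huv, h2]
        ring
      have he1 : E ≠ 1 := by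
        intro h
        have h0 : aeval S (u * a') = 0 := by
          have h1 : u * a' = 1 - v * b := by rw [← huv]; ring
          rw [h1, map_sub, ← hEd, h, map_one, sub_self]
        have h1 : f ∣ u * a' := hf ▸ minpoly.dvd F S h0
        rw [hab] at h1
        obtain ⟨c, hc⟩ := h1
        have h2 : u = b * c := by
          have : a' * u = a' * (b * c) := by rw [mul_comm a' u, hc, mul_assoc]
          exact mul_left_cancel₀ ha0 this
        apply hb
        refine isUnit_of_dvd_one ⟨c * a' + v, ?_⟩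
        rw [← huv, h2]
        ring
      have hE : aeval S a' * E = 0 := by
        rw [hEd, ← map_mul]
        have h1 : a' * (v * b) = v * f := by rw [hab]; ring
        rw [h1, map_mul, hfS, mul_zero]
      have hES : E * S = S * E := by
        have h1 := aeval_commute S S (Commute.refl S) (v * b)
        rw [hEd]
        exact h1
      have hED : E * D = D * E := by
        rw [hEd, hDQ, ← map_mul, ← map_mul, mul_comm]
      have hDD : D * D = D := by
        rw [hDd, ← dag_mul, he2]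
      have hdD : dag hF D = E := by rw [hDd, dag_dag]
      have hE1 : E * D = 0 := by
        by_contra hne
        have h1 := hidem (E * D) ⟨(v * b) * Q, by rw [hEd, hDQ, ← map_mul]⟩ (by
          calc E * D * (E * D) = (E * E) * (D * D) := by
                rw [mul_assoc, ← mul_assoc D, ← hED, mul_assoc, mul_assoc]
            _ = E * D := by rw [he2, hDD]) hne
        by_cases h2 : E * D = 1
        · apply he1
          calc E = E * (E * D) := by rw [h2, mul_one]
            _ = (E * E) * D := by rw [mul_assoc]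
            _ = 1 := by rw [he2, h2]
        · apply h1 h2
          rw [dag_mul, hdD, ← hDd]
      have hE2 : E + D = 1 := by
        by_contra hne
        have h1 := hidem (E + D) ⟨(v * b) + Q, by rw [hEd, hDQ, map_add]⟩ (by
          rw [add_mul, mul_add, mul_add, he2, hDD, hE1, ← hED, hE1, zero_add, add_zero]) ?_ hne
        · apply h1
          rw [dag_add, hdD, hDd.symm, add_comm]
        · intro h
          have h2 : D = -E := eq_neg_of_add_eq_zero_right h
          apply he0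
          have h3 : E * D = -E := by rw [h2, mul_neg, he2]
          rw [hE1] at h3
          exact (neg_eq_zero.mp h3.symm)
      have hdagE : dag hF E = 1 - E := by
        rw [← hDd]
        exact eq_sub_of_add_eq' hE2
      exact split_case hF (by omega) S E hS hdet he2 hES hdagE a' ha' hE

end CfsgLib.SpecU
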