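import Mathlib
import Cfsg.Agent.Lib.ClassMax.SpecU3

/-! The main torus of `SU_n(q)`. -/

set_option autoImplicit false

namespace CfsgLib.SpecU

open Polynomial Cfsg CfsgLib.ClassGeo CfsgLib.Spec3

variable {F : Type*} [Field F] [Fintype F] {q : ℕ} (hF : Fintype.card F = q ^ 2) {n : ℕ}

include hF in
theorem order_torus (hn : 2 ≤ n) (g : SU n F q) {K : Type*} [Field K] [Algebra F K] (a : K)
    (ha : orderOf a = QU q n)
    (h1 : ∀ k c, ((g ^ k).1 : Matrix (Fin n) (Fin n) F) = c • (1 : Matrix (Fin n) (Fin n) F) →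
      a ^ k = algebraMap F K c)
    (h2 : ∀ k, (a ^ k) ^ (q + 1) = 1 →
      ∃ c : F, ((g ^ k).1 : Matrix (Fin n) (Fin n) F) = c • (1 : Matrix (Fin n) (Fin n) F)) :
    orderOf (piU n F q g) = NU q n := by
  have hq2 : 2 ≤ q := qfrob_two_le hF
  have hq1 : 1 ≤ q := by omega
  refine eq_of_dvd_iff fun k => ?_
  rw [orderOf_dvd_iff_pow_eq_one, ← map_pow]
  constructor
  · intro h
    obtain ⟨c, hc⟩ := scalar_of_piU_eq_one hF hn _ h
    have h3 := scalar_norm hF (by omega) _ c hc
    have h4 : a ^ (k * (q + 1)) = 1 := by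
      rw [pow_mul, h1 k c hc, ← map_pow, h3, map_one]
    have h5 := orderOf_dvd_of_pow_eq_one h4
    rw [ha] at h5
    exact NU_dvd_of q n k hq1 h5
  · intro h
    have h3 := QU_dvd_of q n k hq1 h
    rw [← ha] at h3
    have h4 : (a ^ k) ^ (q + 1) = 1 := by
      rw [← pow_mul]
      exact orderOf_dvd_iff_pow_eq_one.mp h3
    obtain ⟨c, hc⟩ := h2 k h4
    exact piU_eq_one_of_scalar _ c hc

theorem trace_alg {K : Type*} [Field K] [Algebra F K] (c : F) (z : K) :
    Algebra.trace F K (algebraMap F K c * z) = c * Algebra.trace F K z := by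
  rw [← Algebra.smul_def, map_smul, smul_eq_mul]

theorem trace_ne {K : Type*} [Field K] [Finite K] [Algebra F K] (u : K)
    (h : ∀ v, Algebra.trace F K (u * v) = 0) : u = 0 := by
  haveI : Module.Finite F K := Module.Finite.of_finite
  by_contra hne
  obtain ⟨y₀, hy₀⟩ := Algebra.trace_surjective F K 1
  have h1 := h (u⁻¹ * y₀)
  rw [← mul_assoc, mul_inv_cancel₀ hne, one_mul, hy₀] at h1
  exact one_ne_zero h1

include hF in
theorem mulLeft_pow {K : Type*} [Field K] [Algebra F K] (w : K) (k : ℕ) (x : K) :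
    ((LinearMap.mulLeft F w) ^ k) x = w ^ k * x := by
  induction k generalizing x with
  | zero => simp
  | succ k ih =>
    rw [pow_succ, Module.End.mul_apply, ih, pow_succ]
    show w ^ k * (w * x) = _
    ring

include hF in
/-- The torus for odd `n`. -/
theorem torus_odd {K : Type*} [Field K] [Finite K] [Algebra F K] (hfr : Module.finrank F K = n)
    (hn : 2 ≤ n) (hodd : Odd n) (p a : ℕ) (hp : p.Prime) (hq : q = p ^ a) [CharP F p] :
    ∃ y : PSU n F q, orderOf y = NU q n := by
  classical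
  have hq2 : 2 ≤ q := qfrob_two_le hF
  have hq1 : 1 ≤ q := by omega
  haveI : Fact p.Prime := ⟨hp⟩
  haveI : Module.Finite F K := Module.Finite.of_finite
  haveI : CharP K p := charP_of_injective_algebraMap (algebraMap F K).injective p
  letI : Fintype K := Fintype.ofFinite K
  have hcardK : Fintype.card K = q ^ (2 * n) := by
    rw [← Nat.card_eq_fintype_card, Module.natCard_eq_pow_finrank (K := F),
      Nat.card_eq_fintype_card, hF, hfr, pow_mul]
  let τ : K →+* K := iterateFrobenius K p (a * n)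
  have hτ : ∀ x, τ x = x ^ (q ^ n) := fun x => by
    show (iterateFrobenius K p (a * n)) x = _
    rw [iterateFrobenius_def, hq, pow_mul]
  have hττ : ∀ x, τ (τ x) = x := by
    intro x
    rw [hτ, hτ, ← pow_mul, ← pow_add, ← two_mul, ← hcardK, FiniteField.pow_card]
  have hτF : ∀ c : F, τ (algebraMap F K c) = algebraMap F K (qFrob hF c) := by
    intro c
    rw [hτ, ← map_pow, qFrob_apply]
    congr 1
    obtain ⟨m, hm⟩ := hodd
    rw [hm, pow_succ, pow_mul c, pow_mul q, ← hF, FiniteField.pow_card_pow]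
  obtain ⟨Tr, hTrd⟩ : ∃ Tr, Tr = Algebra.trace F K := ⟨_, rfl⟩
  have hTr : ∀ z, qFrob hF (Tr z) = Tr (τ z) := by
    intro z
    apply (algebraMap F K).injective
    rw [hTrd, ← hτF, FiniteField.algebraMap_trace_eq_sum_pow, FiniteField.algebraMap_trace_eq_sum_pow,
      map_sum]
    refine Finset.sum_congr rfl fun i _ => ?_
    rw [map_pow]
  let B : K →ₛₗ[qFrob hF] K →ₗ[F] F := LinearMap.mk₂'ₛₗ (qFrob hF) (RingHom.id F)
    (fun x y => Tr (τ x * y))
    (by
      intro x x' y
      rw [map_add, add_mul, map_add])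
    (by
      intro c x y
      rw [Algebra.smul_def, map_mul τ, hτF, mul_assoc, hTrd, trace_alg, smul_eq_mul])
    (by
      intro x y y'
      rw [mul_add, map_add])
    (by
      intro c x y
      rw [Algebra.smul_def, mul_left_comm, hTrd, trace_alg, smul_eq_mul]
      rfl)
  have hB : ∀ x y, B x y = Tr (τ x * y) := fun _ _ => rfl
  have hS : ∀ x y, qFrob hF (B x y) = B y x := by
    intro x y
    rw [hB, hB, hTr, map_mul τ, hττ, mul_comm]
  have hsep : ∀ u, (∀ v, B u v = 0) → u = 0 := by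
    intro u hu
    have h1 : τ u = 0 := by
      apply trace_ne (F := F)
      intro v
      rw [← hTrd, ← hB]
      exact hu v
    have h2 := hττ u
    rw [h1, map_zero] at h2
    exact h2.symm
  -- the element
  obtain ⟨v, hv⟩ := IsCyclic.exists_generator (α := Kˣ)
  have hordv : orderOf v = q ^ (2 * n) - 1 := by
    rw [orderOf_eq_card_of_forall_mem_zpowers hv, Nat.card_eq_fintype_card, Fintype.card_units, hcardK]
  obtain ⟨A, hA⟩ : ∃ A, A = QU q n := ⟨_, rfl⟩
  have hAq : A * (q + 1) = q ^ n + 1 := hA ▸ QU_odd q n hq1 hodd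
  have hqn : 1 ≤ q ^ n := Nat.one_le_pow _ _ hq1
  obtain ⟨y', hy'⟩ : ∃ y', q ^ n = y' + 1 := ⟨q ^ n - 1, by omega⟩
  have hfac : q ^ (2 * n) - 1 = (q ^ n - 1) * (q + 1) * A := by
    rw [mul_comm 2 n, pow_mul, hy']
    simp only [Nat.add_sub_cancel]
    calc (y' + 1) ^ 2 - 1 = y' * (y' + 1 + 1) := by
          have : (y' + 1) ^ 2 = y' * (y' + 1 + 1) + 1 := by ring
          omega
      _ = y' * (q ^ n + 1) := by rw [hy']
      _ = y' * (q + 1) * A := by rw [← hAq]; ring
  have hq3 : 0 < q ^ n - 1 := by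
    have h1 : 2 ^ n ≤ q ^ n := Nat.pow_le_pow_left hq2 n
    have h2 : 2 ^ 2 ≤ 2 ^ n := Nat.pow_le_pow_right (by norm_num) hn
    omega
  have hc0 : (q ^ n - 1) * (q + 1) ≠ 0 := by positivity
  obtain ⟨wu, hwu⟩ : ∃ wu, wu = v ^ ((q ^ n - 1) * (q + 1)) := ⟨_, rfl⟩
  have hwuord : orderOf wu = A := by
    rw [hwu, orderOf_pow_of_dvd hc0 ⟨A, by rw [hordv, hfac]⟩, hordv, hfac]
    exact Nat.mul_div_cancel_left _ (Nat.pos_of_ne_zero hc0)
  obtain ⟨w, hw⟩ : ∃ w : K, w = wu := ⟨_, rfl⟩
  have hword : orderOf w = A := by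
    rw [hw, orderOf_units, hwuord]
  have hwA : w ^ A = 1 := hword ▸ pow_orderOf_eq_one w
  have hw1 : τ w * w = 1 := by
    rw [hτ, ← pow_succ, ← hAq, pow_mul, hwA, one_pow]
  have hnorm : Algebra.norm F w = 1 := by
    apply (algebraMap F K).injective
    rw [norm_SS hF w, hfr, map_one, ← A_mul_B q n A hq1 hAq, pow_mul, hwA, one_pow]
  obtain ⟨T, hT⟩ : ∃ T, T = LinearMap.mulLeft F w := ⟨_, rfl⟩
  have hTx : ∀ (k : ℕ) (x : K), (T ^ k) x = w ^ k * x := by
    intro k x
    rw [hT]
    exact mulLeft_pow hF w k x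
  have hTiso : ∀ x y, B (T x) (T y) = B x y := by
    intro x y
    rw [hB, hB, hT]
    show Tr (τ (w * x) * (w * y)) = _
    rw [map_mul τ]
    congr 1
    calc τ w * τ x * (w * y) = (τ w * w) * (τ x * y) := by ring
      _ = _ := by rw [hw1, one_mul]
  have hdet : LinearMap.det T = 1 := by
    rw [hT, ← hnorm, Algebra.norm_apply]
    rfl
  obtain ⟨g, Φ, hΦ, -⟩ := transfer hF B hS hsep hfr T hTiso hdet
  refine ⟨piU n F q g, ?_⟩
  refine order_torus hF hn g w (hword.trans hA) ?_ ?_
  · intro k c hc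
    have h1 := (transfer_scalar g Φ T hΦ k c).mp hc 1
    rw [hTx, mul_one, Algebra.smul_def, mul_one] at h1
    exact h1
  · intro k hk
    obtain ⟨c, hc, -⟩ := z_mem hF (w ^ k) hk
    refine ⟨c, (transfer_scalar g Φ T hΦ k c).mpr fun x => ?_⟩
    rw [hTx, Algebra.smul_def, hc]

include hF in
/-- The torus for even `n`. -/
theorem torus_even {K : Type*} [Field K] [Finite K] [Algebra F K] (m : ℕ)
    (hfr : Module.finrank F K = m) (hnm : n = 2 * m) (hn : 2 ≤ n) (p a : ℕ) (hp : p.Prime)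
    (hq : q = p ^ a) [CharP F p] : ∃ y : PSU n F q, orderOf y = NU q n := by
  classical
  have hq2 : 2 ≤ q := qfrob_two_le hF
  have hq1 : 1 ≤ q := by omega
  haveI : Fact p.Prime := ⟨hp⟩
  haveI : Module.Finite F K := Module.Finite.of_finite
  haveI : CharP K p := charP_of_injective_algebraMap (algebraMap F K).injective p
  letI : Fintype K := Fintype.ofFinite K
  have hcardK : Fintype.card K = q ^ n := by
    rw [← Nat.card_eq_fintype_card, Module.natCard_eq_pow_finrank (K := F),
      Nat.card_eq_fintype_card, hF, hfr, hnm, pow_mul]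
  let ρ : K →+* K := iterateFrobenius K p a
  have hρ : ∀ x, ρ x = x ^ q := fun x => by
    show (iterateFrobenius K p a) x = _
    rw [iterateFrobenius_def, hq]
  have hρF : ∀ c : F, ρ (algebraMap F K c) = algebraMap F K (qFrob hF c) := by
    intro c
    rw [hρ, ← map_pow, qFrob_apply]
  have hρsurj : Function.Surjective ρ := Finite.surjective_of_injective ρ.injective
  obtain ⟨Tr, hTrd⟩ : ∃ Tr, Tr = Algebra.trace F K := ⟨_, rfl⟩
  have hTra : ∀ (c : F) (z : K), Tr (algebraMap F K c * z) = c * Tr z := by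
    intro c z
    rw [hTrd, trace_alg]
  let B : (K × K) →ₛₗ[qFrob hF] (K × K) →ₗ[F] F := LinearMap.mk₂'ₛₗ (qFrob hF) (RingHom.id F)
    (fun u v => Tr (ρ u.1 * v.2) + qFrob hF (Tr (ρ v.1 * u.2)))
    (by
      intro u u' v
      simp only [Prod.fst_add, Prod.snd_add, map_add, add_mul, mul_add]
      ring)
    (by
      intro c u v
      have e1 : (c • u).1 = algebraMap F K c * u.1 := Algebra.smul_def c u.1
      have e2 : (c • u).2 = algebraMap F K c * u.2 := Algebra.smul_def c u.2
      rw [e1, e2, map_mul ρ, hρF, mul_assoc, hTra, mul_left_comm (ρ v.1), hTra, map_mul (qFrob hF), smul_eq_mul]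
      ring)
    (by
      intro u v v'
      simp only [Prod.fst_add, Prod.snd_add, map_add, add_mul, mul_add]
      ring)
    (by
      intro c u v
      have e1 : (c • v).1 = algebraMap F K c * v.1 := Algebra.smul_def c v.1
      have e2 : (c • v).2 = algebraMap F K c * v.2 := Algebra.smul_def c v.2
      rw [e1, e2, map_mul ρ, hρF, mul_assoc, hTra, mul_left_comm (ρ u.1), hTra, map_mul (qFrob hF), qFrob_qFrob,
        smul_eq_mul, RingHom.id_apply]
      ring)
  have hB : ∀ u v, B u v = Tr (ρ u.1 * v.2) + qFrob hF (Tr (ρ v.1 * u.2)) := fun _ _ => rfl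
  have hS : ∀ x y, qFrob hF (B x y) = B y x := by
    intro x y
    rw [hB, hB, map_add, qFrob_qFrob, add_comm]
  have hsep : ∀ u, (∀ v, B u v = 0) → u = 0 := by
    intro u hu
    have h1 : ρ u.1 = 0 := by
      apply trace_ne (F := F)
      intro y
      have h2 := hu (0, y)
      rw [hB] at h2
      simpa [hTrd] using h2
    have h2 : u.2 = 0 := by
      apply trace_ne (F := F)
      intro y
      obtain ⟨x, rfl⟩ := hρsurj y
      have h3 := hu (x, 0)
      rw [hB] at h3
      have h4 : qFrob hF (Tr (ρ x * u.2)) = 0 := by simpa using h3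
      have h5 : Tr (ρ x * u.2) = 0 := by
        have h6 := congrArg (qFrob hF) h4
        rwa [qFrob_qFrob, map_zero] at h6
      rw [mul_comm, ← hTrd]
      exact h5
    have h3 : u.1 = 0 := by
      apply ρ.injective
      rw [h1, map_zero]
    exact Prod.ext h3 h2
  have hfr2 : Module.finrank F (K × K) = n := by
    rw [Module.finrank_prod, hfr, hnm, two_mul]
  -- the element
  obtain ⟨v, hv⟩ := IsCyclic.exists_generator (α := Kˣ)
  have hordv : orderOf v = q ^ n - 1 := by
    rw [orderOf_eq_card_of_forall_mem_zpowers hv, Nat.card_eq_fintype_card, Fintype.card_units, hcardK]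
  have hevenn : Even n := ⟨m, by omega⟩
  have hQ : QU q n * (q + 1) = q ^ n - 1 := QU_even q n hq1 hevenn
  obtain ⟨wu, hwu⟩ : ∃ wu, wu = v ^ (q + 1) := ⟨_, rfl⟩
  have hwuord : orderOf wu = QU q n := by
    rw [hwu, orderOf_pow_of_dvd (by omega) ⟨QU q n, by rw [hordv, ← hQ, mul_comm]⟩, hordv, ← hQ]
    exact Nat.mul_div_cancel _ (by omega)
  obtain ⟨w, hw⟩ : ∃ w : K, w = wu := ⟨_, rfl⟩
  have hword : orderOf w = QU q n := by
    rw [hw, orderOf_units, hwuord]
  have hw0 : w ≠ 0 := hw ▸ wu.ne_zero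
  have hρw0 : ρ w ≠ 0 := fun h => hw0 (ρ.injective (by rw [h, map_zero]))
  obtain ⟨ν, hνd⟩ : ∃ ν, ν = Algebra.norm F w := ⟨_, rfl⟩
  have hν : algebraMap F K ν = w ^ SS (q ^ 2) m := by
    rw [hνd, norm_SS hF w, hfr]
  have hνq1 : ν ^ (q - 1) = 1 := by
    apply (algebraMap F K).injective
    rw [map_pow, hν, map_one, ← pow_mul]
    have hwv : w = (v : K) ^ (q + 1) := by rw [hw, hwu, Units.val_pow_eq_pow_val]
    have h1 := SS_mul (q ^ 2) m (Nat.one_le_pow _ _ hq1)
    have h3 : q ^ 2 - 1 = (q + 1) * (q - 1) := by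
      obtain ⟨k, rfl⟩ : ∃ k, q = k + 1 := ⟨q - 1, by omega⟩
      simp only [Nat.add_sub_cancel]
      have : (k + 1) ^ 2 = (k + 1 + 1) * k + 1 := by ring
      omega
    rw [h3, ← pow_mul, ← hnm] at h1
    have h2 : ((v : K) ^ (q ^ n - 1)) = 1 := by
      rw [← Units.val_pow_eq_pow_val, ← hordv, pow_orderOf_eq_one, Units.val_one]
    have e : (q + 1) * (SS (q ^ 2) m * (q - 1)) = q ^ n - 1 := by
      rw [← h1]
      ring
    rw [hwv, ← pow_mul, e, h2]
  have hν0 : ν ≠ 0 := by
    rintro rfl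
    rw [zero_pow (by omega)] at hνq1
    exact zero_ne_one hνq1
  have hνq : ν ^ q = ν := by
    have e1 : q = (q - 1) + 1 := by omega
    calc ν ^ q = ν ^ ((q - 1) + 1) := by rw [← e1]
      _ = ν := by rw [pow_succ, hνq1, one_mul]
  have hnormρ : Algebra.norm F (ρ w) = ν := by
    apply (algebraMap F K).injective
    rw [norm_SS hF, hfr, ← map_pow ρ, ← hν, hρF, qFrob_apply, hνq]
  obtain ⟨T, hT⟩ : ∃ T : (K × K) →ₗ[F] (K × K), T = LinearMap.prodMap (LinearMap.mulLeft F w)
      (LinearMap.mulLeft F (ρ w)⁻¹) := ⟨_, rfl⟩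
  have hTu : ∀ u : K × K, T u = (w * u.1, (ρ w)⁻¹ * u.2) := fun u => by
    rw [hT]
    rfl
  have hTx : ∀ (k : ℕ) (u : K × K), (T ^ k) u = (w ^ k * u.1, ((ρ w)⁻¹) ^ k * u.2) := by
    intro k u
    induction k generalizing u with
    | zero => simp
    | succ k ih =>
      rw [pow_succ, Module.End.mul_apply, ih, hTu, pow_succ, pow_succ, mul_assoc, mul_assoc]
  have hTiso : ∀ x y, B (T x) (T y) = B x y := by
    intro x y
    rw [hB, hB, hTu, hTu]
    simp only [map_mul ρ]
    have e : ∀ x y : K, ρ w * ρ x * ((ρ w)⁻¹ * y) = ρ x * y := by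
      intro x y
      field_simp
    rw [e, e]
  have hdet : LinearMap.det T = 1 := by
    rw [hT, LinearMap.det_prodMap]
    have h1 : ∀ x : K, LinearMap.det (LinearMap.mulLeft F x) = Algebra.norm F x := fun x => by
      rw [Algebra.norm_apply]
      rfl
    have h2 : Algebra.norm F (ρ w)⁻¹ * Algebra.norm F (ρ w) = 1 := by
      rw [← map_mul, inv_mul_cancel₀ hρw0, map_one]
    rw [h1, h1, ← hνd, mul_comm]
    rwa [hnormρ] at h2
  obtain ⟨g, Φ, hΦ, -⟩ := transfer hF B hS hsep hfr2 T hTiso hdet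
  refine ⟨piU n F q g, ?_⟩
  refine order_torus hF hn g w hword ?_ ?_
  · intro k c hc
    have h1 := (transfer_scalar g Φ T hΦ k c).mp hc (1, 0)
    rw [hTx] at h1
    have h2 := congrArg Prod.fst h1
    simpa [Algebra.smul_def] using h2
  · intro k hk
    obtain ⟨c, hc, hc2⟩ := z_mem hF (w ^ k) hk
    refine ⟨c, (transfer_scalar g Φ T hΦ k c).mpr fun x => ?_⟩
    rw [hTx]
    refine Prod.ext ?_ ?_
    · show w ^ k * x.1 = c • x.1
      rw [Algebra.smul_def, hc]
    · show ((ρ w)⁻¹) ^ k * x.2 = c • x.2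
      have h1 : ((ρ w)⁻¹) ^ k = algebraMap F K c := by
        rw [inv_pow, ← map_pow, ← hc, hρF]
        have h2 : qFrob hF c * c = 1 := by rw [qFrob_apply, ← pow_succ, hc2]
        have h3 : algebraMap F K (qFrob hF c) * algebraMap F K c = 1 := by
          rw [← map_mul, h2, map_one]
        exact inv_eq_of_mul_eq_one_right h3
      rw [h1, Algebra.smul_def]

include hF in
/-- The image of the main torus. -/
theorem exists_torus (hn : 2 ≤ n) (p a : ℕ) (hp : p.Prime) (hq : q = p ^ a) [CharP F p] :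
    ∃ y : PSU n F q, orderOf y = NU q n := by
  haveI : Fact p.Prime := ⟨hp⟩
  rcases Nat.even_or_odd n with h | h
  · obtain ⟨m, hm⟩ := h
    haveI : NeZero m := ⟨by omega⟩
    exact torus_even hF (K := FiniteField.Extension F p m) m (FiniteField.finrank_extension F p m)
      (by omega) hn p a hp hq
  · haveI : NeZero n := ⟨by omega⟩
    exact torus_odd hF (K := FiniteField.Extension F p n) (FiniteField.finrank_extension F p n) hn h
      p a hp hq

end CfsgLib.SpecU
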