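import Mathlib
import Cfsg.Agent.Lib.ClassMax.SpecU4

/-! Regular unipotent elements of unitary groups and element orders `p ^ c * r` in `PSU_n(q)`. -/

set_option autoImplicit false

namespace CfsgLib.SpecU

open Polynomial Cfsg CfsgLib.ClassGeo CfsgLib.Spec3

variable {F : Type*} [Field F] [Fintype F] {q : ℕ} (hF : Fintype.card F = q ^ 2) {n : ℕ}

include hF in
/-- Bound for `p`-power orders in `PSU_n`. -/
theorem ppow_ltU (hn : 2 ≤ n) (p : ℕ) (hp : p.Prime) [CharP F p] (b : ℕ) (x : PSU n F q)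
    (h : orderOf x = p ^ (b + 1)) : p ^ b < n := by
  haveI : NeZero n := ⟨by omega⟩
  obtain ⟨g, rfl⟩ := QuotientGroup.mk'_surjective _ x
  have h1 : orderOf (piP n F g.1) = orderOf (piU n F q g) := by
    rw [orderOf_eq_orderOf_iff]
    intro k
    rw [← map_pow, ← map_pow]
    constructor
    · intro h2
      obtain ⟨c, hc⟩ := scalar_of_piP_eq_one n _ h2
      refine piU_eq_one_of_scalar _ c ?_
      rw [Subgroup.coe_pow]
      exact hc
    · intro h2
      obtain ⟨c, hc⟩ := scalar_of_piU_eq_one hF hn _ h2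
      refine piP_eq_one_of_scalar n _ c ?_
      rw [Subgroup.coe_pow] at hc
      exact hc
  exact ppow_lt n p hp b (piP n F g.1) (h1.trans h)

/-- The shift. -/
noncomputable def shiftX (k' : ℕ) : (Fin (k' + 1) → F) →ₗ[F] (Fin (k' + 1) → F) where
  toFun y j := if h : j.1 + 1 < k' + 1 then y ⟨j.1 + 1, h⟩ else 0
  map_add' x y := by
    funext j
    show (if h : j.1 + 1 < k' + 1 then (x + y) ⟨j.1 + 1, h⟩ else 0) =
      (if h : j.1 + 1 < k' + 1 then x ⟨j.1 + 1, h⟩ else 0) +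
        (if h : j.1 + 1 < k' + 1 then y ⟨j.1 + 1, h⟩ else 0)
    by_cases h : j.1 + 1 < k' + 1
    · rw [dif_pos h, dif_pos h, dif_pos h]
      rfl
    · rw [dif_neg h, dif_neg h, dif_neg h, add_zero]
  map_smul' c x := by
    funext j
    show (if h : j.1 + 1 < k' + 1 then (c • x) ⟨j.1 + 1, h⟩ else 0) =
      c • (if h : j.1 + 1 < k' + 1 then x ⟨j.1 + 1, h⟩ else 0)
    by_cases h : j.1 + 1 < k' + 1
    · rw [dif_pos h, dif_pos h]
      rfl
    · rw [dif_neg h, dif_neg h, smul_zero]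

theorem shiftX_apply (k' : ℕ) (y : Fin (k' + 1) → F) (j : Fin (k' + 1)) :
    shiftX k' y j = if h : j.1 + 1 < k' + 1 then y ⟨j.1 + 1, h⟩ else 0 := rfl

theorem shiftX_castSucc (k' : ℕ) (y : Fin (k' + 1) → F) (i : Fin k') :
    shiftX k' y i.castSucc = y i.succ := by
  rw [shiftX_apply, dif_pos (by simp)]
  rfl

theorem shiftX_last (k' : ℕ) (y : Fin (k' + 1) → F) : shiftX k' y (Fin.last k') = 0 := by
  rw [shiftX_apply, dif_neg (by simp)]

theorem shiftX_pow (k' m : ℕ) (y : Fin (k' + 1) → F) (j : Fin (k' + 1)) :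
    ((shiftX k') ^ m) y j = if h : j.1 + m < k' + 1 then y ⟨j.1 + m, h⟩ else 0 := by
  induction m generalizing y with
  | zero =>
    rw [dif_pos (by simpa using j.2)]
    simp
  | succ m ih =>
    rw [pow_succ, Module.End.mul_apply, ih]
    by_cases h : j.1 + (m + 1) < k' + 1
    · rw [dif_pos h, dif_pos (by omega), shiftX_apply, dif_pos (by simpa [add_assoc] using h)]
      rfl
    · rw [dif_neg h]
      by_cases h2 : j.1 + m < k' + 1
      · rw [dif_pos h2, shiftX_apply, dif_neg (by simpa [add_assoc] using h)]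
      · rw [dif_neg h2]

/-- The Hermitian form with a shift as a skew map. -/
noncomputable def formB (k' : ℕ) (c : Fin (k' + 1) → F) :
    (Fin (k' + 1) → F) →ₛₗ[qFrob hF] (Fin (k' + 1) → F) →ₗ[F] F :=
  LinearMap.mk₂'ₛₗ (qFrob hF) (RingHom.id F) (fun x y => ∑ i, c i * qFrob hF (x (Fin.rev i)) * y i)
    (by
      intro x x' y
      simp only [Pi.add_apply, map_add, mul_add, add_mul, Finset.sum_add_distrib])
    (by
      intro a x y
      simp only [Pi.smul_apply, smul_eq_mul, map_mul, Finset.mul_sum]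
      refine Finset.sum_congr rfl fun i _ => ?_
      ring)
    (by
      intro x y y'
      simp only [Pi.add_apply, mul_add, Finset.sum_add_distrib])
    (by
      intro a x y
      simp only [Pi.smul_apply, smul_eq_mul, RingHom.id_apply, Finset.mul_sum]
      refine Finset.sum_congr rfl fun i _ => ?_
      ring)

theorem formB_apply (k' : ℕ) (c : Fin (k' + 1) → F) (x y : Fin (k' + 1) → F) :
    formB hF k' c x y = ∑ i, c i * qFrob hF (x (Fin.rev i)) * y i := rfl

theorem formB_symm (k' : ℕ) (c : Fin (k' + 1) → F) (hc : ∀ i, qFrob hF (c i) = c (Fin.rev i))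
    (x y : Fin (k' + 1) → F) : qFrob hF (formB hF k' c x y) = formB hF k' c y x := by
  rw [formB_apply, formB_apply, map_sum, ← Equiv.sum_comp Fin.revPerm]
  refine Finset.sum_congr rfl fun i _ => ?_
  simp only [Fin.revPerm_apply, Fin.rev_rev, map_mul, qFrob_qFrob, hc]
  ring

theorem formB_sep (k' : ℕ) (c : Fin (k' + 1) → F) (hc : ∀ i, c i ≠ 0) (x : Fin (k' + 1) → F)
    (h : ∀ y, formB hF k' c x y = 0) : x = 0 := by
  classical
  funext i
  have h1 := h (Pi.single (Fin.rev i) 1)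
  rw [formB_apply, Finset.sum_eq_single (Fin.rev i)] at h1
  · rw [Pi.single_eq_same, mul_one, Fin.rev_rev] at h1
    have h2 := (mul_eq_zero.mp h1).resolve_left (hc _)
    have h3 := congrArg (qFrob hF) h2
    rwa [qFrob_qFrob, map_zero] at h3
  · intro j _ hj
    rw [Pi.single_eq_of_ne hj, mul_zero]
  · intro h2
    exact absurd (Finset.mem_univ _) h2

theorem formB_skew (k' : ℕ) (c : Fin (k' + 1) → F)
    (hc : ∀ i : Fin k', c i.succ = - c i.castSucc) (x y : Fin (k' + 1) → F) :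
    formB hF k' c (shiftX k' x) y = - formB hF k' c x (shiftX k' y) := by
  rw [formB_apply, formB_apply, Fin.sum_univ_succ, Fin.sum_univ_castSucc (n := k')]
  rw [Fin.rev_zero, shiftX_last, shiftX_last, map_zero, mul_zero, zero_mul, mul_zero, add_zero, zero_add,
    ← Finset.sum_neg_distrib]
  refine Finset.sum_congr rfl fun i _ => ?_
  rw [Fin.rev_succ, shiftX_castSucc, shiftX_castSucc, Fin.rev_castSucc, hc]
  ring

include hF in
theorem exists_skew_coeffs (k' : ℕ) : ∃ c : Fin (k' + 1) → F, (∀ i, qFrob hF (c i) = c (Fin.rev i)) ∧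
    (∀ i : Fin k', c i.succ = - c i.castSucc) ∧ ∀ i, c i ≠ 0 := by
  obtain ⟨c₀, hc₀, hc₀0⟩ : ∃ c₀ : F, qFrob hF c₀ = (-1) ^ k' * c₀ ∧ c₀ ≠ 0 := by
    rcases Nat.even_or_odd k' with h | h
    · exact ⟨1, by rw [h.neg_one_pow, map_one, one_mul], one_ne_zero⟩
    · obtain ⟨a, ha0, ha⟩ := (stdH_hform 1 hF).exists_anti
      refine ⟨a, ?_, ha0⟩
      rw [h.neg_one_pow]
      linear_combination ha
  have hm1 : qFrob hF (-1 : F) = -1 := by rw [map_neg, map_one]
  refine ⟨fun i => c₀ * (-1) ^ i.1, ?_, ?_, ?_⟩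
  · intro i
    show qFrob hF (c₀ * (-1) ^ i.1) = c₀ * (-1) ^ (Fin.rev i).1
    rw [map_mul, map_pow, hm1, hc₀, Fin.val_rev]
    have h1 : ((-1 : F)) ^ k' * (-1) ^ i.1 = (-1) ^ (k' + 1 - (i.1 + 1)) := by
      have hi := i.2
      have e : k' + i.1 = (k' + 1 - (i.1 + 1)) + 2 * i.1 := by omega
      rw [← pow_add, e, pow_add, pow_mul]
      simp
    rw [← h1]
    ring
  · intro i
    show c₀ * (-1) ^ i.succ.1 = - (c₀ * (-1) ^ i.castSucc.1)
    rw [Fin.val_succ, Fin.val_castSucc, pow_succ]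
    ring
  · intro i
    exact mul_ne_zero hc₀0 (pow_ne_zero _ (by simp))

/-- The orthogonal sum of two forms. -/
noncomputable def prodForm {V₁ V₂ : Type*} [AddCommGroup V₁] [Module F V₁] [AddCommGroup V₂] [Module F V₂]
    (σ : F →+* F) (B₁ : V₁ →ₛₗ[σ] V₁ →ₗ[F] F) (B₂ : V₂ →ₛₗ[σ] V₂ →ₗ[F] F) :
    (V₁ × V₂) →ₛₗ[σ] (V₁ × V₂) →ₗ[F] F :=
  LinearMap.mk₂'ₛₗ σ (RingHom.id F) (fun u v => B₁ u.1 v.1 + B₂ u.2 v.2)
    (by
      intro u u' v
      simp only [Prod.fst_add, Prod.snd_add, map_add, LinearMap.add_apply]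
      ring)
    (by
      intro a u v
      simp only [Prod.smul_fst, Prod.smul_snd, LinearMap.map_smulₛₗ, LinearMap.smul_apply, smul_eq_mul]
      ring)
    (by
      intro u v v'
      simp only [Prod.fst_add, Prod.snd_add, map_add]
      ring)
    (by
      intro a u v
      simp only [Prod.smul_fst, Prod.smul_snd, map_smul, smul_eq_mul, RingHom.id_apply]
      ring)

theorem prodForm_apply {V₁ V₂ : Type*} [AddCommGroup V₁] [Module F V₁] [AddCommGroup V₂] [Module F V₂]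
    (σ : F →+* F) (B₁ : V₁ →ₛₗ[σ] V₁ →ₗ[F] F) (B₂ : V₂ →ₛₗ[σ] V₂ →ₗ[F] F) (u v : V₁ × V₂) :
    prodForm σ B₁ B₂ u v = B₁ u.1 v.1 + B₂ u.2 v.2 := rfl

/-- Transfer of a self-adjoint idempotent. -/
theorem transfer_idem {V : Type*} [AddCommGroup V] [Module F V] (B : V →ₛₗ[qFrob hF] V →ₗ[F] F)
    (g : SU n F q) (Φ : (Fin n → F) ≃ₗ[F] V) (T : V →ₗ[F] V)
    (hΦ : ∀ x, Φ ((g.1 : Matrix (Fin n) (Fin n) F).mulVec x) = T (Φ x))
    (hform : ∀ c d, B (Φ c) (Φ d) = stdH n hF c d) (E : V →ₗ[F] V) (hE2 : ∀ v, E (E v) = E v)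
    (hET : ∀ v, E (T v) = T (E v)) (hadj : ∀ x y, B (E x) y = B x (E y)) (v₀ v₁ : V)
    (hv₀ : E v₀ ≠ 0) (hv₁ : E v₁ ≠ v₁) :
    ∃ e : Matrix (Fin n) (Fin n) F, e * e = e ∧ e ≠ 0 ∧ e ≠ 1 ∧
      e * (g.1 : Matrix (Fin n) (Fin n) F) = (g.1 : Matrix (Fin n) (Fin n) F) * e ∧ dag hF e = e := by
  classical
  obtain ⟨e, hed⟩ : ∃ e : Matrix (Fin n) (Fin n) F, e = LinearMap.toMatrix'
      (Φ.symm.toLinearMap ∘ₗ E ∘ₗ Φ.toLinearMap) := ⟨_, rfl⟩
  have he : ∀ x, e.mulVec x = Φ.symm (E (Φ x)) := by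
    intro x
    rw [hed, LinearMap.toMatrix'_mulVec]
    rfl
  have he' : ∀ x, Φ (e.mulVec x) = E (Φ x) := by
    intro x
    rw [he, LinearEquiv.apply_symm_apply]
  refine ⟨e, ?_, ?_, ?_, ?_, ?_⟩
  · apply mat_eq_of_mulVec
    intro x
    rw [← Matrix.mulVec_mulVec]
    apply Φ.injective
    rw [he', he', hE2]
  · intro h
    apply hv₀
    have h1 := he' (Φ.symm v₀)
    rw [h, Matrix.zero_mulVec, map_zero, LinearEquiv.apply_symm_apply] at h1
    exact h1.symm
  · intro h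
    apply hv₁
    have h1 := he' (Φ.symm v₁)
    rw [h, Matrix.one_mulVec, LinearEquiv.apply_symm_apply] at h1
    exact h1.symm
  · apply mat_eq_of_mulVec
    intro x
    rw [← Matrix.mulVec_mulVec, ← Matrix.mulVec_mulVec]
    apply Φ.injective
    rw [he', hΦ, hΦ, he', hET]
  · apply mat_eq_of_mulVec
    intro v
    apply herm_right_inj hF
    intro u
    rw [← herm_mulVec hF]
    have h1 : hermForm n F q (e.mulVec u) v = B (Φ v) (Φ (e.mulVec u)) := by
      rw [hform, stdH_apply]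
    have h2 : hermForm n F q u (e.mulVec v) = B (Φ (e.mulVec v)) (Φ u) := by
      rw [hform, stdH_apply]
    rw [h1, h2, he', he', hadj]

include hF in
/-- Orders `p ^ (b + 1) * r` from regular unipotent elements on a proper nondegenerate subspace of
dimension `p ^ b + 1`. -/
theorem exists_ppow_r (hn : 2 ≤ n) (p : ℕ) (hp : p.Prime) [CharP F p] (r : ℕ) (hr : r.Prime)
    (hrq : r ∣ q + 1) (hrn : ¬ r ∣ n) (hrp : r ≠ p) (b : ℕ) (hb : p ^ b + 1 < n) :
    ∃ y : PSU n F q, orderOf y = p ^ (b + 1) * r := by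
  classical
  haveI : Fact p.Prime := ⟨hp⟩
  obtain ⟨k', hk'⟩ : ∃ k', k' = p ^ b := ⟨_, rfl⟩
  obtain ⟨l, hl⟩ : ∃ l, n = k' + 1 + (l + 1) := ⟨n - k' - 2, by omega⟩
  obtain ⟨c, hc1, hc2, hc3⟩ := exists_skew_coeffs hF k'
  obtain ⟨α, hα⟩ := (stdH_hform 1 hF).trace_surj 1 (map_one _)
  obtain ⟨β, hβ⟩ : ∃ β, β = qFrob hF α := ⟨_, rfl⟩
  rw [← hβ] at hα
  have hσβ : qFrob hF β = α := by rw [hβ, qFrob_qFrob]
  obtain ⟨X, hXd⟩ : ∃ X, X = shiftX (F := F) k' := ⟨_, rfl⟩
  obtain ⟨B₁, hB₁⟩ : ∃ B₁, B₁ = formB hF k' c := ⟨_, rfl⟩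
  have hskew : ∀ x y, B₁ (X x) y = - B₁ x (X y) := by
    intro x y
    rw [hB₁, hXd]
    exact formB_skew hF k' c hc2 x y
  have hXpow : ∀ (m : ℕ) (y : Fin (k' + 1) → F) (j : Fin (k' + 1)),
      (X ^ m) y j = if h : j.1 + m < k' + 1 then y ⟨j.1 + m, h⟩ else 0 := by
    intro m y j
    rw [hXd]
    exact shiftX_pow k' m y j
  have hXk : X ^ (k' + 1) = 0 := by
    refine LinearMap.ext fun y => ?_
    funext j
    rw [hXpow, dif_neg (by omega)]
    rfl
  have hXk' : X ^ k' ≠ 0 := by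
    intro h
    have h1 := hXpow k' (Pi.single (Fin.last k') 1) 0
    rw [h, dif_pos (by simp)] at h1
    have h2 : (⟨(0 : Fin (k' + 1)).1 + k', by simp⟩ : Fin (k' + 1)) = Fin.last k' := by
      apply Fin.ext
      simp
    rw [h2, Pi.single_eq_same] at h1
    exact zero_ne_one h1
  obtain ⟨x₁, hx₁⟩ : ∃ x₁, x₁ = β • X := ⟨_, rfl⟩
  have hx₁k : x₁ ^ (k' + 1) = 0 := by rw [hx₁, _root_.smul_pow, hXk, smul_zero]
  obtain ⟨W, hWd⟩ : ∃ W, W = ∑ j ∈ Finset.range (k' + 1), x₁ ^ j := ⟨_, rfl⟩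
  have hW1 : (1 - x₁) * W = 1 := by
    rw [hWd, mul_neg_geom_sum, hx₁k, sub_zero]
  have hW2 : W * (1 - x₁) = 1 := by
    rw [hWd, geom_sum_mul_neg, hx₁k, sub_zero]
  have hXx₁ : Commute X x₁ := by
    rw [hx₁]
    exact (Commute.refl X).smul_right β
  have hXW : Commute X W := by
    rw [hWd]
    exact Commute.sum_right _ _ _ fun j _ => hXx₁.pow_right j
  obtain ⟨u, hud⟩ : ∃ u, u = 1 + X * W := ⟨_, rfl⟩
  have hu : u = (1 + α • X) * W := by
    have h2 : W - β • (X * W) = 1 := by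
      have h3 := hW1
      rwa [sub_mul, one_mul, hx₁, smul_mul_assoc] at h3
    have h1 : W = 1 + β • (X * W) := by
      rw [← h2]
      abel
    have h3 : α + β = 1 := hα
    rw [hud, add_mul, one_mul, smul_mul_assoc]
    calc 1 + X * W = 1 + (α + β) • (X * W) := by rw [h3, one_smul]
      _ = (1 + β • (X * W)) + α • (X * W) := by rw [add_smul]; abel
      _ = W + α • (X * W) := by rw [← h1]
  have adj1 : ∀ x y, B₁ ((1 + α • X) x) y = B₁ x ((1 - x₁) y) := by
    intro x y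
    have e1 : (1 + α • X) x = x + α • X x := rfl
    have e2 : (1 - x₁) y = y - β • X y := by
      rw [hx₁]
      rfl
    rw [e1, e2, map_add, LinearMap.add_apply, map_sub, LinearMap.map_smulₛₗ₂, map_smul, hskew, ← hβ,
      smul_eq_mul, smul_eq_mul]
    ring
  have adj2 : ∀ x y, B₁ ((1 - x₁) x) y = B₁ x ((1 + α • X) y) := by
    intro x y
    have e1 : (1 + α • X) y = y + α • X y := rfl
    have e2 : (1 - x₁) x = x - β • X x := by
      rw [hx₁]
      rfl
    rw [e1, e2, map_sub, LinearMap.sub_apply, map_add, LinearMap.map_smulₛₗ₂, map_smul, hskew, hσβ,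
      smul_eq_mul, smul_eq_mul]
    ring
  have hcomm2 : Commute (1 + α • X) (1 - x₁) :=
    (Commute.one_right _).sub_right ((Commute.one_left x₁).add_left (hXx₁.smul_left α))
  have hiso1 : ∀ x y, B₁ (u x) (u y) = B₁ x y := by
    intro x y
    have e : ∀ z, u z = (1 + α • X) (W z) := by
      intro z
      rw [hu]
      rfl
    have h4 : (1 - x₁) ((1 + α • X) (W y)) = (1 + α • X) ((1 - x₁) (W y)) :=
      (LinearMap.congr_fun hcomm2 (W y)).symm
    have h5 : (1 - x₁) (W y) = y := LinearMap.congr_fun hW1 y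
    have h6 : (1 - x₁) (W x) = x := LinearMap.congr_fun hW1 x
    rw [e, e, adj1, h4, h5, ← adj2, h6]
  -- unipotence
  haveI : CharP (Module.End F (Fin (k' + 1) → F)) p :=
    charP_of_injective_algebraMap (algebraMap F _).injective p
  haveI : ExpChar (Module.End F (Fin (k' + 1) → F)) p := ExpChar.prime hp
  have hupow : ∀ m, u ^ (p ^ m) = 1 + X ^ (p ^ m) * W ^ (p ^ m) := by
    intro m
    rw [hud, add_pow_expChar_pow_of_commute p m (Commute.one_left _), one_pow, hXW.mul_pow]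
  have hpb : 1 ≤ p ^ b := Nat.one_le_pow _ _ hp.pos
  have hp2 : 2 ≤ p := hp.two_le
  have hkle : k' + 1 ≤ p ^ (b + 1) := by
    rw [pow_succ, hk']
    nlinarith
  have hu1 : u ^ (p ^ (b + 1)) = 1 := by
    rw [hupow, pow_eq_zero_of_le hkle hXk, zero_mul, add_zero]
  have hu2 : u ^ (p ^ b) ≠ 1 := by
    intro h
    rw [hupow, ← hk'] at h
    have h1 : X ^ k' * W ^ k' = 0 := by simpa using h
    have hcW : Commute W (1 - x₁) := by
      show W * (1 - x₁) = (1 - x₁) * W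
      rw [hW1, hW2]
    apply hXk'
    calc X ^ k' = X ^ k' * (W * (1 - x₁)) ^ k' := by rw [hW2, one_pow, mul_one]
      _ = (X ^ k' * W ^ k') * (1 - x₁) ^ k' := by rw [hcW.mul_pow, mul_assoc]
      _ = 0 := by rw [h1, zero_mul]
  obtain ⟨T, hT⟩ : ∃ T : ((Fin (k' + 1) → F) × (Fin (l + 1) → F)) →ₗ[F] ((Fin (k' + 1) → F) × (Fin (l + 1) → F)),
      T = LinearMap.prodMap u LinearMap.id := ⟨_, rfl⟩
  have hTu : ∀ z, T z = (u z.1, z.2) := fun z => by
    rw [hT]
    rfl
  have hTx : ∀ (m : ℕ) (z : (Fin (k' + 1) → F) × (Fin (l + 1) → F)), (T ^ m) z = ((u ^ m) z.1, z.2) := by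
    intro m z
    induction m generalizing z with
    | zero => simp
    | succ m ih =>
      rw [pow_succ, Module.End.mul_apply, ih, hTu, pow_succ]
      rfl
  obtain ⟨B, hB⟩ : ∃ B, B = prodForm (qFrob hF) B₁ (stdH (l + 1) hF) := ⟨_, rfl⟩
  have hBa : ∀ u v, B u v = B₁ u.1 v.1 + stdH (l + 1) hF u.2 v.2 := fun u v => by
    rw [hB]
    rfl
  have hS : ∀ x y, qFrob hF (B x y) = B y x := by
    intro x y
    rw [hBa, hBa, map_add, stdH_symm, hB₁, formB_symm hF k' c hc1]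
  have hsep : ∀ u, (∀ v, B u v = 0) → u = 0 := by
    intro z hz
    refine Prod.ext ?_ ?_
    · refine formB_sep hF k' c hc3 _ fun y => ?_
      have h1 := hz (y, 0)
      rw [hBa] at h1
      simpa [hB₁] using h1
    · refine (stdH_hform (l + 1) hF).sep _ fun y => ?_
      have h1 := hz (0, y)
      rw [hBa] at h1
      simpa using h1
  have hfr : Module.finrank F ((Fin (k' + 1) → F) × (Fin (l + 1) → F)) = n := by
    rw [Module.finrank_prod]
    simp [hl]
  have hiso : ∀ x y, B (T x) (T y) = B x y := by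
    intro x y
    rw [hBa, hBa, hTu, hTu]
    show B₁ (u x.1) (u y.1) + _ = _
    rw [hiso1]
  have hTp : T ^ (p ^ (b + 1)) = 1 := by
    refine LinearMap.ext fun z => ?_
    rw [hTx, hu1]
    rfl
  have hdet : LinearMap.det T = 1 := by
    apply (iterateFrobenius F p (b + 1)).injective
    rw [iterateFrobenius_def, ← map_pow, hTp, map_one, map_one]
  obtain ⟨g, Φ, hΦ, hform⟩ := transfer hF B hS hsep hfr T hiso hdet
  have h1 : (piU n F q g) ^ (p ^ (b + 1)) = 1 := by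
    rw [← map_pow]
    refine piU_eq_one_of_scalar _ 1 ?_
    refine (transfer_scalar g Φ T hΦ _ 1).mpr fun z => ?_
    rw [hTp, one_smul]
    rfl
  have h2 : ¬ (piU n F q g) ^ (p ^ b) = 1 := by
    intro h
    rw [← map_pow] at h
    obtain ⟨c', hc'⟩ := scalar_of_piU_eq_one hF hn _ h
    have h3 := (transfer_scalar g Φ T hΦ _ c').mp hc'
    have h4 : c' = 1 := by
      have h5 := h3 (0, fun _ => 1)
      rw [hTx] at h5
      have h6 := congrFun (congrArg Prod.snd h5) 0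
      simpa using h6.symm
    apply hu2
    refine LinearMap.ext fun x => ?_
    have h5 := h3 (x, 0)
    rw [hTx, h4, one_smul] at h5
    exact congrArg Prod.fst h5
  have hord : orderOf (piU n F q g) = p ^ (b + 1) := orderOf_eq_prime_pow h2 h1
  have hrdvd : ¬ r ∣ orderOf (piU n F q g) := by
    rw [hord]
    intro h
    have := hr.dvd_of_dvd_pow h
    exact hrp ((Nat.prime_dvd_prime_iff_eq hr hp).mp this)
  obtain ⟨E, hE⟩ : ∃ E : ((Fin (k' + 1) → F) × (Fin (l + 1) → F)) →ₗ[F] ((Fin (k' + 1) → F) × (Fin (l + 1) → F)),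
      E = LinearMap.prodMap LinearMap.id 0 := ⟨_, rfl⟩
  have hEu : ∀ z, E z = (z.1, 0) := fun z => by
    rw [hE]
    rfl
  obtain ⟨e, he2, he0, he1, hcomm, hdag⟩ := transfer_idem hF B g Φ T hΦ hform E
    (fun v => by rw [hEu, hEu])
    (fun v => by
      rw [hEu, hTu, hTu, hEu])
    (fun x y => by
      rw [hEu, hEu, hBa, hBa]
      simp)
    (fun _ => 1, 0) (0, fun _ => 1)
    (by
      rw [hEu]
      intro h
      have h3 := congrFun (congrArg Prod.fst h) 0
      exact one_ne_zero h3)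
    (by
      rw [hEu]
      intro h
      have h3 := congrFun (congrArg Prod.snd h) 0
      exact zero_ne_one h3)
  obtain ⟨y, hy⟩ := exists_order_mul hF hn r hr hrq hrn g e he2 he0 he1 hcomm hdag hrdvd
  exact ⟨y, by rw [hy, hord]⟩

end CfsgLib.SpecU
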