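import Mathlib
import Cfsg.Agent.Lib.ClassMax.SpecU5
import Cfsg.Agent.Lib.ClassGeo.SpOver

/-! Element orders in `PSp_{2n}(q)`: the adjoint, commuting involutions and transfer from general
symplectic spaces. -/

set_option autoImplicit false

namespace CfsgLib.SpecS

open Polynomial Cfsg CfsgLib.ClassGeo CfsgLib.Spec3 CfsgLib.SpecU Matrix

variable {F : Type*} [Field F] {n : ℕ}

/-- Square matrices of size `2 n`. -/
abbrev MM (n : ℕ) (F : Type*) [Field F] := Matrix (Fin n ⊕ Fin n) (Fin n ⊕ Fin n) F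

/-- The adjoint for the standard alternating form. -/
noncomputable def adj (M : MM n F) : MM n F := -(J (Fin n) F * Mᵀ * J (Fin n) F)

theorem adj_one : adj (1 : MM n F) = 1 := by
  simp [adj, J_squared]

theorem adj_zero : adj (0 : MM n F) = 0 := by
  simp [adj]

theorem adj_mul (A B : MM n F) : adj (A * B) = adj B * adj A := by
  have h : J (Fin n) F * Bᵀ * J (Fin n) F * (J (Fin n) F * Aᵀ * J (Fin n) F) =
      J (Fin n) F * Bᵀ * (J (Fin n) F * J (Fin n) F) * Aᵀ * J (Fin n) F := by noncomm_ring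
  rw [adj, adj, adj, transpose_mul, neg_mul_neg, h, J_squared]
  noncomm_ring

theorem adj_adj (A : MM n F) : adj (adj A) = A := by
  have h : J (Fin n) F * (J (Fin n) F * A * J (Fin n) F) * J (Fin n) F =
      (J (Fin n) F * J (Fin n) F) * A * (J (Fin n) F * J (Fin n) F) := by noncomm_ring
  rw [adj, adj, transpose_neg, transpose_mul, transpose_mul, J_transpose, transpose_transpose]
  have h2 : -(J (Fin n) F * -(-J (Fin n) F * (A * -J (Fin n) F)) * J (Fin n) F) =
      J (Fin n) F * (J (Fin n) F * A * J (Fin n) F) * J (Fin n) F := by noncomm_ring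
  rw [h2, h, J_squared]
  noncomm_ring

theorem adj_add (A B : MM n F) : adj (A + B) = adj A + adj B := by
  simp [adj, mul_add, add_mul]
  abel

theorem adj_sub (A B : MM n F) : adj (A - B) = adj A - adj B := by
  simp [adj, mul_sub, sub_mul]
  abel

theorem adj_smul (c : F) (A : MM n F) : adj (c • A) = c • adj A := by
  simp [adj, transpose_smul]

theorem adj_pow (A : MM n F) (k : ℕ) : adj (A ^ k) = adj A ^ k := by
  induction k with
  | zero => rw [pow_zero, pow_zero, adj_one]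
  | succ k ih => rw [pow_succ, adj_mul, ih, pow_succ']

theorem form_adj (M : MM n F) (u v : Fin n ⊕ Fin n → F) :
    sympForm n F (M *ᵥ u) v = sympForm n F u (adj M *ᵥ v) := by
  have e : J (Fin n) F * (-(J (Fin n) F * Mᵀ * J (Fin n) F)) = Mᵀ * J (Fin n) F := by
    calc J (Fin n) F * (-(J (Fin n) F * Mᵀ * J (Fin n) F))
        = -((J (Fin n) F * J (Fin n) F) * Mᵀ * J (Fin n) F) := by noncomm_ring
      _ = _ := by rw [J_squared]; noncomm_ring
  rw [sympForm, sympForm, dot_mulVec_left, mulVec_mulVec, mulVec_mulVec, adj, e]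

theorem adj_self_mul (g : symplecticGroup (Fin n) F) : adj g.1 * g.1 = 1 := by
  have h := SymplecticGroup.mem_iff'.mp g.2
  calc adj g.1 * g.1 = -(J (Fin n) F * ((g.1)ᵀ * J (Fin n) F * g.1)) := by
        rw [adj]
        noncomm_ring
    _ = 1 := by rw [h, J_squared, neg_neg]

theorem mem_of_adj (A : MM n F) (h : adj A * A = 1) : A ∈ symplecticGroup (Fin n) F := by
  rw [SymplecticGroup.mem_iff']
  have h1 : J (Fin n) F * (adj A * A) = Aᵀ * J (Fin n) F * A := by
    rw [adj]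
    calc J (Fin n) F * (-(J (Fin n) F * Aᵀ * J (Fin n) F) * A)
        = -((J (Fin n) F * J (Fin n) F) * (Aᵀ * J (Fin n) F * A)) := by noncomm_ring
      _ = _ := by rw [J_squared]; noncomm_ring
  rw [← h1, h, mul_one]

/-- The quotient map. -/
noncomputable abbrev piS (n : ℕ) (F : Type*) [Field F] : symplecticGroup (Fin n) F →* PSp n F :=
  QuotientGroup.mk' _

theorem piS_eq_one_of_scalar (g : symplecticGroup (Fin n) F) (c : F) (h : g.1 = c • (1 : MM n F)) :
    piS n F g = 1 := by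
  refine (QuotientGroup.eq_one_iff g).mpr ?_
  rw [Subgroup.mem_center_iff]
  intro g'
  apply Subtype.ext
  change g'.1 * g.1 = g.1 * g'.1
  rw [h]
  simp

theorem scalar_of_piS_eq_one (g : symplecticGroup (Fin n) F) (h : piS n F g = 1) :
    ∃ c : F, g.1 = c • (1 : MM n F) := by
  classical
  have h1 : g ∈ Subgroup.center (symplecticGroup (Fin n) F) := (QuotientGroup.eq_one_iff g).mp h
  rw [Subgroup.mem_center_iff] at h1
  obtain ⟨f, hf⟩ : ∃ f : (Fin n ⊕ Fin n → F) →ₗ[F] (Fin n ⊕ Fin n → F), f = Matrix.toLin' g.1 := ⟨_, rfl⟩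
  have hfa : ∀ v, f v = g.1 *ᵥ v := fun v => by rw [hf]; rfl
  have hcoll : ∀ v, ¬ LinearIndependent F ![v, f v] := by
    intro v hli
    have hv : v ≠ 0 := by
      rintro rfl
      have := hli.ne_zero 0
      simp at this
    obtain ⟨x, hx⟩ : ∃ x, sympForm n F x v ≠ 0 := by
      by_contra hcon
      push Not at hcon
      exact hv (symp_nondeg hcon)
    let t : symplecticGroup (Fin n) F := ⟨sympTransvection n v 1, sympTransvection_mem v 1⟩
    have h2 := congrArg (fun a : symplecticGroup (Fin n) F => a.1 *ᵥ x) (h1 t)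
    have h3 : t.1 *ᵥ (g.1 *ᵥ x) = g.1 *ᵥ (t.1 *ᵥ x) := by
      simpa [mulVec_mulVec] using h2
    have ht : ∀ y, t.1 *ᵥ y = y + sympForm n F y v • v := by
      intro y
      show sympTransvection n v 1 *ᵥ y = _
      rw [sympTransvection_mulVec, one_mul]
    rw [ht, ht, mulVec_add, mulVec_smul] at h3
    have h4 : sympForm n F (g.1 *ᵥ x) v • v = sympForm n F x v • (g.1 *ᵥ v) := add_left_cancel h3
    rw [LinearIndependent.pair_iff] at hli
    have h5 := hli (sympForm n F (g.1 *ᵥ x) v) (- sympForm n F x v) (by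
      rw [hfa, neg_smul, h4]
      abel)
    exact hx (neg_eq_zero.mp h5.2)
  obtain ⟨a, ha⟩ := LinearMap.exists_eq_smul_id_of_forall_notLinearIndependent hcoll
  refine ⟨a, ?_⟩
  apply matrix_eq_of_mulVec
  intro v
  rw [← hfa, ha]
  simp [smul_mulVec]

theorem coe_pow_S (g : symplecticGroup (Fin n) F) (k : ℕ) : (g ^ k).1 = g.1 ^ k := by
  rw [SubmonoidClass.coe_pow]

/-- Lemma A: a non-central involution commuting with `g` from a nontrivial self-adjoint idempotent. -/
theorem exists_order_mul (h2 : (2 : F) ≠ 0) (g : symplecticGroup (Fin n) F) (e : MM n F)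
    (he2 : e * e = e) (he0 : e ≠ 0) (he1 : e ≠ 1) (hcomm : e * g.1 = g.1 * e) (hadj : adj e = e)
    (hodd : ¬ 2 ∣ orderOf (piS n F g)) :
    ∃ y : PSp n F, orderOf y = orderOf (piS n F g) * 2 := by
  classical
  obtain ⟨t₀, ht₀⟩ : ∃ t₀ : MM n F, t₀ = 1 - (2 : F) • e := ⟨_, rfl⟩
  have ht₀2 : t₀ * t₀ = 1 := by
    have hc : ((2 : F) • e) * ((2 : F) • e) = (2 : F) • e + (2 : F) • e := by
      rw [smul_mul_assoc, mul_smul_comm, smul_smul, he2, ← add_smul]
      congr 1
      ring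
    rw [ht₀]
    obtain ⟨x, hx⟩ : ∃ x, x = (2 : F) • e := ⟨_, rfl⟩
    rw [← hx] at hc ⊢
    calc (1 - x) * (1 - x) = 1 - x - x + x * x := by noncomm_ring
      _ = 1 := by rw [hc]; abel
  have hadjt : adj t₀ = t₀ := by rw [ht₀, adj_sub, adj_one, adj_smul, hadj]
  have hmem : t₀ ∈ symplecticGroup (Fin n) F := mem_of_adj _ (by rw [hadjt, ht₀2])
  let τ : symplecticGroup (Fin n) F := ⟨t₀, hmem⟩
  have hτg : Commute τ g := by
    apply Subtype.ext
    show t₀ * g.1 = g.1 * t₀
    rw [ht₀, sub_mul, mul_sub, one_mul, mul_one, smul_mul_assoc, mul_smul_comm, hcomm]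
  have hτ2 : τ ^ 2 = 1 := by
    apply Subtype.ext
    rw [coe_pow_S]
    show t₀ ^ 2 = 1
    rw [sq, ht₀2]
  have hτ1 : piS n F τ ≠ 1 := by
    intro h
    obtain ⟨c, hc⟩ := scalar_of_piS_eq_one τ h
    have hc' : t₀ = c • (1 : MM n F) := hc
    obtain ⟨c', hc'⟩ : ∃ c' : F, e = c' • (1 : MM n F) := by
      refine ⟨(2 : F)⁻¹ * (1 - c), ?_⟩
      have h3 : (2 : F) • e = (1 - c) • (1 : MM n F) := by
        rw [sub_smul, one_smul, ← hc', ht₀]
        abel
      rw [mul_smul, ← h3, smul_smul, inv_mul_cancel₀ h2, one_smul]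
    have h5 : c' * c' = c' := by
      by_contra hne
      apply he0
      have h6 : c' • c' • (1 : MM n F) = c' • (1 : MM n F) := by
        have h10 := he2
        rw [hc', smul_mul_assoc, one_mul] at h10
        exact h10
      have h7 : (c' * c' - c') • (1 : MM n F) = 0 := by
        rw [sub_smul, mul_smul, h6, sub_self]
      have h8 : c' * c' - c' ≠ 0 := sub_ne_zero.mpr hne
      have h9 : (1 : MM n F) = 0 := by
        have := congrArg (fun M => (c' * c' - c')⁻¹ • M) h7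
        simpa [smul_smul, inv_mul_cancel₀ h8] using this
      rw [hc', h9, smul_zero]
    have h7 : c' = 0 ∨ c' = 1 := by
      by_cases h8 : c' = 0
      · exact Or.inl h8
      · exact Or.inr (mul_left_cancel₀ h8 (by rw [h5, mul_one]))
    rcases h7 with h8 | h8
    · exact he0 (by rw [hc', h8, zero_smul])
    · exact he1 (by rw [hc', h8, one_smul])
  have hord : orderOf (piS n F τ) = 2 := by
    haveI : Fact (Nat.Prime 2) := ⟨Nat.prime_two⟩
    refine orderOf_eq_prime ?_ hτ1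
    rw [← map_pow, hτ2, map_one]
  have hc2 : Commute (piS n F g) (piS n F τ) := (hτg.symm).map _
  refine ⟨piS n F g * piS n F τ, ?_⟩
  rw [hc2.orderOf_mul_eq_mul_orderOf_of_coprime, hord]
  rw [hord]
  exact ((Nat.Prime.coprime_iff_not_dvd Nat.prime_two).mpr hodd).symm

/-- Transfer from an arbitrary symplectic space. -/
theorem transfer {V : Type*} [AddCommGroup V] [Module F V] [FiniteDimensional F V]
    (B : LinearMap.BilinForm F V) (hA : B.IsAlt) (hsep : ∀ u, (∀ v, B u v = 0) → u = 0)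
    (hfr : Module.finrank F V = 2 * n) (T : V →ₗ[F] V) (hT : ∀ x y, B (T x) (T y) = B x y) :
    ∃ (g : symplecticGroup (Fin n) F) (Φ : (Fin n ⊕ Fin n → F) ≃ₗ[F] V),
      (∀ x, Φ (g.1 *ᵥ x) = T (Φ x)) ∧ ∀ c d, B (Φ c) (Φ d) = sympForm n F c d := by
  classical
  obtain ⟨m, P, hP⟩ := exists_symp_coords hA hsep
  have hm : m = n := by
    have h1 := P.finrank_eq
    rw [hfr] at h1
    simp at h1
    omega
  subst hm
  have hTinj : Function.Injective T := by
    rw [← LinearMap.ker_eq_bot, LinearMap.ker_eq_bot']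
    intro x hx
    apply hsep
    intro v
    rw [← hT, hx]
    simp
  obtain ⟨M, hM⟩ : ∃ M : MM m F, M = LinearMap.toMatrix' (P.symm.toLinearMap ∘ₗ T ∘ₗ P.toLinearMap) :=
    ⟨_, rfl⟩
  have hMa : ∀ x, M *ᵥ x = P.symm (T (P x)) := by
    intro x
    rw [hM, LinearMap.toMatrix'_mulVec]
    rfl
  have hPM : ∀ x, P (M *ᵥ x) = T (P x) := by
    intro x
    rw [hMa, LinearEquiv.apply_symm_apply]
  have hmem : M ∈ symplecticGroup (Fin m) F := by
    rw [mem_sp_iff]
    intro u v
    rw [← hP, hPM, hPM, hT, hP]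
  exact ⟨⟨M, hmem⟩, P, hPM, hP⟩

/-- Powers in the transfer. -/
theorem transfer_pow {V : Type*} [AddCommGroup V] [Module F V] (g : symplecticGroup (Fin n) F)
    (Φ : (Fin n ⊕ Fin n → F) ≃ₗ[F] V) (T : V →ₗ[F] V) (h : ∀ x, Φ (g.1 *ᵥ x) = T (Φ x)) (k : ℕ)
    (x : Fin n ⊕ Fin n → F) : Φ ((g ^ k).1 *ᵥ x) = (T ^ k) (Φ x) := by
  induction k generalizing x with
  | zero =>
    rw [pow_zero, pow_zero]
    simp
  | succ k ih =>
    rw [coe_pow_S, pow_succ, ← mulVec_mulVec, ← coe_pow_S, ih, h, pow_succ]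
    rfl

theorem transfer_scalar {V : Type*} [AddCommGroup V] [Module F V] (g : symplecticGroup (Fin n) F)
    (Φ : (Fin n ⊕ Fin n → F) ≃ₗ[F] V) (T : V →ₗ[F] V) (h : ∀ x, Φ (g.1 *ᵥ x) = T (Φ x)) (k : ℕ) (c : F) :
    (g ^ k).1 = c • (1 : MM n F) ↔ ∀ v, (T ^ k) v = c • v := by
  constructor
  · intro h1 v
    obtain ⟨x, rfl⟩ := Φ.surjective v
    rw [← transfer_pow g Φ T h, h1, smul_mulVec, one_mulVec, map_smul]
  · intro h1
    apply matrix_eq_of_mulVec
    intro x
    apply Φ.injective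
    rw [transfer_pow g Φ T h, h1, smul_mulVec, one_mulVec, map_smul]

/-- Transfer of a self-adjoint idempotent. -/
theorem transfer_idem {V : Type*} [AddCommGroup V] [Module F V] (B : LinearMap.BilinForm F V)
    (g : symplecticGroup (Fin n) F) (Φ : (Fin n ⊕ Fin n → F) ≃ₗ[F] V) (T : V →ₗ[F] V)
    (hΦ : ∀ x, Φ (g.1 *ᵥ x) = T (Φ x))
    (hform : ∀ c d, B (Φ c) (Φ d) = sympForm n F c d) (E : V →ₗ[F] V) (hE2 : ∀ v, E (E v) = E v)
    (hET : ∀ v, E (T v) = T (E v)) (hadj : ∀ x y, B (E x) y = B x (E y)) (v₀ v₁ : V)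
    (hv₀ : E v₀ ≠ 0) (hv₁ : E v₁ ≠ v₁) :
    ∃ e : MM n F, e * e = e ∧ e ≠ 0 ∧ e ≠ 1 ∧ e * g.1 = g.1 * e ∧ adj e = e := by
  classical
  obtain ⟨e, hed⟩ : ∃ e : MM n F, e = LinearMap.toMatrix'
      (Φ.symm.toLinearMap ∘ₗ E ∘ₗ Φ.toLinearMap) := ⟨_, rfl⟩
  have he : ∀ x, e *ᵥ x = Φ.symm (E (Φ x)) := by
    intro x
    rw [hed, LinearMap.toMatrix'_mulVec]
    rfl
  have he' : ∀ x, Φ (e *ᵥ x) = E (Φ x) := by
    intro x
    rw [he, LinearEquiv.apply_symm_apply]
  refine ⟨e, ?_, ?_, ?_, ?_, ?_⟩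
  · apply matrix_eq_of_mulVec
    intro x
    rw [← mulVec_mulVec]
    apply Φ.injective
    rw [he', he', hE2]
  · intro h
    apply hv₀
    have h1 := he' (Φ.symm v₀)
    rw [h, zero_mulVec, map_zero, LinearEquiv.apply_symm_apply] at h1
    exact h1.symm
  · intro h
    apply hv₁
    have h1 := he' (Φ.symm v₁)
    rw [h, one_mulVec, LinearEquiv.apply_symm_apply] at h1
    exact h1.symm
  · apply matrix_eq_of_mulVec
    intro x
    rw [← mulVec_mulVec, ← mulVec_mulVec]
    apply Φ.injective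
    rw [he', hΦ, hΦ, he', hET]
  · apply matrix_eq_of_mulVec
    intro v
    rw [← sub_eq_zero]
    apply symp_nondeg
    intro u
    rw [symp_sub_right, ← form_adj, sub_eq_zero, ← hform, ← hform, he', he', hadj]

end CfsgLib.SpecS
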