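import Mathlib
import Cfsg.Agent.Lib.ClassMax.SpecS1

/-! Alternating forms on finite fields and the maximal tori of `PSp_{2n}(q)`. -/

set_option autoImplicit false

namespace CfsgLib.SpecS

open Polynomial Cfsg CfsgLib.ClassGeo CfsgLib.Spec3 CfsgLib.SpecU Matrix

variable {F : Type*} [Field F] [Fintype F] {n : ℕ}

/-- The anisotropic form on a field of even degree. -/
theorem field_form {K : Type*} [Field K] [Finite K] [Algebra F K] (d : ℕ) (hd : 1 ≤ d)
    (hfr : Module.finrank F K = 2 * d) (p a : ℕ) (hp : p.Prime) (hq : Fintype.card F = p ^ a) [CharP F p]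
    (h2 : (2 : F) ≠ 0) :
    ∃ B : LinearMap.BilinForm F K, B.IsAlt ∧ (∀ u, (∀ v, B u v = 0) → u = 0) ∧
      ∀ w : K, w ^ ((Fintype.card F) ^ d + 1) = 1 → ∀ x y, B (w * x) (w * y) = B x y := by
  classical
  obtain ⟨q, hqd⟩ : ∃ q, q = Fintype.card F := ⟨_, rfl⟩
  rw [← hqd]
  have hq2 : 2 ≤ q := hqd ▸ Fintype.one_lt_card
  haveI : Fact p.Prime := ⟨hp⟩
  haveI : Module.Finite F K := Module.Finite.of_finite
  haveI : CharP K p := charP_of_injective_algebraMap (algebraMap F K).injective p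
  letI : Fintype K := Fintype.ofFinite K
  have hcardK : Fintype.card K = q ^ (2 * d) := by
    rw [← Nat.card_eq_fintype_card, Module.natCard_eq_pow_finrank (K := F),
      Nat.card_eq_fintype_card, ← hqd, hfr]
  let τ : K →+* K := iterateFrobenius K p (a * d)
  have hτ : ∀ x, τ x = x ^ (q ^ d) := fun x => by
    show (iterateFrobenius K p (a * d)) x = _
    rw [iterateFrobenius_def, hqd, hq, pow_mul]
  have hττ : ∀ x, τ (τ x) = x := by
    intro x
    rw [hτ, hτ, ← pow_mul, ← pow_add, ← two_mul, ← hcardK, FiniteField.pow_card]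
  have hτF : ∀ c : F, τ (algebraMap F K c) = algebraMap F K c := by
    intro c
    rw [hτ, ← map_pow, hqd, FiniteField.pow_card_pow]
  have h2K : (2 : K) ≠ 0 := by
    intro h
    apply h2
    apply (algebraMap F K).injective
    rw [map_ofNat, map_zero, h]
  -- an anti-invariant element
  obtain ⟨ξ, hξ⟩ : ∃ ξ : K, τ ξ ≠ ξ := by
    by_contra hcon
    push Not at hcon
    obtain ⟨v, hv⟩ := IsCyclic.exists_generator (α := Kˣ)
    have hordv : orderOf v = q ^ (2 * d) - 1 := by
      rw [orderOf_eq_card_of_forall_mem_zpowers hv, Nat.card_eq_fintype_card, Fintype.card_units, hcardK]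
    have h1 : 1 < q ^ d := Nat.one_lt_pow (by omega) (by omega)
    have h3 : v ^ (q ^ d - 1) = 1 := by
      ext
      apply mul_right_cancel₀ v.ne_zero
      rw [Units.val_one, one_mul, Units.val_pow_eq_pow_val, ← pow_succ,
        show q ^ d - 1 + 1 = q ^ d by omega, ← hτ, hcon]
    have h4 := Nat.le_of_dvd (by omega) (orderOf_dvd_of_pow_eq_one h3)
    rw [hordv, two_mul, pow_add] at h4
    have : q ^ d * 1 < q ^ d * q ^ d := Nat.mul_lt_mul_of_pos_left h1 (by omega)
    omega
  obtain ⟨δ, hδd⟩ : ∃ δ, δ = ξ - τ ξ := ⟨_, rfl⟩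
  have hδ0 : δ ≠ 0 := by
    rw [hδd]
    exact sub_ne_zero.mpr hξ.symm
  have hτδ : τ δ = -δ := by
    rw [hδd, map_sub, hττ]
    ring
  obtain ⟨Tr, hTrd⟩ : ∃ Tr, Tr = Algebra.trace F K := ⟨_, rfl⟩
  have hTra : ∀ (c : F) (z : K), Tr (algebraMap F K c * z) = c * Tr z := by
    intro c z
    rw [hTrd, trace_alg]
  have hTrτ : ∀ z, Tr (τ z) = Tr z := by
    intro z
    apply (algebraMap F K).injective
    rw [← hτF (Tr z), hTrd, FiniteField.algebraMap_trace_eq_sum_pow,
      FiniteField.algebraMap_trace_eq_sum_pow, map_sum]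
    refine Finset.sum_congr rfl fun i _ => ?_
    rw [map_pow]
  let B : LinearMap.BilinForm F K := LinearMap.mk₂ F (fun x y => Tr (δ * τ x * y))
    (by
      intro x x' y
      rw [map_add, mul_add, add_mul, map_add])
    (by
      intro c x y
      rw [Algebra.smul_def, map_mul τ, hτF, smul_eq_mul, ← hTra]
      congr 1
      ring)
    (by
      intro x y y'
      rw [mul_add, map_add])
    (by
      intro c x y
      rw [Algebra.smul_def, smul_eq_mul, ← hTra]
      congr 1
      ring)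
  have hB : ∀ x y, B x y = Tr (δ * τ x * y) := fun _ _ => rfl
  refine ⟨B, ?_, ?_, ?_⟩
  · intro x
    rw [hB]
    obtain ⟨z, hz⟩ : ∃ z, z = δ * τ x * x := ⟨_, rfl⟩
    rw [← hz]
    have h3 : τ z = -z := by
      rw [hz, map_mul τ, map_mul τ, hτδ, hττ]
      ring
    have h4 := hTrτ z
    rw [h3, map_neg] at h4
    have h5 : (2 : F) * Tr z = 0 := by linear_combination -h4
    exact (mul_eq_zero.mp h5).resolve_left h2
  · intro u hu
    have h3 : δ * τ u = 0 := by
      apply trace_ne (F := F)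
      intro v
      rw [← hTrd, ← hB]
      exact hu v
    have h4 : τ u = 0 := (mul_eq_zero.mp h3).resolve_left hδ0
    have h5 := hττ u
    rw [h4, map_zero] at h5
    exact h5.symm
  · intro w hw x y
    rw [hB, hB]
    have h3 : τ w * w = 1 := by rw [hτ, ← pow_succ, hw]
    congr 1
    rw [map_mul τ]
    calc δ * (τ w * τ x) * (w * y) = (τ w * w) * (δ * τ x * y) := by ring
      _ = _ := by rw [h3, one_mul]

/-- The hyperbolic form on two copies of a field. -/
theorem dual_form {K : Type*} [Field K] [Finite K] [Algebra F K] :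
    ∃ B : LinearMap.BilinForm F (K × K), B.IsAlt ∧ (∀ u, (∀ v, B u v = 0) → u = 0) ∧
      ∀ w : K, w ≠ 0 → ∀ x y : K × K, B (w * x.1, w⁻¹ * x.2) (w * y.1, w⁻¹ * y.2) = B x y := by
  classical
  obtain ⟨Tr, hTrd⟩ : ∃ Tr, Tr = Algebra.trace F K := ⟨_, rfl⟩
  have hTra : ∀ (c : F) (z : K), Tr (algebraMap F K c * z) = c * Tr z := by
    intro c z
    rw [hTrd, trace_alg]
  let B : LinearMap.BilinForm F (K × K) := LinearMap.mk₂ F (fun u v => Tr (u.1 * v.2) - Tr (v.1 * u.2))
    (by
      intro x x' y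
      simp only [Prod.fst_add, Prod.snd_add, add_mul, mul_add, map_add]
      ring)
    (by
      intro c u v
      have e1 : (c • u).1 = algebraMap F K c * u.1 := Algebra.smul_def c u.1
      have e2 : (c • u).2 = algebraMap F K c * u.2 := Algebra.smul_def c u.2
      rw [e1, e2, mul_assoc, mul_left_comm v.1, hTra, hTra, smul_eq_mul]
      ring)
    (by
      intro x x' y
      simp only [Prod.fst_add, Prod.snd_add, add_mul, mul_add, map_add]
      ring)
    (by
      intro c u v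
      have e1 : (c • v).1 = algebraMap F K c * v.1 := Algebra.smul_def c v.1
      have e2 : (c • v).2 = algebraMap F K c * v.2 := Algebra.smul_def c v.2
      rw [e1, e2, mul_assoc, mul_left_comm u.1, hTra, hTra, smul_eq_mul]
      ring)
  have hB : ∀ u v, B u v = Tr (u.1 * v.2) - Tr (v.1 * u.2) := fun _ _ => rfl
  refine ⟨B, ?_, ?_, ?_⟩
  · intro x
    rw [hB, sub_self]
  · intro u hu
    refine Prod.ext ?_ ?_
    · apply trace_ne (F := F)
      intro v
      have h1 := hu (0, v)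
      rw [hB] at h1
      simpa [hTrd] using h1
    · apply trace_ne (F := F)
      intro v
      have h1 := hu (v, 0)
      rw [hB] at h1
      have h3 : Tr (v * u.2) = 0 := by simpa using h1
      rw [mul_comm, ← hTrd]
      exact h3
  · intro w hw x y
    rw [hB, hB]
    have e : ∀ a b : K, w * a * (w⁻¹ * b) = a * b := by
      intro a b
      field_simp
    show Tr (w * x.1 * (w⁻¹ * y.2)) - Tr (w * y.1 * (w⁻¹ * x.2)) = _
    rw [e, e]

theorem scalar_sq (hn : 1 ≤ n) (g : symplecticGroup (Fin n) F) (c : F) (h : g.1 = c • (1 : MM n F)) :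
    c ^ 2 = 1 := by
  have h1 := adj_self_mul g
  rw [h, adj_smul, adj_one, smul_mul_assoc, mul_smul_comm, one_mul, smul_smul] at h1
  have i0 : Fin n ⊕ Fin n := Sum.inl ⟨0, by omega⟩
  have h3 := congrFun (congrFun h1 i0) i0
  rw [Matrix.smul_apply, Matrix.one_apply_eq, smul_eq_mul, mul_one] at h3
  rw [sq]
  exact h3

theorem order_torus (hn : 1 ≤ n) (g : symplecticGroup (Fin n) F) {K : Type*} [Field K] [Algebra F K]
    (a : K) (N : ℕ) (ha : orderOf a = 2 * N)
    (h1 : ∀ k c, (g ^ k).1 = c • (1 : MM n F) → a ^ k = algebraMap F K c)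
    (h2 : ∀ k, (a ^ k) ^ 2 = 1 → ∃ c : F, (g ^ k).1 = c • (1 : MM n F)) :
    orderOf (piS n F g) = N := by
  refine eq_of_dvd_iff fun k => ?_
  rw [orderOf_dvd_iff_pow_eq_one, ← map_pow]
  constructor
  · intro h
    obtain ⟨c, hc⟩ := scalar_of_piS_eq_one _ h
    have h3 := scalar_sq hn _ c hc
    have h4 : a ^ (2 * k) = 1 := by
      rw [mul_comm, pow_mul, h1 k c hc, ← map_pow, h3, map_one]
    have h5 := orderOf_dvd_of_pow_eq_one h4
    rw [ha] at h5
    exact Nat.dvd_of_mul_dvd_mul_left (by norm_num) h5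
  · intro h
    have h3 : orderOf a ∣ k * 2 := by
      rw [ha, mul_comm 2 N]
      exact mul_dvd_mul_right h 2
    have h4 : (a ^ k) ^ 2 = 1 := by
      rw [← pow_mul]
      exact orderOf_dvd_iff_pow_eq_one.mp h3
    obtain ⟨c, hc⟩ := h2 k h4
    exact piS_eq_one_of_scalar _ c hc

omit [Fintype F] in
theorem mulLeft_powS {K : Type*} [Field K] [Algebra F K] (w : K) (k : ℕ) (x : K) :
    ((LinearMap.mulLeft F w) ^ k) x = w ^ k * x := by
  induction k generalizing x with
  | zero => simp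
  | succ k ih =>
    rw [pow_succ, Module.End.mul_apply, ih, pow_succ]
    show w ^ k * (w * x) = _
    ring

/-- The torus of order `(q ^ n + 1) / 2`. -/
theorem torus_plus {K : Type*} [Field K] [Finite K] [Algebra F K] (hn : 1 ≤ n)
    (hfr : Module.finrank F K = 2 * n) (p a : ℕ) (hp : p.Prime) (hq : Fintype.card F = p ^ a) [CharP F p]
    (h2 : (2 : F) ≠ 0) (N : ℕ) (hN : 2 * N = (Fintype.card F) ^ n + 1) :
    ∃ y : PSp n F, orderOf y = N := by
  classical
  obtain ⟨B, hA, hsep, hiso⟩ := field_form (K := K) n hn hfr p a hp hq h2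
  obtain ⟨q, hqd⟩ : ∃ q, q = Fintype.card F := ⟨_, rfl⟩
  rw [← hqd] at hiso hN
  have hq2 : 2 ≤ q := hqd ▸ Fintype.one_lt_card
  haveI : Module.Finite F K := Module.Finite.of_finite
  letI : Fintype K := Fintype.ofFinite K
  have hcardK : Fintype.card K = q ^ (2 * n) := by
    rw [← Nat.card_eq_fintype_card, Module.natCard_eq_pow_finrank (K := F),
      Nat.card_eq_fintype_card, ← hqd, hfr]
  obtain ⟨v, hv⟩ := IsCyclic.exists_generator (α := Kˣ)
  have hordv : orderOf v = q ^ (2 * n) - 1 := by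
    rw [orderOf_eq_card_of_forall_mem_zpowers hv, Nat.card_eq_fintype_card, Fintype.card_units, hcardK]
  have h1q : 1 < q ^ n := Nat.one_lt_pow (by omega) (by omega)
  obtain ⟨y', hy'⟩ : ∃ y', q ^ n = y' + 1 := ⟨q ^ n - 1, by omega⟩
  have hfac : q ^ (2 * n) - 1 = (q ^ n - 1) * (q ^ n + 1) := by
    rw [mul_comm 2 n, pow_mul, hy']
    simp only [Nat.add_sub_cancel]
    have : (y' + 1) ^ 2 = y' * (y' + 1 + 1) + 1 := by ring
    omega
  have hc0 : q ^ n - 1 ≠ 0 := by omega
  obtain ⟨wu, hwu⟩ : ∃ wu, wu = v ^ (q ^ n - 1) := ⟨_, rfl⟩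
  have hwuord : orderOf wu = q ^ n + 1 := by
    rw [hwu, orderOf_pow_of_dvd hc0 ⟨q ^ n + 1, by rw [hordv, hfac]⟩, hordv, hfac]
    exact Nat.mul_div_cancel_left _ (Nat.pos_of_ne_zero hc0)
  obtain ⟨w, hw⟩ : ∃ w : K, w = wu := ⟨_, rfl⟩
  have hword : orderOf w = q ^ n + 1 := by
    rw [hw, orderOf_units, hwuord]
  have hwA : w ^ (q ^ n + 1) = 1 := hword ▸ pow_orderOf_eq_one w
  obtain ⟨T, hT⟩ : ∃ T, T = LinearMap.mulLeft F w := ⟨_, rfl⟩
  have hTx : ∀ (k : ℕ) (x : K), (T ^ k) x = w ^ k * x := by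
    intro k x
    rw [hT]
    exact mulLeft_powS w k x
  have hTiso : ∀ x y, B (T x) (T y) = B x y := by
    intro x y
    rw [hT]
    exact hiso w hwA x y
  obtain ⟨g, Φ, hΦ, -⟩ := transfer B hA hsep hfr T hTiso
  refine ⟨piS n F g, order_torus hn g w N (hword.trans hN.symm) ?_ ?_⟩
  · intro k c hc
    have h3 := (transfer_scalar g Φ T hΦ k c).mp hc 1
    rw [hTx, mul_one, Algebra.smul_def, mul_one] at h3
    exact h3
  · intro k hk
    have h3 : w ^ k = 1 ∨ w ^ k = -1 := mul_self_eq_one_iff.mp (by rw [← sq, hk])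
    rcases h3 with h3 | h3
    · refine ⟨1, (transfer_scalar g Φ T hΦ k 1).mpr fun x => ?_⟩
      rw [hTx, h3, one_mul, one_smul]
    · refine ⟨-1, (transfer_scalar g Φ T hΦ k (-1)).mpr fun x => ?_⟩
      rw [hTx, h3, neg_one_mul, neg_smul, one_smul]

/-- The torus of order `(q ^ n - 1) / 2`. -/
theorem torus_minus {K : Type*} [Field K] [Finite K] [Algebra F K] (hn : 1 ≤ n)
    (hfr : Module.finrank F K = n) (N : ℕ) (hN : 2 * N = (Fintype.card F) ^ n - 1) :
    ∃ y : PSp n F, orderOf y = N := by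
  classical
  obtain ⟨B, hA, hsep, hiso⟩ := dual_form (F := F) (K := K)
  obtain ⟨q, hqd⟩ : ∃ q, q = Fintype.card F := ⟨_, rfl⟩
  rw [← hqd] at hN
  have hq2 : 2 ≤ q := hqd ▸ Fintype.one_lt_card
  haveI : Module.Finite F K := Module.Finite.of_finite
  letI : Fintype K := Fintype.ofFinite K
  have hcardK : Fintype.card K = q ^ n := by
    rw [← Nat.card_eq_fintype_card, Module.natCard_eq_pow_finrank (K := F),
      Nat.card_eq_fintype_card, ← hqd, hfr]
  obtain ⟨v, hv⟩ := IsCyclic.exists_generator (α := Kˣ)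
  have hordv : orderOf v = q ^ n - 1 := by
    rw [orderOf_eq_card_of_forall_mem_zpowers hv, Nat.card_eq_fintype_card, Fintype.card_units, hcardK]
  obtain ⟨w, hw⟩ : ∃ w : K, w = v := ⟨_, rfl⟩
  have hword : orderOf w = q ^ n - 1 := by
    rw [hw, orderOf_units, hordv]
  have hw0 : w ≠ 0 := hw ▸ v.ne_zero
  obtain ⟨T, hT⟩ : ∃ T : (K × K) →ₗ[F] (K × K), T = LinearMap.prodMap (LinearMap.mulLeft F w)
      (LinearMap.mulLeft F w⁻¹) := ⟨_, rfl⟩
  have hTu : ∀ u : K × K, T u = (w * u.1, w⁻¹ * u.2) := fun u => by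
    rw [hT]
    rfl
  have hTx : ∀ (k : ℕ) (u : K × K), (T ^ k) u = (w ^ k * u.1, (w⁻¹) ^ k * u.2) := by
    intro k u
    induction k generalizing u with
    | zero => simp
    | succ k ih =>
      rw [pow_succ, Module.End.mul_apply, ih, hTu, pow_succ, pow_succ, mul_assoc, mul_assoc]
  have hTiso : ∀ x y, B (T x) (T y) = B x y := by
    intro x y
    rw [hTu, hTu]
    exact hiso w hw0 x y
  have hfr2 : Module.finrank F (K × K) = 2 * n := by
    rw [Module.finrank_prod, hfr, two_mul]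
  obtain ⟨g, Φ, hΦ, -⟩ := transfer B hA hsep hfr2 T hTiso
  refine ⟨piS n F g, order_torus hn g w N (hword.trans hN.symm) ?_ ?_⟩
  · intro k c hc
    have h3 := (transfer_scalar g Φ T hΦ k c).mp hc (1, 0)
    rw [hTx] at h3
    have h4 := congrArg Prod.fst h3
    simpa [Algebra.smul_def] using h4
  · intro k hk
    have h3 : w ^ k = 1 ∨ w ^ k = -1 := mul_self_eq_one_iff.mp (by rw [← sq, hk])
    rcases h3 with h3 | h3
    · refine ⟨1, (transfer_scalar g Φ T hΦ k 1).mpr fun x => ?_⟩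
      rw [hTx, h3, inv_pow, h3, inv_one, one_mul, one_mul, one_smul]
    · refine ⟨-1, (transfer_scalar g Φ T hΦ k (-1)).mpr fun x => ?_⟩
      rw [hTx, h3, inv_pow, h3, neg_smul, one_smul]
      refine Prod.ext ?_ ?_
      · show -1 * x.1 = - x.1
        ring
      · show (-1 : K)⁻¹ * x.2 = - x.2
        rw [inv_neg, inv_one]
        ring

end CfsgLib.SpecS
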