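import Mathlib
import Cfsg.Agent.Lib.ClassMax.SpecS2

/-! Regular unipotent elements of symplectic groups and element orders `2 β p ^ (b + 1)` in
`PSp_{2n}(q)`. -/

set_option autoImplicit false

namespace CfsgLib.SpecS

open Polynomial Cfsg CfsgLib.ClassGeo CfsgLib.Spec3 CfsgLib.SpecU Matrix

variable {F : Type*} [Field F] [Fintype F] {n : ℕ}

/-- The alternating form with a shift as a skew map. -/
noncomputable def formA (k' : ℕ) : LinearMap.BilinForm F (Fin (k' + 1) → F) :=
  LinearMap.mk₂ F (fun x y => ∑ i : Fin (k' + 1), (-1) ^ i.1 * x (Fin.rev i) * y i)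
    (by
      intro x x' y
      simp only [Pi.add_apply, mul_add, add_mul, Finset.sum_add_distrib])
    (by
      intro a x y
      simp only [Pi.smul_apply, smul_eq_mul, Finset.mul_sum]
      refine Finset.sum_congr rfl fun i _ => ?_
      ring)
    (by
      intro x y y'
      simp only [Pi.add_apply, mul_add, Finset.sum_add_distrib])
    (by
      intro a x y
      simp only [Pi.smul_apply, smul_eq_mul, Finset.mul_sum]
      refine Finset.sum_congr rfl fun i _ => ?_
      ring)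

theorem formA_apply (k' : ℕ) (x y : Fin (k' + 1) → F) :
    formA k' x y = ∑ i : Fin (k' + 1), (-1) ^ i.1 * x (Fin.rev i) * y i := rfl

theorem formA_alt (h2 : (2 : F) ≠ 0) (k' : ℕ) (hk : Odd k') : (formA (F := F) k').IsAlt := by
  intro x
  have h1 : formA k' x x = - formA k' x x := by
    rw [formA_apply]
    conv_lhs => rw [← Equiv.sum_comp Fin.revPerm]
    rw [← Finset.sum_neg_distrib]
    refine Finset.sum_congr rfl fun i _ => ?_
    simp only [Fin.revPerm_apply, Fin.rev_rev, Fin.val_rev]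
    have hi := i.2
    have h3 : ((-1 : F)) ^ (k' + 1 - (i.1 + 1)) = - (-1) ^ i.1 := by
      have h4 : (-1 : F) ^ (k' + 1 - (i.1 + 1)) * (-1) ^ i.1 = -1 := by
        rw [← pow_add, show k' + 1 - (i.1 + 1) + i.1 = k' by omega, hk.neg_one_pow]
      have h5 : ((-1 : F) ^ i.1) * (-1) ^ i.1 = 1 := by
        rw [← mul_pow]
        simp
      calc (-1 : F) ^ (k' + 1 - (i.1 + 1)) = (-1 : F) ^ (k' + 1 - (i.1 + 1)) * ((-1) ^ i.1 * (-1) ^ i.1) := by
            rw [h5, mul_one]
        _ = ((-1 : F) ^ (k' + 1 - (i.1 + 1)) * (-1) ^ i.1) * (-1) ^ i.1 := by ring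
        _ = - (-1) ^ i.1 := by
            rw [h4]
            ring
    rw [h3]
    ring
  have h3 : (2 : F) * formA k' x x = 0 := by linear_combination h1
  exact (mul_eq_zero.mp h3).resolve_left h2

theorem formA_sep (k' : ℕ) (x : Fin (k' + 1) → F) (h : ∀ y, formA k' x y = 0) : x = 0 := by
  classical
  funext i
  have h1 := h (Pi.single (Fin.rev i) 1)
  rw [formA_apply, Finset.sum_eq_single (Fin.rev i)] at h1
  · rw [Pi.single_eq_same, mul_one, Fin.rev_rev] at h1
    exact (mul_eq_zero.mp h1).resolve_left (pow_ne_zero _ (by simp))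
  · intro j _ hj
    rw [Pi.single_eq_of_ne hj, mul_zero]
  · intro h2
    exact absurd (Finset.mem_univ _) h2

theorem formA_skew (k' : ℕ) (x y : Fin (k' + 1) → F) :
    formA k' (shiftX k' x) y = - formA k' x (shiftX k' y) := by
  rw [formA_apply, formA_apply, Fin.sum_univ_succ, Fin.sum_univ_castSucc (n := k')]
  rw [Fin.rev_zero, shiftX_last, shiftX_last, mul_zero, zero_mul, mul_zero, add_zero, zero_add,
    ← Finset.sum_neg_distrib]
  refine Finset.sum_congr rfl fun i _ => ?_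
  rw [Fin.rev_succ, shiftX_castSucc, shiftX_castSucc, Fin.rev_castSucc, Fin.val_succ, Fin.val_castSucc,
    pow_succ]
  ring

/-- The regular unipotent element. -/
theorem exists_unipotent (h2 : (2 : F) ≠ 0) (p : ℕ) (hp : p.Prime) [CharP F p] (b k' : ℕ)
    (hk' : k' = p ^ b) :
    ∃ u : Module.End F (Fin (k' + 1) → F), (∀ x y, formA k' (u x) (u y) = formA k' x y) ∧
      u ^ (p ^ (b + 1)) = 1 ∧ u ^ (p ^ b) ≠ 1 := by
  classical
  haveI : Fact p.Prime := ⟨hp⟩
  obtain ⟨α, hα⟩ : ∃ α : F, α + α = 1 := ⟨(2 : F)⁻¹, by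
    rw [← two_mul, mul_inv_cancel₀ h2]⟩
  obtain ⟨X, hXd⟩ : ∃ X, X = shiftX (F := F) k' := ⟨_, rfl⟩
  have hskew : ∀ x y, formA k' (X x) y = - formA k' x (X y) := by
    intro x y
    rw [hXd]
    exact formA_skew k' x y
  have hXpow : ∀ (m : ℕ) (y : Fin (k' + 1) → F) (j : Fin (k' + 1)),
      (X ^ m) y j = if h : j.1 + m < k' + 1 then y ⟨j.1 + m, h⟩ else 0 := by
    intro m y j
    rw [hXd]
    exact shiftX_pow k' m y j
  have hXk : X ^ (k' + 1) = 0 := by
    refine LinearMap.ext fun y => ?_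
    funext j
    rw [hXpow, dif_neg (by omega)]
    rfl
  have hXk' : X ^ k' ≠ 0 := by
    intro h
    have h1 := hXpow k' (Pi.single (Fin.last k') 1) 0
    rw [h, dif_pos (by simp)] at h1
    have h3 : (⟨(0 : Fin (k' + 1)).1 + k', by simp⟩ : Fin (k' + 1)) = Fin.last k' := by
      apply Fin.ext
      simp
    rw [h3, Pi.single_eq_same] at h1
    exact zero_ne_one h1
  obtain ⟨x₁, hx₁⟩ : ∃ x₁, x₁ = α • X := ⟨_, rfl⟩
  have hx₁k : x₁ ^ (k' + 1) = 0 := by rw [hx₁, _root_.smul_pow, hXk, smul_zero]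
  obtain ⟨W, hWd⟩ : ∃ W, W = ∑ j ∈ Finset.range (k' + 1), x₁ ^ j := ⟨_, rfl⟩
  have hW1 : (1 - x₁) * W = 1 := by
    rw [hWd, mul_neg_geom_sum, hx₁k, sub_zero]
  have hW2 : W * (1 - x₁) = 1 := by
    rw [hWd, geom_sum_mul_neg, hx₁k, sub_zero]
  have hXx₁ : Commute X x₁ := by
    rw [hx₁]
    exact (Commute.refl X).smul_right α
  have hXW : Commute X W := by
    rw [hWd]
    exact Commute.sum_right _ _ _ fun j _ => hXx₁.pow_right j
  obtain ⟨u, hud⟩ : ∃ u, u = 1 + X * W := ⟨_, rfl⟩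
  have hu : u = (1 + α • X) * W := by
    have h3 : W - α • (X * W) = 1 := by
      have h4 := hW1
      rwa [sub_mul, one_mul, hx₁, smul_mul_assoc] at h4
    have h1 : W = 1 + α • (X * W) := by
      rw [← h3]
      abel
    rw [hud, add_mul, one_mul, smul_mul_assoc]
    calc 1 + X * W = 1 + (α + α) • (X * W) := by rw [hα, one_smul]
      _ = (1 + α • (X * W)) + α • (X * W) := by rw [add_smul]; abel
      _ = W + α • (X * W) := by rw [← h1]
  have adj1 : ∀ x y, formA k' ((1 + α • X) x) y = formA k' x ((1 - x₁) y) := by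
    intro x y
    have e1 : (1 + α • X) x = x + α • X x := rfl
    have e2 : (1 - x₁) y = y - α • X y := by
      rw [hx₁]
      rfl
    rw [e1, e2, map_add, LinearMap.add_apply, map_sub, map_smul, LinearMap.smul_apply, map_smul, hskew,
      smul_eq_mul, smul_eq_mul]
    ring
  have adj2 : ∀ x y, formA k' ((1 - x₁) x) y = formA k' x ((1 + α • X) y) := by
    intro x y
    have e1 : (1 + α • X) y = y + α • X y := rfl
    have e2 : (1 - x₁) x = x - α • X x := by
      rw [hx₁]
      rfl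
    rw [e1, e2, map_sub, LinearMap.sub_apply, map_add, map_smul, LinearMap.smul_apply, map_smul, hskew,
      smul_eq_mul, smul_eq_mul]
    ring
  have hcomm2 : Commute (1 + α • X) (1 - x₁) :=
    (Commute.one_right _).sub_right ((Commute.one_left x₁).add_left (hXx₁.smul_left α))
  have hiso1 : ∀ x y, formA k' (u x) (u y) = formA k' x y := by
    intro x y
    have e : ∀ z, u z = (1 + α • X) (W z) := by
      intro z
      rw [hu]
      rfl
    have h4 : (1 - x₁) ((1 + α • X) (W y)) = (1 + α • X) ((1 - x₁) (W y)) :=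
      (LinearMap.congr_fun hcomm2 (W y)).symm
    have h5 : (1 - x₁) (W y) = y := LinearMap.congr_fun hW1 y
    have h6 : (1 - x₁) (W x) = x := LinearMap.congr_fun hW1 x
    rw [e, e, adj1, h4, h5, ← adj2, h6]
  haveI : CharP (Module.End F (Fin (k' + 1) → F)) p :=
    charP_of_injective_algebraMap (algebraMap F _).injective p
  haveI : ExpChar (Module.End F (Fin (k' + 1) → F)) p := ExpChar.prime hp
  have hupow : ∀ m, u ^ (p ^ m) = 1 + X ^ (p ^ m) * W ^ (p ^ m) := by
    intro m
    rw [hud, add_pow_expChar_pow_of_commute p m (Commute.one_left _), one_pow, hXW.mul_pow]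
  have hpb : 1 ≤ p ^ b := Nat.one_le_pow _ _ hp.pos
  have hp2 : 2 ≤ p := hp.two_le
  have hkle : k' + 1 ≤ p ^ (b + 1) := by
    rw [pow_succ, hk']
    nlinarith
  refine ⟨u, hiso1, ?_, ?_⟩
  · rw [hupow, pow_eq_zero_of_le hkle hXk, zero_mul, add_zero]
  · intro h
    rw [hupow, ← hk'] at h
    have h1 : X ^ k' * W ^ k' = 0 := by simpa using h
    have hcW : Commute W (1 - x₁) := by
      show W * (1 - x₁) = (1 - x₁) * W
      rw [hW1, hW2]
    apply hXk'
    calc X ^ k' = X ^ k' * (W * (1 - x₁)) ^ k' := by rw [hW2, one_pow, mul_one]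
      _ = (X ^ k' * W ^ k') * (1 - x₁) ^ k' := by rw [hcW.mul_pow, mul_assoc]
      _ = 0 := by rw [h1, zero_mul]

/-- The standard form as a bilinear form. -/
noncomputable def sympB (m : ℕ) (F : Type*) [Field F] : LinearMap.BilinForm F (Fin m ⊕ Fin m → F) :=
  LinearMap.mk₂ F (fun x y => sympForm m F x y)
    (fun x x' y => symp_add_left x x' y)
    (fun c x y => symp_smul_left c x y)
    (fun x y y' => symp_add_right x y y')
    (fun c x y => symp_smul_right c x y)

theorem sympB_apply (m : ℕ) (x y : Fin m ⊕ Fin m → F) : sympB m F x y = sympForm m F x y := rfl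

/-- The main construction: an element of order `β p ^ (b + 1)` commuting with an involution. -/
theorem constr (h2 : (2 : F) ≠ 0) (p : ℕ) (hp : p.Prime) [CharP F p] {V₁ : Type*}
    [AddCommGroup V₁] [Module F V₁] [FiniteDimensional F V₁] (B₁ : LinearMap.BilinForm F V₁)
    (hA₁ : B₁.IsAlt) (hsep₁ : ∀ u, (∀ v, B₁ u v = 0) → u = 0) (T₁ : V₁ →ₗ[F] V₁)
    (hT₁ : ∀ x y, B₁ (T₁ x) (T₁ y) = B₁ x y) (d : ℕ) (hd : Module.finrank F V₁ = 2 * d) (β : ℕ)
    (hβ : ∀ j, T₁ ^ j = 1 ↔ β ∣ j) (hβ2 : ¬ 2 ∣ β) (hβp : Nat.Coprime β p) (b : ℕ)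
    (hk : p ^ b + 1 + 2 * d ≤ 2 * n) (hk2 : p ^ b + 1 < 2 * n) :
    ∃ y : PSp n F, orderOf y = β * p ^ (b + 1) * 2 := by
  classical
  haveI : Fact p.Prime := ⟨hp⟩
  have hp2 : p ≠ 2 := by
    rintro rfl
    exact h2 (by exact_mod_cast CharP.cast_eq_zero F 2)
  have hpodd : Odd p := hp.odd_of_ne_two hp2
  obtain ⟨k', hk'⟩ : ∃ k', k' = p ^ b := ⟨_, rfl⟩
  have hk'odd : Odd k' := hk' ▸ hpodd.pow
  obtain ⟨t, ht⟩ := hk'odd
  obtain ⟨m, hm⟩ : ∃ m, 2 * n = k' + 1 + 2 * d + 2 * m := ⟨(2 * n - (k' + 1 + 2 * d)) / 2, by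
    rw [← hk'] at hk
    omega⟩
  obtain ⟨u, huiso, hu1, hu2⟩ := exists_unipotent h2 p hp b k' hk'
  have hA₂ : (formA (F := F) k').IsAlt := formA_alt h2 k' ⟨t, ht⟩
  obtain ⟨B, hB⟩ : ∃ B, B = prodForm (RingHom.id F) B₁ (prodForm (RingHom.id F) (formA (F := F) k') (sympB m F)) :=
    ⟨_, rfl⟩
  have hBa : ∀ x y, B x y = B₁ x.1 y.1 + (formA k' x.2.1 y.2.1 + sympForm m F x.2.2 y.2.2) := fun x y => by
    rw [hB]
    rfl
  have hA : B.IsAlt := by
    intro x
    rw [hBa, hA₁, hA₂, symp_self]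
    simp
  have hsep : ∀ u, (∀ v, B u v = 0) → u = 0 := by
    intro z hz
    refine Prod.ext ?_ (Prod.ext ?_ ?_)
    · refine hsep₁ _ fun y => ?_
      have h1 := hz (y, 0, 0)
      rw [hBa] at h1
      simpa [symp_zero_right] using h1
    · refine formA_sep k' _ fun y => ?_
      have h1 := hz (0, y, 0)
      rw [hBa] at h1
      simpa [symp_zero_right] using h1
    · refine symp_nondeg' fun y => ?_
      have h1 := hz (0, 0, y)
      rw [hBa] at h1
      simpa using h1
  have hfr : Module.finrank F (V₁ × (Fin (k' + 1) → F) × (Fin m ⊕ Fin m → F)) = 2 * n := by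
    rw [Module.finrank_prod, Module.finrank_prod, hd, hm]
    simp
    ring
  obtain ⟨T, hT⟩ : ∃ T : (V₁ × (Fin (k' + 1) → F) × (Fin m ⊕ Fin m → F)) →ₗ[F]
      (V₁ × (Fin (k' + 1) → F) × (Fin m ⊕ Fin m → F)),
      T = LinearMap.prodMap T₁ (LinearMap.prodMap u LinearMap.id) := ⟨_, rfl⟩
  have hTu : ∀ z, T z = (T₁ z.1, u z.2.1, z.2.2) := fun z => by
    rw [hT]
    rfl
  have hTx : ∀ (j : ℕ) z, (T ^ j) z = ((T₁ ^ j) z.1, (u ^ j) z.2.1, z.2.2) := by
    intro j z
    induction j generalizing z with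
    | zero => simp
    | succ j ih =>
      rw [pow_succ, Module.End.mul_apply, ih, hTu, pow_succ, pow_succ]
      rfl
  have hiso : ∀ x y, B (T x) (T y) = B x y := by
    intro x y
    rw [hBa, hBa, hTu, hTu]
    show B₁ (T₁ x.1) (T₁ y.1) + (formA k' (u x.2.1) (u y.2.1) + _) = _
    rw [hT₁, huiso]
  obtain ⟨g, Φ, hΦ, hform⟩ := transfer B hA hsep hfr T hiso
  obtain ⟨o, ho⟩ : ∃ o, o = β * p ^ (b + 1) := ⟨_, rfl⟩
  have hordu : orderOf u = p ^ (b + 1) := orderOf_eq_prime_pow hu2 hu1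
  have hord : orderOf (piS n F g) = o := by
    refine eq_of_dvd_iff fun j => ?_
    rw [orderOf_dvd_iff_pow_eq_one, ← map_pow]
    constructor
    · intro h
      obtain ⟨c, hc⟩ := scalar_of_piS_eq_one _ h
      have h3 := (transfer_scalar g Φ T hΦ j c).mp hc
      have h4 : ∀ x, (u ^ j) x = c • x := by
        intro x
        have h5 := h3 (0, x, 0)
        rw [hTx] at h5
        exact congrArg (fun z => z.2.1) h5
      have h5 : ∀ x, (T₁ ^ j) x = c • x := by
        intro x
        have h6 := h3 (x, 0, 0)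
        rw [hTx] at h6
        exact congrArg (fun z => z.1) h6
      have hc1 : c = 1 := by
        have h6 : ∀ (i : ℕ) (x : Fin (k' + 1) → F), ((u ^ j) ^ i) x = c ^ i • x := by
          intro i x
          induction i generalizing x with
          | zero => simp
          | succ i ih =>
            rw [pow_succ, Module.End.mul_apply, h4, map_smul, ih, smul_smul, pow_succ, mul_comm]
        have h7 := h6 (p ^ (b + 1)) (fun _ => 1)
        rw [← pow_mul, mul_comm, pow_mul, hu1, one_pow] at h7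
        have h8 := congrFun h7 0
        have h9 : c ^ (p ^ (b + 1)) = 1 := by simpa using h8.symm
        apply (iterateFrobenius F p (b + 1)).injective
        rw [iterateFrobenius_def, h9, map_one]
      rw [hc1] at h4 h5
      have h6 : u ^ j = 1 := LinearMap.ext fun x => by rw [h4, one_smul]; rfl
      have h7 : T₁ ^ j = 1 := LinearMap.ext fun x => by rw [h5, one_smul]; rfl
      have h8 : p ^ (b + 1) ∣ j := hordu ▸ orderOf_dvd_of_pow_eq_one h6
      have h9 : β ∣ j := (hβ j).mp h7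
      rw [ho]
      exact (hβp.pow_right _).mul_dvd_of_dvd_of_dvd h9 h8
    · intro h
      rw [ho] at h
      have h3 : β ∣ j := (Dvd.intro _ rfl).trans h
      have h4 : p ^ (b + 1) ∣ j := (Dvd.intro_left _ rfl).trans h
      have h5 : T₁ ^ j = 1 := (hβ j).mpr h3
      have h6 : u ^ j = 1 := by
        rw [← hordu] at h4
        exact orderOf_dvd_iff_pow_eq_one.mp h4
      refine piS_eq_one_of_scalar _ 1 ?_
      refine (transfer_scalar g Φ T hΦ j 1).mpr fun z => ?_
      rw [hTx, h5, h6, one_smul]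
      rfl
  obtain ⟨E, hE⟩ : ∃ E : (V₁ × (Fin (k' + 1) → F) × (Fin m ⊕ Fin m → F)) →ₗ[F]
      (V₁ × (Fin (k' + 1) → F) × (Fin m ⊕ Fin m → F)),
      E = LinearMap.prodMap 0 (LinearMap.prodMap LinearMap.id 0) := ⟨_, rfl⟩
  have hEu : ∀ z, E z = (0, z.2.1, 0) := fun z => by
    rw [hE]
    rfl
  obtain ⟨v₁, hv₁⟩ : ∃ v₁, E v₁ ≠ v₁ := by
    by_contra hcon
    push Not at hcon
    have hd0 : d = 0 := by
      by_contra hd0
      have hpos : 0 < Module.finrank F V₁ := by omega
      haveI : Nontrivial V₁ := Module.nontrivial_of_finrank_pos hpos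
      obtain ⟨x, hx⟩ := exists_ne (0 : V₁)
      have h3 := hcon (x, 0, 0)
      rw [hEu] at h3
      exact hx (congrArg (fun z => z.1) h3).symm
    have hm0 : m = 0 := by
      by_contra hm0
      obtain ⟨m', rfl⟩ : ∃ m', m = m' + 1 := ⟨m - 1, by omega⟩
      have h3 := hcon (0, 0, fun _ => 1)
      rw [hEu] at h3
      have h4 := congrFun (congrArg (fun z => z.2.2) h3) (Sum.inl 0)
      exact zero_ne_one h4
    rw [← hk'] at hk2
    omega
  obtain ⟨e, he2, he0, he1, hcomm, hadj⟩ := transfer_idem B g Φ T hΦ hform E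
    (fun v => by rw [hEu, hEu])
    (fun v => by rw [hEu, hTu, hTu, hEu]; simp)
    (fun x y => by
      rw [hEu, hEu, hBa, hBa]
      simp [symp_zero_left, symp_zero_right])
    (0, fun _ => 1, 0) v₁
    (by
      rw [hEu]
      intro h
      have h3 := congrFun (congrArg (fun z => z.2.1) h) 0
      exact one_ne_zero h3)
    hv₁
  have hodd : ¬ 2 ∣ orderOf (piS n F g) := by
    rw [hord, ho]
    intro h3
    rcases (Nat.Prime.dvd_mul Nat.prime_two).mp h3 with h4 | h4
    · exact hβ2 h4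
    · have h5 := Nat.prime_two.dvd_of_dvd_pow h4
      exact hp2 ((Nat.prime_dvd_prime_iff_eq Nat.prime_two hp).mp h5).symm
  obtain ⟨y, hy⟩ := exists_order_mul h2 g e he2 he0 he1 hcomm hadj hodd
  exact ⟨y, by rw [hy, hord, ho]⟩

end CfsgLib.SpecS
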