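import Mathlib
import Cfsg.Agent.Lib.ClassMax.SpecS3

/-! Semisimple elements of `Sp_{2n}(q)` with few self-adjoint idempotents. -/

set_option autoImplicit false

namespace CfsgLib.SpecS

open Polynomial Cfsg CfsgLib.ClassGeo CfsgLib.Spec3 CfsgLib.SpecU Matrix

variable {F : Type*} [Field F] [Fintype F] {n : ℕ}

theorem adj_aeval (S : MM n F) (P : F[X]) : adj (aeval S P) = aeval (adj S) P := by
  induction P using Polynomial.induction_on' with
  | add p₁ p₂ hp₁ hp₂ => rw [map_add, adj_add, hp₁, hp₂, map_add]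
  | monomial k a =>
    rw [aeval_monomial, aeval_monomial, adj_mul, adj_pow, Algebra.algebraMap_eq_smul_one,
      adj_smul, adj_one]
    simp

omit [Fintype F] in
theorem aeval_commute_End {V : Type*} [AddCommGroup V] [Module F V] (T N : Module.End F V)
    (h : Commute N T) (P : F[X]) : Commute N (aeval T P) := by
  induction P using Polynomial.induction_on' with
  | add p₁ p₂ hp₁ hp₂ =>
    rw [map_add]
    exact hp₁.add_right hp₂
  | monomial k a =>
    rw [aeval_monomial]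
    exact (Algebra.commute_algebraMap_right a N).mul_right (h.pow_right k)

/-- The module structure over the field generated by `T`, with a bound for nilpotent maps commuting
with `T`. -/
theorem irr_dataS {V : Type*} [AddCommGroup V] [Module F V] [FiniteDimensional F V]
    (T : V →ₗ[F] V) (a : F[X]) (ha : Irreducible a) (hT : aeval T a = 0) :
    ∃ (e : ℕ) (φ : AdjoinRoot a →ₐ[F] Module.End F V),
      Module.finrank F V = Module.finrank F (AdjoinRoot a) * e ∧ φ (AdjoinRoot.root a) = T ∧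
      ∀ N : Module.End F V, Commute N T → IsNilpotent N → N ^ e = 0 := by
  classical
  haveI : Fact (Irreducible a) := ⟨ha⟩
  let K := AdjoinRoot a
  let φ : K →ₐ[F] Module.End F V :=
    Ideal.Quotient.liftₐ (Ideal.span {a}) (aeval T) (by
      intro c hc
      obtain ⟨d, rfl⟩ := Ideal.mem_span_singleton.mp hc
      rw [map_mul, hT, zero_mul])
  have hφroot : φ (AdjoinRoot.root a) = T := by
    show aeval T X = T
    rw [aeval_X]
  have hφmk : ∀ P : F[X], φ (AdjoinRoot.mk a P) = aeval T P := fun _ => rfl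
  letI : Module K V := Module.compHom _ φ.toRingHom
  have hsmul : ∀ (c : K) (v : V), c • v = φ c v := fun _ _ => rfl
  haveI : IsScalarTower F K V := ⟨fun a c v => by
    rw [hsmul, hsmul, map_smul]
    rfl⟩
  haveI : Module.Finite F K := (AdjoinRoot.powerBasis ha.ne_zero).finite
  haveI : Finite K := Module.finite_of_finite F
  haveI : Module.Finite K V := Module.Finite.of_restrictScalars_finite F K _
  refine ⟨Module.finrank K V, φ, (Module.finrank_mul_finrank F K V).symm, hφroot, ?_⟩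
  intro N hN hnil
  let N' : V →ₗ[K] V :=
    { toFun := N
      map_add' := N.map_add
      map_smul' := by
        intro c v
        obtain ⟨P, rfl⟩ := AdjoinRoot.mk_surjective c
        rw [RingHom.id_apply, hsmul, hsmul, hφmk]
        exact LinearMap.congr_fun (aeval_commute_End T N hN P) v }
  have hpow : ∀ (m : ℕ) (v : V), (N' ^ m) v = (N ^ m) v := by
    intro m v
    induction m generalizing v with
    | zero => rfl
    | succ m ih =>
      rw [pow_succ, Module.End.mul_apply, ih, pow_succ, Module.End.mul_apply]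
      rfl
  have hnil' : IsNilpotent N' := by
    obtain ⟨m, hm⟩ := hnil
    refine ⟨m, LinearMap.ext fun v => ?_⟩
    rw [hpow, hm]
    rfl
  have h1 := (LinearMap.isNilpotent_iff_charpoly N').mp hnil'
  have h2 := LinearMap.aeval_self_charpoly N'
  rw [h1] at h2
  simp only [map_pow, aeval_X] at h2
  refine LinearMap.ext fun v => ?_
  rw [← hpow, h2]
  rfl

/-- Powers of `x ↦ x ^ q` are ring homomorphisms. -/
theorem exists_powHom (K : Type*) [Field K] [Algebra F K] (p a : ℕ) (hp : p.Prime)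
    (hq : Fintype.card F = p ^ a) [CharP F p] (j : ℕ) :
    ∃ ψ : K →+* K, ∀ x, ψ x = x ^ ((Fintype.card F) ^ j) := by
  haveI : Fact p.Prime := ⟨hp⟩
  haveI : CharP K p := charP_of_injective_algebraMap (algebraMap F K).injective p
  refine ⟨iterateFrobenius K p (a * j), fun x => ?_⟩
  rw [iterateFrobenius_def, hq, pow_mul]

/-- The irreducible case. -/
theorem irr_caseS (hn : 1 ≤ n) (p a : ℕ) (hp : p.Prime) (hq : Fintype.card F = p ^ a) [CharP F p]
    (S : MM n F) (β : ℕ) (hβ : S ^ (β + 1) = 1) (hβodd : Odd (β + 1)) (hS : adj S * S = 1)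
    (hirr : Irreducible (minpoly F S)) :
    S = 1 ∨ ∃ (d e : ℕ) (φ : AdjoinRoot (minpoly F S) →ₐ[F] Module.End F (Fin n ⊕ Fin n → F)),
      1 ≤ d ∧ n = d * e ∧ Module.finrank F (AdjoinRoot (minpoly F S)) = 2 * d ∧
      (AdjoinRoot.root (minpoly F S)) ^ ((Fintype.card F) ^ d + 1) = 1 ∧
      φ (AdjoinRoot.root (minpoly F S)) = Matrix.toLinAlgEquiv' S ∧
      ∀ N : Module.End F (Fin n ⊕ Fin n → F), Commute N (Matrix.toLinAlgEquiv' S) → IsNilpotent N → N ^ e = 0 := by
  classical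
  obtain ⟨q, hqd⟩ : ∃ q, q = Fintype.card F := ⟨_, rfl⟩
  rw [← hqd]
  have hq2 : 2 ≤ q := hqd ▸ Fintype.one_lt_card
  have hq1 : 1 ≤ q := by omega
  haveI : Fact p.Prime := ⟨hp⟩
  haveI : Nonempty (Fin n ⊕ Fin n) := ⟨Sum.inl ⟨0, by omega⟩⟩
  obtain ⟨f, hf⟩ : ∃ f, f = minpoly F S := ⟨_, rfl⟩
  rw [← hf] at hirr ⊢
  haveI : Fact (Irreducible f) := ⟨hirr⟩
  have hfS : aeval S f = 0 := hf ▸ minpoly.aeval F S
  have hdvd : ∀ P : F[X], aeval S P = 0 → f ∣ P := fun P hP => hf ▸ minpoly.dvd F S hP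
  obtain ⟨T, hT⟩ : ∃ T, T = Matrix.toLinAlgEquiv' S := ⟨_, rfl⟩
  rw [← hT]
  have hTa : ∀ P : F[X], aeval T P = Matrix.toLinAlgEquiv' (aeval S P) := by
    intro P
    rw [hT, aeval_algEquiv]
    rfl
  obtain ⟨e, φ, hde, hφ, hnil⟩ := irr_dataS T f hirr (by rw [hTa, hfS, map_zero])
  let K := AdjoinRoot f
  obtain ⟨ζ, hζ⟩ : ∃ ζ : K, ζ = AdjoinRoot.root f := ⟨_, rfl⟩
  rw [← hζ] at hφ ⊢
  haveI : Module.Finite F K := (AdjoinRoot.powerBasis hirr.ne_zero).finite
  haveI : Finite K := Module.finite_of_finite F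
  letI : Fintype K := Fintype.ofFinite K
  obtain ⟨d', hd'⟩ : ∃ d, d = Module.finrank F K := ⟨_, rfl⟩
  rw [← hd'] at hde
  have hroot : ∀ P : F[X], aeval S P = 0 → aeval ζ P = 0 := by
    intro P hP
    rw [hζ, AdjoinRoot.aeval_eq, AdjoinRoot.mk_eq_zero]
    exact hdvd P hP
  have hζβ : ζ ^ (β + 1) = 1 := by
    have h1 := hroot (X ^ (β + 1) - 1) (by simp [hβ])
    simpa [sub_eq_zero] using h1
  obtain ⟨y, hy⟩ : ∃ y, y = ζ ^ β := ⟨_, rfl⟩
  have hyζ : y * ζ = 1 := by rw [hy, ← pow_succ, hζβ]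
  have hζ0 : ζ ≠ 0 := right_ne_zero_of_mul_eq_one hyζ
  have hdS : adj S = S ^ β := by
    have h1 : S ^ β * S = 1 := by rw [← pow_succ, hβ]
    calc adj S = adj S * (S * S ^ β) := by
          rw [mul_eq_one_comm.mp h1, mul_one]
      _ = S ^ β := by rw [← mul_assoc, hS, one_mul]
  have h0 : aeval y f = 0 := by
    have h1 := hroot (f.comp (X ^ β)) (by
      rw [aeval_comp]
      simp only [map_pow, aeval_X]
      rw [← hdS, ← adj_aeval, hfS, adj_zero])
    rw [aeval_comp] at h1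
    simpa [hy] using h1
  let θ : K →ₐ[F] K := AdjoinRoot.liftAlgHom f (Algebra.ofId F K) y h0
  have hθ : θ ζ = y := by
    rw [hζ]
    exact AdjoinRoot.liftAlgHom_root _ _ _ _
  let θ' : K ≃ₐ[F] K := AlgEquiv.ofBijective θ
    ⟨θ.toRingHom.injective, Finite.surjective_of_injective θ.toRingHom.injective⟩
  obtain ⟨i, hi⟩ := FiniteField.exists_forall_apply_eq_pow F p K θ'
  have h1 : y = ζ ^ (q ^ i) := by
    rw [← hθ]
    have := hi ζ
    rw [Nat.card_eq_fintype_card, ← hqd] at this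
    exact this
  by_cases hζ1 : ζ = 1
  · left
    have h2 : φ ζ = 1 := by rw [hζ1, map_one]
    rw [hφ, hT] at h2
    exact (Matrix.toLinAlgEquiv' (R := F) (n := Fin n ⊕ Fin n)).injective (by rw [h2, map_one])
  right
  -- all of `K` is fixed
  obtain ⟨ψ₂, hψ₂⟩ := exists_powHom (F := F) K p a hp hq (2 * i)
  rw [← hqd] at hψ₂
  have hfix : ∀ x : K, x ^ (q ^ (2 * i)) = x := by
    intro x
    obtain ⟨P, rfl⟩ := AdjoinRoot.mk_surjective x
    rw [← hψ₂, ← AdjoinRoot.aeval_eq, ← hζ]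
    show ψ₂ (P.eval₂ (algebraMap F K) ζ) = P.eval₂ (algebraMap F K) ζ
    rw [hom_eval₂]
    have h3 : ψ₂.comp (algebraMap F K) = algebraMap F K := by
      ext c
      simp only [RingHom.comp_apply]
      rw [hψ₂, ← map_pow, hqd, FiniteField.pow_card_pow]
    have h4 : ψ₂ ζ = ζ := by
      rw [hψ₂, two_mul, pow_add, pow_mul, ← h1]
      have h5 : y ^ (q ^ i) * y = 1 := by
        have h6 : (ζ ^ (q ^ i)) * ζ = 1 := by rw [← h1, hyζ]
        have h7 := congrArg (fun z => z ^ (q ^ i)) hyζ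
        simp only [mul_pow, one_pow] at h7
        rw [← h1] at h7
        exact h7
      exact mul_right_cancel₀ (left_ne_zero_of_mul_eq_one hyζ) (by rw [h5, mul_comm, hyζ])
    rw [h3, h4]
  have hcardK : Fintype.card K = q ^ d' := by
    rw [← Nat.card_eq_fintype_card, Module.natCard_eq_pow_finrank (K := F), Nat.card_eq_fintype_card,
      ← hqd, ← hd']
  have hdi : d' ∣ 2 * i := by
    obtain ⟨v, hv⟩ := IsCyclic.exists_generator (α := Kˣ)
    have hordv : orderOf v = q ^ d' - 1 := by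
      rw [orderOf_eq_card_of_forall_mem_zpowers hv, Nat.card_eq_fintype_card, Fintype.card_units, hcardK]
    have h3 : v ^ (q ^ (2 * i) - 1) = 1 := by
      ext
      have h4 := hfix (v : K)
      have h5 : 1 ≤ q ^ (2 * i) := Nat.one_le_pow _ _ hq1
      have h6 : (v : K) ≠ 0 := v.ne_zero
      apply mul_right_cancel₀ h6
      rw [Units.val_one, one_mul, Units.val_pow_eq_pow_val, ← pow_succ]
      rwa [show q ^ (2 * i) - 1 + 1 = q ^ (2 * i) by omega]
    have h4 := orderOf_dvd_of_pow_eq_one h3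
    rw [hordv] at h4
    have h5 := Nat.pow_sub_one_gcd_pow_sub_one q d' (2 * i)
    rw [Nat.gcd_eq_left h4] at h5
    have h6 : 1 ≤ q ^ d' := Nat.one_le_pow _ _ hq1
    have h7 : 1 ≤ q ^ Nat.gcd d' (2 * i) := Nat.one_le_pow _ _ hq1
    have h8 : q ^ d' = q ^ Nat.gcd d' (2 * i) := by omega
    have h9 := Nat.pow_right_injective hq2 h8
    rw [h9]
    exact Nat.gcd_dvd_right _ _
  have hζq : ∀ x : K, x ^ (q ^ d') = x := by
    intro x
    rw [← hcardK]
    exact FiniteField.pow_card x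
  have hndi : ¬ d' ∣ i := by
    rintro ⟨c, hc⟩
    have h3 : y = ζ := by
      rw [h1, hc, pow_mul, pow_pow_fix ζ _ (hζq ζ) c]
    rw [h3] at hyζ
    have h4 : ζ ^ 2 = 1 := by rw [sq, hyζ]
    have h5 : orderOf ζ ∣ 2 := orderOf_dvd_of_pow_eq_one h4
    have h6 : orderOf ζ ∣ β + 1 := orderOf_dvd_of_pow_eq_one hζβ
    have h7 : Nat.Coprime 2 (β + 1) := by
      rw [Nat.coprime_two_left]
      exact hβodd
    have h8 : orderOf ζ ∣ Nat.gcd 2 (β + 1) := Nat.dvd_gcd h5 h6
    rw [h7] at h8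
    exact hζ1 (orderOf_eq_one_iff.mp (Nat.dvd_one.mp h8))
  have heven : Even d' := by
    by_contra hodd
    have hodd' : Odd d' := Nat.not_even_iff_odd.mp hodd
    have hc : Nat.Coprime d' 2 := by
      rw [Nat.coprime_two_right]
      exact hodd'
    exact hndi (hc.dvd_of_dvd_mul_left hdi)
  obtain ⟨d, hdd⟩ := heven
  have hd2 : d' = 2 * d := by omega
  have hdpos : 1 ≤ d := by
    have h3 : 0 < d' := hd' ▸ Module.finrank_pos
    omega
  obtain ⟨c, hc⟩ : d ∣ i := by
    rw [hd2] at hdi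
    exact Nat.dvd_of_mul_dvd_mul_left (by norm_num) hdi
  have hcodd : Odd c := by
    by_contra hodd
    obtain ⟨c', hc'⟩ := Nat.not_odd_iff_even.mp hodd
    apply hndi
    refine ⟨c', ?_⟩
    rw [hc, hc', hd2]
    ring
  obtain ⟨c', hc'⟩ := hcodd
  have h3 : y = ζ ^ (q ^ d) := by
    have e1 : q ^ i = (q ^ d') ^ c' * q ^ d := by
      rw [hc, hc', hd2, ← pow_mul, ← pow_add]
      congr 1
      ring
    rw [h1, e1, pow_mul, pow_pow_fix ζ _ (hζq ζ) c']
  refine ⟨d, e, φ, hdpos, ?_, ?_, ?_, hφ, hnil⟩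
  · have h4 : Module.finrank F (Fin n ⊕ Fin n → F) = 2 * n := by
      simp
      ring
    rw [h4, hd2] at hde
    have h5 : 2 * n = 2 * (d * e) := by rw [hde]; ring
    omega
  · rw [← hd', hd2]
  · rw [pow_succ, ← h3, hyζ]

theorem arith_irrS (q d e β Np Nm : ℕ) (hq : 1 ≤ q) (hβ : β ∣ q ^ d + 1) (hodd : ¬ 2 ∣ β)
    (hNp : 2 * Np = q ^ (d * e) + 1) (hNm : 2 * Nm = q ^ (d * e) - 1) : β ∣ Np ∨ β ∣ Nm := by
  have hc : Nat.Coprime β 2 := by
    rw [Nat.coprime_two_right]
    exact Nat.not_even_iff_odd.mp (fun h => hodd h.two_dvd)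
  rcases Nat.even_or_odd e with he | he
  · right
    refine hc.dvd_of_dvd_mul_left ?_
    rw [hNm]
    obtain ⟨e', he'⟩ := he
    have h1 : q ^ (d * e) = (q ^ (2 * d)) ^ e' := by
      rw [← pow_mul]
      congr 1
      rw [he']
      ring
    have h2 : q ^ (2 * d) - 1 ∣ q ^ (d * e) - 1 := by
      rw [h1]
      simpa using Nat.sub_dvd_pow_sub_pow (q ^ (2 * d)) 1 e'
    have h3 : q ^ d + 1 ∣ q ^ (2 * d) - 1 := by
      have h4 : 1 ≤ q ^ d := Nat.one_le_pow _ _ hq
      obtain ⟨y, hy⟩ : ∃ y, q ^ d = y + 1 := ⟨q ^ d - 1, by omega⟩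
      rw [mul_comm 2 d, pow_mul, hy]
      refine ⟨y, ?_⟩
      have : (y + 1) ^ 2 = (y + 1 + 1) * y + 1 := by ring
      omega
    exact hβ.trans (h3.trans h2)
  · left
    refine hc.dvd_of_dvd_mul_left ?_
    rw [hNp, pow_mul]
    have h2 : q ^ d + 1 ∣ (q ^ d) ^ e + 1 := by
      simpa using he.nat_add_dvd_pow_add_pow (q ^ d) 1
    exact hβ.trans h2

theorem arith_splitS (q d e β Nm : ℕ) (hβ : β ∣ q ^ d - 1) (hodd : ¬ 2 ∣ β)
    (hNm : 2 * Nm = q ^ (d * e) - 1) : β ∣ Nm := by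
  have hc : Nat.Coprime β 2 := by
    rw [Nat.coprime_two_right]
    exact Nat.not_even_iff_odd.mp (fun h => hodd h.two_dvd)
  refine hc.dvd_of_dvd_mul_left ?_
  rw [hNm, pow_mul]
  have h2 : q ^ d - 1 ∣ (q ^ d) ^ e - 1 := by
    simpa using Nat.sub_dvd_pow_sub_pow (q ^ d) 1 e
  exact hβ.trans h2

end CfsgLib.SpecS
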