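import Mathlib
import Cfsg.Agent.Lib.ClassMax.SpecS4

/-! The dichotomy for elements of odd order in `PSp_{2n}(q)`. -/

set_option autoImplicit false

namespace CfsgLib.SpecS

open Polynomial Cfsg CfsgLib.ClassGeo CfsgLib.Spec3 CfsgLib.SpecU Matrix

variable {F : Type*} [Field F] [Fintype F] {n : ℕ}

theorem rank_adj (M : MM n F) : (adj M).rank = M.rank := by
  have hJ : IsUnit (J (Fin n) F).det := isUnit_det_J _ _
  have hJ' : IsUnit (-J (Fin n) F).det := by
    rw [← J_transpose, det_transpose]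
    exact hJ
  have e : adj M = (-J (Fin n) F) * (Mᵀ * J (Fin n) F) := by
    rw [adj]
    noncomm_ring
  rw [e, rank_mul_eq_right_of_isUnit_det _ _ hJ', rank_mul_eq_left_of_isUnit_det _ _ hJ, rank_transpose]

theorem rank_idemS (E : MM n F) (he2 : E * E = E) : E.rank + (1 - E).rank = 2 * n := by
  have h1 := LinearMap.finrank_range_add_finrank_ker E.mulVecLin
  have h2 : LinearMap.ker E.mulVecLin = LinearMap.range (1 - E).mulVecLin := by
    ext v
    constructor
    · intro hv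
      have hv' : E *ᵥ v = 0 := hv
      refine ⟨v, ?_⟩
      show (1 - E) *ᵥ v = v
      rw [sub_mulVec, one_mulVec, hv', sub_zero]
    · rintro ⟨u, rfl⟩
      show E *ᵥ ((1 - E) *ᵥ u) = 0
      rw [mulVec_mulVec, mul_sub, mul_one, he2, sub_self, zero_mulVec]
  rw [h2] at h1
  have h3 : Module.finrank F (Fin n ⊕ Fin n → F) = 2 * n := by
    simp
    ring
  rw [h3] at h1
  exact h1

omit [Fintype F] in
theorem one_of_half (X E : MM n F) (hX : adj X * X = 1) (hcomm : E * X = X * E) (hadjE : adj E = 1 - E)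
    (h : X * E = E) : X = 1 := by
  have h1 : (1 - E) * adj X = 1 - E := by
    have h2 := congrArg adj h
    rwa [adj_mul, hadjE] at h2
  have h3 : 1 - E = (1 - E) * X := by
    calc 1 - E = (1 - E) * (adj X * X) := by rw [hX, mul_one]
      _ = ((1 - E) * adj X) * X := by rw [mul_assoc]
      _ = _ := by rw [h1]
  calc X = E * X + (1 - E) * X := by noncomm_ring
    _ = X * E + (1 - E) := by rw [hcomm, ← h3]
    _ = 1 := by rw [h]; abel

/-- Bound for unipotent elements. -/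
theorem ppow_ltS (hn : 1 ≤ n) (p : ℕ) (hp : p.Prime) [CharP F p] (U : MM n F) (b : ℕ)
    (h1 : U ^ (p ^ (b + 1)) = 1) (h2 : U ^ (p ^ b) ≠ 1) : p ^ b < 2 * n := by
  classical
  haveI : Fact p.Prime := ⟨hp⟩
  haveI : Nonempty (Fin n ⊕ Fin n) := ⟨Sum.inl ⟨0, by omega⟩⟩
  haveI : ExpChar (MM n F) p := ExpChar.prime hp
  by_contra hle
  push Not at hle
  have hnil : IsNilpotent (U - 1) := by
    refine ⟨p ^ (b + 1), ?_⟩
    rw [sub_pow_expChar_pow_of_commute p (b + 1) (Commute.one_right U), h1, one_pow, sub_self]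
  have hpown : (U - 1) ^ (2 * n) = 0 := by
    have h3 := Matrix.isNilpotent_charpoly_sub_pow_of_isNilpotent hnil
    have h4 : (U - 1).charpoly - X ^ Fintype.card (Fin n ⊕ Fin n) = 0 := h3.eq_zero
    have h5 := sub_eq_zero.mp h4
    have h6 := Matrix.aeval_self_charpoly (U - 1)
    rw [h5] at h6
    have h7 : Fintype.card (Fin n ⊕ Fin n) = 2 * n := by
      simp
      ring
    rw [h7] at h6
    simpa using h6
  have h5 : (U - 1) ^ (p ^ b) = 0 := pow_eq_zero_of_le hle hpown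
  rw [sub_pow_expChar_pow_of_commute p b (Commute.one_right U), one_pow] at h5
  exact h2 (sub_eq_zero.mp h5)

/-- The main facts in the split case. -/
theorem split_main (hn : 1 ≤ n) (p : ℕ) (hp : p.Prime) [CharP F p] (h2 : (2 : F) ≠ 0)
    (S E : MM n F) (hS : adj S * S = 1) (he2 : E * E = E) (hcomm : E * S = S * E)
    (hadjE : adj E = 1 - E) (a : F[X]) (ha : Irreducible a) (hE : aeval S a * E = 0) (β Nm : ℕ)
    (hSβ : ∀ j, S ^ j = 1 ↔ β ∣ j) (hβ2 : ¬ 2 ∣ β) (hβp : Nat.Coprime β p)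
    (hNm : 2 * Nm = (Fintype.card F) ^ n - 1) :
    β ∣ Nm ∧ ∀ (U : MM n F) (b : ℕ), adj U * U = 1 → E * U = U * E → U * S = S * U →
      U ^ (p ^ (b + 1)) = 1 → U ^ (p ^ b) ≠ 1 → ∃ y : PSp n F, orderOf y = β * p ^ (b + 1) * 2 := by
  classical
  obtain ⟨q, hqd⟩ : ∃ q, q = Fintype.card F := ⟨_, rfl⟩
  rw [← hqd] at hNm
  have hq2 : 2 ≤ q := hqd ▸ Fintype.one_lt_card
  have hq1 : 1 ≤ q := by omega
  haveI : Fact p.Prime := ⟨hp⟩
  haveI : Fact (Irreducible a) := ⟨ha⟩
  have hrank : n = E.rank := by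
    have h1 := rank_idemS E he2
    have h3 := rank_adj E
    rw [hadjE] at h3
    omega
  obtain ⟨W, hW⟩ : ∃ W, W = LinearMap.range E.mulVecLin := ⟨_, rfl⟩
  have hWfr : Module.finrank F W = n := by
    have h3 : Module.finrank F W = E.rank := by
      rw [hW]
      rfl
    exact h3.trans hrank.symm
  have hWE : ∀ w ∈ W, E *ᵥ w = w := by
    intro w hw
    rw [hW] at hw
    obtain ⟨u, rfl⟩ := hw
    show E *ᵥ (E *ᵥ u) = E *ᵥ u
    rw [mulVec_mulVec, he2]
  have hEW : ∀ u, E *ᵥ u ∈ W := by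
    intro u
    rw [hW]
    exact ⟨u, rfl⟩
  have hWstable : ∀ X : MM n F, E * X = X * E → W ≤ W.comap X.mulVecLin := by
    intro X hX w hw
    show X *ᵥ w ∈ W
    rw [← hWE w hw, mulVec_mulVec, ← hX, ← mulVec_mulVec]
    exact hEW _
  have hWS := hWstable S hcomm
  obtain ⟨T₀, hT₀⟩ : ∃ T₀ : Module.End F W, T₀ = S.mulVecLin.restrict hWS := ⟨_, rfl⟩
  have hTa : ∀ P : F[X], aeval S.mulVecLin P = (aeval S P).mulVecLin := by
    intro P
    have h1 : S.mulVecLin = Matrix.toLinAlgEquiv' S := rfl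
    rw [h1, aeval_algEquiv]
    rfl
  have hT₀a : aeval T₀ a = 0 := by
    refine LinearMap.ext fun w => ?_
    apply Subtype.ext
    rw [hT₀, aeval_restrict, hTa]
    show (aeval S a) *ᵥ (w : Fin n ⊕ Fin n → F) = 0
    rw [← hWE w w.2, mulVec_mulVec, hE, zero_mulVec]
  have hrestrict_pow : ∀ (X : MM n F) (hX : W ≤ W.comap X.mulVecLin) (m : ℕ) (w : W),
      ((((X.mulVecLin.restrict hX) ^ m) w : W) : Fin n ⊕ Fin n → F) = (X ^ m) *ᵥ (w : Fin n ⊕ Fin n → F) := by
    intro X hX m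
    induction m with
    | zero =>
      intro w
      simp
    | succ m ih =>
      intro w
      rw [pow_succ, Module.End.mul_apply, ih, pow_succ, ← mulVec_mulVec]
      rfl
  have hT₀pow : ∀ (m : ℕ) (w : W), (((T₀ ^ m) w : W) : Fin n ⊕ Fin n → F) = (S ^ m) *ᵥ (w : Fin n ⊕ Fin n → F) := by
    intro m w
    rw [hT₀]
    exact hrestrict_pow S hWS m w
  obtain ⟨e₁, φ, hde, hφ, hnil⟩ := irr_dataS T₀ a ha hT₀a
  let K := AdjoinRoot a
  obtain ⟨ζ, hζ⟩ : ∃ ζ : K, ζ = AdjoinRoot.root a := ⟨_, rfl⟩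
  rw [← hζ] at hφ
  haveI : Module.Finite F K := (AdjoinRoot.powerBasis ha.ne_zero).finite
  haveI : Finite K := Module.finite_of_finite F
  letI : Fintype K := Fintype.ofFinite K
  obtain ⟨d, hd⟩ : ∃ d, d = Module.finrank F K := ⟨_, rfl⟩
  rw [← hd] at hde
  rw [hWfr] at hde
  have hd0 : 0 < d := hd ▸ Module.finrank_pos
  have hWpos : 0 < Module.finrank F W := by omega
  haveI : Nontrivial W := Module.nontrivial_of_finrank_pos hWpos
  have hφinj : Function.Injective φ := φ.toRingHom.injective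
  have hT₀one : ∀ j, T₀ ^ j = 1 ↔ S ^ j * E = E := by
    intro j
    constructor
    · intro h
      apply matrix_eq_of_mulVec
      intro x
      rw [← mulVec_mulVec]
      have h3 := hT₀pow j ⟨E *ᵥ x, hEW x⟩
      rw [h] at h3
      exact h3.symm
    · intro h
      refine LinearMap.ext fun w => ?_
      apply Subtype.ext
      rw [hT₀pow]
      show _ = (w : Fin n ⊕ Fin n → F)
      conv_lhs => rw [← hWE w w.2]
      rw [mulVec_mulVec, h, hWE w w.2]
  have hX1 : ∀ j, adj (S ^ j) * S ^ j = 1 := by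
    intro j
    have hc3 : Commute (adj S) S := by
      show adj S * S = S * adj S
      rw [hS, mul_eq_one_comm.mp hS]
    rw [adj_pow, ← hc3.mul_pow, hS, one_pow]
  have hESj : ∀ j, E * S ^ j = S ^ j * E := by
    intro j
    exact (Commute.pow_right hcomm j)
  have hζj : ∀ j, ζ ^ j = 1 ↔ β ∣ j := by
    intro j
    rw [← hSβ]
    constructor
    · intro h
      have h3 : T₀ ^ j = 1 := by rw [← hφ, ← map_pow, h, map_one]
      exact one_of_half _ E (hX1 j) (hESj j) hadjE ((hT₀one j).mp h3)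
    · intro h
      apply hφinj
      rw [map_pow, hφ, map_one]
      exact (hT₀one j).mpr (by rw [h, one_mul])
  have hβ0 : β ≠ 0 := by
    rintro rfl
    exact hβ2 (dvd_zero _)
  have hζ0 : ζ ≠ 0 := by
    rintro h0
    have h3 : ζ ^ β = 1 := (hζj β).mpr dvd_rfl
    rw [h0, zero_pow hβ0] at h3
    exact zero_ne_one h3
  have hcardK : Fintype.card K = q ^ d := by
    rw [← Nat.card_eq_fintype_card, Module.natCard_eq_pow_finrank (K := F),
      Nat.card_eq_fintype_card, ← hqd, ← hd]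
  have hβq : β ∣ q ^ d - 1 := by
    rw [← hζj, ← hcardK]
    exact FiniteField.pow_card_sub_one_eq_one ζ hζ0
  refine ⟨?_, ?_⟩
  · rw [hde] at hNm
    exact arith_splitS q d e₁ β Nm hβq hβ2 hNm
  intro U b hU hEU hUS hU1 hU2
  -- the bound
  have hbound : p ^ b < e₁ := by
    by_contra hle
    push Not at hle
    have hWU := hWstable U hEU
    obtain ⟨U₀, hU₀⟩ : ∃ U₀ : Module.End F W, U₀ = U.mulVecLin.restrict hWU := ⟨_, rfl⟩
    have hU₀pow : ∀ (m : ℕ) (w : W), (((U₀ ^ m) w : W) : Fin n ⊕ Fin n → F) = (U ^ m) *ᵥ (w : Fin n ⊕ Fin n → F) := by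
      intro m w
      rw [hU₀]
      exact hrestrict_pow U hWU m w
    haveI : CharP (Module.End F W) p :=
      charP_of_injective_algebraMap (algebraMap F _).injective p
    haveI : ExpChar (Module.End F W) p := ExpChar.prime hp
    have hU₀1 : U₀ ^ (p ^ (b + 1)) = 1 := by
      refine LinearMap.ext fun w => ?_
      apply Subtype.ext
      rw [hU₀pow, hU1, one_mulVec]
      rfl
    have hcU0 : U₀ * T₀ = T₀ * U₀ := by
      refine LinearMap.ext fun w => ?_
      apply Subtype.ext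
      rw [hU₀, hT₀]
      show U *ᵥ (S *ᵥ (w : Fin n ⊕ Fin n → F)) = S *ᵥ (U *ᵥ (w : Fin n ⊕ Fin n → F))
      rw [mulVec_mulVec, mulVec_mulVec, hUS]
    have hcU : Commute (U₀ - 1) T₀ := by
      show (U₀ - 1) * T₀ = T₀ * (U₀ - 1)
      refine LinearMap.ext fun w => ?_
      have h8 : U₀ (T₀ w) = T₀ (U₀ w) := LinearMap.congr_fun hcU0 w
      show U₀ (T₀ w) - T₀ w = T₀ (U₀ w - w)
      rw [map_sub, h8]
    have hc1 : Commute U₀ (1 : Module.End F W) := Commute.one_right U₀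
    have hnil2 : IsNilpotent (U₀ - 1) := by
      refine ⟨p ^ (b + 1), ?_⟩
      rw [sub_pow_expChar_pow_of_commute (R := Module.End F W) p (b + 1) hc1, hU₀1, one_pow, sub_self]
    have h3 := hnil _ hcU hnil2
    have h4 : (U₀ - 1) ^ (p ^ b) = 0 := pow_eq_zero_of_le hle h3
    rw [sub_pow_expChar_pow_of_commute (R := Module.End F W) p b hc1, one_pow] at h4
    have h5 : U₀ ^ (p ^ b) = 1 := sub_eq_zero.mp h4
    have h6 : U ^ (p ^ b) * E = E := by
      apply matrix_eq_of_mulVec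
      intro x
      rw [← mulVec_mulVec]
      have h7 := hU₀pow (p ^ b) ⟨E *ᵥ x, hEW x⟩
      rw [h5] at h7
      exact h7.symm
    have hX2 : adj (U ^ (p ^ b)) * U ^ (p ^ b) = 1 := by
      have hc3 : Commute (adj U) U := by
        show adj U * U = U * adj U
        rw [hU, mul_eq_one_comm.mp hU]
      rw [adj_pow, ← hc3.mul_pow, hU, one_pow]
    exact hU2 (one_of_half _ E hX2 (Commute.pow_right hEU _) hadjE h6)
  -- the construction
  obtain ⟨B₁, hA₁, hsep₁, hiso⟩ := dual_form (F := F) (K := K)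
  obtain ⟨T₁, hT₁d⟩ : ∃ T₁ : (K × K) →ₗ[F] (K × K), T₁ = LinearMap.prodMap (LinearMap.mulLeft F ζ)
      (LinearMap.mulLeft F ζ⁻¹) := ⟨_, rfl⟩
  have hTu : ∀ u : K × K, T₁ u = (ζ * u.1, ζ⁻¹ * u.2) := fun u => by
    rw [hT₁d]
    rfl
  have hTx : ∀ (k : ℕ) (u : K × K), (T₁ ^ k) u = (ζ ^ k * u.1, (ζ⁻¹) ^ k * u.2) := by
    intro k u
    induction k generalizing u with
    | zero => simp
    | succ k ih =>
      rw [pow_succ, Module.End.mul_apply, ih, hTu, pow_succ, pow_succ, mul_assoc, mul_assoc]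
  have hTiso : ∀ x y, B₁ (T₁ x) (T₁ y) = B₁ x y := by
    intro x y
    rw [hTu, hTu]
    exact hiso ζ hζ0 x y
  have hfr2 : Module.finrank F (K × K) = 2 * d := by
    rw [Module.finrank_prod, ← hd, two_mul]
  have hβT : ∀ j, T₁ ^ j = 1 ↔ β ∣ j := by
    intro j
    rw [← hζj]
    constructor
    · intro h
      have h3 := hTx j (1, 0)
      rw [h] at h3
      have h4 := congrArg Prod.fst h3
      simpa using h4.symm
    · intro h
      refine LinearMap.ext fun u => ?_
      rw [hTx, inv_pow, h, inv_one, one_mul, one_mul]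
      rfl
  have hp1 : 1 ≤ p ^ b := Nat.one_le_pow _ _ hp.pos
  have he2' : 2 ≤ e₁ := by omega
  obtain ⟨d₀, rfl⟩ : ∃ d₀, d = d₀ + 1 := ⟨d - 1, by omega⟩
  obtain ⟨e₀, rfl⟩ : ∃ e₀, e₁ = e₀ + 2 := ⟨e₁ - 2, by omega⟩
  refine constr h2 p hp B₁ hA₁ hsep₁ T₁ hTiso (d₀ + 1) hfr2 β hβT hβ2 hβp b ?_ ?_
  · rw [hde]
    nlinarith
  · rw [hde]
    nlinarith

end CfsgLib.SpecS
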