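import Mathlib
import Cfsg.Agent.Lib.ClassMax.SpecS5

/-! The dichotomy for elements of odd order in `PSp_{2n}(q)`, continued. -/

set_option autoImplicit false

namespace CfsgLib.SpecS

open Polynomial Cfsg CfsgLib.ClassGeo CfsgLib.Spec3 CfsgLib.SpecU Matrix

variable {F : Type*} [Field F] [Fintype F] {n : ℕ}

theorem aeval_commuteS (S G : MM n F) (h : Commute S G) (P : F[X]) :
    Commute (aeval S P) G := by
  induction P using Polynomial.induction_on' with
  | add p q hp hq =>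
    rw [map_add]
    exact hp.add_left hq
  | monomial k a =>
    rw [aeval_monomial]
    exact (Algebra.commute_algebraMap_left a G).mul_left (h.pow_left k)

/-- The main facts in the irreducible case. -/
theorem irr_main (hn : 1 ≤ n) (p a : ℕ) (hp : p.Prime) (hq : Fintype.card F = p ^ a) [CharP F p]
    (h2 : (2 : F) ≠ 0) (S : MM n F) (hS : adj S * S = 1) (hirr : Irreducible (minpoly F S)) (β Np Nm : ℕ)
    (hSβ : ∀ j, S ^ j = 1 ↔ β ∣ j) (hβ2 : ¬ 2 ∣ β) (hβp : Nat.Coprime β p)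
    (hNp : 2 * Np = (Fintype.card F) ^ n + 1) (hNm : 2 * Nm = (Fintype.card F) ^ n - 1) (hS1 : S ≠ 1) :
    (β ∣ Np ∨ β ∣ Nm) ∧ ∀ (U : MM n F) (b : ℕ), U * S = S * U →
      U ^ (p ^ (b + 1)) = 1 → U ^ (p ^ b) ≠ 1 → ∃ y : PSp n F, orderOf y = β * p ^ (b + 1) * 2 := by
  classical
  haveI : Fact p.Prime := ⟨hp⟩
  haveI : Nonempty (Fin n ⊕ Fin n) := ⟨Sum.inl ⟨0, by omega⟩⟩
  haveI : ExpChar (MM n F) p := ExpChar.prime hp
  have hq1 : 1 ≤ Fintype.card F := Fintype.card_pos
  have hβ0 : β ≠ 0 := by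
    rintro rfl
    exact hβ2 (dvd_zero _)
  obtain ⟨β', rfl⟩ : ∃ β', β = β' + 1 := ⟨β - 1, by omega⟩
  have hβ : S ^ (β' + 1) = 1 := (hSβ _).mpr dvd_rfl
  have hβodd : Odd (β' + 1) := Nat.not_even_iff_odd.mp fun h => hβ2 h.two_dvd
  rcases irr_caseS hn p a hp hq S β' hβ hβodd hS hirr with h | ⟨d, e, φ, hd, hne, hfr, hroot, hφ, hnil⟩
  · exact absurd h hS1
  haveI : Fact (Irreducible (minpoly F S)) := ⟨hirr⟩
  let K := AdjoinRoot (minpoly F S)
  obtain ⟨ζ, hζ⟩ : ∃ ζ : K, ζ = AdjoinRoot.root (minpoly F S) := ⟨_, rfl⟩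
  rw [← hζ] at hroot hφ
  haveI : Module.Finite F K := (AdjoinRoot.powerBasis hirr.ne_zero).finite
  haveI : Finite K := Module.finite_of_finite F
  have hφinj : Function.Injective φ := φ.toRingHom.injective
  have hζj : ∀ j, ζ ^ j = 1 ↔ β' + 1 ∣ j := by
    intro j
    rw [← hSβ]
    constructor
    · intro h
      apply (Matrix.toLinAlgEquiv' (R := F) (n := Fin n ⊕ Fin n)).injective
      rw [map_pow, ← hφ, ← map_pow, h, map_one, map_one]
    · intro h
      apply hφinj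
      rw [map_pow, hφ, map_one, ← map_pow, h, map_one]
  have hβq : β' + 1 ∣ (Fintype.card F) ^ d + 1 := (hζj _).mp hroot
  refine ⟨arith_irrS _ d e _ Np Nm hq1 hβq hβ2 (hne ▸ hNp) (hne ▸ hNm), ?_⟩
  intro U b hUS hU1 hU2
  have hbound : p ^ b < e := by
    by_contra hle
    push Not at hle
    obtain ⟨N, hN⟩ : ∃ N, N = Matrix.toLinAlgEquiv' (U - 1) := ⟨_, rfl⟩
    have hcomm : Commute N (Matrix.toLinAlgEquiv' S) := by
      rw [hN]
      show _ * _ = _ * _
      rw [← map_mul, ← map_mul, sub_mul, mul_sub, hUS, one_mul, mul_one]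
    have h0 : (U - 1) ^ (p ^ (b + 1)) = 0 := by
      rw [sub_pow_expChar_pow_of_commute p (b + 1) (Commute.one_right U), hU1, one_pow, sub_self]
    have hnilN : IsNilpotent N := by
      refine ⟨p ^ (b + 1), ?_⟩
      rw [hN, ← map_pow, h0, map_zero]
    have h3 := hnil N hcomm hnilN
    have h4 : (U - 1) ^ e = 0 := by
      apply (Matrix.toLinAlgEquiv' (R := F) (n := Fin n ⊕ Fin n)).injective
      rw [map_pow, ← hN, h3, map_zero]
    have h5 : (U - 1) ^ (p ^ b) = 0 := pow_eq_zero_of_le hle h4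
    rw [sub_pow_expChar_pow_of_commute p b (Commute.one_right U), one_pow] at h5
    exact hU2 (sub_eq_zero.mp h5)
  obtain ⟨B₁, hA₁, hsep₁, hiso⟩ := field_form (K := K) d hd hfr p a hp hq h2
  obtain ⟨T₁, hT₁⟩ : ∃ T₁, T₁ = LinearMap.mulLeft F ζ := ⟨_, rfl⟩
  have hTiso : ∀ x y, B₁ (T₁ x) (T₁ y) = B₁ x y := by
    intro x y
    rw [hT₁]
    exact hiso ζ hroot x y
  have hβT : ∀ j, T₁ ^ j = 1 ↔ β' + 1 ∣ j := by
    intro j
    rw [← hζj, hT₁]
    constructor
    · intro h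
      have h3 := mulLeft_powS (F := F) ζ j 1
      rw [h, mul_one] at h3
      exact h3.symm
    · intro h
      refine LinearMap.ext fun x => ?_
      rw [mulLeft_powS, h, one_mul]
      rfl
  have hp1 : 1 ≤ p ^ b := Nat.one_le_pow _ _ hp.pos
  obtain ⟨d₀, rfl⟩ : ∃ d₀, d = d₀ + 1 := ⟨d - 1, by omega⟩
  obtain ⟨e₀, rfl⟩ : ∃ e₀, e = e₀ + 2 := ⟨e - 2, by omega⟩
  refine constr h2 p hp B₁ hA₁ hsep₁ T₁ hTiso (d₀ + 1) hfr (β' + 1) hβT hβ2 hβp b ?_ ?_
  · rw [hne]
    nlinarith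
  · rw [hne]
    nlinarith

/-- The dichotomy for elements of odd order. -/
theorem dichotomy (hn : 1 ≤ n) (p a : ℕ) (hp : p.Prime) (hq : Fintype.card F = p ^ a) [CharP F p]
    (h2 : (2 : F) ≠ 0) (Np Nm : ℕ) (hNp : 2 * Np = (Fintype.card F) ^ n + 1)
    (hNm : 2 * Nm = (Fintype.card F) ^ n - 1) (x : PSp n F) (hx : ¬ 2 ∣ orderOf x) :
    (∃ y : PSp n F, orderOf y = orderOf x * 2) ∨
      ((ordCompl[p] (orderOf x) ∣ Np ∨ ordCompl[p] (orderOf x) ∣ Nm) ∧
        (p ∣ orderOf x → ∃ j : ℕ, 2 * n - 1 = p ^ j)) := by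
  classical
  haveI : Fact p.Prime := ⟨hp⟩
  haveI : Nonempty (Fin n ⊕ Fin n) := ⟨Sum.inl ⟨0, by omega⟩⟩
  obtain ⟨g₀, rfl⟩ := QuotientGroup.mk'_surjective _ x
  obtain ⟨a₀, ha₀⟩ : ∃ a₀, a₀ = orderOf (piS n F g₀) := ⟨_, rfl⟩
  have hx0 : orderOf (QuotientGroup.mk' _ g₀ : PSp n F) = a₀ := ha₀.symm
  rw [hx0] at hx ⊢
  have ha₀0 : a₀ ≠ 0 := ha₀ ▸ (orderOf_pos _).ne'
  have ha₀odd : Odd a₀ := Nat.not_even_iff_odd.mp fun h => hx h.two_dvd
  -- a lift of the same order
  obtain ⟨g, hg1, hg2⟩ : ∃ g, piS n F g = piS n F g₀ ∧ g ^ a₀ = 1 := by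
    have h1 : piS n F (g₀ ^ a₀) = 1 := by
      rw [map_pow, ha₀, pow_orderOf_eq_one]
    obtain ⟨c, hc⟩ := scalar_of_piS_eq_one _ h1
    have h3 := scalar_sq hn _ c hc
    have h4 : c = 1 ∨ c = -1 := mul_self_eq_one_iff.mp (by rw [← sq, h3])
    rcases h4 with rfl | rfl
    · refine ⟨g₀, rfl, Subtype.ext ?_⟩
      rw [hc, one_smul]
      rfl
    · have hz : (-1 : MM n F) ∈ symplecticGroup (Fin n) F := SymplecticGroup.neg_mem (one_mem _)
      let z : symplecticGroup (Fin n) F := ⟨-1, hz⟩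
      have hzc : piS n F z = 1 := piS_eq_one_of_scalar z (-1) (by simp [z])
      have hzg : Commute z g₀ := by
        apply Subtype.ext
        show -1 * g₀.1 = g₀.1 * -1
        simp
      refine ⟨z * g₀, by rw [map_mul, hzc, one_mul], ?_⟩
      rw [hzg.mul_pow]
      apply Subtype.ext
      show (z ^ a₀).1 * (g₀ ^ a₀).1 = 1
      rw [hc, coe_pow_S]
      show (-1 : MM n F) ^ a₀ * _ = 1
      rw [ha₀odd.neg_one_pow]
      simp
  have hgord : orderOf g = a₀ := by
    apply Nat.dvd_antisymm (orderOf_dvd_of_pow_eq_one hg2)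
    rw [ha₀, ← hg1]
    exact orderOf_map_dvd _ _
  obtain ⟨s, hs⟩ : ∃ s, s = a₀.factorization p := ⟨_, rfl⟩
  obtain ⟨P, hP⟩ : ∃ P, P = p ^ s := ⟨_, rfl⟩
  obtain ⟨β, hβ⟩ : ∃ β, β = ordCompl[p] a₀ := ⟨_, rfl⟩
  have hoPβ : P * β = a₀ := by
    rw [hP, hβ, hs]
    exact Nat.ordProj_mul_ordCompl_eq_self a₀ p
  have hβp : Nat.Coprime β p := by
    rw [hβ]
    exact (Nat.coprime_ordCompl hp ha₀0).symm
  rw [← hβ]
  have hP0 : 0 < P := hP ▸ Nat.pos_of_ne_zero (pow_ne_zero _ hp.ne_zero)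
  have hβ0 : 0 < β := by
    rcases Nat.eq_zero_or_pos β with h | h
    · rw [h, mul_zero] at hoPβ
      exact absurd hoPβ.symm ha₀0
    · exact h
  have hβ2 : ¬ 2 ∣ β := fun h => hx (h.trans ⟨P, by rw [← hoPβ]; ring⟩)
  obtain ⟨S, hSd⟩ : ∃ S : MM n F, S = (g ^ P).1 := ⟨_, rfl⟩
  obtain ⟨U, hUd⟩ : ∃ U : MM n F, U = (g ^ β).1 := ⟨_, rfl⟩
  have hpowiff : ∀ (t j : ℕ), (g ^ t).1 ^ j = 1 ↔ a₀ ∣ t * j := by
    intro t j
    rw [← coe_pow_S, ← pow_mul, ← hgord, orderOf_dvd_iff_pow_eq_one]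
    constructor
    · intro h
      exact Subtype.ext h
    · intro h
      rw [h]
      rfl
  have hSβ : ∀ j, S ^ j = 1 ↔ β ∣ j := by
    intro j
    rw [hSd, hpowiff, ← hoPβ]
    exact Nat.mul_dvd_mul_iff_left hP0
  have hUP : ∀ j, U ^ j = 1 ↔ P ∣ j := by
    intro j
    rw [hUd, hpowiff, ← hoPβ, mul_comm P β]
    exact Nat.mul_dvd_mul_iff_left hβ0
  have hS : adj S * S = 1 := hSd ▸ adj_self_mul _
  have hUS : U * S = S * U := by
    rw [hUd, hSd, coe_pow_S, coe_pow_S, ← pow_add, ← pow_add, add_comm]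
  have hgSc : Commute S g.1 := by
    rw [hSd, coe_pow_S]
    exact (Commute.refl g.1).pow_left P
  have hβF : (β : F) ≠ 0 := by
    intro h
    have h3 : p ∣ β := (CharP.cast_eq_zero_iff F p β).mp h
    have h4 := Nat.Coprime.eq_one_of_dvd hβp.symm h3
    exact hp.ne_one h4
  obtain ⟨f, hf⟩ : ∃ f, f = minpoly F S := ⟨_, rfl⟩
  have hAsep : (X ^ β - C (1 : F) : F[X]).Separable := separable_X_pow_sub_C (1 : F) hβF one_ne_zero
  have hfA : f ∣ (X ^ β - C (1 : F) : F[X]) := by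
    rw [hf]
    refine minpoly.dvd F S ?_
    simp [(hSβ β).mpr dvd_rfl]
  have hfsep : f.Separable := hAsep.of_dvd hfA
  by_cases hidem : ∃ E : MM n F, (∃ P' : F[X], E = aeval S P') ∧ E * E = E ∧ E ≠ 0 ∧ E ≠ 1 ∧ adj E = E
  · left
    obtain ⟨E, ⟨P', rfl⟩, he2, he0, he1, hd⟩ := hidem
    have hcomm : aeval S P' * g.1 = g.1 * aeval S P' := aeval_commuteS S g.1 hgSc P'
    have hodd : ¬ 2 ∣ orderOf (piS n F g) := by rw [hg1, ← ha₀]; exact hx
    obtain ⟨y, hy⟩ := exists_order_mul h2 g _ he2 he0 he1 hcomm hd hodd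
    exact ⟨y, by rw [hy, hg1, ← ha₀]⟩
  push Not at hidem
  have hpack : (β ∣ Np ∨ β ∣ Nm) ∧ ∀ b : ℕ, U ^ (p ^ (b + 1)) = 1 → U ^ (p ^ b) ≠ 1 →
      (¬ ∃ j : ℕ, 2 * n - 1 = p ^ j) → ∃ y : PSp n F, orderOf y = β * p ^ (b + 1) * 2 := by
    by_cases hS1 : S = 1
    · have hβ1 : β = 1 := Nat.dvd_one.mp ((hSβ 1).mp (by rw [pow_one, hS1]))
      refine ⟨Or.inl (hβ1 ▸ one_dvd _), ?_⟩
      intro b hU1 hU2 hj
      have h3 := ppow_ltS hn p hp U b hU1 hU2
      have h4 : 2 * n - 1 ≠ p ^ b := fun h => hj ⟨b, h⟩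
      have h5 : p ^ b + 1 < 2 * n := by omega
      obtain ⟨y, hy⟩ := constr (V₁ := PUnit) (n := n) h2 p hp 0 (fun _ => rfl) (fun _ _ => Subsingleton.elim _ _)
        LinearMap.id (fun _ _ => rfl) 0 (Module.finrank_zero_of_subsingleton) 1
        (fun j => ⟨fun _ => one_dvd _, fun _ => LinearMap.ext fun x => Subsingleton.elim _ _⟩) (by norm_num) (Nat.coprime_one_left p) b (by omega) h5
      exact ⟨y, by rw [hy, hβ1]⟩
    by_cases hirr : Irreducible f
    · obtain ⟨h3, h4⟩ := irr_main hn p a hp hq h2 S hS (hf ▸ hirr) β Np Nm hSβ hβ2 hβp hNp hNm hS1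
      exact ⟨h3, fun b hU1 hU2 _ => h4 U b hUS hU1 hU2⟩
    · have hint : IsIntegral F S := Matrix.isIntegral S
      have hfnu : ¬ IsUnit f := hf ▸ minpoly.not_isUnit F S
      have hf0 : f ≠ 0 := hf ▸ minpoly.ne_zero hint
      have hfS : aeval S f = 0 := hf ▸ minpoly.aeval F S
      obtain ⟨a', b', u, v, ha', hab, hb, huv⟩ := exists_of_not_irr hf0 hfnu hfsep hirr
      have ha0 : a' ≠ 0 := ha'.ne_zero
      have hb0 : b' ≠ 0 := by
        rintro rfl
        rw [mul_zero] at hab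
        exact hf0 hab
      obtain ⟨E, hEd⟩ : ∃ E, E = aeval S (v * b') := ⟨_, rfl⟩
      obtain ⟨β', hβ'⟩ : ∃ β', β = β' + 1 := ⟨β - 1, by omega⟩
      have hSβ' : S ^ (β' + 1) = 1 := (hSβ _).mpr (by rw [hβ'])
      have hdagpoly : ∀ P' : F[X], ∃ P'' : F[X], adj (aeval S P') = aeval S P'' := by
        intro P'
        have hdS : adj S = S ^ β' := by
          have h1 : S ^ β' * S = 1 := by rw [← pow_succ, hSβ']
          calc adj S = adj S * (S * S ^ β') := by
                rw [mul_eq_one_comm.mp h1, mul_one]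
            _ = S ^ β' := by rw [← mul_assoc, hS, one_mul]
        refine ⟨P'.comp (X ^ β'), ?_⟩
        rw [adj_aeval, aeval_comp, hdS]
        simp
      obtain ⟨Q, hQ⟩ := hdagpoly (v * b')
      obtain ⟨D, hDd⟩ : ∃ D, D = adj E := ⟨_, rfl⟩
      have hDQ : D = aeval S Q := by rw [hDd, hEd, hQ]
      have he2 : E * E = E := by
        have h1 : (v * b') * (v * b') - v * b' = -(u * v) * f := by
          rw [hab]
          linear_combination (v * b') * huv
        have h3 : aeval S ((v * b') * (v * b') - v * b') = 0 := by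
          rw [h1, map_mul, hfS, mul_zero]
        rw [map_sub, map_mul] at h3
        rw [hEd]
        exact sub_eq_zero.mp h3
      have he0 : E ≠ 0 := by
        intro h
        rw [hEd] at h
        have h1 : f ∣ v * b' := hf ▸ minpoly.dvd F S h
        rw [hab] at h1
        obtain ⟨c, hc⟩ := h1
        have h3 : v = a' * c := by
          have : b' * v = b' * (a' * c) := by
            rw [mul_comm b' v, hc]
            ring
          exact mul_left_cancel₀ hb0 this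
        apply ha'.not_isUnit
        refine isUnit_of_dvd_one ⟨u + c * b', ?_⟩
        rw [← huv, h3]
        ring
      have he1 : E ≠ 1 := by
        intro h
        have h0 : aeval S (u * a') = 0 := by
          have h1 : u * a' = 1 - v * b' := by rw [← huv]; ring
          rw [h1, map_sub, ← hEd, h, map_one, sub_self]
        have h1 : f ∣ u * a' := hf ▸ minpoly.dvd F S h0
        rw [hab] at h1
        obtain ⟨c, hc⟩ := h1
        have h3 : u = b' * c := by
          have : a' * u = a' * (b' * c) := by rw [mul_comm a' u, hc, mul_assoc]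
          exact mul_left_cancel₀ ha0 this
        apply hb
        refine isUnit_of_dvd_one ⟨c * a' + v, ?_⟩
        rw [← huv, h3]
        ring
      have hE : aeval S a' * E = 0 := by
        rw [hEd, ← map_mul]
        have h1 : a' * (v * b') = v * f := by rw [hab]; ring
        rw [h1, map_mul, hfS, mul_zero]
      have hES : E * S = S * E := by
        have h1 := aeval_commuteS S S (Commute.refl S) (v * b')
        rw [hEd]
        exact h1
      have hED : E * D = D * E := by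
        rw [hEd, hDQ, ← map_mul, ← map_mul, mul_comm]
      have hDD : D * D = D := by
        rw [hDd, ← adj_mul, he2]
      have hdD : adj D = E := by rw [hDd, adj_adj]
      have hE1 : E * D = 0 := by
        by_contra hne
        have h1 := hidem (E * D) ⟨(v * b') * Q, by rw [hEd, hDQ, ← map_mul]⟩ (by
          calc E * D * (E * D) = (E * E) * (D * D) := by
                rw [mul_assoc, ← mul_assoc D, ← hED, mul_assoc, mul_assoc]
            _ = E * D := by rw [he2, hDD]) hne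
        by_cases h3 : E * D = 1
        · apply he1
          calc E = E * (E * D) := by rw [h3, mul_one]
            _ = (E * E) * D := by rw [mul_assoc]
            _ = 1 := by rw [he2, h3]
        · apply h1 h3
          rw [adj_mul, hdD, ← hDd]
      have hE2 : E + D = 1 := by
        by_contra hne
        have h1 := hidem (E + D) ⟨(v * b') + Q, by rw [hEd, hDQ, map_add]⟩ (by
          rw [add_mul, mul_add, mul_add, he2, hDD, hE1, ← hED, hE1, zero_add, add_zero]) ?_ hne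
        · apply h1
          rw [adj_add, hdD, hDd.symm, add_comm]
        · intro h
          have h3 : D = -E := eq_neg_of_add_eq_zero_right h
          apply he0
          have h4 : E * D = -E := by rw [h3, mul_neg, he2]
          rw [hE1] at h4
          exact (neg_eq_zero.mp h4.symm)
      have hadjE : adj E = 1 - E := by
        rw [← hDd]
        exact eq_sub_of_add_eq' hE2
      obtain ⟨h3, h4⟩ := split_main hn p hp h2 S E hS he2 hES hadjE a' ha' hE β Nm hSβ hβ2 hβp hNm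
      refine ⟨Or.inr h3, fun b hU1 hU2 _ => h4 U b ?_ ?_ hUS hU1 hU2⟩
      · exact hUd ▸ adj_self_mul _
      · have h5 : Commute U S := hUS
        rw [hEd]
        exact aeval_commuteS S U h5.symm _
  by_cases hpa : p ∣ a₀
  · by_cases hj : ∃ j : ℕ, 2 * n - 1 = p ^ j
    · exact Or.inr ⟨hpack.1, fun _ => hj⟩
    · left
      have hs0 : s ≠ 0 := by
        intro h
        have h3 := (Nat.Prime.dvd_iff_one_le_factorization hp ha₀0).mp hpa
        omega
      obtain ⟨b, hb⟩ : ∃ b, s = b + 1 := ⟨s - 1, by omega⟩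
      have hU1 : U ^ (p ^ (b + 1)) = 1 := (hUP _).mpr (by rw [hP, hb])
      have hU2 : U ^ (p ^ b) ≠ 1 := by
        intro h
        have h3 := (hUP _).mp h
        rw [hP, hb] at h3
        have h4 := (Nat.pow_dvd_pow_iff_le_right hp.one_lt).mp h3
        omega
      obtain ⟨y, hy⟩ := hpack.2 b hU1 hU2 hj
      refine ⟨y, ?_⟩
      rw [hy, ← hoPβ, hP, hb]
      ring
  · exact Or.inr ⟨hpack.1, fun h => absurd h hpa⟩

end CfsgLib.SpecS
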