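import Mathlib
import Cfsg.Agent.Lib.ClassMax.SpecS6

/-! The arithmetic of the symplectic case. -/

set_option autoImplicit false

namespace CfsgLib.SpecS

open CfsgLib.Spec3

theorem swap1 (A B C D : Prop) : ((A ∧ B) ∧ C ∧ D) ↔ (A ∧ C ∧ D ∧ B) := by tauto

theorem swap2 (A B C D : Prop) : (A ∧ (B ∧ C) ∧ D) ↔ (A ∧ B ∧ D ∧ C) := by tauto

theorem swap3 (A B C : Prop) : ((A ∧ B) ∧ C) ↔ (A ∧ C ∧ B) := by tauto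

theorem prop3 {Y1 Y2 Y1' Y2' Y1'' Y2'' Y1''' Y2''' T Pa Pb Pc Ba Bb Bc : Prop}
    (h1 : (Y1''' ∧ Y2''') ↔ (Y1'' ∧ Y2'' ∧ Bc)) (h2 : (Y1'' ∧ Y2'') ↔ (Y1' ∧ Y2' ∧ Bb))
    (h3 : (Y1' ∧ Y2') ↔ (Y1 ∧ Y2 ∧ Ba)) (h4 : (Y1 ∧ Y2) ↔ T) :
    (Y1''' ∧ Y2''' ∧ ((Pa ∧ Pb) ∧ Pc)) ↔ ((Pa ∧ Ba) ∧ (Pb ∧ Bb) ∧ (Pc ∧ Bc) ∧ T) := by
  constructor
  · rintro ⟨y1, y2, ⟨pa, pb⟩, pc⟩
    obtain ⟨y3, y4, bc⟩ := h1.1 ⟨y1, y2⟩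
    obtain ⟨y5, y6, bb⟩ := h2.1 ⟨y3, y4⟩
    obtain ⟨y7, y8, ba⟩ := h3.1 ⟨y5, y6⟩
    exact ⟨⟨pa, ba⟩, ⟨pb, bb⟩, ⟨pc, bc⟩, h4.1 ⟨y7, y8⟩⟩
  · rintro ⟨⟨pa, ba⟩, ⟨pb, bb⟩, ⟨pc, bc⟩, t⟩
    obtain ⟨y7, y8⟩ := h4.2 t
    obtain ⟨y5, y6⟩ := h3.2 ⟨y7, y8, ba⟩
    obtain ⟨y3, y4⟩ := h2.2 ⟨y5, y6, bb⟩
    obtain ⟨y1, y2⟩ := h1.2 ⟨y3, y4, bc⟩
    exact ⟨y1, y2, ⟨pa, pb⟩, pc⟩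

theorem prop2 {Y1 Y2 Y1' Y2' Y1'' Y2'' T Ba Bb : Prop}
    (h2 : (Y1'' ∧ Y2'') ↔ (Y1' ∧ Y2' ∧ Bb))
    (h3 : (Y1' ∧ Y2') ↔ (Y1 ∧ Y2 ∧ Ba)) (h4 : (Y1 ∧ Y2) ↔ T) :
    (Y1'' ∧ Y2'') ↔ (Ba ∧ Bb ∧ T) := by
  tauto

theorem ordC_eq (p a : ℕ) (h : ¬ p ∣ a) : ordCompl[p] a = a := by
  rw [Nat.factorization_eq_zero_of_not_dvd h, pow_zero, Nat.div_one]

section arith

variable (ω : ℕ → Prop) (p Np Nm : ℕ) (J : Prop)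

theorem arith_insert (x Y₁ Y₂ : ℕ) (hY₁ : Y₁ ∣ Np) (hY₂ : Y₂ ∣ Nm) (hx : x ∣ Np ∨ x ∣ Nm) :
    ∃ Y₁' Y₂', Y₁' ∣ Np ∧ Y₂' ∣ Nm ∧ ∀ e, (Y₁' ∣ e ∧ Y₂' ∣ e) ↔ (Y₁ ∣ e ∧ Y₂ ∣ e ∧ x ∣ e) := by
  rcases hx with hx | hx
  · refine ⟨Nat.lcm Y₁ x, Y₂, Nat.lcm_dvd hY₁ hx, hY₂, fun e => ?_⟩
    rw [Nat.lcm_dvd_iff]
    tauto
  · refine ⟨Y₁, Nat.lcm Y₂ x, hY₁, Nat.lcm_dvd hY₂ hx, fun e => ?_⟩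
    rw [Nat.lcm_dvd_iff]

theorem arith_start (hone : 2 ∣ Np ∨ 2 ∣ Nm) :
    ∃ Y₁ Y₂, Y₁ ∣ Np ∧ Y₂ ∣ Nm ∧ ∀ e, (Y₁ ∣ e ∧ Y₂ ∣ e) ↔ 2 ∣ e := by
  rcases hone with h | h
  · exact ⟨2, 1, h, one_dvd _, fun e => by simp⟩
  · exact ⟨1, 2, one_dvd _, h, fun e => by simp⟩

theorem arith_step (hdich : ∀ a, ω a → ¬ 2 ∣ a → ω (a * 2) ∨
      ((ordCompl[p] a ∣ Np ∨ ordCompl[p] a ∣ Nm) ∧ (p ∣ a → J))) (a : ℕ) (ha : ω a) :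
    (∃ a', ω a' ∧ ∀ e, a' ∣ e ↔ (a ∣ e ∧ 2 ∣ e)) ∨
      ((ordCompl[p] a ∣ Np ∨ ordCompl[p] a ∣ Nm) ∧ (p ∣ a → J)) := by
  by_cases h2 : 2 ∣ a
  · exact Or.inl ⟨a, ha, fun e => ⟨fun h => ⟨h, h2.trans h⟩, fun h => h.1⟩⟩
  rcases hdich a ha h2 with h | h
  · refine Or.inl ⟨a * 2, h, fun e => ?_⟩
    have hc : Nat.Coprime a 2 := ((Nat.Prime.coprime_iff_not_dvd Nat.prime_two).mpr h2).symm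
    exact ⟨fun h => ⟨(dvd_mul_right _ _).trans h, (dvd_mul_left _ _).trans h⟩,
      fun h => hc.mul_dvd_of_dvd_of_dvd h.1 h.2⟩
  · exact Or.inr h

theorem arith_three2 (hp : p.Prime) (hdiv : ∀ a d, ω a → d ∣ a → ω d) (hpos : ∀ a, ω a → a ≠ 0)
    (hNp : ∀ d, d ∣ Np → ω d) (hNm : ∀ d, d ∣ Nm → ω d) (hone : 2 ∣ Np ∨ 2 ∣ Nm)
    (hdich : ∀ a, ω a → ¬ 2 ∣ a → ω (a * 2) ∨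
      ((ordCompl[p] a ∣ Np ∨ ordCompl[p] a ∣ Nm) ∧ (p ∣ a → J)))
    (a b c : ℕ) (ha : ω a) (hb : ω b) (hc : ω c) :
    ∃ a' b' c', ω a' ∧ ω b' ∧ ω c' ∧
      ∀ e, (a' ∣ e ∧ b' ∣ e ∧ c' ∣ e) ↔ (a ∣ e ∧ b ∣ e ∧ c ∣ e ∧ 2 ∣ e) := by
  rcases arith_step ω p Np Nm J hdich a ha with ⟨a', h1, h2⟩ | ⟨ha', -⟩
  · refine ⟨a', b, c, h1, hb, hc, fun e => ?_⟩
    rw [h2]
    exact swap1 _ _ _ _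
  rcases arith_step ω p Np Nm J hdich b hb with ⟨b', h1, h2⟩ | ⟨hb', -⟩
  · refine ⟨a, b', c, ha, h1, hc, fun e => ?_⟩
    rw [h2]
    exact swap2 _ _ _ _
  rcases arith_step ω p Np Nm J hdich c hc with ⟨c', h1, h2⟩ | ⟨hc', -⟩
  · refine ⟨a, b, c', ha, hb, h1, fun e => ?_⟩
    rw [h2]
  obtain ⟨Y₁, Y₂, h1, h2, h3⟩ := arith_start Np Nm hone
  obtain ⟨Y₁', Y₂', h4, h5, h6⟩ := arith_insert Np Nm _ Y₁ Y₂ h1 h2 ha'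
  obtain ⟨Y₁'', Y₂'', h7, h8, h9⟩ := arith_insert Np Nm _ Y₁' Y₂' h4 h5 hb'
  obtain ⟨Y₁₃, Y₂₃, h10, h11, h12⟩ := arith_insert Np Nm _ Y₁'' Y₂'' h7 h8 hc'
  obtain ⟨u, hu1, hu2⟩ := pmax2 p (a.factorization p) (b.factorization p)
  obtain ⟨v, hv1, hv2⟩ := pmax2 p u (c.factorization p)
  have hωv : ω (p ^ v) := by
    rcases hv1 with rfl | rfl
    · rcases hu1 with rfl | rfl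
      · exact hdiv a _ ha (Nat.ordProj_dvd a p)
      · exact hdiv b _ hb (Nat.ordProj_dvd b p)
    · exact hdiv c _ hc (Nat.ordProj_dvd c p)
  refine ⟨Y₁₃, Y₂₃, p ^ v, hNp _ h10, hNm _ h11, hωv, fun e => ?_⟩
  rw [split_dvd p hp a e (hpos a ha), split_dvd p hp b e (hpos b hb),
    split_dvd p hp c e (hpos c hc)]
  rw [hv2, hu2]
  exact prop3 (h12 e) (h9 e) (h6 e) (h3 e)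

theorem arith_two2 (hp : p.Prime) (hNp : ∀ d, d ∣ Np → ω d) (hNm : ∀ d, d ∣ Nm → ω d)
    (hone : 2 ∣ Np ∨ 2 ∣ Nm) (hJ : ¬ J)
    (hdich : ∀ a, ω a → ¬ 2 ∣ a → ω (a * 2) ∨
      ((ordCompl[p] a ∣ Np ∨ ordCompl[p] a ∣ Nm) ∧ (p ∣ a → J)))
    (a b : ℕ) (ha : ω a) (hb : ω b) :
    ∃ a' b', ω a' ∧ ω b' ∧ ∀ e, (a' ∣ e ∧ b' ∣ e) ↔ (a ∣ e ∧ b ∣ e ∧ 2 ∣ e) := by
  rcases arith_step ω p Np Nm J hdich a ha with ⟨a', h1, h2⟩ | ⟨ha', ha2⟩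
  · refine ⟨a', b, h1, hb, fun e => ?_⟩
    rw [h2]
    exact swap3 _ _ _
  rcases arith_step ω p Np Nm J hdich b hb with ⟨b', h1, h2⟩ | ⟨hb', hb2⟩
  · refine ⟨a, b', ha, h1, fun e => ?_⟩
    rw [h2]
  have hae : ordCompl[p] a = a := ordC_eq p a fun h => hJ (ha2 h)
  have hbe : ordCompl[p] b = b := ordC_eq p b fun h => hJ (hb2 h)
  rw [hae] at ha'
  rw [hbe] at hb'
  obtain ⟨Y₁, Y₂, h1, h2, h3⟩ := arith_start Np Nm hone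
  obtain ⟨Y₁', Y₂', h4, h5, h6⟩ := arith_insert Np Nm _ Y₁ Y₂ h1 h2 ha'
  obtain ⟨Y₁'', Y₂'', h7, h8, h9⟩ := arith_insert Np Nm _ Y₁' Y₂' h4 h5 hb'
  refine ⟨Y₁'', Y₂'', hNp _ h7, hNm _ h8, fun e => ?_⟩
  exact prop2 (h9 e) (h6 e) (h3 e)

end arith

end CfsgLib.SpecS
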