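import Cfsg.Agent.Lib.H9.PSL2Spec

/-! Solvable groups with the spectrum of `PSL₂(q) × PSL₂(q)`. -/

set_option autoImplicit false
set_option linter.unusedSimpArgs false
set_option linter.unusedVariables false
set_option linter.unusedSectionVars false
set_option linter.style.haveILetI false
set_option maxRecDepth 100000

namespace CfsgLib.ClassMax.SpecSolv

section frob

variable (K : Type) [Field K] (C : Subgroup Kˣ)

def phiK : C →* MulAut (Multiplicative K) where
  toFun c :=
    { toFun := fun x => Multiplicative.ofAdd (((c : Kˣ) : K) * x.toAdd)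
      invFun := fun x => Multiplicative.ofAdd (((c : Kˣ)⁻¹ : Kˣ) * x.toAdd)
      left_inv := fun x => by simp
      right_inv := fun x => by simp
      map_mul' := fun a b => by
        show Multiplicative.ofAdd (((c : Kˣ) : K) * (a.toAdd + b.toAdd)) = _
        rw [mul_add]
        rfl }
  map_one' := by
    ext x
    show Multiplicative.ofAdd (((1 : Kˣ) : K) * x.toAdd) = x
    simp
  map_mul' := by
    intro a b
    ext x
    show Multiplicative.ofAdd ((((a * b : C) : Kˣ) : K) * x.toAdd) = Multiplicative.ofAdd (((a : Kˣ) : K) * ((b : Kˣ) * x.toAdd))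
    simp [mul_assoc]

abbrev GK := (Multiplicative K) ⋊[phiK K C] C

variable {K C}

theorem phi_apply (c : C) (x : Multiplicative K) : (phiK K C c x).toAdd = ((c : Kˣ) : K) * x.toAdd := rfl

theorem pow_right (x : GK K C) (n : ℕ) : (x ^ n).right = x.right ^ n := by
  induction n with
  | zero =>
    rw [pow_zero, pow_zero]
    rfl
  | succ n ih =>
    rw [pow_succ, SemidirectProduct.mul_right, ih, pow_succ]

theorem pow_left (x : GK K C) (n : ℕ) :
    (x ^ n).left.toAdd = x.left.toAdd * ∑ i ∈ Finset.range n, (((x.right : Kˣ) : K)) ^ i := by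
  induction n with
  | zero =>
    simp
  | succ n ih =>
    rw [pow_succ, SemidirectProduct.mul_left, Finset.sum_range_succ, mul_add, ← ih]
    show (x ^ n).left.toAdd + (phiK K C (x ^ n).right x.left).toAdd = _
    rw [phi_apply, pow_right]
    push_cast
    ring

theorem order_ne (x : GK K C) (h : x.right ≠ 1) : orderOf x = orderOf x.right := by
  apply CfsgLib.H9.SpecProd.order_eq_of_iff
  intro t
  constructor
  · intro h1
    have := pow_right x t
    rw [h1] at this
    exact this.symm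
  · intro h1
    have h2 : (((x.right : Kˣ) : K)) ≠ 1 := by
      intro h3
      apply h
      apply Subtype.ext
      apply Units.ext
      exact h3
    have h3 : (((x.right : Kˣ) : K)) ^ t = 1 := by
      have := congrArg (fun u : C => ((u : Kˣ) : K)) h1
      simpa using this
    have h4 : ∑ i ∈ Finset.range t, (((x.right : Kˣ) : K)) ^ i = 0 := by
      have := geom_sum_mul (((x.right : Kˣ) : K)) t
      rw [h3, sub_self] at this
      exact (mul_eq_zero.mp this).resolve_right (sub_ne_zero.mpr h2)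
    apply SemidirectProduct.ext
    · have := pow_left x t
      rw [h4, mul_zero] at this
      exact this
    · rw [pow_right]
      exact h1

theorem order_one (p : ℕ) [CharP K p] (x : GK K C) (h : x.right = 1) : x ^ p = 1 := by
  apply SemidirectProduct.ext
  · have := pow_left x p
    rw [h] at this
    simp only [OneMemClass.coe_one, Units.val_one, one_pow, Finset.sum_const, Finset.card_range, nsmul_eq_mul, mul_one, CharP.cast_eq_zero, mul_zero] at this
    exact this
  · rw [pow_right, h, one_pow]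
    rfl

theorem spec_GK (p : ℕ) [Fact p.Prime] [CharP K p] [Finite K] (c : ℕ) (γ₀ : Kˣ) (hγ : orderOf γ₀ = c) :
    Set.range (orderOf : GK K (Subgroup.zpowers γ₀) → ℕ) = {m : ℕ | m ∣ p ∨ m ∣ c} := by
  have hpp : p.Prime := Fact.out
  have hord : ∀ u : Subgroup.zpowers γ₀, orderOf u ∣ c := by
    intro u
    apply orderOf_dvd_of_pow_eq_one
    apply Subtype.ext
    obtain ⟨j, hj⟩ := u.2
    show ((u : Kˣ)) ^ c = 1
    rw [← hj, ← zpow_natCast, ← zpow_mul, mul_comm, zpow_mul, zpow_natCast, ← hγ, pow_orderOf_eq_one, one_zpow]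
  have hc0 : c ≠ 0 := by
    rw [← hγ]
    exact (orderOf_pos γ₀).ne'
  apply Set.Subset.antisymm
  · rintro _ ⟨x, rfl⟩
    by_cases h : x.right = 1
    · left
      exact orderOf_dvd_of_pow_eq_one (order_one p x h)
    · right
      rw [order_ne x h]
      exact hord _
  · rintro m (hm | hm)
    · rcases (Nat.dvd_prime hpp).mp hm with rfl | rfl
      · exact ⟨1, orderOf_one⟩
      · refine ⟨⟨Multiplicative.ofAdd 1, 1⟩, orderOf_eq_prime (order_one m _ rfl) ?_⟩
        intro h
        have h1 := congrArg (fun y : GK K (Subgroup.zpowers γ₀) => y.left.toAdd) h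
        have h2 : (1 : K) = 0 := h1
        exact one_ne_zero h2
    · obtain ⟨e, he⟩ := hm
      have hm0 : m ≠ 0 := by
        rintro rfl
        simp at he
        exact hc0 he
      have he0 : e ≠ 0 := by
        rintro rfl
        simp at he
        exact hc0 he
      by_cases hm1 : m = 1
      · exact ⟨1, by rw [hm1, orderOf_one]⟩
      let u : Subgroup.zpowers γ₀ := ⟨γ₀ ^ e, Subgroup.npow_mem_zpowers γ₀ e⟩
      have hu : orderOf u = m := by
        rw [Subgroup.orderOf_mk, orderOf_pow_of_dvd he0 ⟨m, by rw [hγ, he, mul_comm]⟩, hγ, he]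
        exact Nat.mul_div_cancel _ (Nat.pos_of_ne_zero he0)
      have hu1 : u ≠ 1 := by
        intro h
        rw [h, orderOf_one] at hu
        exact hm1 hu.symm
      refine ⟨⟨1, u⟩, ?_⟩
      show orderOf _ = m
      rw [order_ne _ hu1]
      exact hu

theorem solv_GK : Group.IsSolvable (GK K C) := by
  exact Group.isSolvable_of_ker_le_range (SemidirectProduct.inl (φ := phiK K C))
    (SemidirectProduct.rightHom (φ := phiK K C)) (le_of_eq SemidirectProduct.range_inl_eq_ker_rightHom.symm)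

theorem exists_elem [Finite K] (c : ℕ) (hc : c ≠ 0) (hdvd : c ∣ Nat.card K - 1) : ∃ γ₀ : Kˣ, orderOf γ₀ = c := by
  obtain ⟨g, hg⟩ := IsCyclic.exists_generator (α := Kˣ)
  have hord : orderOf g = Nat.card K - 1 := by
    rw [orderOf_eq_card_of_forall_mem_zpowers hg, Nat.card_units]
  obtain ⟨e, he⟩ := hdvd
  have hpos : 0 < Nat.card K - 1 := by
    rw [← hord]
    exact orderOf_pos g
  have he0 : e ≠ 0 := by
    rintro rfl
    omega
  refine ⟨g ^ e, ?_⟩
  rw [orderOf_pow_of_dvd he0 ⟨c, by rw [hord, he, mul_comm]⟩, hord, he]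
  exact Nat.mul_div_cancel _ (Nat.pos_of_ne_zero he0)

end frob

theorem lcm_sets (p a b : ℕ) :
    {m : ℕ | ∃ x y : ℕ, (x ∣ p ∨ x ∣ a ∨ x ∣ b) ∧ (y ∣ p ∨ y ∣ a ∨ y ∣ b) ∧ m = Nat.lcm x y} =
    {m : ℕ | ∃ x y : ℕ, (x ∣ p ∨ x ∣ a) ∧ (y ∣ p ∨ y ∣ b) ∧ m = Nat.lcm x y} := by
  apply Set.Subset.antisymm
  · rintro m ⟨x, y, hx, hy, rfl⟩
    rcases hx with hx | hx | hx <;> rcases hy with hy | hy | hy
    · exact ⟨Nat.lcm x y, 1, Or.inl (Nat.lcm_dvd hx hy), Or.inl (one_dvd _), (Nat.lcm_one_right _).symm⟩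
    · exact ⟨y, x, Or.inr hy, Or.inl hx, Nat.lcm_comm _ _⟩
    · exact ⟨x, y, Or.inl hx, Or.inr hy, rfl⟩
    · exact ⟨x, y, Or.inr hx, Or.inl hy, rfl⟩
    · exact ⟨Nat.lcm x y, 1, Or.inr (Nat.lcm_dvd hx hy), Or.inl (one_dvd _), (Nat.lcm_one_right _).symm⟩
    · exact ⟨x, y, Or.inr hx, Or.inr hy, rfl⟩
    · exact ⟨y, x, Or.inl hy, Or.inr hx, Nat.lcm_comm _ _⟩
    · exact ⟨y, x, Or.inr hy, Or.inr hx, Nat.lcm_comm _ _⟩
    · exact ⟨1, Nat.lcm x y, Or.inl (one_dvd _), Or.inr (Nat.lcm_dvd hx hy), (Nat.lcm_one_left _).symm⟩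
  · rintro m ⟨x, y, hx, hy, rfl⟩
    refine ⟨x, y, ?_, ?_, rfl⟩
    · rcases hx with h | h
      · exact Or.inl h
      · exact Or.inr (Or.inl h)
    · rcases hy with h | h
      · exact Or.inl h
      · exact Or.inr (Or.inr h)

theorem range_prod {A B : Type*} [Monoid A] [Monoid B] :
    Set.range (orderOf : A × B → ℕ) = {m : ℕ | ∃ x ∈ Set.range (orderOf : A → ℕ), ∃ y ∈ Set.range (orderOf : B → ℕ), m = Nat.lcm x y} := by
  ext m
  constructor
  · rintro ⟨⟨a, b⟩, rfl⟩
    exact ⟨_, ⟨a, rfl⟩, _, ⟨b, rfl⟩, Prod.orderOf_mk⟩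
  · rintro ⟨_, ⟨a, rfl⟩, _, ⟨b, rfl⟩, rfl⟩
    exact ⟨(a, b), Prod.orderOf_mk⟩

theorem main {F : Type*} [Field F] [Fintype F] (hF : 4 ≤ Fintype.card F) :
    ∃ (H : Type) (_ : Group H) (_ : Finite H), Group.IsSolvable H ∧
      Set.range (orderOf : H → ℕ) = Set.range (orderOf : Matrix.ProjectiveSpecialLinearGroup (Fin 2) F × Matrix.ProjectiveSpecialLinearGroup (Fin 2) F → ℕ) := by
  classical
  obtain ⟨p, hpc⟩ := CharP.exists F
  haveI hpf : Fact p.Prime := ⟨CharP.char_is_prime F p⟩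
  have hpp : p.Prime := hpf.out
  obtain ⟨k, _, hq⟩ := FiniteField.card F p
  set q := Fintype.card F with hqdef
  have hk0 : (k : ℕ) ≠ 0 := k.pos.ne'
  set d := Nat.gcd 2 (q - 1) with hd
  have hd0 : 0 < d := Nat.gcd_pos_of_pos_left _ (by norm_num)
  have hda : d ∣ q - 1 := Nat.gcd_dvd_right _ _
  have hdb : d ∣ q + 1 := CfsgLib.H9.PSL2.dvd_add q (by omega)
  set a := (q - 1) / d with ha
  set b := (q + 1) / d with hb
  have ha0 : a ≠ 0 := by
    have : 0 < a := Nat.div_pos (Nat.le_of_dvd (by omega) hda) hd0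
    omega
  have hb0 : b ≠ 0 := by
    have : 0 < b := Nat.div_pos (Nat.le_of_dvd (by omega) hdb) hd0
    omega
  let K₁ := GaloisField p k
  let K₂ := GaloisField p (2 * k)
  haveI : Finite K₁ := Nat.finite_of_card_ne_zero (by
    rw [GaloisField.card p k hk0]
    exact pow_ne_zero _ hpp.ne_zero)
  haveI : Finite K₂ := Nat.finite_of_card_ne_zero (by
    rw [GaloisField.card p (2 * k) (by omega)]
    exact pow_ne_zero _ hpp.ne_zero)
  have hc1 : Nat.card K₁ = q := by
    rw [GaloisField.card p k hk0, hq]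
  have hc2 : Nat.card K₂ = q ^ 2 := by
    rw [GaloisField.card p (2 * k) (by omega), hq, ← pow_mul, mul_comm]
  obtain ⟨γ₁, hγ₁⟩ := exists_elem (K := K₁) a ha0 (by
    rw [hc1]
    exact Nat.div_dvd_of_dvd hda)
  obtain ⟨γ₂, hγ₂⟩ := exists_elem (K := K₂) b hb0 (by
    rw [hc2]
    have h1 : b ∣ q + 1 := Nat.div_dvd_of_dvd hdb
    refine h1.trans ⟨q - 1, ?_⟩
    have hq1 : 1 ≤ q := by omega
    obtain ⟨r, hr⟩ : ∃ r, q = r + 1 := ⟨q - 1, by omega⟩
    rw [hr]
    simp only [Nat.add_sub_cancel]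
    have : (r + 1) ^ 2 - 1 = (r + 1 + 1) * r := by
      have : (r + 1) ^ 2 = (r + 1 + 1) * r + 1 := by ring
      omega
    exact this)
  haveI : Finite (GK K₁ (Subgroup.zpowers γ₁)) := Finite.of_equiv _ SemidirectProduct.equivProd.symm
  haveI : Finite (GK K₂ (Subgroup.zpowers γ₂)) := Finite.of_equiv _ SemidirectProduct.equivProd.symm
  refine ⟨GK K₁ (Subgroup.zpowers γ₁) × GK K₂ (Subgroup.zpowers γ₂), inferInstance, inferInstance, ?_, ?_⟩
  · haveI := solv_GK (K := K₁) (C := Subgroup.zpowers γ₁)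
    haveI := solv_GK (K := K₂) (C := Subgroup.zpowers γ₂)
    infer_instance
  · rw [range_prod, range_prod, spec_GK p a γ₁ hγ₁, spec_GK p b γ₂ hγ₂, CfsgLib.H9.PSL2.spectrum_main (F := F) p hF]
    rw [← hqdef, ← hd, ← ha, ← hb]
    have := lcm_sets p a b
    ext m
    have h2 := Set.ext_iff.mp this m
    simp only [Set.mem_setOf_eq] at h2 ⊢
    constructor
    · rintro ⟨x, hx, y, hy, rfl⟩
      obtain ⟨x', y', hx', hy', he⟩ := h2.mpr ⟨x, y, hx, hy, rfl⟩
      exact ⟨x', hx', y', hy', he⟩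
    · rintro ⟨x, hx, y, hy, rfl⟩
      obtain ⟨x', y', hx', hy', he⟩ := h2.mp ⟨x, y, hx, hy, rfl⟩
      exact ⟨x', hx', y', hy', he⟩

end CfsgLib.ClassMax.SpecSolv
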