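import Mathlib

/-! The even part of `S₂ ≀ S₄` lies in `AGL₃(2)`. -/

set_option autoImplicit false
set_option linter.unusedSimpArgs false
set_option linter.unusedVariables false
set_option linter.unusedSectionVars false
set_option linter.style.haveILetI false
set_option maxRecDepth 100000

namespace CfsgLib.ClassMax.Wr8

open Equiv Equiv.Perm

abbrev V := Fin 4 × ZMod 2

def x3 (a b c : Fin 4) : Fin 4 := ⟨(a.1 ^^^ b.1 ^^^ c.1) % 4, Nat.mod_lt _ (by norm_num)⟩

def tau (u v w : V) : V := (x3 u.1 v.1 w.1, u.2 + v.2 + w.2)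

/-- affine group of the 3-space `V` -/
def KV : Subgroup (Perm V) where
  carrier := {g | ∀ u v w, g (tau u v w) = tau (g u) (g v) (g w)}
  mul_mem' := by
    intro a b ha hb u v w
    simp only [mul_apply]
    rw [hb, ha]
  one_mem' := by
    intro u v w
    rfl
  inv_mem' := by
    intro g hg u v w
    have h := hg (g⁻¹ u) (g⁻¹ v) (g⁻¹ w)
    simp only [show ∀ x, g (g⁻¹ x) = x by simp] at h
    rw [← h]
    simp

theorem mem_KV (g : Perm V) : g ∈ KV ↔ ∀ u v w, g (tau u v w) = tau (g u) (g v) (g w) := Iff.rfl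

set_option maxHeartbeats 0 in
theorem pi_affine : ∀ (π : Perm (Fin 4)) (i j k : Fin 4), π (x3 i j k) = x3 (π i) (π j) (π k) := by
  decide +kernel

set_option maxHeartbeats 0 in
theorem t_affine : ∀ (t0 t1 t2 t3 : ZMod 2), t0 + t1 + t2 + t3 = 0 →
    ∀ i j k : Fin 4, ![t0, t1, t2, t3] (x3 i j k) = ![t0, t1, t2, t3] i + ![t0, t1, t2, t3] j + ![t0, t1, t2, t3] k := by
  decide +kernel

theorem t_sign : ∀ (t0 t1 t2 t3 : ZMod 2),
    sign (Equiv.addRight t0) * (sign (Equiv.addRight t1) * (sign (Equiv.addRight t2) * sign (Equiv.addRight t3))) = 1 →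
    t0 + t1 + t2 + t3 = 0 := by
  decide +kernel

theorem affine_of_even (g : Perm V) (hg : ∀ x y : V, x.1 = y.1 ↔ (g x).1 = (g y).1) (hs : sign g = 1) : g ∈ KV := by
  let π' : Fin 4 → Fin 4 := fun i => (g (i, 0)).1
  have hfib : ∀ i a, (g (i, a)).1 = π' i := fun i a => (hg (i, a) (i, 0)).mp rfl
  have hinj : Function.Injective π' := by
    intro i j h
    exact (hg (i, 0) (j, 0)).mpr h
  let π : Perm (Fin 4) := Equiv.ofBijective π' (Finite.injective_iff_bijective.mp hinj)
  have hπ : ∀ i, π i = π' i := fun i => rfl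
  let t : Fin 4 → ZMod 2 := fun i => (g (i, 0)).2
  have hsec : ∀ (i : Fin 4) (a : ZMod 2), (g (i, a)).2 = a + t i := by
    intro i a
    have h01 : ∀ b c : ZMod 2, b ≠ c → b = 1 + c := by decide
    fin_cases a
    · show (g (i, 0)).2 = 0 + t i
      rw [zero_add]
    · show (g (i, 1)).2 = 1 + t i
      apply h01
      intro h
      have he : g (i, 1) = g (i, 0) := Prod.ext ((hfib i 1).trans (hfib i 0).symm) h
      have := g.injective he
      have h10 : (1 : ZMod 2) ≠ 0 := by decide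
      exact h10 (congrArg Prod.snd this)
  have hform : ∀ (i : Fin 4) (a : ZMod 2), g (i, a) = (π i, a + t i) := fun i a =>
    Prod.ext (hfib i a) (hsec i a)
  have hdecomp : g = (prodCongrLeft (fun _ : ZMod 2 => π)) * (prodCongrRight (fun i => Equiv.addRight (t i))) := by
    ext1 ⟨i, a⟩
    rw [hform]
    rfl
  have hst : t 0 + t 1 + t 2 + t 3 = 0 := by
    apply t_sign
    rw [hdecomp, map_mul, sign_prodCongrLeft, sign_prodCongrRight] at hs
    have h2 : ∏ k : ZMod 2, sign π = 1 := by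
      rw [Finset.prod_const, show Finset.card (Finset.univ : Finset (ZMod 2)) = 2 from rfl, pow_two]
      exact Int.units_mul_self _
    rw [h2, one_mul, Fin.prod_univ_four] at hs
    rw [← hs]
    simp only [mul_assoc]
  have ht' : ∀ i, t i = ![t 0, t 1, t 2, t 3] i := by
    intro i
    fin_cases i <;> rfl
  intro u v w
  obtain ⟨i, a⟩ := u
  obtain ⟨j, b⟩ := v
  obtain ⟨k, c⟩ := w
  have h1 := t_affine (t 0) (t 1) (t 2) (t 3) hst i j k
  simp only [← ht'] at h1
  show g (x3 i j k, a + b + c) = tau (g (i, a)) (g (j, b)) (g (k, c))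
  rw [hform, hform, hform, hform]
  apply Prod.ext
  · exact pi_affine π i j k
  · show a + b + c + t (x3 i j k) = a + t i + (b + t j) + (c + t k)
    rw [h1]
    ring

def y1 : Perm V := swap (0, 1) (1, 1) * swap (2, 1) (3, 1)

def y2 : Perm V := swap (0, 0) (0, 1) * swap (0, 0) (1, 0)

theorem y1_sign : sign y1 = 1 := by decide +kernel
theorem y2_sign : sign y2 = 1 := by decide +kernel

set_option maxHeartbeats 0 in
theorem y1_mem : y1 ∈ KV := by
  rw [mem_KV]
  decide +kernel

set_option maxHeartbeats 0 in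
theorem y2_not_mem : y2 ∉ KV := by
  rw [mem_KV]
  decide +kernel

theorem y1_not_fib : ¬ ∀ x y : V, x.1 = y.1 ↔ (y1 x).1 = (y1 y).1 := by
  decide +kernel

theorem exists_equiv {Ω : Type*} [Fintype Ω] [DecidableEq Ω] (f : Ω → Fin 4)
    (hf : ∀ i : Fin 4, Nat.card {x : Ω // f x = i} = 2) :
    ∃ e : Ω ≃ V, ∀ x, (e x).1 = f x := by
  have h : ∀ i : Fin 4, Nonempty ({x : Ω // f x = i} ≃ ZMod 2) := by
    intro i
    refine ⟨Fintype.equivOfCardEq ?_⟩
    rw [← Nat.card_eq_fintype_card, hf i]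
    rfl
  let φ : ∀ i, {x : Ω // f x = i} ≃ ZMod 2 := fun i => (h i).some
  let e : Ω ≃ V := (Equiv.sigmaFiberEquiv f).symm.trans
    ((Equiv.sigmaCongrRight φ).trans (Equiv.sigmaEquivProd (Fin 4) (ZMod 2)))
  exact ⟨e, fun x => rfl⟩

theorem main {Ω : Type*} [Fintype Ω] [DecidableEq Ω]
    (f : Ω → Fin 4) (hf : ∀ i : Fin 4, Nat.card {x : Ω // f x = i} = 2) :
    ¬ IsCoatom ((Subgroup.closure {g : Equiv.Perm Ω | ∀ x y : Ω, f x = f y ↔ f (g x) = f (g y)} ⊓ alternatingGroup Ω).subgroupOf (alternatingGroup Ω)) := by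
  obtain ⟨e, he⟩ := exists_equiv f hf
  let ψ : Perm Ω ≃* Perm V := e.permCongrHom
  have hψ : ∀ (g : Perm Ω) (v : V), ψ g v = e (g (e.symm v)) := fun g v => rfl
  have hψs : ∀ (g : Perm Ω), sign (ψ g) = sign g := fun g => sign_permCongr e g
  have hclo : ∀ g ∈ Subgroup.closure {g : Equiv.Perm Ω | ∀ x y : Ω, f x = f y ↔ f (g x) = f (g y)},
      ∀ x y : Ω, f x = f y ↔ f (g x) = f (g y) := by
    intro g hg
    induction hg using Subgroup.closure_induction with
    | mem g hg => exact hg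
    | one => intro x y; rfl
    | mul a b _ _ ha hb =>
      intro x y
      rw [hb, ha]
      rfl
    | inv a _ ha =>
      intro x y
      have := ha (a⁻¹ x) (a⁻¹ y)
      simp only [show ∀ x, a (a⁻¹ x) = x by simp] at this
      exact this.symm
  let Kc : Subgroup (Perm Ω) := KV.comap ψ.toMonoidHom
  have hle : ∀ g ∈ Subgroup.closure {g : Equiv.Perm Ω | ∀ x y : Ω, f x = f y ↔ f (g x) = f (g y)} ⊓ alternatingGroup Ω,
      g ∈ Kc := by
    rintro g ⟨h1, h2⟩
    show ψ g ∈ KV
    apply affine_of_even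
    · intro x y
      rw [hψ, hψ, he, he]
      have := hclo g h1 (e.symm x) (e.symm y)
      rw [← this, ← he, ← he]
      simp
    · rw [hψs]
      exact h2
  intro hco
  let K' : Subgroup (alternatingGroup Ω) := (Kc ⊓ alternatingGroup Ω).subgroupOf (alternatingGroup Ω)
  have hmem : ∀ y : Perm V, sign y = 1 → ψ.symm y ∈ alternatingGroup Ω := by
    intro y hy
    rw [mem_alternatingGroup, ← hψs]
    simpa using hy
  have hlt : ((Subgroup.closure {g : Equiv.Perm Ω | ∀ x y : Ω, f x = f y ↔ f (g x) = f (g y)} ⊓ alternatingGroup Ω).subgroupOf (alternatingGroup Ω)) < K' := by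
    rw [SetLike.lt_iff_le_and_exists]
    constructor
    · intro g hg
      rw [Subgroup.mem_subgroupOf] at hg ⊢
      exact ⟨hle _ hg, g.2⟩
    · refine ⟨⟨ψ.symm y1, hmem y1 y1_sign⟩, ?_, ?_⟩
      · rw [Subgroup.mem_subgroupOf]
        refine ⟨?_, hmem y1 y1_sign⟩
        show ψ (ψ.symm y1) ∈ KV
        simpa using y1_mem
      · rw [Subgroup.mem_subgroupOf]
        rintro ⟨h1, -⟩
        apply y1_not_fib
        intro x y
        have h3 := hclo _ h1 (e.symm x) (e.symm y)
        have h4 : ∀ z : V, f (e.symm z) = z.1 := by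
          intro z
          rw [← he]
          simp
        have h5 : ∀ z : V, f ((ψ.symm y1) (e.symm z)) = (y1 z).1 := by
          intro z
          rw [← he]
          have : ψ (ψ.symm y1) z = y1 z := by simp
          rw [hψ] at this
          rw [this]
        rw [h4, h4, h5, h5] at h3
        exact h3
  have htop := hco.2 K' hlt
  have hy2 : (⟨ψ.symm y2, hmem y2 y2_sign⟩ : alternatingGroup Ω) ∈ K' := by
    rw [htop]
    exact Subgroup.mem_top _
  rw [Subgroup.mem_subgroupOf] at hy2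
  apply y2_not_mem
  have := hy2.1
  change ψ (ψ.symm y2) ∈ KV at this
  simpa using this

end CfsgLib.ClassMax.Wr8
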