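import Mathlib

/-! The even part of an imprimitive wreath product is maximal in the alternating group. -/

set_option autoImplicit false
set_option linter.unusedSimpArgs false
set_option linter.unusedVariables false
set_option linter.unusedSectionVars false
set_option linter.style.haveILetI false
set_option maxRecDepth 100000

namespace CfsgLib.ClassMax.WrAlt

open Equiv Equiv.Perm MulAction
open scoped Pointwise

variable {b a : ℕ}

abbrev XX (b a : ℕ) := Fin b × Fin a

/-- The stabiliser of the partition into fibres of the first projection. -/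
def WW (b a : ℕ) : Subgroup (Perm (XX b a)) where
  carrier := {g | ∀ x y : XX b a, x.1 = y.1 ↔ (g x).1 = (g y).1}
  mul_mem' := by
    intro g h hg hh x y
    exact (hh x y).trans (hg _ _)
  one_mem' := fun x y => Iff.rfl
  inv_mem' := by
    intro g hg x y
    have := hg (g⁻¹ x) (g⁻¹ y)
    simp only [show ∀ x, g (g⁻¹ x) = x by simp] at this
    exact this.symm

theorem mem_WW (g : Perm (XX b a)) : g ∈ WW b a ↔ ∀ x y : XX b a, x.1 = y.1 ↔ (g x).1 = (g y).1 := Iff.rfl

theorem swap_fst {x y : XX b a} (h : x.1 = y.1) (p : XX b a) : (swap x y p).1 = p.1 := by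
  rw [swap_apply_def]
  split_ifs with h1 h2
  · rw [h1, h]
  · rw [h2, h]
  · rfl

theorem swap_mem {x y : XX b a} (h : x.1 = y.1) : swap x y ∈ WW b a := by
  intro p q
  rw [swap_fst h, swap_fst h]

def bs (i j : Fin b) : Perm (XX b a) := (swap i j).prodCongr (Equiv.refl _)

theorem bs_apply (i j : Fin b) (p : XX b a) : bs i j p = (swap i j p.1, p.2) := rfl

theorem bs_mem (i j : Fin b) : bs i j ∈ WW b a := by
  intro p q
  rw [bs_apply, bs_apply]
  show p.1 = q.1 ↔ swap i j p.1 = swap i j q.1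
  rw [(swap i j).injective.eq_iff]

theorem exists_ne_fin {n : ℕ} (hn : 2 ≤ n) (s : Fin n) : ∃ i : Fin n, i ≠ s := by
  by_cases h : s.1 = 0
  · exact ⟨⟨1, by omega⟩, fun h2 => by
      have := congrArg Fin.val h2
      simp at this
      omega⟩
  · exact ⟨⟨0, by omega⟩, fun h2 => by
      have := congrArg Fin.val h2
      simp at this
      omega⟩

theorem exists_ne_fin2 {n : ℕ} (hn : 3 ≤ n) (s t : Fin n) : ∃ i : Fin n, i ≠ s ∧ i ≠ t := by
  classical
  obtain ⟨i, -, hi⟩ := Finset.exists_mem_notMem_of_card_lt_card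
    (s := ({s, t} : Finset (Fin n))) (t := Finset.univ) (by
      calc ({s, t} : Finset (Fin n)).card ≤ 2 := Finset.card_le_two
        _ < _ := by simp; omega)
  simp only [Finset.mem_insert, Finset.mem_singleton, not_or] at hi
  exact ⟨i, hi.1, hi.2⟩

theorem exists_ne_fin4 {n : ℕ} (hn : 5 ≤ n) (s t r u : Fin n) : ∃ i : Fin n, i ≠ s ∧ i ≠ t ∧ i ≠ r ∧ i ≠ u := by
  classical
  obtain ⟨i, -, hi⟩ := Finset.exists_mem_notMem_of_card_lt_card
    (s := ({s, t, r, u} : Finset (Fin n))) (t := Finset.univ) (by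
      calc ({s, t, r, u} : Finset (Fin n)).card ≤ 4 := Finset.card_le_four
        _ < _ := by simp; omega)
  simp only [Finset.mem_insert, Finset.mem_singleton, not_or] at hi
  exact ⟨i, hi.1, hi.2.1, hi.2.2.1, hi.2.2.2⟩

theorem exists_free (hb : 2 ≤ b) (ha : 2 ≤ a) (hab : 3 ≤ a ∨ 3 ≤ b) (p q : XX b a) :
    ∃ x y : XX b a, x ≠ y ∧ x.1 = y.1 ∧ x ≠ p ∧ x ≠ q ∧ y ≠ p ∧ y ≠ q := by
  rcases hab with hab | hab
  · obtain ⟨i, hi⟩ := exists_ne_fin hb p.1
    obtain ⟨k₁, hk₁⟩ := exists_ne_fin ha q.2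
    obtain ⟨k₂, hk₂, hk₃⟩ := exists_ne_fin2 hab q.2 k₁
    refine ⟨(i, k₁), (i, k₂), ?_, rfl, ?_, ?_, ?_, ?_⟩
    · intro h
      exact hk₃ (congrArg Prod.snd h).symm
    · intro h
      exact hi (congrArg Prod.fst h)
    · intro h
      exact hk₁ (congrArg Prod.snd h)
    · intro h
      exact hi (congrArg Prod.fst h)
    · intro h
      exact hk₂ (congrArg Prod.snd h)
  · obtain ⟨i, hi, hi2⟩ := exists_ne_fin2 hab p.1 q.1
    refine ⟨(i, ⟨0, by omega⟩), (i, ⟨1, by omega⟩), ?_, rfl, ?_, ?_, ?_, ?_⟩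
    · intro h
      have := congrArg (fun z : XX b a => z.2.1) h
      simp at this
    · intro h
      exact hi (congrArg Prod.fst h)
    · intro h
      exact hi2 (congrArg Prod.fst h)
    · intro h
      exact hi (congrArg Prod.fst h)
    · intro h
      exact hi2 (congrArg Prod.fst h)

theorem adjust (hb : 2 ≤ b) (ha : 2 ≤ a) (hab : 3 ≤ a ∨ 3 ≤ b) {h : Perm (XX b a)} (hh : h ∈ WW b a)
    (p q : XX b a) : ∃ h' ∈ WW b a, sign h' = 1 ∧ h' p = h p ∧ h' q = h q := by
  rcases Int.units_eq_one_or (sign h) with hs | hs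
  · exact ⟨h, hh, hs, rfl, rfl⟩
  · obtain ⟨x, y, hxy, hf, h1, h2, h3, h4⟩ := exists_free hb ha hab p q
    refine ⟨h * swap x y, mul_mem hh (swap_mem hf), ?_, ?_, ?_⟩
    · rw [map_mul, hs, sign_swap hxy]
      rfl
    · show h (swap x y p) = h p
      rw [swap_apply_of_ne_of_ne h1.symm h3.symm]
    · show h (swap x y q) = h q
      rw [swap_apply_of_ne_of_ne h2.symm h4.symm]

theorem exists_bs (v w : XX b a) : ∃ h ∈ WW b a, h v = w ∧ ∀ u : XX b a, u.1 ≠ v.1 → u.1 ≠ w.1 → h u = u := by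
  by_cases hf : v.1 = w.1
  · refine ⟨swap v w, swap_mem hf, swap_apply_left _ _, ?_⟩
    intro u h1 h2
    apply swap_apply_of_ne_of_ne
    · rintro rfl
      exact h1 rfl
    · rintro rfl
      exact h2 rfl
  · let w' : XX b a := (w.1, v.2)
    have e1 : bs v.1 w.1 v = w' := by
      rw [bs_apply, swap_apply_left]
    refine ⟨swap w' w * bs v.1 w.1, mul_mem (swap_mem rfl) (bs_mem _ _), ?_, ?_⟩
    · show swap w' w (bs v.1 w.1 v) = w
      rw [e1, swap_apply_left]
    · intro u h1 h2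
      have e2 : bs v.1 w.1 u = u := by
        rw [bs_apply, swap_apply_of_ne_of_ne h1 h2]
      show swap w' w (bs v.1 w.1 u) = u
      rw [e2]
      apply swap_apply_of_ne_of_ne
      · rintro rfl
        exact h2 rfl
      · rintro rfl
        exact h2 rfl

theorem stab_move (u v w : XX b a) (h1 : u ≠ v) (h2 : u ≠ w) (hc : v.1 = w.1 ∨ (u.1 ≠ v.1 ∧ u.1 ≠ w.1)) :
    ∃ h ∈ WW b a, h u = u ∧ h v = w := by
  rcases hc with hc | ⟨hc1, hc2⟩
  · exact ⟨swap v w, swap_mem hc, swap_apply_of_ne_of_ne h1 h2, swap_apply_left _ _⟩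
  · obtain ⟨h, hh, h3, h4⟩ := exists_bs v w
    exact ⟨h, hh, h4 u hc1 hc2, h3⟩

/-- The even part of the stabiliser is transitive. -/
theorem trans_H (hb : 2 ≤ b) (ha : 2 ≤ a) (hab : 3 ≤ a ∨ 3 ≤ b) (x y : XX b a) :
    ∃ h ∈ WW b a, sign h = 1 ∧ h x = y := by
  obtain ⟨h, hh, h1, -⟩ := exists_bs x y
  obtain ⟨h', hh', hs, e1, -⟩ := adjust hb ha hab hh x x
  exact ⟨h', hh', hs, by rw [e1, h1]⟩

/-- Any group containing the even part of the stabiliser properly is primitive. -/
theorem prim (hb : 2 ≤ b) (ha : 2 ≤ a) (hab : 3 ≤ a ∨ 3 ≤ b) (K : Subgroup (Perm (XX b a)))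
    (hHK : ∀ h ∈ WW b a, sign h = 1 → h ∈ K) (hg : ∃ g ∈ K, g ∉ WW b a) :
    IsPreprimitive K (XX b a) := by
  haveI : IsPretransitive K (XX b a) := ⟨fun x y => by
    obtain ⟨h, hh, hs, e⟩ := trans_H hb ha hab x y
    exact ⟨⟨h, hHK h hh hs⟩, e⟩⟩
  refine { isTrivialBlock_of_isBlock := ?_ }
  intro B hB
  by_cases hsub : B.Subsingleton
  · exact Or.inl hsub
  right
  have hblock : ∀ γ ∈ K, ∀ p ∈ B, γ p ∈ B → ∀ q ∈ B, γ q ∈ B := by
    intro γ hγ p hp hγp q hq
    have h1 : ((⟨γ, hγ⟩ : K) • B ∩ B).Nonempty := ⟨γ p, ⟨p, hp, rfl⟩, hγp⟩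
    have h2 := hB.smul_eq_of_nonempty h1
    rw [← h2]
    exact ⟨q, hq, rfl⟩
  obtain ⟨u, hu, v, hv, huv⟩ := Set.not_subsingleton_iff.mp hsub
  have hstab : ∀ p ∈ B, ∀ q ∈ B, ∀ w : XX b a, p ≠ q → p ≠ w → (q.1 = w.1 ∨ (p.1 ≠ q.1 ∧ p.1 ≠ w.1)) → w ∈ B := by
    intro p hp q hq w hpq hpw hc
    obtain ⟨h, hh, hhp, hhq⟩ := stab_move p q w hpq hpw hc
    obtain ⟨h', hh', hs, e1, e2⟩ := adjust hb ha hab hh p q
    have hK : h' ∈ K := hHK h' hh' hs
    have := hblock h' hK p hp (by rw [e1, hhp]; exact hp) q hq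
    rwa [e2, hhq] at this
  by_cases hcase : ∃ p ∈ B, ∃ q ∈ B, p.1 ≠ q.1
  · obtain ⟨p, hp, q, hq, hne⟩ := hcase
    have hpq : p ≠ q := fun h => hne (congrArg Prod.fst h)
    apply Set.eq_univ_of_forall
    intro w
    by_cases hw : w.1 = p.1
    · have hqw : q ≠ w := by
        rintro rfl
        exact hne hw.symm
      exact hstab q hq p hp w hpq.symm hqw (Or.inl hw.symm)
    · have hpw : p ≠ w := by
        rintro rfl
        exact hw rfl
      refine hstab p hp q hq w hpq hpw ?_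
      by_cases hqw : q.1 = w.1
      · exact Or.inl hqw
      · exact Or.inr ⟨hne, fun h => hw h.symm⟩
  · push Not at hcase
    have hfib : ∀ w : XX b a, w.1 = u.1 → w ∈ B := by
      intro w hw
      by_cases h2 : w = u
      · exact h2 ▸ hu
      · exact hstab u hu v hv w huv (Ne.symm h2) (Or.inl ((hcase v hv u hu).trans hw.symm))
    exfalso
    obtain ⟨g, hgK, hgW⟩ := hg
    apply hgW
    have hmap : ∀ g ∈ K, ∀ x y : XX b a, x.1 = y.1 → (g x).1 = (g y).1 := by
      intro g hg x y hxy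
      obtain ⟨h₁, hh₁, hs₁, he₁⟩ := trans_H hb ha hab u x
      obtain ⟨h₂, hh₂, hs₂, he₂⟩ := trans_H hb ha hab (g x) u
      have hγ : h₂ * g * h₁ ∈ K := mul_mem (mul_mem (hHK _ hh₂ hs₂) hg) (hHK _ hh₁ hs₁)
      have hγu : (h₂ * g * h₁) u = u := by
        show h₂ (g (h₁ u)) = u
        rw [he₁, he₂]
      have hy' : (h₁⁻¹ y).1 = u.1 := by
        have h5 := (hh₁ u (h₁⁻¹ y)).mpr (by
          rw [he₁, show h₁ (h₁⁻¹ y) = y by simp]
          exact hxy)
        exact h5.symm
      have h6 := hblock _ hγ u hu (by rw [hγu]; exact hu) _ (hfib _ hy')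
      have h7 : (h₂ * g * h₁) (h₁⁻¹ y) = h₂ (g y) := by
        show h₂ (g (h₁ (h₁⁻¹ y))) = _
        simp
      rw [h7] at h6
      have h8 := hcase _ h6 u hu
      have h9 : (h₂ (g x)).1 = (h₂ (g y)).1 := by
        rw [he₂, h8]
      exact (hh₂ _ _).mpr h9
    intro x y
    constructor
    · exact hmap g hgK x y
    · intro h
      have := hmap g⁻¹ (K.inv_mem hgK) (g x) (g y) h
      simpa using this

theorem alt_le_of_three {K : Subgroup (Perm (XX b a))} (hb : 2 ≤ b) (ha : 2 ≤ a) (hab : 3 ≤ a ∨ 3 ≤ b)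
    (hHK : ∀ h ∈ WW b a, sign h = 1 → h ∈ K) (hg : ∃ g ∈ K, g ∉ WW b a) {c : Perm (XX b a)}
    (hc : IsThreeCycle c) (hcK : c ∈ K) : alternatingGroup (XX b a) ≤ K :=
  alternatingGroup_le_of_isPreprimitive_of_isThreeCycle_mem (prim hb ha hab K hHK hg) hc hcK

/-- The case of blocks of size at least three. -/
theorem main_a3 {K : Subgroup (Perm (XX b a))} (hb : 2 ≤ b) (ha : 3 ≤ a)
    (hHK : ∀ h ∈ WW b a, sign h = 1 → h ∈ K) (hg : ∃ g ∈ K, g ∉ WW b a) :
    alternatingGroup (XX b a) ≤ K := by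
  let i₀ : Fin b := ⟨0, by omega⟩
  let p0 : XX b a := (i₀, ⟨0, by omega⟩)
  let p1 : XX b a := (i₀, ⟨1, by omega⟩)
  let p2 : XX b a := (i₀, ⟨2, by omega⟩)
  have h01 : p0 ≠ p1 := by
    intro h
    have := congrArg (fun z : XX b a => z.2.1) h
    simp [p0, p1] at this
  have h02 : p0 ≠ p2 := by
    intro h
    have := congrArg (fun z : XX b a => z.2.1) h
    simp [p0, p2] at this
  have h12 : p1 ≠ p2 := by
    intro h
    have := congrArg (fun z : XX b a => z.2.1) h
    simp [p1, p2] at this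
  have h3 := isThreeCycle_swap_mul_swap_same h01 h02 h12
  refine alt_le_of_three hb (by omega) (Or.inl ha) hHK hg h3 ?_
  exact hHK _ (mul_mem (swap_mem rfl) (swap_mem rfl)) h3.sign

theorem commute_swap {α : Type*} [DecidableEq α] {x y z t : α} (hxy : x ≠ y) (hzt : z ≠ t) (h1 : x ≠ z) (h2 : x ≠ t)
    (h3 : y ≠ z) (h4 : y ≠ t) : Commute (swap x y) (swap z t) :=
  (disjoint_swap_swap (by simp [hxy, hzt, h1, h2, h3, h4])).commute

theorem key4 {α : Type*} [DecidableEq α] {u v u' w w' y y' : α} (h1 : u ≠ v) (h2 : u ≠ u') (h3 : v ≠ u')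
    (hw : w ≠ w') (hy : y ≠ y') (a1 : w ≠ u) (a2 : w ≠ v) (a3 : w ≠ u') (a4 : w' ≠ u) (a5 : w' ≠ v) (a6 : w' ≠ u')
    (b1 : y ≠ u) (b2 : y ≠ v) (b3 : y ≠ u') (b4 : y' ≠ u) (b5 : y' ≠ v) (b6 : y' ≠ u')
    (c1 : w ≠ y) (c2 : w ≠ y') (c3 : w' ≠ y) (c4 : w' ≠ y') :
    (swap u v * swap w w' * (swap u u' * swap y y')) * (swap u v * swap w w' * (swap u u' * swap y y')) =
      (swap u v * swap u u') * (swap u v * swap u u') := by
  have hAB : Commute (swap u v) (swap w w') := commute_swap h1 hw a1.symm a4.symm a2.symm a5.symm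
  have hAD : Commute (swap u v) (swap y y') := commute_swap h1 hy b1.symm b4.symm b2.symm b5.symm
  have hCB : Commute (swap u u') (swap w w') := commute_swap h2 hw a1.symm a4.symm a3.symm a6.symm
  have hCD : Commute (swap u u') (swap y y') := commute_swap h2 hy b1.symm b4.symm b3.symm b6.symm
  have hBD : Commute (swap w w') (swap y y') := commute_swap hw hy c1 c2 c3 c4
  have e1 : swap u v * swap w w' * (swap u u' * swap y y') = (swap u v * swap u u') * (swap w w' * swap y y') :=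
    hCB.symm.mul_mul_mul_comm _ _
  have hcd : Commute (swap u v * swap u u') (swap w w' * swap y y') :=
    Commute.mul_left (Commute.mul_right hAB hAD) (Commute.mul_right hCB hCD)
  have e2 : (swap w w' * swap y y') * (swap w w' * swap y y') = 1 := by
    rw [hBD.symm.mul_mul_mul_comm, swap_mul_self, swap_mul_self, one_mul]
  rw [e1, hcd.symm.mul_mul_mul_comm, e2, mul_one]

/-- Blocks of size two and at least five blocks: a three-cycle appears. -/
theorem three_cycle_a2 (hb : 5 ≤ b) {K : Subgroup (Perm (XX b 2))}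
    (hHK : ∀ h ∈ WW b 2, sign h = 1 → h ∈ K) (hg : ∃ g ∈ K, g ∉ WW b 2) : ∃ c ∈ K, IsThreeCycle c := by
  obtain ⟨g', hg'K, x, y, hxy, hne⟩ : ∃ g' ∈ K, ∃ x y : XX b 2, x.1 = y.1 ∧ (g' x).1 ≠ (g' y).1 := by
    obtain ⟨g, hgK, hgW⟩ := hg
    rw [mem_WW] at hgW
    push Not at hgW
    obtain ⟨x, y, hcase⟩ := hgW
    rcases hcase with ⟨h1, h2⟩ | ⟨h1, h2⟩
    · exact ⟨g, hgK, x, y, h1, h2⟩
    · exact ⟨g⁻¹, K.inv_mem hgK, g x, g y, h2, by simpa using h1⟩
  have hxney : x ≠ y := by
    rintro rfl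
    exact hne rfl
  set u := g' x with hu
  set v := g' y with hv
  have huv : u ≠ v := fun h => hne (congrArg Prod.fst h)
  let u' : XX b 2 := (u.1, swap 0 1 u.2)
  have huu' : u ≠ u' := by
    intro h
    have h2 := congrArg Prod.snd h
    have h3 : u.2 = swap 0 1 u.2 := h2
    revert h3
    generalize u.2 = t
    revert t
    decide
  have hvu' : v ≠ u' := fun h => hne (congrArg Prod.fst h).symm
  obtain ⟨i₁, hi₁, hi₂⟩ := exists_ne_fin2 (show 3 ≤ b by omega) x.1 (g'⁻¹ u').1
  let r : XX b 2 := (i₁, 0)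
  let s : XX b 2 := (i₁, 1)
  have hrs : r ≠ s := by
    intro h
    have := congrArg Prod.snd h
    simp [r, s] at this
  set w := g' r with hw
  set w' := g' s with hw'
  have hww' : w ≠ w' := fun h => hrs (g'.injective h)
  have hrx : r ≠ x := fun h => hi₁ (congrArg Prod.fst h)
  have hsx : s ≠ x := fun h => hi₁ (congrArg Prod.fst h)
  have hry : r ≠ y := fun h => hi₁ ((congrArg Prod.fst h).trans hxy.symm)
  have hsy : s ≠ y := fun h => hi₁ ((congrArg Prod.fst h).trans hxy.symm)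
  have hru : r ≠ g'⁻¹ u' := fun h => hi₂ (congrArg Prod.fst h)
  have hsu : s ≠ g'⁻¹ u' := fun h => hi₂ (congrArg Prod.fst h)
  have a1 : w ≠ u := fun h => hrx (g'.injective h)
  have a2 : w ≠ v := fun h => hry (g'.injective h)
  have a3 : w ≠ u' := by
    intro h
    apply hru
    rw [← h, hw]
    simp
  have a4 : w' ≠ u := fun h => hsx (g'.injective h)
  have a5 : w' ≠ v := fun h => hsy (g'.injective h)
  have a6 : w' ≠ u' := by
    intro h
    apply hsu
    rw [← h, hw']
    simp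
  obtain ⟨i₂, j1, j2, j3, j4⟩ := exists_ne_fin4 hb u.1 v.1 w.1 w'.1
  let y₀ : XX b 2 := (i₂, 0)
  let y₁ : XX b 2 := (i₂, 1)
  have hy01 : y₀ ≠ y₁ := by
    intro h
    have := congrArg Prod.snd h
    simp [y₀, y₁] at this
  have b1 : y₀ ≠ u := fun h => j1 (congrArg Prod.fst h)
  have b2 : y₀ ≠ v := fun h => j2 (congrArg Prod.fst h)
  have b3 : y₀ ≠ u' := fun h => j1 (congrArg Prod.fst h)
  have b4 : y₁ ≠ u := fun h => j1 (congrArg Prod.fst h)
  have b5 : y₁ ≠ v := fun h => j2 (congrArg Prod.fst h)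
  have b6 : y₁ ≠ u' := fun h => j1 (congrArg Prod.fst h)
  have c1 : w ≠ y₀ := fun h => j3 (congrArg Prod.fst h).symm
  have c2 : w ≠ y₁ := fun h => j3 (congrArg Prod.fst h).symm
  have c3 : w' ≠ y₀ := fun h => j4 (congrArg Prod.fst h).symm
  have c4 : w' ≠ y₁ := fun h => j4 (congrArg Prod.fst h).symm
  -- the two elements of `K`
  have hτ : swap u v * swap w w' ∈ K := by
    have h1 : swap x y * swap r s ∈ K := by
      refine hHK _ (mul_mem (swap_mem hxy) (swap_mem rfl)) ?_
      rw [map_mul, sign_swap hxney, sign_swap hrs]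
      rfl
    have h2 := mul_mem (mul_mem hg'K h1) (K.inv_mem hg'K)
    have h3 : g' * (swap x y * swap r s) * g'⁻¹ = swap u v * swap w w' := by
      rw [hu, hv, hw, hw', swap_apply_apply, swap_apply_apply]
      group
    rwa [h3] at h2
  have ht : swap u u' * swap y₀ y₁ ∈ K := by
    refine hHK _ (mul_mem (swap_mem rfl) (swap_mem rfl)) ?_
    rw [map_mul, sign_swap huu', sign_swap hy01]
    rfl
  have h3c := isThreeCycle_swap_mul_swap_same huv huu' hvu'
  refine ⟨(swap u v * swap u u') * (swap u v * swap u u'), ?_, h3c.isThreeCycle_sq⟩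
  rw [← key4 huv huu' hvu' hww' hy01 a1 a2 a3 a4 a5 a6 b1 b2 b3 b4 b5 b6 c1 c2 c3 c4]
  exact mul_mem (mul_mem hτ ht) (mul_mem hτ ht)

theorem simple_index {G : Type*} [Group G] [Finite G] [IsSimpleGroup G] (K : Subgroup G) (hK : K ≠ ⊤) :
    Nat.card G ∣ (K.index).factorial := by
  classical
  let φ := MulAction.toPermHom G (G ⧸ K)
  have hker : φ.ker = K.normalCore := (Subgroup.normalCore_eq_ker K).symm
  have hinj : Function.Injective φ := by
    rw [← MonoidHom.ker_eq_bot_iff, hker]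
    rcases (inferInstance : IsSimpleGroup G).eq_bot_or_eq_top_of_normal K.normalCore (Subgroup.normalCore_normal K) with h | h
    · exact h
    · exfalso
      apply hK
      rw [eq_top_iff, ← h]
      exact Subgroup.normalCore_le K
  have h1 : Nat.card G = Nat.card φ.range := Nat.card_congr (MonoidHom.ofInjective hinj).toEquiv
  rw [h1]
  have h2 := Subgroup.card_subgroup_dvd_card φ.range
  rw [Nat.card_perm] at h2
  exact h2

theorem count22 : Fintype.card {g : Perm (XX 2 2) // (∀ x y : XX 2 2, x.1 = y.1 ↔ (g x).1 = (g y).1) ∧ sign g = 1} = 4 := by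
  decide +kernel

theorem count32 : Fintype.card {g : Perm (XX 3 2) // (∀ x y : XX 3 2, x.1 = y.1 ↔ (g x).1 = (g y).1) ∧ sign g = 1} = 24 := by
  decide +kernel

/-- Index bookkeeping in the alternating group. -/
theorem index_aux {K : Subgroup (Perm (XX b a))} [Nontrivial (XX b a)]
    (hKA : K ≤ alternatingGroup (XX b a)) (hHK : ∀ h ∈ WW b a, sign h = 1 → h ∈ K) (hg : ∃ g ∈ K, g ∉ WW b a)
    {c : ℕ} (hc : Nat.card {g : Perm (XX b a) // (∀ x y : XX b a, x.1 = y.1 ↔ (g x).1 = (g y).1) ∧ sign g = 1} = c) :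
    ∃ r, r ≠ 1 ∧ r * (K.subgroupOf (alternatingGroup (XX b a))).index * c = Nat.card (alternatingGroup (XX b a)) := by
  let A := alternatingGroup (XX b a)
  let K' := K.subgroupOf A
  let H₀ : Subgroup (Perm (XX b a)) := WW b a ⊓ A
  let H' := H₀.subgroupOf A
  have hH'K' : H' ≤ K' := by
    intro g hg
    rw [Subgroup.mem_subgroupOf] at hg ⊢
    exact hHK _ hg.1 hg.2
  have hrel := Subgroup.relIndex_mul_index hH'K'
  have hcard : Nat.card H' = c := by
    rw [← hc]
    refine Nat.card_congr ((Subgroup.subgroupOfEquivOfLe (inf_le_right : H₀ ≤ A)).toEquiv.trans ?_)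
    exact Equiv.subtypeEquivRight fun g => Iff.rfl
  have hidx := Subgroup.card_mul_index H'
  refine ⟨H'.relIndex K', ?_, ?_⟩
  · intro h1
    have h2 := Subgroup.relIndex_eq_one.mp h1
    obtain ⟨g, hgK, hgW⟩ := hg
    have h3 : (⟨g, hKA hgK⟩ : A) ∈ K' := by
      rw [Subgroup.mem_subgroupOf]
      exact hgK
    have h4 := h2 h3
    rw [Subgroup.mem_subgroupOf] at h4
    exact hgW h4.1
  · show H'.relIndex K' * K'.index * c = Nat.card A
    rw [hrel, ← hidx, hcard, mul_comm]

theorem top_of_index_one {K : Subgroup (Perm (XX b a))} (h : (K.subgroupOf (alternatingGroup (XX b a))).index = 1) :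
    alternatingGroup (XX b a) ≤ K := by
  have h1 := Subgroup.index_eq_one.mp h
  intro g hg
  have h2 : (⟨g, hg⟩ : alternatingGroup (XX b a)) ∈ K.subgroupOf (alternatingGroup (XX b a)) := by
    rw [h1]
    trivial
  rwa [Subgroup.mem_subgroupOf] at h2

theorem main_22 {K : Subgroup (Perm (XX 2 2))} (hKA : K ≤ alternatingGroup (XX 2 2))
    (hHK : ∀ h ∈ WW 2 2, sign h = 1 → h ∈ K) (hg : ∃ g ∈ K, g ∉ WW 2 2) : alternatingGroup (XX 2 2) ≤ K := by
  obtain ⟨r, hr, h⟩ := index_aux hKA hHK hg (c := 4) (by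
    rw [Nat.card_eq_fintype_card]
    exact count22)
  have hA : Nat.card (alternatingGroup (XX 2 2)) = 12 := by
    rw [nat_card_alternatingGroup]
    simp [Nat.factorial]
  rw [hA] at h
  apply top_of_index_one
  have h2 : r * (K.subgroupOf (alternatingGroup (XX 2 2))).index = 3 := by omega
  rcases (Nat.dvd_prime Nat.prime_three).mp (Dvd.intro _ h2) with h3 | h3
  · exact absurd h3 hr
  · rw [h3] at h2
    omega

theorem main_32 {K : Subgroup (Perm (XX 3 2))} (hKA : K ≤ alternatingGroup (XX 3 2))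
    (hHK : ∀ h ∈ WW 3 2, sign h = 1 → h ∈ K) (hg : ∃ g ∈ K, g ∉ WW 3 2) : alternatingGroup (XX 3 2) ≤ K := by
  obtain ⟨r, hr, h⟩ := index_aux hKA hHK hg (c := 24) (by
    rw [Nat.card_eq_fintype_card]
    exact count32)
  have hA : Nat.card (alternatingGroup (XX 3 2)) = 360 := by
    rw [nat_card_alternatingGroup]
    simp [Nat.factorial]
  rw [hA] at h
  apply top_of_index_one
  set m := (K.subgroupOf (alternatingGroup (XX 3 2))).index with hm
  have h2 : r * m = 15 := by omega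
  by_contra hne
  have hm1 : m ≠ 1 := fun h1 => hne (by
    rw [h1])
  haveI : IsSimpleGroup (alternatingGroup (XX 3 2)) := alternatingGroup.isSimpleGroup (by simp)
  have hK' : K.subgroupOf (alternatingGroup (XX 3 2)) ≠ ⊤ := by
    intro h3
    apply hm1
    rw [hm, h3, Subgroup.index_top]
  have h4 := simple_index _ hK'
  rw [hA, ← hm] at h4
  have hm15 : m ∣ 15 := Dvd.intro_left _ h2
  have hmle : m ≤ 15 := Nat.le_of_dvd (by norm_num) hm15
  have hr0 : r ≠ 0 := by
    rintro rfl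
    omega
  have hm2 : m < 15 := by
    by_contra h5
    have : m = 15 := by omega
    rw [this] at h2
    have : r = 1 := by omega
    exact hr this
  interval_cases m <;> first | omega | (exfalso; revert h4; decide) | skip

/-- The main statement for the model of the partition. -/
theorem mainX (hb : 2 ≤ b) (ha : 2 ≤ a) (h8 : ¬ (a = 2 ∧ b = 4)) {K : Subgroup (Perm (XX b a))}
    (hKA : K ≤ alternatingGroup (XX b a)) (hHK : ∀ h ∈ WW b a, sign h = 1 → h ∈ K) (hg : ∃ g ∈ K, g ∉ WW b a) :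
    alternatingGroup (XX b a) ≤ K := by
  by_cases ha3 : 3 ≤ a
  · exact main_a3 hb ha3 hHK hg
  · obtain rfl : a = 2 := by omega
    by_cases hb5 : 5 ≤ b
    · obtain ⟨c, hcK, hc⟩ := three_cycle_a2 hb5 hHK hg
      exact alt_le_of_three hb le_rfl (Or.inr (by omega)) hHK hg hc hcK
    · have : b = 2 ∨ b = 3 := by
        by_contra h
        apply h8
        exact ⟨rfl, by omega⟩
      rcases this with rfl | rfl
      · exact main_22 hKA hHK hg
      · exact main_32 hKA hHK hg

theorem exists_equiv {Ω : Type*} [Fintype Ω] [DecidableEq Ω] (f : Ω → Fin b)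
    (hf : ∀ i : Fin b, Nat.card {x : Ω // f x = i} = a) :
    ∃ e : Ω ≃ XX b a, ∀ x, (e x).1 = f x := by
  have h : ∀ i : Fin b, Nonempty ({x : Ω // f x = i} ≃ Fin a) := by
    intro i
    refine ⟨Fintype.equivOfCardEq ?_⟩
    rw [← Nat.card_eq_fintype_card, hf i]
    simp
  let φ : ∀ i, {x : Ω // f x = i} ≃ Fin a := fun i => (h i).some
  let e : Ω ≃ XX b a := (Equiv.sigmaFiberEquiv f).symm.trans
    ((Equiv.sigmaCongrRight φ).trans (Equiv.sigmaEquivProd (Fin b) (Fin a)))
  exact ⟨e, fun x => rfl⟩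

theorem main {Ω : Type*} [Fintype Ω] [DecidableEq Ω] (h8 : Fintype.card Ω ≠ 8) (a b : ℕ) (ha : 2 ≤ a) (hb : 2 ≤ b)
    (f : Ω → Fin b) (hf : ∀ i : Fin b, Nat.card {x : Ω // f x = i} = a) :
    IsCoatom ((Subgroup.closure {g : Equiv.Perm Ω | ∀ x y : Ω, f x = f y ↔ f (g x) = f (g y)} ⊓
      alternatingGroup Ω).subgroupOf (alternatingGroup Ω)) := by
  classical
  obtain ⟨e, he⟩ := exists_equiv f hf
  have hcardΩ : Fintype.card Ω = b * a := by
    rw [Fintype.card_congr e]
    simp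
  have h8' : ¬ (a = 2 ∧ b = 4) := by
    rintro ⟨rfl, rfl⟩
    exact h8 hcardΩ
  let ψ : Perm Ω ≃* Perm (XX b a) := e.permCongrHom
  have hψ : ∀ (g : Perm Ω) (v : XX b a), ψ g v = e (g (e.symm v)) := fun g v => rfl
  have hψs : ∀ (g : Perm Ω), sign (ψ g) = sign g := fun g => sign_permCongr e g
  have hclo : ∀ g : Perm Ω, g ∈ Subgroup.closure {g : Equiv.Perm Ω | ∀ x y : Ω, f x = f y ↔ f (g x) = f (g y)} ↔
      ∀ x y : Ω, f x = f y ↔ f (g x) = f (g y) := by
    intro g
    constructor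
    · intro hg
      induction hg using Subgroup.closure_induction with
      | mem g hg => exact hg
      | one => intro x y; rfl
      | mul a b _ _ ha hb =>
        intro x y
        rw [hb, ha]
        rfl
      | inv a _ ha =>
        intro x y
        have := ha (a⁻¹ x) (a⁻¹ y)
        simp only [show ∀ x, a (a⁻¹ x) = x by simp] at this
        exact this.symm
    · intro h
      exact Subgroup.subset_closure h
  have hW : ∀ g : Perm Ω, (∀ x y : Ω, f x = f y ↔ f (g x) = f (g y)) ↔ ψ g ∈ WW b a := by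
    intro g
    constructor
    · intro h x y
      rw [hψ, hψ, he, he, ← h, ← he, ← he]
      simp
    · intro h x y
      have h1 := h (e x) (e y)
      rw [hψ, hψ, he, he] at h1
      simp only [Equiv.symm_apply_apply] at h1
      rw [he, he] at h1
      exact h1
  constructor
  · -- not everything
    intro htop
    let p0 : XX b a := (⟨0, by omega⟩, ⟨0, by omega⟩)
    let p1 : XX b a := (⟨0, by omega⟩, ⟨1, by omega⟩)
    let p2 : XX b a := (⟨1, by omega⟩, ⟨0, by omega⟩)
    have h01 : p0 ≠ p1 := by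
      intro h
      have := congrArg (fun z : XX b a => z.2.1) h
      simp [p0, p1] at this
    have h02 : p0 ≠ p2 := by
      intro h
      have := congrArg (fun z : XX b a => z.1.1) h
      simp [p0, p2] at this
    have h12 : p1 ≠ p2 := by
      intro h
      have := congrArg (fun z : XX b a => z.1.1) h
      simp [p1, p2] at this
    have h3 := isThreeCycle_swap_mul_swap_same h01 h02 h12
    let c := swap p0 p1 * swap p0 p2
    have hcnot : c ∉ WW b a := by
      intro hc
      have h4 := (hc p0 p1).mp rfl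
      have e1 : c p0 = p2 := by
        show swap p0 p1 (swap p0 p2 p0) = p2
        rw [swap_apply_left, swap_apply_of_ne_of_ne h02.symm h12.symm]
      have e2 : c p1 = p0 := by
        show swap p0 p1 (swap p0 p2 p1) = p0
        rw [swap_apply_of_ne_of_ne h01.symm h12, swap_apply_right]
      rw [e1, e2] at h4
      have := congrArg Fin.val h4
      simp [p0, p2] at this
    have hs : ψ.symm c ∈ alternatingGroup Ω := by
      rw [mem_alternatingGroup, ← hψs, MulEquiv.apply_symm_apply]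
      exact h3.sign
    have hmem : (⟨ψ.symm c, hs⟩ : alternatingGroup Ω) ∈ ((Subgroup.closure {g : Equiv.Perm Ω | ∀ x y : Ω, f x = f y ↔ f (g x) = f (g y)} ⊓
      alternatingGroup Ω).subgroupOf (alternatingGroup Ω)) := by
      rw [htop]
      trivial
    rw [Subgroup.mem_subgroupOf] at hmem
    have := (hW _).mp ((hclo _).mp hmem.1)
    apply hcnot
    simpa using this
  · intro K' hlt
    obtain ⟨hle, σ, hσK, hσ⟩ := SetLike.lt_iff_le_and_exists.mp hlt
    let K : Subgroup (Perm (XX b a)) := (K'.map (alternatingGroup Ω).subtype).map ψ.toMonoidHom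
    have hmemK : ∀ y : alternatingGroup Ω, y ∈ K' → ψ y.1 ∈ K := by
      intro y hy
      exact ⟨y.1, ⟨y, hy, rfl⟩, rfl⟩
    have hKA : K ≤ alternatingGroup (XX b a) := by
      rintro y ⟨s, ⟨t, ht, rfl⟩, rfl⟩
      show sign (ψ t.1) = 1
      rw [hψs]
      exact t.2
    have hsym : ∀ y : Perm (XX b a), sign y = 1 → ψ.symm y ∈ alternatingGroup Ω := by
      intro y hy
      rw [mem_alternatingGroup, ← hψs]
      simpa using hy
    have hHK : ∀ h ∈ WW b a, sign h = 1 → h ∈ K := by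
      intro h hh hs
      have h1 : (⟨ψ.symm h, hsym h hs⟩ : alternatingGroup Ω) ∈ K' := by
        apply hle
        rw [Subgroup.mem_subgroupOf]
        refine ⟨(hclo _).mpr ((hW _).mpr (by simpa using hh)), hsym h hs⟩
      have h2 := hmemK _ h1
      simpa using h2
    have hg : ∃ g ∈ K, g ∉ WW b a := by
      refine ⟨ψ σ.1, hmemK σ hσK, ?_⟩
      intro h
      apply hσ
      rw [Subgroup.mem_subgroupOf]
      exact ⟨(hclo _).mpr ((hW _).mpr h), σ.2⟩
    have hfinal := mainX hb ha h8' hKA hHK hg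
    rw [eq_top_iff]
    intro t _
    have h1 : ψ t.1 ∈ alternatingGroup (XX b a) := by
      rw [mem_alternatingGroup, hψs]
      exact t.2
    obtain ⟨s, ⟨u, hu, rfl⟩, hs⟩ := hfinal h1
    have h2 : (u : Perm Ω) = t.1 := ψ.injective hs
    have h3 : u = t := Subtype.ext h2
    rwa [← h3]

end CfsgLib.ClassMax.WrAlt
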